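import Cfsg.Agent.Lib.Char.Galois
import Cfsg.Agent.Lib.Char.Integrality

/-! # Galois averaging of sums of squares of algebraic integers in a cyclotomic field -/

set_option autoImplicit false
set_option linter.unusedSectionVars false
set_option linter.unusedVariables false

namespace CfsgLib.Char

open Cfsg
open scoped ComplexConjugate

section Cyc

variable (N : ℕ) [NeZero N]

theorem cf_conj : ∃ τ : CF N ≃ₐ[ℚ] CF N, (∀ x, cfEmb N (τ x) = conj (cfEmb N x)) ∧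
    ∀ (σ : CF N ≃ₐ[ℚ] CF N) (x : CF N), σ (τ x) = τ (σ x) := by
  have hz := IsCyclotomicExtension.zeta_spec N ℚ (CF N)
  set ζ := IsCyclotomicExtension.zeta N ℚ (CF N) with hζ
  have htop : Algebra.adjoin ℚ ({ζ} : Set (CF N)) = ⊤ := IsCyclotomicExtension.adjoin_primitive_root_eq_top hz
  have hN : 0 < N := NeZero.pos N
  have hcop : (N - 1).Coprime N := by
    obtain ⟨m, hm⟩ := Nat.exists_eq_succ_of_ne_zero hN.ne'
    rw [hm]
    simp
  obtain ⟨τ, hτ⟩ := cf_sigma N hcop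
  have hzN : ζ ^ N = 1 := hz.pow_eq_one
  refine ⟨τ, ?_, ?_⟩
  · have e : (cfEmb N).comp (τ : CF N →ₐ[ℚ] CF N) = (RingHom.toRatAlgHom (starRingEnd ℂ)).comp (cfEmb N) := by
      apply AlgHom.ext_of_adjoin_eq_top htop
      intro y hy
      rw [Set.mem_singleton_iff] at hy
      subst hy
      show cfEmb N (τ ζ) = conj (cfEmb N ζ)
      rw [hτ ζ hzN, map_pow]
      have hw : (cfEmb N ζ) ^ N = 1 := by rw [← map_pow, hzN, map_one]
      rw [← inv_eq_conj_of_pow_eq_one hN hw]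
      have hw0 : cfEmb N ζ ≠ 0 := by
        intro h
        rw [h, zero_pow hN.ne'] at hw
        exact zero_ne_one hw
      apply mul_right_cancel₀ hw0
      rw [inv_mul_cancel₀ hw0, ← pow_succ, Nat.sub_add_cancel hN, hw]
    intro x
    exact DFunLike.congr_fun e x
  · intro σ x
    have e : (σ : CF N →ₐ[ℚ] CF N).comp (τ : CF N →ₐ[ℚ] CF N) = (τ : CF N →ₐ[ℚ] CF N).comp (σ : CF N →ₐ[ℚ] CF N) := by
      apply AlgHom.ext_of_adjoin_eq_top htop
      intro y hy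
      rw [Set.mem_singleton_iff] at hy
      subst hy
      show σ (τ ζ) = τ (σ ζ)
      have hs : (σ ζ) ^ N = 1 := by rw [← map_pow, hzN, map_one]
      rw [hτ ζ hzN, hτ _ hs, map_pow]
    exact DFunLike.congr_fun e x

theorem cf_integral_sigma {x : CF N} (hx : IsIntegral ℤ (cfEmb N x)) (σ : CF N ≃ₐ[ℚ] CF N) :
    IsIntegral ℤ (cfEmb N (σ x)) := by
  have h1 : IsIntegral ℤ x :=
    (isIntegral_algHom_iff ((cfEmb N).restrictScalars ℤ) (cfEmb_injective N)).1 hx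
  have h2 : IsIntegral ℤ (σ x) := h1.map ((σ : CF N →ₐ[ℚ] CF N).restrictScalars ℤ)
  exact h2.map ((cfEmb N).restrictScalars ℤ)

/-- AM-GM over the Galois group. -/
theorem cf_sum_ge {x : CF N} (hx0 : x ≠ 0) (hx : IsIntegral ℤ (cfEmb N x)) :
    (Nat.card (CF N ≃ₐ[ℚ] CF N) : ℝ) ≤ ∑ σ : CF N ≃ₐ[ℚ] CF N, ‖cfEmb N (σ x)‖ ^ 2 := by
  classical
  set P : CF N := ∏ σ : CF N ≃ₐ[ℚ] CF N, σ x with hP
  have hfix : ∀ τ : CF N ≃ₐ[ℚ] CF N, τ P = P := by
    intro τ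
    rw [hP, map_prod]
    exact Fintype.prod_equiv (Equiv.mulLeft τ) _ _ fun σ => rfl
  obtain ⟨q, hq⟩ := cf_rat N hfix
  have hPval : cfEmb N P = ∏ σ : CF N ≃ₐ[ℚ] CF N, cfEmb N (σ x) := by
    rw [hP, map_prod]
  have hint : IsIntegral ℤ (cfEmb N P) := by
    rw [hPval]
    exact IsIntegral.prod _ fun σ _ => cf_integral_sigma N hx σ
  rw [hq] at hint
  obtain ⟨z, hz⟩ := exists_int_of_isIntegral_rat q hint
  have hne : ∀ σ : CF N ≃ₐ[ℚ] CF N, cfEmb N (σ x) ≠ 0 := by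
    intro σ h
    apply hx0
    have h1 : σ x = 0 := cfEmb_injective N (by rw [h, map_zero])
    simpa using h1
  have hprodne : ∏ σ : CF N ≃ₐ[ℚ] CF N, cfEmb N (σ x) ≠ 0 := Finset.prod_ne_zero_iff.mpr fun σ _ => hne σ
  have hPz : ∏ σ : CF N ≃ₐ[ℚ] CF N, cfEmb N (σ x) = (z : ℂ) := by
    rw [← hPval, hq, hz]
    simp
  have hzne : z ≠ 0 := by
    rintro rfl
    apply hprodne
    rw [hPz]
    simp
  have hnorm1 : (1 : ℝ) ≤ ∏ σ : CF N ≃ₐ[ℚ] CF N, ‖cfEmb N (σ x)‖ ^ 2 := by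
    rw [Finset.prod_pow, ← norm_prod, hPz]
    have h1 : (1 : ℝ) ≤ |(z : ℝ)| := by exact_mod_cast Int.one_le_abs hzne
    have h2 : ‖(z : ℂ)‖ = |(z : ℝ)| := by simp
    rw [h2]
    nlinarith [abs_nonneg (z : ℝ)]
  have hlog : 0 ≤ ∑ σ : CF N ≃ₐ[ℚ] CF N, Real.log (‖cfEmb N (σ x)‖ ^ 2) := by
    rw [← Real.log_prod]
    · exact Real.log_nonneg hnorm1
    · intro σ _
      exact pow_ne_zero _ (norm_ne_zero_iff.mpr (hne σ))
  have hle : ∑ σ : CF N ≃ₐ[ℚ] CF N, Real.log (‖cfEmb N (σ x)‖ ^ 2) ≤ ∑ σ : CF N ≃ₐ[ℚ] CF N, (‖cfEmb N (σ x)‖ ^ 2 - 1) := by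
    refine Finset.sum_le_sum fun σ _ => ?_
    exact Real.log_le_sub_one_of_pos (by have := norm_pos_iff.mpr (hne σ); positivity)
  rw [Finset.sum_sub_distrib] at hle
  simp only [Finset.sum_const, nsmul_eq_mul, mul_one, Finset.card_univ] at hle
  rw [Nat.card_eq_fintype_card]
  linarith

/-- **Galois averaging**: if nonzero algebraic integers of a cyclotomic field have sum of squares of
absolute values a natural number `T`, then there are at most `T` of them. -/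
theorem cf_card_le {ι : Type*} [Fintype ι] (x : ι → CF N) (hx0 : ∀ i, x i ≠ 0)
    (hx : ∀ i, IsIntegral ℤ (cfEmb N (x i))) (T : ℕ)
    (hT : ∑ i, cfEmb N (x i) * conj (cfEmb N (x i)) = (T : ℂ)) : Fintype.card ι ≤ T := by
  classical
  obtain ⟨τ, hτ, hcomm⟩ := cf_conj N
  set Y : CF N := ∑ i, x i * τ (x i) with hY
  have hYv : cfEmb N Y = (T : ℂ) := by
    rw [hY, map_sum, ← hT]
    refine Finset.sum_congr rfl fun i _ => ?_
    rw [map_mul, hτ]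
  have hYq : Y = algebraMap ℚ (CF N) (T : ℚ) := by
    apply cfEmb_injective N
    rw [hYv]
    simp
  have hσ : ∀ σ : CF N ≃ₐ[ℚ] CF N, ∑ i, ‖cfEmb N (σ (x i))‖ ^ 2 = (T : ℝ) := by
    intro σ
    have h1 : (∑ i, cfEmb N (σ (x i)) * conj (cfEmb N (σ (x i)))) = (T : ℂ) := by
      have h2 : σ Y = Y := by
        rw [hYq]
        exact σ.commutes _
      rw [← hYv, ← h2, hY, map_sum, map_sum]
      refine Finset.sum_congr rfl fun i _ => ?_
      rw [map_mul, map_mul, ← hτ, hcomm]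
    have h3 : ((∑ i, ‖cfEmb N (σ (x i))‖ ^ 2 : ℝ) : ℂ) = ((T : ℝ) : ℂ) := by
      push_cast
      rw [← h1]
      refine Finset.sum_congr rfl fun i _ => ?_
      rw [Complex.mul_conj']
    exact_mod_cast h3
  have hsum : (Nat.card (CF N ≃ₐ[ℚ] CF N) : ℝ) * (T : ℝ) = ∑ σ : CF N ≃ₐ[ℚ] CF N, ∑ i, ‖cfEmb N (σ (x i))‖ ^ 2 := by
    rw [Finset.sum_congr rfl fun σ _ => hσ σ, Finset.sum_const, nsmul_eq_mul, Finset.card_univ, Nat.card_eq_fintype_card]
  have hge : (Nat.card (CF N ≃ₐ[ℚ] CF N) : ℝ) * (Fintype.card ι : ℝ) ≤ ∑ σ : CF N ≃ₐ[ℚ] CF N, ∑ i, ‖cfEmb N (σ (x i))‖ ^ 2 := by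
    rw [Finset.sum_comm]
    have h4 : ∀ i ∈ (Finset.univ : Finset ι), (Nat.card (CF N ≃ₐ[ℚ] CF N) : ℝ) ≤ ∑ σ : CF N ≃ₐ[ℚ] CF N, ‖cfEmb N (σ (x i))‖ ^ 2 :=
      fun i _ => cf_sum_ge N (hx0 i) (hx i)
    have h5 := Finset.sum_le_sum h4
    rw [Finset.sum_const, nsmul_eq_mul, Finset.card_univ] at h5
    linarith
  have hpos : (0 : ℝ) < (Nat.card (CF N ≃ₐ[ℚ] CF N) : ℝ) := by
    have : 0 < Nat.card (CF N ≃ₐ[ℚ] CF N) := Nat.card_pos
    exact_mod_cast this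
  rw [← hsum] at hge
  have h6 : (Fintype.card ι : ℝ) ≤ (T : ℝ) := le_of_mul_le_mul_left hge hpos
  exact_mod_cast h6

end Cyc

end CfsgLib.Char
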