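import Cfsg.Agent.Lib.Block.Infl
import Cfsg.Agent.Lib.Char.PowerMap

set_option autoImplicit false
set_option linter.all false

namespace CfsgLib.Char.BL

open Cfsg CfsgLib.Char CfsgLib.Block
open scoped ComplexConjugate

universe u

section
variable {G : Type u} [Group G] [Fintype G]

/-- The action of a power map on irreducible characters. -/
noncomputable def powIrr {k : ℕ} (hk : k.Coprime (Nat.card G)) (χ : IrrCharacter G) : IrrCharacter G :=
  ⟨fun g => (χ : G → ℂ) (g ^ k), powFun_isIrr χ.2 hk⟩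

@[simp] theorem powIrr_apply {k : ℕ} (hk : k.Coprime (Nat.card G)) (χ : IrrCharacter G) (g : G) :
    (powIrr hk χ : G → ℂ) g = (χ : G → ℂ) (g ^ k) := rfl

theorem charDegree_powIrr {k : ℕ} (hk : k.Coprime (Nat.card G)) (χ : IrrCharacter G) :
    charDegree (powIrr hk χ : G → ℂ) = charDegree (χ : G → ℂ) := by
  simp [charDegree, powIrr]

theorem powIrr_mem_block {p : ℕ} [hp : Fact p.Prime] {M : Ideal AlgInt} (hM : IsPModular p M) {k : ℕ}
    (hk : k.Coprime (Nat.card G)) (hreg : ∀ g : G, ¬ p ∣ orderOf g → g ^ k = g) {ψ χ : IrrCharacter G}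
    (h : χ ∈ blockOf M (ψ : G → ℂ)) : powIrr hk χ ∈ blockOf M (ψ : G → ℂ) := by
  show SameBlock M (ψ : G → ℂ) (powIrr hk χ : G → ℂ)
  apply sameBlock_of_support hM {x : G | ¬ p ∣ orderOf x}
  · intro B hB x hx
    by_contra hc
    exact hx (blockCoeff_singular hM hB (not_not.mp hc))
  · intro s hs
    have h1 : centralChar (powIrr hk χ : G → ℂ) s = centralChar (χ : G → ℂ) s := by
      simp only [centralChar, powIrr_apply, hreg s hs, one_pow]
    rw [h1]
    exact h s

theorem coe_deg (χ : IrrCharacter G) : (charDegree (χ : G → ℂ) : ℂ) = (χ : G → ℂ) 1 := by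
  obtain ⟨n, _, hn⟩ := χ.2.map_one
  rw [hn]
  simp [charDegree, hn]

theorem char_involution {χ : G → ℂ} (hχ : IsCharacter G χ) {t : G} (ht : t * t = 1) :
    ∃ e : ℕ, χ t = χ 1 - 2 * (e : ℂ) := by
  classical
  obtain ⟨n, ρ, rfl⟩ := hχ
  obtain ⟨m, b, μ, h1, h2⟩ := rep_eigenbasis ρ t
  have hμ : ∀ i, μ i = 1 ∨ μ i = -1 := by
    intro i
    have h3 : ρ t (ρ t (b i)) = b i := by
      rw [← Module.End.mul_apply, ← map_mul, ht, map_one, Module.End.one_apply]
    rw [h1 i, map_smul, h1 i, smul_smul] at h3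
    have h4 : (μ i * μ i - 1) • b i = 0 := by
      rw [sub_smul, h3, one_smul, sub_self]
    have h5 := (smul_eq_zero.mp h4).resolve_right (b.ne_zero i)
    have h6 : (μ i - 1) * (μ i + 1) = 0 := by
      have : (μ i - 1) * (μ i + 1) = μ i * μ i - 1 := by ring
      rw [this, h5]
    rcases mul_eq_zero.mp h6 with h | h
    · left; exact sub_eq_zero.mp h
    · right; exact eq_neg_of_add_eq_zero_left h
  refine ⟨(Finset.univ.filter fun i => μ i = -1).card, ?_⟩
  rw [character_eq_sum ρ t b μ h1, character_eq_sum ρ 1 b (fun _ => 1) (by simp)]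
  have h3 : ∀ i, μ i = 1 - 2 * (if μ i = -1 then (1 : ℂ) else 0) := by
    intro i
    rcases hμ i with h | h
    · rw [h, if_neg (by norm_num)]
      ring
    · rw [h, if_pos rfl]
      ring
  rw [Finset.sum_congr rfl (fun i _ => h3 i), Finset.sum_sub_distrib, ← Finset.mul_sum]
  congr 2
  simp [Finset.sum_boole]

theorem even_card_odd_principal {M : Ideal AlgInt} (hM : IsPModular 2 M) {t : G} (ht : orderOf t = 2) :
    Even (Nat.card {χ : IrrCharacter G // χ ∈ principalBlock M G ∧ Odd (charDegree (χ : G → ℂ))}) := by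
  classical
  have hB : IsPBlock M (principalBlock M G) := ⟨⟨fun _ => 1, isIrrCharacter_one⟩, rfl⟩
  have h1 := weak_orth hM hB (x := 1) (y := t) (by simp) (by rw [ht])
  have htt : t * t = 1 := by
    rw [← pow_two, ← ht, pow_orderOf_eq_one]
  have h2 : ∀ χ : IrrCharacter G, ∃ e : ℕ, (χ : G → ℂ) t = (charDegree (χ : G → ℂ) : ℂ) - 2 * (e : ℂ) := by
    intro χ
    obtain ⟨e, he⟩ := char_involution χ.2.isCharacter htt
    refine ⟨e, ?_⟩
    rw [he, ← coe_deg χ]
  choose e he using h2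
  have h3 : (∑ χ : IrrCharacter G, if χ ∈ principalBlock M G then (charDegree (χ : G → ℂ)) ^ 2 else 0) =
      2 * ∑ χ : IrrCharacter G, if χ ∈ principalBlock M G then charDegree (χ : G → ℂ) * e χ else 0 := by
    have h4 : ((∑ χ : IrrCharacter G, if χ ∈ principalBlock M G then (charDegree (χ : G → ℂ)) ^ 2 else 0 : ℕ) : ℂ) =
        ((2 * ∑ χ : IrrCharacter G, if χ ∈ principalBlock M G then charDegree (χ : G → ℂ) * e χ else 0 : ℕ) : ℂ) := by
      push_cast
      rw [Finset.mul_sum, ← sub_eq_zero, ← Finset.sum_sub_distrib]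
      refine Eq.trans (Finset.sum_congr rfl fun χ _ => ?_) h1
      by_cases hχ : χ ∈ principalBlock M G
      · rw [if_pos hχ, if_pos hχ, if_pos hχ, he χ, ← coe_deg χ, map_sub, map_mul, map_natCast, map_natCast]
        simp only [map_ofNat]
        ring
      · rw [if_neg hχ, if_neg hχ, if_neg hχ]
        ring
    exact_mod_cast h4
  have h5 : ((Nat.card {χ : IrrCharacter G // χ ∈ principalBlock M G ∧ Odd (charDegree (χ : G → ℂ))} : ℕ) : ZMod 2) = 0 := by
    rw [Nat.card_eq_fintype_card, Fintype.card_subtype, Finset.card_filter]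
    have h6 : ((∑ χ : IrrCharacter G, if χ ∈ principalBlock M G then (charDegree (χ : G → ℂ)) ^ 2 else 0 : ℕ) : ZMod 2) = 0 := by
      rw [h3]
      push_cast
      rw [show (2 : ZMod 2) = 0 from rfl, zero_mul]
    rw [← h6]
    push_cast
    refine Finset.sum_congr rfl fun χ _ => ?_
    by_cases hχ : χ ∈ principalBlock M G
    · rw [if_pos hχ]
      by_cases hodd : Odd (charDegree (χ : G → ℂ))
      · rw [if_pos ⟨hχ, hodd⟩]
        have : ((charDegree (χ : G → ℂ) : ℕ) : ZMod 2) = 1 := (ZMod.natCast_eq_one_iff_odd).mpr hodd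
        rw [this]
        simp
      · rw [if_neg (fun h => hodd h.2)]
        have : ((charDegree (χ : G → ℂ) : ℕ) : ZMod 2) = 0 := by
          rw [ZMod.natCast_eq_zero_iff_even]
          exact Nat.not_odd_iff_even.mp hodd
        rw [this]
        simp
    · rw [if_neg hχ, if_neg (fun h => hχ h.1)]
  rw [ZMod.natCast_eq_zero_iff_even] at h5
  exact h5

end

theorem three_pow_aux (n : ℕ) : ∃ c : ℕ, 3 ^ (2 ^ n) = 1 + 2 ^ (n + 1) * c := by
  induction n with
  | zero => exact ⟨1, by norm_num⟩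
  | succ n ih =>
    obtain ⟨c, hc⟩ := ih
    refine ⟨c + 2 ^ n * c ^ 2, ?_⟩
    rw [pow_succ 2 n, pow_mul, hc]
    ring

theorem s4550_main {G : Type u} [Group G] [Finite G] (M : Ideal AlgInt) (hM : IsPModular 2 M) (hev : Even (Nat.card G))
    (k : ℕ) (hk₁ : ∀ g : G, (∃ j : ℕ, orderOf g = 2 ^ j) → g ^ k = g ^ 3) (hk₂ : ∀ g : G, Odd (orderOf g) → g ^ k = g) :
    Even (Nat.card {χ : IrrCharacter G // χ ∈ principalBlock M G ∧ Odd (charDegree (χ : G → ℂ)) ∧
      ∀ g : G, (χ : G → ℂ) (g ^ k) = (χ : G → ℂ) g}) := by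
  classical
  letI := Fintype.ofFinite G
  haveI : Fact (Nat.Prime 2) := ⟨Nat.prime_two⟩
  -- the exponent is coprime to the order
  have hcop : k.Coprime (Nat.card G) := by
    apply Nat.Coprime.symm
    apply Nat.coprime_of_dvd
    intro r hr hrG hrk
    haveI : Fact r.Prime := ⟨hr⟩
    obtain ⟨x, hx⟩ := exists_prime_orderOf_dvd_card' r hrG
    have h1 : x ^ k = 1 := orderOf_dvd_iff_pow_eq_one.mp (hx ▸ hrk)
    have h2 : x ^ k = x := by
      by_cases hr2 : r = 2
      · subst hr2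
        rw [hk₁ x ⟨1, by rw [hx]; rfl⟩]
        have : x ^ 2 = 1 := by rw [← hx, pow_orderOf_eq_one]
        rw [pow_succ, this, one_mul]
      · apply hk₂
        rw [hx]
        exact hr.odd_of_ne_two hr2
    rw [h2] at h1
    rw [h1, orderOf_one] at hx
    exact hr.one_lt.ne hx
  have hreg : ∀ g : G, ¬ 2 ∣ orderOf g → g ^ k = g := fun g hg => hk₂ g (Nat.not_even_iff_odd.mp (fun h => hg h.two_dvd))
  let α := {χ : IrrCharacter G // χ ∈ principalBlock M G ∧ Odd (charDegree (χ : G → ℂ))}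
  let f : Function.End α := fun χ => ⟨powIrr hcop χ.1,
    powIrr_mem_block (ψ := ⟨fun _ => 1, isIrrCharacter_one⟩) hM hcop hreg χ.2.1, by rw [charDegree_powIrr]; exact χ.2.2⟩
  have hfpow : ∀ (j : ℕ) (χ : α) (g : G), (((f ^ j) χ).1 : G → ℂ) g = (χ.1 : G → ℂ) (g ^ (k ^ j)) := by
    intro j
    induction j with
    | zero =>
      intro χ g
      show (χ.1 : G → ℂ) g = _
      simp
    | succ j ih =>
      intro χ g
      rw [pow_succ]
      show (((f ^ j) (f χ)).1 : G → ℂ) g = _
      rw [ih]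
      show (χ.1 : G → ℂ) ((g ^ (k ^ j)) ^ k) = _
      rw [← pow_mul, pow_succ]
  have hpow : ∀ g : G, g ^ (k ^ (2 ^ Nat.card G)) = g := by
    intro g
    obtain ⟨x, y, hxy, hc, ⟨a, ha⟩, hy⟩ := exists_isPPart (p := 2) g
    have hyk : y ^ k = y := hreg y hy
    have hstep : ∀ j : ℕ, g ^ (k ^ j) = x ^ (3 ^ j) * y := by
      intro j
      induction j with
      | zero => simp [hxy]
      | succ j ih =>
        have h2 : ∃ b, orderOf (x ^ (3 ^ j)) = 2 ^ b := by
          have h3 : orderOf (x ^ (3 ^ j)) ∣ 2 ^ a := by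
            rw [← ha]
            exact orderOf_pow_dvd _
          obtain ⟨b, -, hb⟩ := (Nat.dvd_prime_pow Nat.prime_two).mp h3
          exact ⟨b, hb⟩
        rw [pow_succ, pow_mul, ih, (hc.pow_left _).mul_pow, hk₁ _ h2, hyk, ← pow_mul, pow_succ]
    rw [hstep]
    obtain ⟨c, hc'⟩ := three_pow_aux (Nat.card G)
    have h3 : orderOf x ∣ 2 ^ (Nat.card G + 1) := by
      rw [ha]
      apply pow_dvd_pow
      have h4 : orderOf x ≤ Nat.card G := orderOf_le_card
      have h5 : a < 2 ^ a := Nat.lt_two_pow_self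
      rw [ha] at h4
      omega
    have h4 : x ^ (2 ^ (Nat.card G + 1)) = 1 := orderOf_dvd_iff_pow_eq_one.mp h3
    rw [hc', pow_add, pow_mul, h4, one_pow, pow_one, mul_one, hxy]
  have hf : f ^ (2 ^ Nat.card G) = 1 := by
    funext χ
    apply Subtype.ext
    apply Subtype.ext
    funext g
    rw [hfpow, hpow]
    rfl
  have hmod := Equiv.Perm.card_fixedPoints_modEq (p := 2) (n := Nat.card G) hf
  obtain ⟨t, ht⟩ := exists_prime_orderOf_dvd_card' 2 hev.two_dvd
  have h2 : Even (Fintype.card α) := by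
    rw [← Nat.card_eq_fintype_card]
    exact even_card_odd_principal hM ht
  let e : {χ : IrrCharacter G // χ ∈ principalBlock M G ∧ Odd (charDegree (χ : G → ℂ)) ∧
      ∀ g : G, (χ : G → ℂ) (g ^ k) = (χ : G → ℂ) g} ≃ Function.fixedPoints f :=
    { toFun := fun χ => ⟨⟨χ.1, χ.2.1, χ.2.2.1⟩, by
        apply Subtype.ext
        apply Subtype.ext
        funext g
        exact χ.2.2.2 g⟩
      invFun := fun χ => ⟨χ.1.1, χ.1.2.1, χ.1.2.2, fun g => by
        have h3 := congrFun (congrArg Subtype.val (congrArg Subtype.val χ.2)) g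
        exact h3⟩
      left_inv := fun χ => rfl
      right_inv := fun χ => rfl }
  rw [Nat.card_congr e, Nat.card_eq_fintype_card]
  rw [Nat.even_iff] at h2 ⊢
  have h3 : Fintype.card α % 2 = Fintype.card (Function.fixedPoints f) % 2 := hmod
  omega

end CfsgLib.Char.BL
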