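import Cfsg.Agent.Lib.Block.Rank
import Cfsg.Agent.Lib.Block.Infl2

set_option autoImplicit false
set_option linter.all false

namespace CfsgLib.Char.BL

open Cfsg CfsgLib.Char CfsgLib.Block
open scoped ComplexConjugate

universe u

section
variable {G : Type u} [Group G] [Fintype G]

open Classical in
theorem proj_sum_smul {ι : Type*} (s : Finset ι) (B : Set (IrrCharacter G)) (c : ι → ℂ) (v : ι → G → ℂ) :
    proj B (∑ i ∈ s, c i • v i) = ∑ i ∈ s, c i • proj B (v i) := by
  funext y
  simp only [proj_apply, Finset.sum_apply, Pi.smul_apply, smul_eq_mul]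
  have h : ∀ θ : IrrCharacter G, (if θ ∈ B then classInner (∑ i ∈ s, c i • v i) (θ : G → ℂ) * (θ : G → ℂ) y else 0) =
      ∑ i ∈ s, c i * (if θ ∈ B then classInner (v i) (θ : G → ℂ) * (θ : G → ℂ) y else 0) := by
    intro θ
    by_cases hθ : θ ∈ B
    · simp only [if_pos hθ]
      rw [classInner_sum_left, Finset.sum_mul]
      refine Finset.sum_congr rfl fun i _ => ?_
      rw [classInner_smul_left]
      ring
    · simp [if_neg hθ]
  simp only [h]
  rw [Finset.sum_comm]
  refine Finset.sum_congr rfl fun i _ => ?_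
  rw [Finset.mul_sum]

end

attribute [local instance] quotFT

theorem s4571_main {G : Type u} [Group G] [Finite G] (p : ℕ) [hp : Fact p.Prime] (M : Ideal AlgInt) (hM : IsPModular p M)
    (Q : Subgroup G) [hQn : Q.Normal] (hQ : IsPGroup p Q) (hsup : Q ⊔ Subgroup.centralizer (Q : Set G) = ⊤) :
    blockRank p (principalBlock M G) = blockRank p (principalBlock M (G ⧸ Q)) := by
  classical
  letI := Fintype.ofFinite G
  have hP := hM.isPrime
  haveI hCn : (Subgroup.centralizer (Q : Set G)).Normal := Subgroup.normal_centralizer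
  have hC : ∃ k : ℕ, (Subgroup.centralizer (Q : Set G)).index = p ^ k := by
    have h1 : (Subgroup.centralizer (Q : Set G)).index = (Subgroup.centralizer (Q : Set G)).relIndex Q := by
      rw [← Subgroup.relIndex_top_right, ← hsup, Subgroup.relIndex_sup_right]
    obtain ⟨n, hn⟩ := IsPGroup.iff_card.mp hQ
    have h2 : (Subgroup.centralizer (Q : Set G)).relIndex Q ∣ p ^ n := by
      rw [← hn]
      exact Subgroup.index_dvd_card _
    obtain ⟨k, -, hk⟩ := (Nat.dvd_prime_pow hp.out).mp h2
    exact ⟨k, by rw [h1, hk]⟩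
  have hregC : ∀ g : G, ¬ p ∣ orderOf g → g ∈ Subgroup.centralizer (Q : Set G) := by
    intro g hg
    obtain ⟨k, hk⟩ := hC
    apply CfsgLib.Trans.mem_of_coprime_index
    rw [hk]
    exact Nat.Coprime.pow_right _ ((Nat.Prime.coprime_iff_not_dvd hp.out).2 hg).symm
  have huniq : ∀ g g' : G, ¬ p ∣ orderOf g → ¬ p ∣ orderOf g' → (g : G ⧸ Q) = (g' : G ⧸ Q) → g = g' := by
    intro g g' hg hg' he
    have hq : g⁻¹ * g' ∈ Q := QuotientGroup.eq.mp he
    set q := g⁻¹ * g' with hqdef
    have hg'2 : g' = g * q := by rw [hqdef]; group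
    have hcomm : Commute g q := by
      have h1 := hregC g hg
      have h2 := Subgroup.mem_centralizer_iff.mp h1 q hq
      exact h2.symm
    obtain ⟨j, hj⟩ := (IsPGroup.iff_orderOf.mp hQ) ⟨q, hq⟩
    have hj' : orderOf q = p ^ j := by
      rw [← hj]
      exact (Subgroup.orderOf_mk q hq).symm
    have hcop : (orderOf g).Coprime (orderOf q) := by
      rw [hj']
      exact Nat.Coprime.pow_right _ ((Nat.Prime.coprime_iff_not_dvd hp.out).2 hg).symm
    have hord : orderOf g' = orderOf g * orderOf q := by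
      rw [hg'2]
      exact hcomm.orderOf_mul_eq_mul_orderOf_of_coprime hcop
    have hj0 : j = 0 := by
      by_contra hne
      apply hg'
      rw [hord, hj']
      exact Dvd.dvd.mul_left (dvd_pow_self p hne) _
    rw [hj0, pow_zero, orderOf_eq_one_iff] at hj'
    rw [hg'2, hj', mul_one]
  have hlift : ∀ t : G ⧸ Q, ¬ p ∣ orderOf t → ∃ g : G, (g : G ⧸ Q) = t ∧ ¬ p ∣ orderOf g :=
    fun t ht => exists_regular_lift Q hQ ht
  let lf : G ⧸ Q → G := fun t => if h : ¬ p ∣ orderOf t then (hlift t h).choose else 1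
  have hlf : ∀ t : G ⧸ Q, ¬ p ∣ orderOf t → ((lf t : G) : G ⧸ Q) = t ∧ ¬ p ∣ orderOf (lf t) := by
    intro t ht
    simp only [lf, dif_pos ht]
    exact (hlift t ht).choose_spec
  have hmkreg : ∀ g : G, ¬ p ∣ orderOf g → ¬ p ∣ orderOf (g : G ⧸ Q) := by
    intro g hg h
    apply hg
    have h1 : orderOf (g : G ⧸ Q) ∣ orderOf g := orderOf_map_dvd (QuotientGroup.mk' Q) g
    exact h.trans h1
  have hlfmk : ∀ g : G, ¬ p ∣ orderOf g → lf (g : G ⧸ Q) = g := by
    intro g hg
    obtain ⟨h1, h2⟩ := hlf _ (hmkreg g hg)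
    exact huniq _ _ h2 hg h1
  -- the two linear maps
  let L : (G ⧸ Q → ℂ) →ₗ[ℂ] (G → ℂ) :=
    { toFun := fun f => regPart p (f ∘ QuotientGroup.mk)
      map_add' := by
        intro a b
        funext x
        by_cases hx : p ∣ orderOf x
        · simp [regPart_of_singular _ hx]
        · simp [regPart_of_regular _ hx]
      map_smul' := by
        intro c a
        funext x
        by_cases hx : p ∣ orderOf x
        · simp [regPart_of_singular _ hx]
        · simp [regPart_of_regular _ hx] }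
  have hL : ∀ f : G ⧸ Q → ℂ, L f = regPart p (f ∘ QuotientGroup.mk) := fun _ => rfl
  let K : (G → ℂ) →ₗ[ℂ] (G ⧸ Q → ℂ) :=
    { toFun := fun f t => if p ∣ orderOf t then 0 else f (lf t)
      map_add' := by
        intro a b
        funext t
        by_cases ht : p ∣ orderOf t
        · simp [ht]
        · simp [ht]
      map_smul' := by
        intro c a
        funext t
        by_cases ht : p ∣ orderOf t
        · simp [ht]
        · simp [ht] }
  have hK : ∀ (f : G → ℂ) (t : G ⧸ Q), K f t = if p ∣ orderOf t then 0 else f (lf t) := fun _ _ => rfl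
  have hLreg : ∀ θ : IrrCharacter (G ⧸ Q), L (pRegularPart p (θ : G ⧸ Q → ℂ)) = regPart p ((θ : G ⧸ Q → ℂ) ∘ QuotientGroup.mk) := by
    intro θ
    rw [hL, pRegularPart_eq_regPart]
    funext x
    by_cases hx : p ∣ orderOf x
    · simp [regPart_of_singular _ hx]
    · rw [regPart_of_regular _ hx, regPart_of_regular _ hx]
      show regPart p (θ : G ⧸ Q → ℂ) (x : G ⧸ Q) = _
      rw [regPart_of_regular _ (hmkreg x hx)]
      rfl
  have hKreg : ∀ θ : IrrCharacter (G ⧸ Q), K (regPart p ((θ : G ⧸ Q → ℂ) ∘ QuotientGroup.mk)) = pRegularPart p (θ : G ⧸ Q → ℂ) := by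
    intro θ
    rw [pRegularPart_eq_regPart]
    funext t
    rw [hK]
    by_cases ht : p ∣ orderOf t
    · rw [if_pos ht, regPart_of_singular _ ht]
    · obtain ⟨h1, h2⟩ := hlf t ht
      rw [if_neg ht, regPart_of_regular _ h2, regPart_of_regular _ ht]
      show (θ : G ⧸ Q → ℂ) ((lf t : G) : G ⧸ Q) = _
      rw [h1]
  let S : Set (G → ℂ) := (fun θ : IrrCharacter (G ⧸ Q) => regPart p ((θ : G ⧸ Q → ℂ) ∘ QuotientGroup.mk)) '' principalBlock M (G ⧸ Q)
  have hmapL : (Submodule.span ℂ ((fun χ : IrrCharacter (G ⧸ Q) => pRegularPart p (χ : G ⧸ Q → ℂ)) '' principalBlock M (G ⧸ Q))).map L =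
      Submodule.span ℂ S := by
    rw [Submodule.map_span, Set.image_image]
    congr 1
    exact Set.image_congr fun θ _ => hLreg θ
  have hmapK : (Submodule.span ℂ S).map K =
      Submodule.span ℂ ((fun χ : IrrCharacter (G ⧸ Q) => pRegularPart p (χ : G ⧸ Q → ℂ)) '' principalBlock M (G ⧸ Q)) := by
    rw [Submodule.map_span, Set.image_image]
    congr 1
    exact Set.image_congr fun θ _ => hKreg θ
  have hB₀ : IsPBlock M (principalBlock M G) := ⟨⟨fun _ => 1, isIrrCharacter_one⟩, rfl⟩
  have hiff : ∀ θ : IrrCharacter (G ⧸ Q), inflIrr Q θ ∈ principalBlock M G ↔ θ ∈ principalBlock M (G ⧸ Q) := by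
    intro θ
    have h1 := (blocks_quot_of_central Q hM hQ hC).1 ⟨fun _ => 1, isIrrCharacter_one⟩ θ
    exact h1.symm
  have hXY : Submodule.span ℂ ((fun χ : IrrCharacter G => pRegularPart p (χ : G → ℂ)) '' principalBlock M G) = Submodule.span ℂ S := by
    apply le_antisymm
    · rw [Submodule.span_le]
      rintro _ ⟨χ, hχ, rfl⟩
      show pRegularPart p (χ : G → ℂ) ∈ _
      rw [pRegularPart_eq_regPart]
      have hclass : IsClassFunction G (regPart p (χ : G → ℂ)) := isClass_regPart χ.2.isClassFunction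
      set f := regPart p (χ : G → ℂ) with hf
      let fb : G ⧸ Q → ℂ := K f
      have hfbclass : IsClassFunction (G ⧸ Q) fb := by
        intro t x
        obtain ⟨a, rfl⟩ := QuotientGroup.mk_surjective x
        rw [show fb (↑a * t * (↑a)⁻¹) = K f (↑a * t * (↑a)⁻¹) from rfl, show fb t = K f t from rfl, hK, hK, orderOf_conj_eq]
        by_cases ht : p ∣ orderOf t
        · rw [if_pos ht, if_pos ht]
        · rw [if_neg ht, if_neg ht]
          obtain ⟨h1, h2⟩ := hlf t ht
          have h3 : orderOf (a * lf t * a⁻¹) = orderOf (lf t) := orderOf_conj_eq _ _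
          have h4 : lf ((a : G ⧸ Q) * t * (a : G ⧸ Q)⁻¹) = a * lf t * a⁻¹ := by
            have h5 : (((a * lf t * a⁻¹ : G) : G ⧸ Q)) = (a : G ⧸ Q) * t * (a : G ⧸ Q)⁻¹ := by
              rw [QuotientGroup.mk_mul, QuotientGroup.mk_mul, h1, QuotientGroup.mk_inv]
            rw [← h5]
            exact hlfmk _ (by rw [h3]; exact h2)
          rw [h4, hclass]
      have hfL : f = L fb := by
        rw [hL]
        funext x
        by_cases hx : p ∣ orderOf x
        · rw [hf, regPart_of_singular _ hx, regPart_of_singular _ hx]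
        · rw [regPart_of_regular _ hx]
          show f x = K f (x : G ⧸ Q)
          rw [hK, if_neg (hmkreg x hx), hlfmk x hx]
      have hfb := classFunction_eq_sum hfbclass
      have hfsum : f = ∑ θ : IrrCharacter (G ⧸ Q), classInner fb (θ : G ⧸ Q → ℂ) • regPart p ((θ : G ⧸ Q → ℂ) ∘ QuotientGroup.mk) := by
        rw [hfL]
        conv_lhs => rw [hfb]
        rw [map_sum]
        refine Finset.sum_congr rfl fun θ _ => ?_
        rw [map_smul, hL]
      have hfproj : f = proj (principalBlock M G) f := by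
        rw [hf]
        exact (proj_regPart_self hM hB₀ hχ).symm
      rw [hfproj, hfsum, proj_sum_smul]
      apply Submodule.sum_mem
      intro θ _
      apply Submodule.smul_mem
      have h6 : regPart p ((θ : G ⧸ Q → ℂ) ∘ QuotientGroup.mk) = regPart p (inflIrr Q θ : G → ℂ) := rfl
      rw [h6]
      by_cases hθ : θ ∈ principalBlock M (G ⧸ Q)
      · rw [proj_regPart_self hM hB₀ ((hiff θ).mpr hθ)]
        exact Submodule.subset_span ⟨θ, hθ, rfl⟩
      · rw [proj_regPart_eq_zero hM hB₀ (fun h => hθ ((hiff θ).mp h))]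
        exact Submodule.zero_mem _
    · rw [Submodule.span_le]
      rintro _ ⟨θ, hθ, rfl⟩
      refine Submodule.subset_span ⟨inflIrr Q θ, (hiff θ).mpr hθ, ?_⟩
      show pRegularPart p (inflIrr Q θ : G → ℂ) = regPart p ((θ : G ⧸ Q → ℂ) ∘ QuotientGroup.mk)
      rw [pRegularPart_eq_regPart]
      rfl
  rw [blockRank, blockRank, hXY]
  apply le_antisymm
  · rw [← hmapL]
    exact Submodule.finrank_map_le _ _
  · rw [← hmapK]
    exact Submodule.finrank_map_le _ _

end CfsgLib.Char.BL
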