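import Mathlib
import Cfsg.Agent.Lib.Char.UniqueSing

/-!
# Characters of extraspecial groups
-/

set_option linter.unusedSectionVars false
set_option linter.style.haveILetI false
set_option linter.unusedSimpArgs false
set_option linter.unusedVariables false

namespace CfsgLib.Char

open Module Cfsg
open scoped ComplexConjugate

universe u

variable {G : Type u} [Group G] [Fintype G]

theorem central_norm {χ : G → ℂ} (hχ : IsIrrCharacter G χ) {z : G} (hz : z ∈ Subgroup.center G) :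
    ‖χ z‖ = ‖χ 1‖ := by
  have h1 := central_pow hχ hz (orderOf z - 1)
  have h2 : orderOf z - 1 + 1 = orderOf z := Nat.sub_add_cancel (orderOf_pos z)
  rw [h2, pow_orderOf_eq_one] at h1
  have h3 : χ 1 * χ 1 ^ (orderOf z - 1) = χ 1 ^ orderOf z := by
    conv_rhs => rw [← h2]
    ring
  rw [h3] at h1
  have h4 := congrArg norm h1
  rw [norm_pow, norm_pow] at h4
  exact ((pow_left_inj₀ (norm_nonneg _) (norm_nonneg _) (orderOf_pos z).ne').mp h4).symm

section

variable (p : ℕ) [hp : Fact p.Prime] (hC : commutator G = Subgroup.center G) (hZ : Nat.card (Subgroup.center G) = p)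

include hC hZ

/-- A character nontrivial on the centre vanishes off the centre and has square degree `|G|/p`. -/
theorem extraspecial_nonlinear (ψ : IrrCharacter G) (hψ : ¬ ∀ m ∈ Subgroup.center G, (ψ : G → ℂ) m = (ψ : G → ℂ) 1) :
    (∀ h, h ∉ Subgroup.center G → (ψ : G → ℂ) h = 0) ∧ p * (charDegree (ψ : G → ℂ)) ^ 2 = Nat.card G := by
  classical
  -- every nonidentity central element has value different from degree
  have hne : ∀ c ∈ Subgroup.center G, c ≠ 1 → (ψ : G → ℂ) c ≠ (ψ : G → ℂ) 1 := by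
    intro c hc hc1 h
    apply hψ
    haveI : Fact (Nat.card (Subgroup.center G)).Prime := by rw [hZ]; exact hp
    have hgen : ∀ m : Subgroup.center G, m ∈ Subgroup.zpowers (⟨c, hc⟩ : Subgroup.center G) :=
      fun m => mem_zpowers_of_prime_card rfl (fun h' => hc1 (congrArg Subtype.val h'))
    have hmul : ∀ y, (ψ : G → ℂ) (c * y) = (ψ : G → ℂ) y := by
      intro y
      have h1 := central_mul ψ.2 hc y
      rw [h] at h1
      rw [mul_comm ((ψ : G → ℂ) 1)] at h1
      exact mul_right_cancel₀ ψ.2.map_one_ne_zero h1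
    have hpow : ∀ k : ℕ, (ψ : G → ℂ) (c ^ k) = (ψ : G → ℂ) 1 := by
      intro k
      induction k with
      | zero => simp
      | succ k ih => rw [pow_succ', hmul, ih]
    intro m hm
    obtain ⟨k, hk⟩ := (mem_powers_iff_mem_zpowers.mpr (hgen ⟨m, hm⟩))
    have hk' : c ^ k = m := congrArg Subtype.val hk
    rw [← hk']
    exact hpow k
  have hvan : ∀ h, h ∉ Subgroup.center G → (ψ : G → ℂ) h = 0 := by
    intro h hh
    rw [Subgroup.mem_center_iff] at hh
    push Not at hh
    obtain ⟨g, hg⟩ := hh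
    have hc : g * h * g⁻¹ * h⁻¹ ∈ commutator G :=
      Subgroup.commutator_mem_commutator (Subgroup.mem_top g) (Subgroup.mem_top h)
    rw [hC] at hc
    have hc1 : g * h * g⁻¹ * h⁻¹ ≠ 1 := by
      intro h4
      apply hg
      calc g * h = (g * h * g⁻¹ * h⁻¹) * (h * g) := by group
        _ = h * g := by rw [h4, one_mul]
    have h5 : g * h * g⁻¹ = (g * h * g⁻¹ * h⁻¹) * h := by group
    have h6 : (ψ : G → ℂ) h = (ψ : G → ℂ) ((g * h * g⁻¹ * h⁻¹) * h) := by
      rw [← h5, ψ.2.isClassFunction]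
    have h7 := central_mul ψ.2 hc h
    rw [← h6] at h7
    have h8 := hne _ hc hc1
    by_contra h9
    apply h8
    have h10 := mul_comm ((ψ : G → ℂ) h) ((ψ : G → ℂ) 1) ▸ h7
    exact (mul_right_cancel₀ h9 h10).symm
  refine ⟨hvan, ?_⟩
  have h3 := classInner_irr_self ψ.2
  rw [classInner_def] at h3
  have h4 : ∀ g, (ψ : G → ℂ) g * conj ((ψ : G → ℂ) g) =
      if g ∈ Subgroup.center G then ((charDegree (ψ : G → ℂ) : ℂ) ^ 2) else 0 := by
    intro g
    by_cases hg : g ∈ Subgroup.center G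
    · rw [if_pos hg, Complex.mul_conj, Complex.normSq_eq_norm_sq, central_norm ψ.2 hg, irr_one_eq_charDegree]
      simp
    · rw [if_neg hg, hvan g hg, zero_mul]
  simp only [h4] at h3
  rw [Finset.sum_ite, Finset.sum_const_zero, add_zero, Finset.sum_const, nsmul_eq_mul] at h3
  have hcard : (Finset.univ.filter (fun g => g ∈ Subgroup.center G)).card = p := by
    rw [← hZ, Nat.card_eq_fintype_card, Fintype.card_subtype]
  rw [hcard] at h3
  have hG := card_ne_zero_C G
  have h5 : (Nat.card G : ℂ)⁻¹ * ((p : ℂ) * (charDegree (ψ : G → ℂ) : ℂ) ^ 2) = 1 := h3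
  have h6 : ((p * (charDegree (ψ : G → ℂ)) ^ 2 : ℕ) : ℂ) = (Nat.card G : ℂ) := by
    push_cast
    field_simp at h5
    linear_combination h5
  exact_mod_cast h6

end

section

variable (p n : ℕ) [hp : Fact p.Prime] (hP : IsExtraspecial p G) (hcard : Nat.card G = p ^ (2 * n + 1))

include hP hcard

theorem extraspecial_degree (ψ : IrrCharacter G) (hψ : ¬ ∀ m ∈ Subgroup.center G, (ψ : G → ℂ) m = (ψ : G → ℂ) 1) :
    charDegree (ψ : G → ℂ) = p ^ n := by
  obtain ⟨⟨-, -, hC⟩, hZ⟩ := hP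
  have h1 := (extraspecial_nonlinear p hC hZ ψ hψ).2
  have h3 : p ^ (2 * n + 1) = p * (p ^ n) ^ 2 := by
    rw [pow_succ', mul_comm 2 n, pow_mul]
  rw [hcard, h3] at h1
  have h2 := Nat.eq_of_mul_eq_mul_left hp.out.pos h1
  exact (Nat.pow_left_inj (by norm_num)).mp h2

theorem extraspecial_linear (ψ : IrrCharacter G) (hψ : ∀ m ∈ Subgroup.center G, (ψ : G → ℂ) m = (ψ : G → ℂ) 1) :
    (ψ : G → ℂ) 1 = 1 := by
  obtain ⟨⟨-, -, hC⟩, hZ⟩ := hP
  apply linear_of_trivial_on_commutator
  rw [hC]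
  exact hψ

theorem extraspecial_n_pos : n ≠ 0 := by
  classical
  rintro rfl
  obtain ⟨⟨-, -, hC⟩, hZ⟩ := hP
  haveI : Fact (Nat.card G).Prime := by
    rw [hcard]
    simpa using hp
  have h1 : IsCyclic G := isCyclic_of_prime_card rfl
  have h2 : commutator G = ⊥ := by
    rw [_root_.commutator_def]
    apply le_bot_iff.mp
    rw [Subgroup.commutator_le]
    intro a _ b _
    rw [Subgroup.mem_bot, commutatorElement_eq_one_iff_commute]
    obtain ⟨g, hg⟩ := h1.exists_generator
    obtain ⟨i, rfl⟩ := Subgroup.mem_zpowers_iff.mp (hg a)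
    obtain ⟨j, rfl⟩ := Subgroup.mem_zpowers_iff.mp (hg b)
    exact (Commute.refl g).zpow_zpow i j
  rw [h2] at hC
  rw [← hC] at hZ
  simp at hZ
  exact hp.out.one_lt.ne hZ

theorem extraspecial_count :
    (∀ χ : IrrCharacter G, (χ : G → ℂ) 1 = 1 ∨ (χ : G → ℂ) 1 = (p : ℂ) ^ n) ∧
      Nat.card {χ : IrrCharacter G // (χ : G → ℂ) 1 = (p : ℂ) ^ n} = p - 1 := by
  classical
  have hn := extraspecial_n_pos p n hP hcard
  have hdeg : ∀ ψ : IrrCharacter G, (¬ ∀ m ∈ Subgroup.center G, (ψ : G → ℂ) m = (ψ : G → ℂ) 1) → (ψ : G → ℂ) 1 = (p : ℂ) ^ n := by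
    intro ψ hψ
    rw [irr_one_eq_charDegree, extraspecial_degree p n hP hcard ψ hψ]
    push_cast
    rfl
  refine ⟨fun χ => ?_, ?_⟩
  · by_cases h : ∀ m ∈ Subgroup.center G, (χ : G → ℂ) m = (χ : G → ℂ) 1
    · exact Or.inl (extraspecial_linear p n hP hcard χ h)
    · exact Or.inr (hdeg χ h)
  · obtain ⟨⟨-, -, hC⟩, hZ⟩ := id hP
    have hpn : (p : ℂ) ^ n ≠ 1 := by
      have h1 : p ^ n ≠ 1 := by
        intro h
        have h2 := (Nat.pow_eq_one).mp h
        rcases h2 with h3 | h3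
        · exact hp.out.one_lt.ne' h3
        · exact hn h3
      exact_mod_cast h1
    have hset : Nat.card {χ : IrrCharacter G // (χ : G → ℂ) 1 = (p : ℂ) ^ n} =
        (Finset.univ.filter (fun ψ : IrrCharacter G => ¬ ∀ m ∈ Subgroup.center G, (ψ : G → ℂ) m = (ψ : G → ℂ) 1)).card := by
      rw [Nat.card_eq_fintype_card, Fintype.card_subtype]
      congr 1
      ext ψ
      simp only [Finset.mem_filter, Finset.mem_univ, true_and]
      constructor
      · intro h h'
        have h1 := extraspecial_linear p n hP hcard ψ h'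
        rw [h] at h1
        exact hpn h1
      · exact hdeg ψ
    have hsqB : ∀ ψ ∈ Finset.univ.filter (fun ψ : IrrCharacter G => ¬ ∀ m ∈ Subgroup.center G, (ψ : G → ℂ) m = (ψ : G → ℂ) 1),
        (charDegree (ψ : G → ℂ)) ^ 2 = p ^ (2 * n) := by
      intro ψ hψ
      rw [extraspecial_degree p n hP hcard ψ (Finset.mem_filter.mp hψ).2, ← pow_mul, mul_comm]
    have hsum := Finset.sum_filter_add_sum_filter_not (Finset.univ : Finset (IrrCharacter G))
      (fun ψ : IrrCharacter G => ∀ m ∈ Subgroup.center G, (ψ : G → ℂ) m = (ψ : G → ℂ) 1)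
      (fun ψ => (charDegree (ψ : G → ℂ)) ^ 2)
    rw [Finset.sum_congr rfl hsqB, Finset.sum_const, smul_eq_mul, sum_deg_sq] at hsum
    have hsq2 : ∑ ψ ∈ Finset.univ.filter (fun ψ : IrrCharacter G => ∀ m ∈ Subgroup.center G, (ψ : G → ℂ) m = (ψ : G → ℂ) 1),
        (charDegree (ψ : G → ℂ)) ^ 2 = Nat.card (G ⧸ Subgroup.center G) := by
      convert sum_deg_sq_trivial (G := G) (Subgroup.center G)
    rw [hsq2] at hsum
    have hq : Nat.card (G ⧸ Subgroup.center G) = p ^ (2 * n) := by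
      have h1 := Subgroup.card_eq_card_quotient_mul_card_subgroup (Subgroup.center G)
      rw [hZ, hcard, pow_succ] at h1
      exact (Nat.eq_of_mul_eq_mul_right hp.out.pos h1).symm
    rw [hq, hcard, pow_succ] at hsum
    have hpos : 0 < p ^ (2 * n) := pow_pos hp.out.pos _
    rw [hset]
    have h1 : (1 + (Finset.univ.filter (fun ψ : IrrCharacter G => ¬ ∀ m ∈ Subgroup.center G, (ψ : G → ℂ) m = (ψ : G → ℂ) 1)).card) * p ^ (2 * n)
        = p * p ^ (2 * n) := by
      rw [add_mul, one_mul, hsum, mul_comm]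
    have h2 := Nat.eq_of_mul_eq_mul_right hpos h1
    omega

/-- S0893 -/
theorem extraspecial_induced (A : Subgroup G) [Fintype A] (hab : ∀ a ∈ A, ∀ b ∈ A, a * b = b * a)
    (hA : Nat.card A = p ^ (n + 1)) (lam : A → ℂ) (hlam : IsCharacter A lam ∧ lam 1 = 1)
    (hZ' : ∃ a : A, (a : G) ∈ Subgroup.center G ∧ lam a ≠ 1) :
    IsIrrCharacter G (indFun A lam) ∧ ∀ x : G, x ∉ Subgroup.center G → indFun A lam x = 0 := by
  classical
  obtain ⟨⟨-, -, hC⟩, hZ⟩ := id hP
  obtain ⟨a, haZ, hal⟩ := hZ'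
  obtain ⟨l, hl⟩ := exists_hom_of_degree_one hlam.1 hlam.2
  have hchar := isCharacter_indFun A hlam.1
  have hdeg1 : indFun A lam 1 = (p : ℂ) ^ n := by
    rw [indFun_def]
    have h1 : ∀ x : G, extendByZero A lam (x⁻¹ * 1 * x) = 1 := by
      intro x
      have h2 : x⁻¹ * 1 * x = ((1 : A) : G) := by simp
      rw [h2, extendByZero_coe, hlam.2]
    rw [Finset.sum_congr rfl fun x _ => h1 x, Finset.sum_const, Finset.card_univ, nsmul_eq_mul, mul_one,
      ← Nat.card_eq_fintype_card]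
    have hG : (Nat.card G : ℂ) = (p : ℂ) ^ (n + 1) * (p : ℂ) ^ n := by
      rw [hcard, ← pow_add]
      push_cast
      congr 1
      omega
    have hA0 : (Nat.card A : ℂ) = (p : ℂ) ^ (n + 1) := by
      rw [hA]
      push_cast
      rfl
    rw [hA0, hG]
    have hp0 : (p : ℂ) ≠ 0 := Nat.cast_ne_zero.mpr hp.out.ne_zero
    field_simp
  have hne0 : indFun A lam 1 ≠ 0 := by
    rw [hdeg1]
    exact pow_ne_zero _ (Nat.cast_ne_zero.mpr hp.out.ne_zero)
  obtain ⟨ψ, hψ, hcon⟩ := exists_constituent hchar hne0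
  let ψ' : IrrCharacter G := ⟨ψ, hψ⟩
  have hcon2 : classInner lam (fun h : A => ψ h) ≠ 0 := by
    rw [← frobenius A lam hψ.isClassFunction]
    exact hcon
  have hnontriv : ¬ ∀ m ∈ Subgroup.center G, ψ m = ψ 1 := by
    intro h
    apply hcon2
    have h1 : ψ a = ψ 1 := h _ haZ
    have hmul : ∀ y : A, ψ (y : G) = ψ ((a * y : A) : G) := by
      intro y
      have h2 := central_mul hψ haZ (y : G)
      rw [h1, mul_comm (ψ 1)] at h2
      exact (mul_right_cancel₀ hψ.map_one_ne_zero h2).symm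
    rw [classInner_def]
    apply mul_eq_zero_of_right
    have hsum : ∑ y : A, lam y * conj (ψ y) = lam a * ∑ y : A, lam y * conj (ψ y) := by
      rw [Finset.mul_sum]
      refine Fintype.sum_equiv (Equiv.mulLeft a⁻¹) _ _ fun y => ?_
      have h3 : ψ ((a⁻¹ * y : A) : G) = ψ (y : G) := by
        have h6 := hmul (a⁻¹ * y)
        rw [mul_inv_cancel_left] at h6
        exact h6
      have h4 : lam y = lam a * lam (a⁻¹ * y) := by
        rw [hl]
        simp only [map_mul, map_inv, Units.val_mul, Units.val_inv_eq_inv_val]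
        have h7 : ((l a : ℂˣ) : ℂ) ≠ 0 := Units.ne_zero _
        field_simp
      show lam y * conj (ψ (y : G)) = lam a * (lam (a⁻¹ * y) * conj (ψ ((a⁻¹ * y : A) : G)))
      rw [h3, h4]
      ring
    have h5 : (1 - lam a) * ∑ y : A, lam y * conj (ψ y) = 0 := by
      rw [sub_mul, one_mul, ← hsum, sub_self]
    exact (mul_eq_zero.mp h5).resolve_left (sub_ne_zero.mpr (Ne.symm hal))
  have hdegψ : ψ 1 = (p : ℂ) ^ n := by
    have h1 := extraspecial_degree p n hP hcard ψ' hnontriv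
    rw [show ψ 1 = (ψ' : G → ℂ) 1 from rfl, irr_one_eq_charDegree, h1]
    push_cast
    rfl
  have heq : indFun A lam = ψ := by
    apply eq_of_degree_eq_of_constituent hchar hψ hcon
    rw [hdeg1, hdegψ]
  rw [heq]
  refine ⟨hψ, fun x hx => ?_⟩
  exact (extraspecial_nonlinear p hC hZ ψ' hnontriv).1 x hx

end

end CfsgLib.Char
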