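import Mathlib
import Cfsg.Agent.Lib.Char.Extraspecial

/-!
# Characters over a faithful character of a central subgroup: counting by special classes
-/

set_option linter.unusedSectionVars false
set_option linter.style.haveILetI false
set_option linter.unusedSimpArgs false
set_option linter.unusedVariables false

namespace CfsgLib.Char

open Cfsg
open scoped ComplexConjugate

universe u

section

variable {G : Type u} [Group G] [Fintype G] (N : Subgroup G) [hNn : N.Normal] [Fintype N]
  (hN : N ≤ Subgroup.center G) (ψ : IrrCharacter N)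

theorem psi_hom (hN : N ≤ Subgroup.center G) (ψ : IrrCharacter N) :
    ∃ l : N →* ℂˣ, (ψ : N → ℂ) = fun n => ((l n : ℂˣ) : ℂ) := by
  have hc : ∀ a b : N, a * b = b * a := fun a b => Subtype.ext (by
    have := Subgroup.mem_center_iff.mp (hN a.2) b.1
    exact this.symm)
  exact exists_hom_of_degree_one ψ.2.isCharacter (isIrr_degree_one_of_comm hc ψ.2)

theorem psi_mul (hN : N ≤ Subgroup.center G) (ψ : IrrCharacter N) (a b : N) :
    (ψ : N → ℂ) (a * b) = (ψ : N → ℂ) a * (ψ : N → ℂ) b := by
  obtain ⟨l, hl⟩ := psi_hom N hN ψ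
  rw [hl]
  simp

theorem psi_one (ψ : IrrCharacter N) (hN : N ≤ Subgroup.center G) : (ψ : N → ℂ) 1 = 1 := by
  obtain ⟨l, hl⟩ := psi_hom N hN ψ
  rw [hl]
  simp

theorem psi_conj_mul (hN : N ≤ Subgroup.center G) (ψ : IrrCharacter N) (a : N) :
    (ψ : N → ℂ) a * conj ((ψ : N → ℂ) a) = 1 := by
  rw [← ψ.2.map_inv, ← psi_mul N hN ψ, mul_inv_cancel, psi_one N ψ hN]

/-- The space of class functions transforming by `ψ` under `N`. -/
def centralSpace (ψ : IrrCharacter N) : Submodule ℂ (G → ℂ) where
  carrier := {f | IsClassFunction G f ∧ ∀ (z : N) (g : G), f (z * g) = (ψ : N → ℂ) z * f g}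
  add_mem' := by
    rintro a b ⟨ha, ha'⟩ ⟨hb, hb'⟩
    refine ⟨fun g h => ?_, fun z g => ?_⟩
    · simp only [Pi.add_apply, ha g h, hb g h]
    · simp only [Pi.add_apply, ha', hb']
      ring
  zero_mem' := by
    refine ⟨fun g h => rfl, fun z g => ?_⟩
    simp
  smul_mem' := by
    rintro c a ⟨ha, ha'⟩
    refine ⟨fun g h => ?_, fun z g => ?_⟩
    · simp only [Pi.smul_apply, ha g h]
    · simp only [Pi.smul_apply, ha', smul_eq_mul]
      ring

theorem mem_centralSpace {ψ : IrrCharacter N} {f : G → ℂ} :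
    f ∈ centralSpace N ψ ↔ IsClassFunction G f ∧ ∀ (z : N) (g : G), f (z * g) = (ψ : N → ℂ) z * f g :=
  Iff.rfl

theorem inner_ne_zero_iff (hN : N ≤ Subgroup.center G) (ψ : IrrCharacter N) {χ : G → ℂ} (hχ : IsIrrCharacter G χ) :
    classInner (fun n : N => χ n) (ψ : N → ℂ) ≠ 0 ↔ ∀ z : N, χ z = χ 1 * (ψ : N → ℂ) z := by
  classical
  have hNc : Fintype.card N ≠ 0 := Fintype.card_ne_zero
  have h1 := hχ.map_one_ne_zero
  constructor
  · intro hc z
    rw [classInner_def] at hc
    have hsum : ∑ n : N, χ n * conj ((ψ : N → ℂ) n) =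
        (χ z * conj ((ψ : N → ℂ) z) / χ 1) * ∑ n : N, χ n * conj ((ψ : N → ℂ) n) := by
      rw [Finset.mul_sum]
      refine (Fintype.sum_equiv (Equiv.mulLeft z) _ _ fun n => ?_).symm
      have h2 := central_mul hχ (hN z.2) (n : G)
      have h3 : χ ((z * n : N) : G) = χ z * χ n / χ 1 := by
        rw [eq_div_iff h1, Subgroup.coe_mul]
        exact h2
      simp only [Equiv.coe_mulLeft]
      rw [h3, psi_mul N hN ψ, map_mul]
      field_simp
    have hne : ∑ n : N, χ n * conj ((ψ : N → ℂ) n) ≠ 0 := right_ne_zero_of_mul hc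
    have h4 : χ z * conj ((ψ : N → ℂ) z) / χ 1 = 1 := by
      have h5 : ((χ z * conj ((ψ : N → ℂ) z) / χ 1) - 1) * ∑ n : N, χ n * conj ((ψ : N → ℂ) n) = 0 := by
        rw [sub_mul, one_mul, ← hsum, sub_self]
      rcases mul_eq_zero.mp h5 with h6 | h6
      · exact sub_eq_zero.mp h6
      · exact absurd h6 hne
    rw [div_eq_one_iff_eq h1] at h4
    have h7 := psi_conj_mul N hN ψ z
    calc χ z = χ z * ((ψ : N → ℂ) z * conj ((ψ : N → ℂ) z)) := by rw [h7, mul_one]
      _ = (χ z * conj ((ψ : N → ℂ) z)) * (ψ : N → ℂ) z := by ring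
      _ = _ := by rw [h4]
  · intro h hc
    rw [classInner_def] at hc
    have h2 : ∑ n : N, χ n * conj ((ψ : N → ℂ) n) = (Fintype.card N : ℂ) * χ 1 := by
      have : ∀ n : N, χ n * conj ((ψ : N → ℂ) n) = χ 1 := by
        intro n
        rw [h n, mul_assoc, psi_conj_mul N hN ψ n, mul_one]
      simp only [this, Finset.sum_const, Finset.card_univ, nsmul_eq_mul]
    rw [h2, Nat.card_eq_fintype_card, ← mul_assoc, inv_mul_cancel₀ (by exact_mod_cast hNc), one_mul] at hc
    exact h1 hc

theorem inner_eq_zero_of_not (hN : N ≤ Subgroup.center G) (ψ : IrrCharacter N) {χ : G → ℂ}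
    (hχ : IsIrrCharacter G χ) (z : N) (hz : χ z ≠ χ 1 * (ψ : N → ℂ) z) {f : G → ℂ}
    (hf : f ∈ centralSpace N ψ) : classInner f χ = 0 := by
  classical
  obtain ⟨hf1, hf2⟩ := hf
  have h1 := hχ.map_one_ne_zero
  rw [classInner_def]
  set ω : ℂ := χ z / χ 1 with hω
  have hmul : ∀ g : G, χ (z * g) = ω * χ g := by
    intro g
    have h2 := central_mul hχ (hN z.2) g
    rw [hω]
    field_simp
    rw [← h2]
  have hnorm : ω * conj ω = 1 := by
    have h2 := central_norm hχ (hN z.2)
    rw [Complex.mul_conj, Complex.normSq_eq_norm_sq, hω, norm_div, h2, div_self (by simpa using h1)]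
    simp
  have hsum : ∑ g : G, f g * conj (χ g) =
      ((ψ : N → ℂ) z * conj ω) * ∑ g : G, f g * conj (χ g) := by
    rw [Finset.mul_sum]
    refine (Fintype.sum_equiv (Equiv.mulLeft (z : G)) _ _ fun g => ?_).symm
    simp only [Equiv.coe_mulLeft]
    rw [hf2, hmul, map_mul]
    ring
  have hne : (ψ : N → ℂ) z * conj ω ≠ 1 := by
    intro h3
    apply hz
    have h4 : ω = (ψ : N → ℂ) z := by
      calc ω = ω * ((ψ : N → ℂ) z * conj ω) := by rw [h3, mul_one]
        _ = (ψ : N → ℂ) z * (ω * conj ω) := by ring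
        _ = _ := by rw [hnorm, mul_one]
    rw [← h4, hω]
    field_simp
  have h5 : (1 - (ψ : N → ℂ) z * conj ω) * ∑ g : G, f g * conj (χ g) = 0 := by
    rw [sub_mul, one_mul, ← hsum, sub_self]
  rcases mul_eq_zero.mp h5 with h6 | h6
  · exact absurd (sub_eq_zero.mp h6).symm hne
  · rw [h6, mul_zero]

/-- Dimension of the central space via irreducible characters. -/
theorem finrank_centralSpace_irr (hN : N ≤ Subgroup.center G) (ψ : IrrCharacter N) :
    Module.finrank ℂ (centralSpace N ψ) =
      Nat.card {χ : IrrCharacter G // classInner (fun n : N => (χ : G → ℂ) n) (ψ : N → ℂ) ≠ 0} := by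
  classical
  letI : Fintype {χ : IrrCharacter G // classInner (fun n : N => (χ : G → ℂ) n) (ψ : N → ℂ) ≠ 0} :=
    Fintype.ofFinite _
  let A : (centralSpace N ψ) →ₗ[ℂ]
      ({χ : IrrCharacter G // classInner (fun n : N => (χ : G → ℂ) n) (ψ : N → ℂ) ≠ 0} → ℂ) :=
    { toFun := fun f χ => classInner (f : G → ℂ) (χ.1 : G → ℂ)
      map_add' := fun a b => by
        funext χ
        exact classInner_add_left _ _ _
      map_smul' := fun c a => by
        funext χ
        exact classInner_smul_left _ _ _ }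
  have hinj : Function.Injective A := by
    rw [← LinearMap.ker_eq_bot, LinearMap.ker_eq_bot']
    intro f hf
    apply Subtype.ext
    refine eq_zero_of_orthogonal f.2.1 fun χ hχ => ?_
    by_cases hc : classInner (fun n : N => χ n) (ψ : N → ℂ) ≠ 0
    · exact congrFun hf ⟨⟨χ, hχ⟩, hc⟩
    · have h2 : ¬ ∀ z : N, χ z = χ 1 * (ψ : N → ℂ) z := fun h =>
        hc ((inner_ne_zero_iff N hN ψ hχ).mpr h)
      push Not at h2
      obtain ⟨z, hz⟩ := h2
      exact inner_eq_zero_of_not N hN ψ hχ z hz f.2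
  have hmem : ∀ χ : {χ : IrrCharacter G // classInner (fun n : N => (χ : G → ℂ) n) (ψ : N → ℂ) ≠ 0},
      (χ.1 : G → ℂ) ∈ centralSpace N ψ := by
    intro χ
    refine ⟨χ.1.2.isClassFunction, fun z g => ?_⟩
    have h1 := (inner_ne_zero_iff N hN ψ χ.1.2).mp χ.2 z
    have h2 := central_mul χ.1.2 (hN z.2) g
    have h3 := χ.1.2.map_one_ne_zero
    rw [h1] at h2
    have h4 : (χ.1 : G → ℂ) (z * g) * (χ.1 : G → ℂ) 1 = ((ψ : N → ℂ) z * (χ.1 : G → ℂ) g) * (χ.1 : G → ℂ) 1 := by
      rw [h2]; ring
    exact mul_right_cancel₀ h3 h4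
  have hsurj : Function.Surjective A := by
    intro a
    refine ⟨∑ χ, a χ • ⟨(χ.1 : G → ℂ), hmem χ⟩, ?_⟩
    funext χ
    show classInner (((∑ χ, a χ • (⟨(χ.1 : G → ℂ), hmem χ⟩ : centralSpace N ψ) : centralSpace N ψ)) : G → ℂ) (χ.1 : G → ℂ) = a χ
    have h1 : (((∑ χ, a χ • (⟨(χ.1 : G → ℂ), hmem χ⟩ : centralSpace N ψ) : centralSpace N ψ)) : G → ℂ) =
        ∑ χ, a χ • (χ.1 : G → ℂ) := by
      rw [Submodule.coe_sum]
      rfl
    rw [h1, classInner_sum_left, Finset.sum_eq_single χ]
    · rw [classInner_smul_left, classInner_irr_self χ.1.2, mul_one]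
    · intro b _ hb
      rw [classInner_smul_left, classInner_irr_ne b.1.2 χ.1.2, mul_zero]
      intro h
      exact hb (Subtype.ext (Subtype.ext h))
    · intro h
      exact absurd (Finset.mem_univ _) h
  rw [LinearEquiv.finrank_eq (LinearEquiv.ofBijective A ⟨hinj, hsurj⟩), Module.finrank_fintype_fun_eq_card,
    Nat.card_eq_fintype_card]

/-- The basic projected class function attached to `h`. -/
noncomputable def projFn (ψ : IrrCharacter N) (h : G) : G → ℂ := by
  classical
  exact fun g => ∑ n : N, conj ((ψ : N → ℂ) n) * (if IsConj ((n : G) * g) h then 1 else 0)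

theorem projFn_mem (hN : N ≤ Subgroup.center G) (ψ : IrrCharacter N) (h : G) :
    projFn N ψ h ∈ centralSpace N ψ := by
  classical
  refine ⟨fun g x => ?_, fun z g => ?_⟩
  · unfold projFn
    refine Finset.sum_congr rfl fun n _ => ?_
    have h1 : IsConj ((n : G) * (x * g * x⁻¹)) h ↔ IsConj ((n : G) * g) h := by
      have h2 : (n : G) * (x * g * x⁻¹) = x * ((n : G) * g) * x⁻¹ := by
        have h3 := Subgroup.mem_center_iff.mp (hN n.2) x
        calc (n : G) * (x * g * x⁻¹) = ((n : G) * x) * g * x⁻¹ := by group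
          _ = (x * (n : G)) * g * x⁻¹ := by rw [← h3]
          _ = _ := by group
      rw [h2]
      constructor
      · intro h4
        exact (isConj_iff.mpr ⟨x, rfl⟩).trans h4
      · intro h4
        exact (isConj_iff.mpr ⟨x, rfl⟩).symm.trans h4
    simp only [h1]
  · unfold projFn
    rw [Finset.mul_sum]
    refine Fintype.sum_equiv (Equiv.mulLeft z) _ _ fun n => ?_
    simp only [Equiv.coe_mulLeft, Subgroup.coe_mul]
    have h1 : (n : G) * ((z : G) * g) = ((z : G) * (n : G)) * g := by
      have h3 := Subgroup.mem_center_iff.mp (hN z.2) (n : G)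
      rw [← mul_assoc, h3]
    rw [h1]
    have h4 : conj ((ψ : N → ℂ) (z * n)) * (ψ : N → ℂ) z = conj ((ψ : N → ℂ) n) := by
      rw [psi_mul N hN ψ, map_mul]
      have := psi_conj_mul N hN ψ z
      calc conj ((ψ : N → ℂ) z) * conj ((ψ : N → ℂ) n) * (ψ : N → ℂ) z
          = ((ψ : N → ℂ) z * conj ((ψ : N → ℂ) z)) * conj ((ψ : N → ℂ) n) := by ring
        _ = _ := by rw [this, one_mul]
    rw [← h4]
    have hgen : ∀ (a b c c' : ℂ), c = c' → a * b * c = b * (a * c') := by
      intro a b c c' hc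
      rw [hc]
      ring
    exact hgen _ _ _ _ (by congr)

/-- Dimension of the central space via special classes. -/
theorem finrank_centralSpace_special (hN : N ≤ Subgroup.center G) (ψ : IrrCharacter N)
    (hfaith : ∀ n : N, (ψ : N → ℂ) n = (ψ : N → ℂ) 1 → n = 1) :
    Module.finrank ℂ (centralSpace N ψ) =
      Nat.card {C : ConjClasses (G ⧸ N) // ∃ g : G, ConjClasses.mk (g : G ⧸ N) = C ∧
        ∀ x : G, x⁻¹ * g⁻¹ * x * g ∈ N → x * g = g * x} := by
  classical
  letI : Fintype {C : ConjClasses (G ⧸ N) // ∃ g : G, ConjClasses.mk (g : G ⧸ N) = C ∧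
        ∀ x : G, x⁻¹ * g⁻¹ * x * g ∈ N → x * g = g * x} := Fintype.ofFinite _
  let r : {C : ConjClasses (G ⧸ N) // ∃ g : G, ConjClasses.mk (g : G ⧸ N) = C ∧
        ∀ x : G, x⁻¹ * g⁻¹ * x * g ∈ N → x * g = g * x} → G := fun C => C.2.choose
  have hr1 : ∀ C, ConjClasses.mk (r C : G ⧸ N) = C.1 := fun C => C.2.choose_spec.1
  have hr2 : ∀ C, ∀ x : G, x⁻¹ * (r C)⁻¹ * x * r C ∈ N → x * r C = r C * x := fun C => C.2.choose_spec.2
  let B : (centralSpace N ψ) →ₗ[ℂ] ({C : ConjClasses (G ⧸ N) // ∃ g : G, ConjClasses.mk (g : G ⧸ N) = C ∧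
        ∀ x : G, x⁻¹ * g⁻¹ * x * g ∈ N → x * g = g * x} → ℂ) :=
    { toFun := fun f C => (f : G → ℂ) (r C)
      map_add' := fun a b => rfl
      map_smul' := fun c a => rfl }
  have hinj : Function.Injective B := by
    rw [← LinearMap.ker_eq_bot, LinearMap.ker_eq_bot']
    intro f hf
    apply Subtype.ext
    funext g
    by_contra hg
    obtain ⟨hf1, hf2⟩ := f.2
    have hspecial : ∀ x : G, x⁻¹ * g⁻¹ * x * g ∈ N → x * g = g * x := by
      intro x hx
      let n : N := ⟨x⁻¹ * g⁻¹ * x * g, hx⟩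
      have h1 : x⁻¹ * g * x = (n⁻¹ : N) * g := by
        have h2 := Subgroup.mem_center_iff.mp (hN (n⁻¹ : N).2) g
        rw [← h2]
        show x⁻¹ * g * x = g * ((x⁻¹ * g⁻¹ * x * g)⁻¹)
        group
      have h3 := hf1 g x⁻¹
      rw [inv_inv, h1, hf2] at h3
      have h4 : (ψ : N → ℂ) n⁻¹ = 1 := by
        have h5 : ((ψ : N → ℂ) n⁻¹ - 1) * (f : G → ℂ) g = 0 := by
          rw [sub_mul, one_mul, h3, sub_self]
        rcases mul_eq_zero.mp h5 with h6 | h6
        · exact sub_eq_zero.mp h6
        · exact absurd h6 hg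
      have h7 := hfaith n⁻¹ (by rw [h4, psi_one N ψ hN])
      have h8 : n = 1 := by simpa using h7
      have h9 : x⁻¹ * g⁻¹ * x * g = 1 := congrArg Subtype.val h8
      have h11 : x * g = g * x := by
        have h12 : g⁻¹ * x * g = x := by
          calc g⁻¹ * x * g = x * (x⁻¹ * g⁻¹ * x * g) := by group
            _ = x := by rw [h9, mul_one]
        calc x * g = g * (g⁻¹ * x * g) := by group
          _ = g * x := by rw [h12]
      exact h11
    let C : {C : ConjClasses (G ⧸ N) // ∃ g : G, ConjClasses.mk (g : G ⧸ N) = C ∧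
        ∀ x : G, x⁻¹ * g⁻¹ * x * g ∈ N → x * g = g * x} := ⟨ConjClasses.mk (g : G ⧸ N), g, rfl, hspecial⟩
    have h1 : ConjClasses.mk (r C : G ⧸ N) = ConjClasses.mk (g : G ⧸ N) := hr1 C
    rw [ConjClasses.mk_eq_mk_iff_isConj] at h1
    obtain ⟨c', hc'⟩ := isConj_iff.mp h1
    obtain ⟨c, rfl⟩ := QuotientGroup.mk_surjective c'
    have h2 : ((c * r C * c⁻¹ : G) : G ⧸ N) = (g : G ⧸ N) := by
      simpa using hc'
    rw [QuotientGroup.eq] at h2
    let n : N := ⟨(c * r C * c⁻¹)⁻¹ * g, h2⟩
    have h3 : g = (n : G) * (c * r C * c⁻¹) := by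
      have h4 := Subgroup.mem_center_iff.mp (hN n.2) (c * r C * c⁻¹)
      rw [← h4]
      show g = (c * r C * c⁻¹) * ((c * r C * c⁻¹)⁻¹ * g)
      group
    have h5 : (f : G → ℂ) (r C) = 0 := congrFun hf C
    apply hg
    rw [h3, hf2, hf1]
    simp [h5]
  have hsurj : Function.Surjective B := by
    intro a
    refine ⟨∑ C, a C • ⟨projFn N ψ (r C), projFn_mem N hN ψ (r C)⟩, ?_⟩
    funext C'
    show (((∑ C, a C • (⟨projFn N ψ (r C), projFn_mem N hN ψ (r C)⟩ : centralSpace N ψ) : centralSpace N ψ)) : G → ℂ) (r C') = a C'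
    have h1 : (((∑ C, a C • (⟨projFn N ψ (r C), projFn_mem N hN ψ (r C)⟩ : centralSpace N ψ) : centralSpace N ψ)) : G → ℂ) =
        ∑ C, a C • projFn N ψ (r C) := by
      rw [Submodule.coe_sum]
      rfl
    rw [h1, Finset.sum_apply, Finset.sum_eq_single C']
    · have h2 : projFn N ψ (r C') (r C') = 1 := by
        unfold projFn
        rw [Finset.sum_eq_single (1 : N)]
        · have h0 : IsConj (((1 : N) : G) * r C') (r C') := by
            rw [Subgroup.coe_one, one_mul]
          rw [if_pos h0, psi_one N ψ hN, map_one, mul_one]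
        · intro n _ hn
          have h3 : ¬ IsConj ((n : G) * r C') (r C') := by
            intro h4
            obtain ⟨c, hc⟩ := isConj_iff.mp h4
            have hcn : ∀ y : G, (n : G) * y = y * n := fun y =>
              (Subgroup.mem_center_iff.mp (hN n.2) y).symm
            have h5 : c * ((n : G) * r C') * c⁻¹ = (n : G) * (c * r C' * c⁻¹) := by
              calc c * ((n : G) * r C') * c⁻¹ = (c * (n : G)) * r C' * c⁻¹ := by group
                _ = ((n : G) * c) * r C' * c⁻¹ := by rw [hcn c]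
                _ = _ := by group
            rw [h5] at hc
            have h6 : c * r C' * c⁻¹ = (n : G)⁻¹ * r C' := by
              calc c * r C' * c⁻¹ = (n : G)⁻¹ * ((n : G) * (c * r C' * c⁻¹)) := by group
                _ = _ := by rw [hc]
            have h7 : c * (r C')⁻¹ * c⁻¹ * r C' = (n : G) := by
              have h8 : c * (r C')⁻¹ * c⁻¹ = (c * r C' * c⁻¹)⁻¹ := by group
              rw [h8, h6]
              calc ((n : G)⁻¹ * r C')⁻¹ * r C' = (r C')⁻¹ * ((n : G) * r C') := by group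
                _ = (r C')⁻¹ * (r C' * (n : G)) := by rw [hcn (r C')]
                _ = (n : G) := by group
            have h9 := hr2 C' c⁻¹ (by
              rw [inv_inv, h7]
              exact n.2)
            have h10 : c * r C' * c⁻¹ = r C' := by
              have h11 : c * r C' = r C' * c := by
                have h12 : r C' * c⁻¹ * c = c⁻¹ * r C' * c := by rw [← h9]
                have h13 : r C' = c⁻¹ * r C' * c := by
                  rw [← h12]; group
                calc c * r C' = c * (c⁻¹ * r C' * c) := by rw [← h13]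
                  _ = r C' * c := by group
              rw [h11]; group
            rw [h10] at h6
            have h14 : (n : G)⁻¹ = 1 := by
              have : (n : G)⁻¹ * r C' = 1 * r C' := by rw [← h6, one_mul]
              exact mul_right_cancel this
            apply hn
            apply Subtype.ext
            simpa using h14
          rw [if_neg h3, mul_zero]
        · intro h
          exact absurd (Finset.mem_univ _) h
      show a C' * projFn N ψ (r C') (r C') = a C'
      rw [h2, mul_one]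
    · intro C _ hC
      have h2 : projFn N ψ (r C) (r C') = 0 := by
        unfold projFn
        refine Finset.sum_eq_zero fun n _ => ?_
        have h3 : ¬ IsConj ((n : G) * r C') (r C) := by
          intro h4
          apply hC
          apply Subtype.ext
          rw [← hr1 C, ← hr1 C', ConjClasses.mk_eq_mk_iff_isConj]
          have h5 : (((n : G) * r C' : G) : G ⧸ N) = (r C' : G ⧸ N) := by
            rw [QuotientGroup.eq]
            have : ((n : G) * r C')⁻¹ * r C' = (r C')⁻¹ * (n : G)⁻¹ * r C' := by group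
            rw [this]
            exact hNn.conj_mem' _ (N.inv_mem n.2) _
          have h6 := (QuotientGroup.mk' N).map_isConj h4
          have h7 : (QuotientGroup.mk' N) ((n : G) * r C') = (r C' : G ⧸ N) := h5
          rw [h7] at h6
          exact h6.symm
        rw [if_neg h3, mul_zero]
      show a C * projFn N ψ (r C) (r C') = 0
      rw [h2, mul_zero]
    · intro h
      exact absurd (Finset.mem_univ _) h
  rw [LinearEquiv.finrank_eq (LinearEquiv.ofBijective B ⟨hinj, hsurj⟩), Module.finrank_fintype_fun_eq_card,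
    Nat.card_eq_fintype_card]

theorem card_over_faithful_central (hN : N ≤ Subgroup.center G) (ψ : IrrCharacter N)
    (hfaith : ∀ n : N, (ψ : N → ℂ) n = (ψ : N → ℂ) 1 → n = 1) :
    Nat.card {χ : IrrCharacter G // classInner (fun n : N => (χ : G → ℂ) n) (ψ : N → ℂ) ≠ 0} =
      Nat.card {C : ConjClasses (G ⧸ N) // ∃ g : G, ConjClasses.mk (g : G ⧸ N) = C ∧
        ∀ x : G, x⁻¹ * g⁻¹ * x * g ∈ N → x * g = g * x} := by
  rw [← finrank_centralSpace_irr N hN ψ, finrank_centralSpace_special N hN ψ hfaith]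

end

end CfsgLib.Char
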