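import Mathlib
import Cfsg.Agent.Lib.Char.FS2

/-!
# Invariant bilinear forms of real irreducible representations
-/

set_option linter.unusedSectionVars false
set_option linter.style.haveILetI false
set_option linter.unusedSimpArgs false
set_option linter.unusedVariables false

namespace CfsgLib.Char

open Module Cfsg Matrix
open scoped ComplexConjugate Kronecker

universe u

section

variable {G : Type u} [Group G] [Fintype G] {n : ℕ} (ρ : Representation ℂ G (Fin n → ℂ))

theorem matS_transpose : (matS : Matrix (Fin n × Fin n) (Fin n × Fin n) ℂ).transpose = matS := by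
  classical
  ext p q
  simp only [matS, Matrix.transpose_apply, Matrix.of_apply]
  by_cases h : q = p.swap
  · have h2 : p = q.swap := by rw [h]; simp
    rw [if_pos h, if_pos h2]
  · have h2 : ¬ p = q.swap := fun h3 => h (by rw [h3]; simp)
    rw [if_neg h, if_neg h2]

/-- The vector of a matrix. -/
def vecOf (M : Matrix (Fin n) (Fin n) ℂ) : Fin n × Fin n → ℂ := fun p => M p.1 p.2

theorem vecOf_injective : Function.Injective (vecOf (n := n)) := by
  intro M M' h
  ext i j
  exact congrFun h (i, j)

theorem matS_mulVec_vecOf (M : Matrix (Fin n) (Fin n) ℂ) :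
    (matS : Matrix (Fin n × Fin n) (Fin n × Fin n) ℂ) *ᵥ vecOf M = vecOf M.transpose := by
  classical
  funext p
  rw [Matrix.mulVec, dotProduct, Finset.sum_eq_single p.swap]
  · simp [matS, vecOf]
  · intro r _ hr
    simp [matS, hr]
  · simp

theorem matK_transpose_mulVec (g : G) (M : Matrix (Fin n) (Fin n) ℂ) :
    (matK ρ g).transpose *ᵥ vecOf M = vecOf ((matA ρ g).transpose * M * matA ρ g) := by
  classical
  funext p
  rw [Matrix.mulVec, dotProduct, Fintype.sum_prod_type]
  simp only [vecOf, Matrix.mul_apply, Matrix.transpose_apply, Finset.sum_mul]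
  rw [Finset.sum_comm]
  refine Finset.sum_congr rfl fun k _ => Finset.sum_congr rfl fun l _ => ?_
  simp [matK, Matrix.kroneckerMap_apply]
  ring

/-- The analysis of forms, for any representation with the required inner product. -/
theorem form_analysis (htr : classInner ρ.character (fun g => conj (ρ.character g)) = 1) :
    (∃ M : Matrix (Fin n) (Fin n) ℂ, M ≠ 0 ∧ ∀ g : G, (matA ρ g).transpose * M * matA ρ g = M) ∧
    ∀ M : Matrix (Fin n) (Fin n) ℂ, (∀ g : G, (matA ρ g).transpose * M * matA ρ g = M) →
      M.transpose = ((Nat.card G : ℂ)⁻¹ * ∑ s : G, ρ.character (s * s)) • M := by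
  classical
  set E := (matE ρ).transpose with hE
  have hEE : E * E = E := by
    rw [hE, ← Matrix.transpose_mul, matE_mul_matE]
  have hSS := matS_mul_matS (n := n)
  have hES : E * matS = matS * E := by
    rw [hE]
    have h1 := congrArg Matrix.transpose (matE_comm_matS ρ)
    rw [Matrix.transpose_mul, Matrix.transpose_mul, matS_transpose] at h1
    exact h1.symm
  have htrE : Matrix.trace E = 1 := by
    rw [hE, Matrix.trace_transpose, trace_matE, htr]
  obtain ⟨-, h1⟩ := idempotent_analysis E matS hEE hSS hES
  obtain ⟨w, ε, hw, hε, hEw, hSw, hESε⟩ := h1 htrE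
  have hεν : ε = (Nat.card G : ℂ)⁻¹ * ∑ s : G, ρ.character (s * s) := by
    rw [← trace_matE_mul_matS]
    have h2 : Matrix.trace (E * matS) = ε := by
      rw [hESε, Matrix.trace_smul, htrE, smul_eq_mul, mul_one]
    rw [← h2, hES, hE]
    have h3 : Matrix.trace (matS * (matE ρ).transpose) = Matrix.trace ((matE ρ * matS).transpose) := by
      rw [Matrix.transpose_mul, matS_transpose]
    rw [h3, Matrix.trace_transpose]
  have hEdef : E = (Nat.card G : ℂ)⁻¹ • ∑ g : G, (matK ρ g).transpose := by
    rw [hE, matE, Matrix.transpose_smul, Matrix.transpose_sum]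
  have hKE : ∀ g, (matK ρ g).transpose * E = E := by
    intro g
    rw [hE, ← Matrix.transpose_mul]
    congr 1
    rw [matE, Matrix.smul_mul, Finset.sum_mul]
    congr 1
    simp only [← matK_mul]
    exact Fintype.sum_equiv (Equiv.mulRight g) _ _ fun x => rfl
  constructor
  · let M : Matrix (Fin n) (Fin n) ℂ := Matrix.of fun i j => w (i, j)
    have hvec : vecOf M = w := rfl
    refine ⟨M, ?_, ?_⟩
    · intro h0
      apply hw
      rw [← hvec, h0]
      rfl
    · intro g
      apply vecOf_injective
      rw [← matK_transpose_mulVec, hvec, ← hEw, Matrix.mulVec_mulVec, hKE]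
  · intro M hM
    rw [← hεν]
    apply vecOf_injective
    have h2 : E *ᵥ vecOf M = vecOf M := by
      rw [hEdef, Matrix.smul_mulVec, Matrix.sum_mulVec]
      simp only [matK_transpose_mulVec, hM, Finset.sum_const, Finset.card_univ]
      rw [← Nat.card_eq_fintype_card, ← Nat.cast_smul_eq_nsmul ℂ, smul_smul, inv_mul_cancel₀ (card_ne_zero_C G), one_smul]
    rw [← matS_mulVec_vecOf, ← h2, Matrix.mulVec_mulVec, ← hES, hESε, Matrix.smul_mulVec, h2]
    funext p
    rfl

/-- S4475 -/
theorem real_irr_form (hirr : ρ.IsIrreducible) (hreal : ∀ g : G, (ρ.character g).im = 0) :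
    (∃ M : Matrix (Fin n) (Fin n) ℂ, M ≠ 0 ∧
      ∀ g : G, (LinearMap.toMatrix' (ρ g)).transpose * M * LinearMap.toMatrix' (ρ g) = M) ∧
    ∀ M : Matrix (Fin n) (Fin n) ℂ, (∀ g : G, (LinearMap.toMatrix' (ρ g)).transpose * M * LinearMap.toMatrix' (ρ g) = M) →
      M.transpose = ((Nat.card G : ℂ)⁻¹ * ∑ s : G, ρ.character (s * s)) • M := by
  haveI := hirr
  refine form_analysis ρ ?_
  have h1 : (fun g => conj (ρ.character g)) = ρ.character := by
    funext g
    exact Complex.conj_eq_iff_im.mpr (hreal g)
  rw [h1]
  exact classInner_irr_self (isIrrCharacter_character ρ)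

end

end CfsgLib.Char
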