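import Mathlib
import Cfsg.Agent.Lib.Char.FS3

/-!
# Indicator one and real representations
-/

set_option linter.unusedSectionVars false
set_option linter.style.haveILetI false
set_option linter.unusedSimpArgs false
set_option linter.unusedVariables false

namespace CfsgLib.Char

open Module Cfsg Matrix
open scoped ComplexConjugate Kronecker

universe u

section Hilbert

variable {n : ℕ}

/-- Entrywise conjugate of a matrix. -/
noncomputable abbrev cj (X : Matrix (Fin n) (Fin n) ℂ) : Matrix (Fin n) (Fin n) ℂ := X.map (starRingEnd ℂ)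

theorem cj_mul (X Y : Matrix (Fin n) (Fin n) ℂ) : cj (X * Y) = cj X * cj Y :=
  Matrix.map_mul (f := starRingEnd ℂ)

theorem cj_cj (X : Matrix (Fin n) (Fin n) ℂ) : cj (cj X) = X := by
  ext i j
  simp

theorem cj_one : cj (1 : Matrix (Fin n) (Fin n) ℂ) = 1 := by
  ext i j
  simp [Matrix.one_apply, apply_ite]

theorem cj_add (X Y : Matrix (Fin n) (Fin n) ℂ) : cj (X + Y) = cj X + cj Y := by
  ext i j
  simp

theorem cj_smul (c : ℂ) (X : Matrix (Fin n) (Fin n) ℂ) : cj (c • X) = (conj c) • cj X := by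
  ext i j
  simp

/-- Matrix Hilbert 90. -/
theorem exists_hilbert90 (Q : Matrix (Fin n) (Fin n) ℂ) (hQ : Q * cj Q = 1) :
    ∃ P : Matrix (Fin n) (Fin n) ℂ, IsUnit P.det ∧ P = Q * cj P := by
  classical
  -- choose `t` so that `-(1+it)/(1-it)` is not an eigenvalue of `Q`
  let w : ℕ → ℂ := fun k => -((1 + (k : ℂ) * Complex.I) / (1 - (k : ℂ) * Complex.I))
  have h1m : ∀ k : ℕ, (1 - (k : ℂ) * Complex.I) ≠ 0 := by
    intro k h
    have h2 := congrArg Complex.re h
    simp at h2
  have hwinj : Function.Injective w := by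
    intro a b hab
    have h1 : (1 + (a : ℂ) * Complex.I) / (1 - (a : ℂ) * Complex.I) = (1 + (b : ℂ) * Complex.I) / (1 - (b : ℂ) * Complex.I) :=
      neg_injective hab
    rw [div_eq_div_iff (h1m a) (h1m b)] at h1
    have h2 : ((a : ℂ) - b) * (2 * Complex.I) = 0 := by
      linear_combination h1
    have h3 : (a : ℂ) - b = 0 := by
      rcases mul_eq_zero.mp h2 with h | h
      · exact h
      · simp at h
    have h4 : (a : ℂ) = b := sub_eq_zero.mp h3
    exact_mod_cast h4
  have hfin : (Q.charpoly.roots.toFinset : Set ℂ).Finite := Finset.finite_toSet _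
  obtain ⟨k, hk⟩ : ∃ k, w k ∉ Q.charpoly.roots.toFinset := by
    by_contra hcon
    push Not at hcon
    exact Set.infinite_of_injective_forall_mem hwinj hcon hfin
  set lam : ℂ := 1 + (k : ℂ) * Complex.I with hlam
  set lamb : ℂ := 1 - (k : ℂ) * Complex.I with hlamb
  have hconj : conj lam = lamb := by
    simp [hlam, hlamb]
    ring
  have hconj' : conj lamb = lam := by
    rw [← hconj]
    simp
  let P : Matrix (Fin n) (Fin n) ℂ := lam • 1 + lamb • Q
  refine ⟨P, ?_, ?_⟩
  · -- invertibility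
    have hroot : Q.charpoly.eval (w k) ≠ 0 := by
      intro h0
      apply hk
      rw [Multiset.mem_toFinset, Polynomial.mem_roots Q.charpoly_monic.ne_zero]
      exact h0
    rw [Matrix.eval_charpoly] at hroot
    have hP : P = (-lamb) • (Matrix.scalar (Fin n) (w k) - Q) := by
      ext i j
      simp only [P, Matrix.add_apply, Matrix.smul_apply, Matrix.sub_apply, Matrix.scalar_apply, smul_eq_mul,
        Matrix.diagonal_apply, Matrix.one_apply]
      by_cases h : i = j
      · simp only [h, if_true]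
        have hl : lamb ≠ 0 := h1m k
        have : lamb * w k = -lam := by
          show lamb * (-(lam / lamb)) = -lam
          field_simp
        linear_combination this
      · simp [h]
    rw [hP, Matrix.det_smul]
    apply IsUnit.mul
    · apply IsUnit.pow
      exact isUnit_iff_ne_zero.mpr (neg_ne_zero.mpr (h1m k))
    · exact isUnit_iff_ne_zero.mpr hroot
  · simp only [P]
    rw [cj_add, cj_smul, cj_smul, cj_one, hconj, hconj', Matrix.mul_add, Matrix.mul_smul, Matrix.mul_smul, hQ, mul_one,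
      add_comm]

end Hilbert

section Main

variable {G : Type u} [Group G] [Fintype G] {n : ℕ}

/-- A family of matrices commuting with a `Q` of this kind is conjugate to a real family. -/
theorem exists_real_family (A : G → Matrix (Fin n) (Fin n) ℂ) (hone : A 1 = 1) (hmul : ∀ g h, A (g * h) = A g * A h)
    (Q : Matrix (Fin n) (Fin n) ℂ) (hQ : Q * cj Q = 1) (hAQ : ∀ g, A g * Q = Q * cj (A g)) :
    ∃ ρ : Representation ℝ G (Fin n → ℝ), ∀ g : G, ((LinearMap.trace ℝ (Fin n → ℝ) (ρ g) : ℝ) : ℂ) = Matrix.trace (A g) := by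
  classical
  obtain ⟨P, hPu, hP⟩ := exists_hilbert90 Q hQ
  have hPi : P * P⁻¹ = 1 := Matrix.mul_nonsing_inv P hPu
  have hPi' : P⁻¹ * P = 1 := Matrix.nonsing_inv_mul P hPu
  have hQu : IsUnit Q := by
    apply IsUnit.of_mul_eq_one (cj Q)
    exact hQ
  let B : G → Matrix (Fin n) (Fin n) ℂ := fun g => P⁻¹ * A g * P
  have hcjP : cj P = (cj Q) * P := by
    have h1 := congrArg cj hP
    rw [cj_mul, cj_cj] at h1
    exact h1
  have hQc : cj Q * Q = 1 := by
    have h1 : Q * cj Q = 1 := hQ
    exact mul_eq_one_comm.mp h1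
  have hcjPi : cj (P⁻¹) = P⁻¹ * Q := by
    have h1 : cj (P⁻¹) * cj P = 1 := by
      rw [← cj_mul, hPi', cj_one]
    have h2 : (P⁻¹ * Q) * cj P = 1 := by
      rw [hcjP]
      calc P⁻¹ * Q * (cj Q * P) = P⁻¹ * (Q * cj Q) * P := by simp only [Matrix.mul_assoc]
        _ = 1 := by rw [hQ, mul_one, hPi']
    have h3 : cj P * cj (P⁻¹) = 1 := mul_eq_one_comm.mp h1
    calc cj (P⁻¹) = ((P⁻¹ * Q) * cj P) * cj (P⁻¹) := by rw [h2, one_mul]
      _ = (P⁻¹ * Q) * (cj P * cj (P⁻¹)) := by simp only [Matrix.mul_assoc]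
      _ = P⁻¹ * Q := by rw [h3, mul_one]
  have hBreal : ∀ g, cj (B g) = B g := by
    intro g
    simp only [B]
    rw [cj_mul, cj_mul, hcjPi, hcjP]
    calc P⁻¹ * Q * cj (A g) * (cj Q * P) = P⁻¹ * (Q * cj (A g)) * cj Q * P := by simp only [Matrix.mul_assoc]
      _ = P⁻¹ * (A g * Q) * cj Q * P := by rw [hAQ]
      _ = P⁻¹ * A g * (Q * cj Q) * P := by simp only [Matrix.mul_assoc]
      _ = P⁻¹ * A g * P := by rw [hQ, mul_one]
  let R : G → Matrix (Fin n) (Fin n) ℝ := fun g => (B g).map Complex.re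
  have hRB : ∀ g, (R g).map Complex.ofRealHom = B g := by
    intro g
    ext i j
    have h1 := congrFun (congrFun (hBreal g) i) j
    simp only [Matrix.map_apply] at h1
    have h2 : (B g i j).im = 0 := Complex.conj_eq_iff_im.mp h1
    apply Complex.ext <;> simp [R, h2]
  have hBone : B 1 = 1 := by
    simp only [B]
    rw [hone, mul_one, hPi']
  have hBmul : ∀ g h, B (g * h) = B g * B h := by
    intro g h
    simp only [B]
    rw [hmul]
    calc P⁻¹ * (A g * A h) * P = P⁻¹ * A g * (P * P⁻¹) * A h * P := by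
          rw [hPi, mul_one]
          simp only [Matrix.mul_assoc]
      _ = P⁻¹ * A g * P * (P⁻¹ * A h * P) := by simp only [Matrix.mul_assoc]
  have hinjmap : ∀ X Y : Matrix (Fin n) (Fin n) ℝ, X.map Complex.ofRealHom = Y.map Complex.ofRealHom → X = Y := by
    intro X Y h
    ext i j
    have := congrFun (congrFun h i) j
    simp only [Matrix.map_apply, Complex.ofRealHom_eq_coe] at this
    exact_mod_cast this
  have hRone : R 1 = 1 := by
    apply hinjmap
    rw [hRB, hBone]
    ext i j
    simp [Matrix.one_apply, apply_ite]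
  have hRmul : ∀ g h, R (g * h) = R g * R h := by
    intro g h
    apply hinjmap
    rw [hRB, hBmul, Matrix.map_mul, hRB, hRB]
  let ρ : Representation ℝ G (Fin n → ℝ) :=
    { toFun := fun g => Matrix.toLin' (R g)
      map_one' := by
        rw [hRone]
        exact Matrix.toLin'_one
      map_mul' := fun g h => by
        rw [hRmul]
        exact Matrix.toLin'_mul _ _ }
  refine ⟨ρ, fun g => ?_⟩
  show ((LinearMap.trace ℝ (Fin n → ℝ) (Matrix.toLin' (R g)) : ℝ) : ℂ) = _
  rw [Matrix.trace_toLin'_eq]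
  have h1 : Matrix.trace (B g) = Matrix.trace (A g) := by
    simp only [B]
    rw [Matrix.trace_mul_comm, ← Matrix.mul_assoc, hPi, one_mul]
  rw [← h1, ← hRB g]
  simp only [Matrix.trace, Matrix.diag_apply, Matrix.map_apply]
  push_cast
  rfl

/-- The converse: real representations have indicator one. -/
theorem indicator_one_of_real (χ : IrrCharacter G) {n : ℕ} (ρ : Representation ℝ G (Fin n → ℝ))
    (hρ : ∀ g : G, ((LinearMap.trace ℝ (Fin n → ℝ) (ρ g) : ℝ) : ℂ) = (χ : G → ℂ) g) :
    (Nat.card G : ℂ)⁻¹ * ∑ s : G, (χ : G → ℂ) (s * s) = 1 := by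
  classical
  let A : G → Matrix (Fin n) (Fin n) ℝ := fun g => LinearMap.toMatrix' (ρ g)
  have hAmul : ∀ g h, A (g * h) = A g * A h := by
    intro g h
    simp only [A, map_mul]
    exact LinearMap.toMatrix'_mul _ _
  have hAone : A 1 = 1 := by
    simp only [A, map_one]
    exact LinearMap.toMatrix'_one
  let Ac : G → Matrix (Fin n) (Fin n) ℂ := fun g => (A g).map Complex.ofRealHom
  have hAcmul : ∀ g h, Ac (g * h) = Ac g * Ac h := by
    intro g h
    simp only [Ac]
    rw [hAmul, Matrix.map_mul]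
  have hAcone : Ac 1 = 1 := by
    simp only [Ac]
    rw [hAone]
    ext i j
    simp [Matrix.one_apply, apply_ite]
  let σ : Representation ℂ G (Fin n → ℂ) :=
    { toFun := fun g => Matrix.toLin' (Ac g)
      map_one' := by
        rw [hAcone]
        exact Matrix.toLin'_one
      map_mul' := fun g h => by
        rw [hAcmul]
        exact Matrix.toLin'_mul _ _ }
  have hmatA : ∀ g, matA σ g = Ac g := fun g => LinearMap.toMatrix'_toLin' _
  have htrace : ∀ g, Matrix.trace (A g) = LinearMap.trace ℝ (Fin n → ℝ) (ρ g) := by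
    intro g
    show Matrix.trace (LinearMap.toMatrix' (ρ g)) = _
    conv_rhs => rw [← Matrix.toLin'_toMatrix' (ρ g)]
    rw [Matrix.trace_toLin'_eq]
  have hchar : σ.character = (χ : G → ℂ) := by
    funext g
    rw [← trace_matA, hmatA, ← hρ, ← htrace]
    simp only [Ac, Matrix.trace, Matrix.diag_apply, Matrix.map_apply]
    push_cast
    rfl
  have hconj : (fun g => conj (σ.character g)) = (χ : G → ℂ) := by
    funext g
    rw [hchar, ← hρ]
    simp
  have htr : classInner σ.character (fun g => conj (σ.character g)) = 1 := by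
    rw [hconj, hchar]
    exact classInner_irr_self χ.2
  obtain ⟨-, h2⟩ := form_analysis σ htr
  -- the invariant symmetric form
  let M₀ : Matrix (Fin n) (Fin n) ℝ := ∑ g : G, (A g).transpose * A g
  let M : Matrix (Fin n) (Fin n) ℂ := M₀.map Complex.ofRealHom
  have hM₀inv : ∀ h, (A h).transpose * M₀ * A h = M₀ := by
    intro h
    simp only [M₀]
    rw [Finset.mul_sum, Finset.sum_mul]
    refine Fintype.sum_equiv (Equiv.mulRight h) _ _ fun x => ?_
    simp only [Equiv.coe_mulRight]
    rw [hAmul, Matrix.transpose_mul]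
    simp only [Matrix.mul_assoc]
  have hMinv : ∀ g : G, (matA σ g).transpose * M * matA σ g = M := by
    intro g
    rw [hmatA]
    simp only [Ac, M]
    rw [← Matrix.transpose_map, ← Matrix.map_mul, ← Matrix.map_mul, hM₀inv]
  have hM₀sym : M₀.transpose = M₀ := by
    simp only [M₀]
    rw [Matrix.transpose_sum]
    refine Finset.sum_congr rfl fun g _ => ?_
    rw [Matrix.transpose_mul, Matrix.transpose_transpose]
  have hMsym : M.transpose = M := by
    simp only [M]
    rw [← Matrix.transpose_map, hM₀sym]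
  obtain ⟨d, hd0, hd⟩ := χ.2.map_one
  have hn0 : 0 < n := by
    have h1 := hρ 1
    rw [hd, map_one] at h1
    rcases Nat.eq_zero_or_pos n with h0 | h0
    · subst h0
      simp at h1
      exact absurd h1.symm (by exact_mod_cast hd0.ne')
    · exact h0
  have hM₀pos : 0 < M₀ ⟨0, hn0⟩ ⟨0, hn0⟩ := by
    simp only [M₀]
    rw [Matrix.sum_apply]
    apply Finset.sum_pos' 
    · intro g _
      rw [Matrix.mul_apply]
      apply Finset.sum_nonneg
      intro k _
      rw [Matrix.transpose_apply]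
      exact mul_self_nonneg _
    · refine ⟨1, Finset.mem_univ _, ?_⟩
      rw [hAone]
      simp
  have hM0 : M ≠ 0 := by
    intro h0
    have h1 := congrFun (congrFun h0 ⟨0, hn0⟩) ⟨0, hn0⟩
    simp only [M, Matrix.map_apply, Matrix.zero_apply, Complex.ofRealHom_eq_coe] at h1
    have h3 : M₀ ⟨0, hn0⟩ ⟨0, hn0⟩ = 0 := by exact_mod_cast h1
    exact hM₀pos.ne' h3
  have h3 := h2 M hMinv
  rw [hMsym, hchar] at h3
  -- `M = ν M`
  obtain ⟨i, j, hij⟩ : ∃ i j, M i j ≠ 0 := by
    by_contra hcon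
    push Not at hcon
    exact hM0 (by ext i j; exact hcon i j)
  have h4 := congrFun (congrFun h3 i) j
  simp only [Matrix.smul_apply, smul_eq_mul] at h4
  have h5 : ((Nat.card G : ℂ)⁻¹ * ∑ s : G, (χ : G → ℂ) (s * s) - 1) * M i j = 0 := by
    linear_combination -h4
  rcases mul_eq_zero.mp h5 with h6 | h6
  · exact sub_eq_zero.mp h6
  · exact absurd h6 hij

open scoped ComplexOrder in
/-- The forward direction: indicator one gives a real representation. -/
theorem real_of_indicator_one (χ : IrrCharacter G)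
    (hν : (Nat.card G : ℂ)⁻¹ * ∑ s : G, (χ : G → ℂ) (s * s) = 1) :
    ∃ (n : ℕ) (ρ : Representation ℝ G (Fin n → ℝ)), ∀ g : G,
      ((LinearMap.trace ℝ (Fin n → ℝ) (ρ g) : ℝ) : ℂ) = (χ : G → ℂ) g := by
  classical
  obtain ⟨χ, hχ⟩ := χ
  have hχ' := hχ
  obtain ⟨n, ρ, hρ, rfl⟩ := hχ
  haveI := hρ
  simp only at hν
  have hreal : ∀ g, (ρ.character g).im = 0 := by
    by_contra hcon
    push Not at hcon
    have h0 := (fs_trichotomy hχ').2.mpr hcon
    rw [h0] at hν
    exact zero_ne_one hν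
  obtain ⟨⟨M, hM0, hM⟩, hall⟩ := real_irr_form ρ hρ hreal
  have hMsym : M.transpose = M := by
    have h1 := hall M hM
    rw [hν, one_smul] at h1
    exact h1
  let A : G → Matrix (Fin n) (Fin n) ℂ := matA ρ
  have hAmul : ∀ g h, A (g * h) = A g * A h := matA_mul ρ
  have hAone : A 1 = 1 := matA_one ρ
  have hAinv : ∀ g, A g⁻¹ * A g = 1 := by
    intro g
    rw [← hAmul, inv_mul_cancel, hAone]
  have hAinv' : ∀ g, A g * A g⁻¹ = 1 := by
    intro g
    rw [← hAmul, mul_inv_cancel, hAone]
  have hAU : ∀ g, IsUnit (A g) := fun g => IsUnit.of_mul_eq_one _ (hAinv' g)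
  let H : Matrix (Fin n) (Fin n) ℂ := ∑ g : G, (A g).conjTranspose * A g
  have hHpd : H.PosDef := by
    apply Matrix.posDef_sum Finset.univ_nonempty
    intro g _
    exact Matrix.PosDef.conjTranspose_mul_self _ (Matrix.mulVec_injective_iff_isUnit.mpr (hAU g))
  have hHinv : ∀ h, (A h).conjTranspose * H * A h = H := by
    intro h
    simp only [H]
    rw [Finset.mul_sum, Finset.sum_mul]
    refine Fintype.sum_equiv (Equiv.mulRight h) _ _ fun x => ?_
    simp only [Equiv.coe_mulRight]
    rw [hAmul, Matrix.conjTranspose_mul]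
    simp only [Matrix.mul_assoc]
  have hHU : IsUnit H.det := (Matrix.isUnit_iff_isUnit_det _).mp hHpd.isUnit
  let Hi : Matrix (Fin n) (Fin n) ℂ := H⁻¹
  have hHHi : H * Hi = 1 := Matrix.mul_nonsing_inv H hHU
  have hHiH : Hi * H = 1 := Matrix.nonsing_inv_mul H hHU
  have hHipd : Hi.PosDef := hHpd.inv
  have hAHi : ∀ g, A g * Hi = Hi * (A g⁻¹).conjTranspose := by
    intro g
    have h1 : H * A g = (A g⁻¹).conjTranspose * H := by
      have h2 := hHinv g⁻¹
      calc H * A g = ((A g⁻¹).conjTranspose * H * A g⁻¹) * A g := by rw [h2]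
        _ = (A g⁻¹).conjTranspose * H * (A g⁻¹ * A g) := by simp only [Matrix.mul_assoc]
        _ = (A g⁻¹).conjTranspose * H := by rw [hAinv, mul_one]
    calc A g * Hi = (Hi * H) * A g * Hi := by rw [hHiH, one_mul]
      _ = Hi * (H * A g) * Hi := by simp only [Matrix.mul_assoc]
      _ = Hi * ((A g⁻¹).conjTranspose * H) * Hi := by rw [h1]
      _ = Hi * (A g⁻¹).conjTranspose * (H * Hi) := by simp only [Matrix.mul_assoc]
      _ = Hi * (A g⁻¹).conjTranspose := by rw [hHHi, mul_one]
  have hcjT : ∀ X : Matrix (Fin n) (Fin n) ℂ, cj X.transpose = X.conjTranspose := fun X => rfl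
  have hMcj : M.conjTranspose = cj M := by
    rw [← hcjT, hMsym]
  have hMrel : ∀ g, (A g⁻¹).conjTranspose * cj M = cj M * cj (A g) := by
    intro g
    have h1 := congrArg cj (hM g⁻¹)
    rw [cj_mul, cj_mul] at h1
    have h2 : cj (LinearMap.toMatrix' (ρ g⁻¹)).transpose = (A g⁻¹).conjTranspose := rfl
    rw [h2] at h1
    have h3 : cj (LinearMap.toMatrix' (ρ g⁻¹)) = cj (A g⁻¹) := rfl
    rw [h3] at h1
    have h4 : cj (A g⁻¹) * cj (A g) = 1 := by
      rw [← cj_mul, hAinv, cj_one]
    calc (A g⁻¹).conjTranspose * cj M = (A g⁻¹).conjTranspose * cj M * (cj (A g⁻¹) * cj (A g)) := by rw [h4, mul_one]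
      _ = ((A g⁻¹).conjTranspose * cj M * cj (A g⁻¹)) * cj (A g) := by simp only [Matrix.mul_assoc]
      _ = cj M * cj (A g) := by rw [h1]
  let Q : Matrix (Fin n) (Fin n) ℂ := Hi * cj M
  have hAQ : ∀ g, A g * Q = Q * cj (A g) := by
    intro g
    simp only [Q]
    calc A g * (Hi * cj M) = (A g * Hi) * cj M := by simp only [Matrix.mul_assoc]
      _ = Hi * ((A g⁻¹).conjTranspose * cj M) := by rw [hAHi]; simp only [Matrix.mul_assoc]
      _ = Hi * cj M * cj (A g) := by rw [hMrel]; simp only [Matrix.mul_assoc]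
  let T : Matrix (Fin n) (Fin n) ℂ := Q * cj Q
  have hTA : ∀ g, T * A g = A g * T := by
    intro g
    simp only [T]
    have h1 : cj Q * A g = cj (A g) * cj Q := by
      have h2 : cj (A g * Q) = cj (Q * cj (A g)) := congrArg cj (hAQ g)
      have h3 : cj (Q * cj (A g)) = cj Q * A g := by
        rw [cj_mul, cj_cj]
      rw [h3] at h2
      rw [← h2, cj_mul]
    calc Q * cj Q * A g = Q * (cj Q * A g) := by simp only [Matrix.mul_assoc]
      _ = Q * (cj (A g) * cj Q) := by rw [h1]
      _ = (Q * cj (A g)) * cj Q := by simp only [Matrix.mul_assoc]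
      _ = A g * (Q * cj Q) := by rw [← hAQ]; simp only [Matrix.mul_assoc]
  obtain ⟨c, hc⟩ := schur_scalar ρ (Matrix.toLin' T) (by
    intro g v
    have h1 : ρ g = Matrix.toLin' (A g) := (Matrix.toLin'_toMatrix' (ρ g)).symm
    rw [h1]
    simp only [Matrix.toLin'_apply, Matrix.mulVec_mulVec, hTA])
  have hTc : T = c • (1 : Matrix (Fin n) (Fin n) ℂ) := by
    apply Matrix.toLin'.injective
    rw [hc]
    ext v i
    simp [Matrix.toLin'_apply]
  -- positivity of `c`
  obtain ⟨v, hv⟩ : ∃ v, M *ᵥ v ≠ 0 := by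
    by_contra hcon
    push Not at hcon
    apply hM0
    apply Matrix.toLin'.injective
    ext1
    rw [map_zero]
    apply LinearMap.ext
    intro u
    simp [hcon]
  have hv0 : v ≠ 0 := by
    rintro rfl
    apply hv
    simp
  set K : Matrix (Fin n) (Fin n) ℂ := Hi.transpose with hKdef
  have hKpd : K.PosDef := hHipd.transpose
  have hKcj : cj Hi = K := by
    have h1 : Hi.conjTranspose = Hi := hHipd.isHermitian
    have h2 : cj Hi = (Hi.conjTranspose).transpose := by
      ext i j
      simp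
    rw [h2, h1]
  have hHT : c • H = M.conjTranspose * K * M := by
    have h1 : H * T = M.conjTranspose * K * M := by
      simp only [T, Q]
      rw [cj_mul, cj_cj, hKcj, hMcj]
      calc H * (Hi * cj M * (K * M)) = (H * Hi) * cj M * (K * M) := by simp only [Matrix.mul_assoc]
        _ = cj M * K * M := by rw [hHHi, one_mul]; simp only [Matrix.mul_assoc]
    rw [← h1, hTc, Matrix.mul_smul, mul_one]
  have ha := hHpd.dotProduct_mulVec_pos hv0
  have hb := hKpd.dotProduct_mulVec_pos hv
  have hab : c * (star v ⬝ᵥ (H *ᵥ v)) = star (M *ᵥ v) ⬝ᵥ (K *ᵥ (M *ᵥ v)) := by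
    have h1 : star (M *ᵥ v) = star v ᵥ* M.conjTranspose := Matrix.star_mulVec M v
    rw [h1, ← Matrix.dotProduct_mulVec, Matrix.mulVec_mulVec, Matrix.mulVec_mulVec, ← hHT,
      Matrix.smul_mulVec, dotProduct_smul, smul_eq_mul]
  obtain ⟨ha1, ha2⟩ := Complex.pos_iff.mp ha
  obtain ⟨hb1, hb2⟩ := Complex.pos_iff.mp hb
  set a := star v ⬝ᵥ (H *ᵥ v) with hadef
  set b := star (M *ᵥ v) ⬝ᵥ (K *ᵥ (M *ᵥ v)) with hbdef
  have ha3 : a = (a.re : ℂ) := by
    apply Complex.ext
    · simp
    · simp [← ha2]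
  have hb3 : b = (b.re : ℂ) := by
    apply Complex.ext
    · simp
    · simp [← hb2]
  have ha0 : (a.re : ℂ) ≠ 0 := by
    exact_mod_cast ha1.ne'
  let c' : ℝ := b.re / a.re
  have hc'pos : 0 < c' := div_pos hb1 ha1
  have hcc' : c = (c' : ℂ) := by
    simp only [c']
    push_cast
    rw [eq_div_iff ha0, ← ha3, ← hb3]
    exact hab
  let r : ℝ := (Real.sqrt c')⁻¹
  have hr : r ^ 2 * c' = 1 := by
    simp only [r]
    rw [inv_pow, Real.sq_sqrt hc'pos.le]
    exact inv_mul_cancel₀ hc'pos.ne'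
  let Q' : Matrix (Fin n) (Fin n) ℂ := (r : ℂ) • Q
  have hQ' : Q' * cj Q' = 1 := by
    simp only [Q']
    rw [cj_smul, Matrix.smul_mul, Matrix.mul_smul, smul_smul]
    have h1 : Q * cj Q = c • (1 : Matrix (Fin n) (Fin n) ℂ) := hTc
    rw [h1, smul_smul, hcc', Complex.conj_ofReal]
    have h2 : ((r : ℂ) * (r : ℂ) * (c' : ℂ)) = 1 := by
      have := hr
      exact_mod_cast (by rw [← this]; ring : r * r * c' = 1)
    rw [h2, one_smul]
  have hAQ' : ∀ g, A g * Q' = Q' * cj (A g) := by
    intro g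
    simp only [Q']
    rw [Matrix.mul_smul, Matrix.smul_mul, hAQ]
  obtain ⟨σ, hσ⟩ := exists_real_family A hAone hAmul Q' hQ' hAQ'
  refine ⟨n, σ, fun g => ?_⟩
  rw [hσ]
  exact trace_matA ρ g

end Main

end CfsgLib.Char
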