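import Cfsg.Agent.Lib.Char.RealBlock
import Cfsg.Agent.Lib.Char.FS4
import Cfsg.Agent.Lib.Char.DefectZero
import Cfsg.Agent.Lib.Char.BlkOver

/-!
# Real characters over a character of `2`-defect zero
-/

universe u

set_option linter.unusedVariables false
set_option linter.unusedSectionVars false

open Cfsg CfsgLib.Block CfsgLib.Char Module Matrix
open scoped ComplexConjugate

namespace CfsgLib.Char.DZ

section FS

variable {G : Type u} [Group G] [Fintype G] {n : ℕ}

/-- A symplectic irreducible representation has a subspace of fixed points of even dimension. -/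
theorem even_fixed (ρ : Representation ℂ G (Fin n → ℂ)) (hρ : ρ.IsIrreducible)
    (hreal : ∀ g : G, (ρ.character g).im = 0)
    (hν : (Nat.card G : ℂ)⁻¹ * ∑ s : G, ρ.character (s * s) = -1) (H : Subgroup G) [Fintype H] :
    ∃ c : ℕ, (Nat.card H : ℂ)⁻¹ * ∑ h : H, ρ.character h = c ∧ Even c := by
  classical
  obtain ⟨⟨M, hM0, hM⟩, hall⟩ := real_irr_form ρ hρ hreal
  have hMt : M.transpose = -M := by
    have h1 := hall M hM
    rw [hν] at h1
    simpa using h1
  let A : G → Matrix (Fin n) (Fin n) ℂ := matA ρ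
  have hA : ∀ g, (A g).transpose * M * A g = M := hM
  have hAmul : ∀ g h, A (g * h) = A g * A h := matA_mul ρ
  have hAone : A 1 = 1 := matA_one ρ
  have hMA : ∀ g, M * A g = (A g⁻¹).transpose * M := by
    intro g
    calc M * A g = ((A g⁻¹).transpose * M * A g⁻¹) * A g := by rw [hA]
      _ = (A g⁻¹).transpose * M * (A g⁻¹ * A g) := by simp only [Matrix.mul_assoc]
      _ = (A g⁻¹).transpose * M := by rw [← hAmul, inv_mul_cancel, hAone, mul_one]
  have hAv : ∀ g (v : Fin n → ℂ), ρ g v = A g *ᵥ v := by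
    intro g v
    show ρ g v = (LinearMap.toMatrix' (ρ g)) *ᵥ v
    rw [LinearMap.toMatrix'_mulVec]
  -- `M` is injective
  have hMinj : ∀ v, M *ᵥ v = 0 → v = 0 := by
    let K : Submodule ℂ (Fin n → ℂ) := LinearMap.ker (Matrix.toLin' M)
    have hK : ∀ v, v ∈ K ↔ M *ᵥ v = 0 := fun v => by
      rw [LinearMap.mem_ker, Matrix.toLin'_apply]
    have hKinv : ∀ g, ∀ v ∈ K, ρ g v ∈ K := by
      intro g v hv
      rw [hK] at hv ⊢
      rw [hAv, Matrix.mulVec_mulVec, hMA, ← Matrix.mulVec_mulVec, hv, Matrix.mulVec_zero]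
    rcases ((isIrreducible_iff ρ).1 hρ).2 K hKinv with h | h
    · intro v hv
      have h1 : v ∈ K := (hK v).2 hv
      rw [h] at h1
      simpa using h1
    · exfalso
      apply hM0
      apply Matrix.toLin'.injective
      rw [map_zero]
      exact LinearMap.ker_eq_top.1 h
  -- the projection onto the fixed points
  let Pr : Matrix (Fin n) (Fin n) ℂ := (Nat.card H : ℂ)⁻¹ • ∑ h : H, A h
  have hH0 : (Nat.card H : ℂ) ≠ 0 := by exact_mod_cast Nat.card_pos.ne'
  have hAPr : ∀ k : H, A k * Pr = Pr := by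
    intro k
    simp only [Pr]
    rw [Matrix.mul_smul, Finset.mul_sum]
    congr 1
    simp only [← hAmul]
    exact Fintype.sum_equiv (Equiv.mulLeft k) _ _ fun x => rfl
  have hPrPr : Pr * Pr = Pr := by
    have h1 : Pr * Pr = (Nat.card H : ℂ)⁻¹ • ∑ h : H, (A h * Pr) := by
      nth_rewrite 1 [show Pr = (Nat.card H : ℂ)⁻¹ • ∑ h : H, A h from rfl]
      rw [Matrix.smul_mul, Finset.sum_mul]
    rw [h1]
    simp only [hAPr]
    rw [Finset.sum_const, Finset.card_univ, ← Nat.card_eq_fintype_card, ← Nat.cast_smul_eq_nsmul ℂ, smul_smul,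
      inv_mul_cancel₀ hH0, one_smul]
  let f : (Fin n → ℂ) →ₗ[ℂ] (Fin n → ℂ) := Matrix.toLin' Pr
  have hfapp : ∀ v, f v = Pr *ᵥ v := fun v => rfl
  have hidem : IsIdempotentElem f := by
    show f * f = f
    apply LinearMap.ext
    intro v
    show f (f v) = f v
    simp only [hfapp, Matrix.mulVec_mulVec, hPrPr]
  have hproj := LinearMap.IsIdempotentElem.isProj_range f hidem
  have htr : Matrix.trace Pr = (finrank ℂ (LinearMap.range f) : ℂ) := by
    rw [← hproj.trace, Matrix.trace_toLin'_eq]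
  have htr2 : Matrix.trace Pr = (Nat.card H : ℂ)⁻¹ * ∑ h : H, ρ.character h := by
    simp only [Pr]
    rw [Matrix.trace_smul, Matrix.trace_sum, smul_eq_mul]
    simp only [A, trace_matA]
  refine ⟨finrank ℂ (LinearMap.range f), by rw [← htr2, htr], ?_⟩
  -- self-adjointness
  have hPrT : Pr.transpose * M = M * Pr := by
    simp only [Pr]
    rw [Matrix.transpose_smul, Matrix.smul_mul, Matrix.mul_smul, Matrix.transpose_sum, Finset.sum_mul, Finset.mul_sum]
    congr 1
    refine Fintype.sum_equiv (Equiv.inv H) _ _ fun h => ?_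
    have h1 := hMA ((h : G)⁻¹)
    rw [inv_inv] at h1
    exact h1.symm
  -- the Gram matrix
  set r := finrank ℂ (LinearMap.range f) with hr
  let b : Basis (Fin r) ℂ (LinearMap.range f) := Module.finBasis ℂ (LinearMap.range f)
  let U : Matrix (Fin n) (Fin r) ℂ := Matrix.of fun i j => ((b j : LinearMap.range f) : Fin n → ℂ) i
  have hU : ∀ d : Fin r → ℂ, U *ᵥ d = ((∑ j, d j • b j : LinearMap.range f) : Fin n → ℂ) := by
    intro d
    funext i
    rw [Submodule.coe_sum, Finset.sum_apply]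
    simp only [Matrix.mulVec, dotProduct, U, Matrix.of_apply, Submodule.coe_smul]
    refine Finset.sum_congr rfl fun j _ => ?_
    show ((b j : LinearMap.range f) : Fin n → ℂ) i * d j = d j * ((b j : LinearMap.range f) : Fin n → ℂ) i
    ring
  let S : Matrix (Fin r) (Fin r) ℂ := U.transpose * M * U
  have hS : S.transpose = -S := by
    simp only [S]
    rw [Matrix.transpose_mul, Matrix.transpose_mul, Matrix.transpose_transpose, hMt]
    simp only [Matrix.mul_neg, Matrix.neg_mul, Matrix.mul_assoc]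
  by_contra hne
  have hodd : Odd r := Nat.not_even_iff_odd.1 hne
  have hdet : S.det = 0 := by
    have h1 := congrArg Matrix.det hS
    rw [Matrix.det_transpose, Matrix.det_neg, Fintype.card_fin, hodd.neg_one_pow] at h1
    have h2 : (2 : ℂ) * S.det = 0 := by linear_combination h1
    exact (mul_eq_zero.1 h2).resolve_left two_ne_zero
  obtain ⟨a, ha0, hSa⟩ := Matrix.exists_mulVec_eq_zero_iff.2 hdet
  let w' : LinearMap.range f := ∑ j, a j • b j
  let w : Fin n → ℂ := (w' : Fin n → ℂ)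
  have hw : U *ᵥ a = w := hU a
  have hPrw : Pr *ᵥ w = w := hproj.map_id _ w'.2
  have hMw : M *ᵥ w = 0 := by
    funext i
    have hv : ∀ v : Fin n → ℂ, v ⬝ᵥ (M *ᵥ w) = 0 := by
      intro v
      have h1 : v ⬝ᵥ (M *ᵥ w) = (Pr *ᵥ v) ⬝ᵥ (M *ᵥ w) := by
        nth_rewrite 1 [← hPrw]
        rw [Matrix.mulVec_mulVec, ← hPrT, ← Matrix.mulVec_mulVec, Matrix.dotProduct_mulVec, Matrix.vecMul_transpose]
      let d : Fin r → ℂ := b.repr ⟨Pr *ᵥ v, v, rfl⟩
      have h2 : Pr *ᵥ v = U *ᵥ d := by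
        rw [hU d]
        have h3 := b.sum_repr ⟨Pr *ᵥ v, v, rfl⟩
        exact (congrArg Subtype.val h3).symm
      rw [h1, h2, ← hw, Matrix.mulVec_mulVec]
      have h4 : (U *ᵥ d) ⬝ᵥ ((M * U) *ᵥ a) = d ⬝ᵥ (S *ᵥ a) := by
        simp only [S]
        rw [Matrix.mul_assoc, ← Matrix.mulVec_mulVec a U.transpose (M * U)]
        have h5 : d ⬝ᵥ (U.transpose *ᵥ ((M * U) *ᵥ a)) = (d ᵥ* U.transpose) ⬝ᵥ ((M * U) *ᵥ a) := Matrix.dotProduct_mulVec _ _ _
        rw [h5, Matrix.vecMul_transpose]
      rw [h4, hSa, dotProduct_zero]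
    have h1 := hv (Pi.single i 1)
    simpa using h1
  have hw0 : w = 0 := hMinj w hMw
  apply ha0
  have h5 : w' = 0 := Subtype.ext hw0
  funext j
  exact Fintype.linearIndependent_iff.1 b.linearIndependent a h5 j

/-- Function form. -/
theorem even_fixed' {χ : G → ℂ} (hχ : IsIrrCharacter G χ) (hreal : ∀ g : G, (χ g).im = 0)
    (hν : (Nat.card G : ℂ)⁻¹ * ∑ s : G, χ (s * s) = -1) (H : Subgroup G) [Fintype H] :
    ∃ c : ℕ, (Nat.card H : ℂ)⁻¹ * ∑ h : H, χ h = c ∧ Even c := by
  obtain ⟨n, ρ, hρ, rfl⟩ := hχ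
  exact even_fixed ρ hρ hreal hν H

end FS

section Main

variable {G : Type u} [Group G] [Fintype G]

theorem s4872_main (N : Subgroup G) [hN : N.Normal] [Fintype N] (h2 : IsPGroup 2 (G ⧸ N)) (φ : IrrCharacter N)
    (hdef : 2 ^ (Nat.card N).factorization 2 ∣ charDegree (φ : N → ℂ))
    (hconj : ∃ g : G, ∀ n n' : N, (n' : G) = g * (n : G) * g⁻¹ → (φ : N → ℂ) n' = conj ((φ : N → ℂ) n)) :
    ∃ χ : IrrCharacter G, (Nat.card G : ℂ)⁻¹ * ∑ g : G, (χ : G → ℂ) (g * g) = 1 ∧
      (Nat.card N : ℂ)⁻¹ * ∑ n : N, (χ : G → ℂ) n * conj ((φ : N → ℂ) n) = 1 := by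
  classical
  haveI : Fact (Nat.Prime 2) := ⟨Nat.prime_two⟩
  obtain ⟨P⟩ : Nonempty (Sylow 2 G) := inferInstance
  letI : Fintype (P : Subgroup G) := Fintype.ofFinite _
  obtain ⟨g₀, hg₀⟩ := hconj
  set B := (Nat.card N).factorization 2 with hB
  have hN0 : Nat.card N ≠ 0 := Nat.card_pos.ne'
  have hd : (φ : N → ℂ) 1 = (charDegree (φ : N → ℂ) : ℂ) := (coe_charDegree φ.2.isCharacter).symm
  have hd0 : charDegree (φ : N → ℂ) ≠ 0 := by
    intro h
    rw [h] at hd
    exact φ.2.map_one_ne_zero (by simpa using hd)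
  have hvan : ∀ y : N, 2 ∣ orderOf y → (φ : N → ℂ) y = 0 := fun y hy =>
    defect_zero_vanish φ.2 2 B Nat.prime_two _ hd hd0 (Nat.ordProj_dvd _ _)
      (Nat.pow_succ_factorization_not_dvd hN0 Nat.prime_two) hdef y hy
  choose m hm using fun χ : IrrCharacter G => (χ.2.isCharacter.restrict N).classInner_nat_of_char φ.2.isCharacter
  choose r hr using fun χ : IrrCharacter G => (χ.2.isCharacter.restrict (P : Subgroup G)).classInner_nat_of_char
    (isIrrCharacter_one (G := ↥(P : Subgroup G))).isCharacter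
  have hr' : ∀ χ : IrrCharacter G, (Nat.card (P : Subgroup G) : ℂ)⁻¹ * ∑ y : (P : Subgroup G), (χ : G → ℂ) y = r χ := by
    intro χ
    rw [← hr χ, classInner_def]
    simp
  -- the induced character vanishes on nontrivial `2`-elements
  have hψ : ∀ y : (P : Subgroup G), y ≠ 1 → indFun N (φ : N → ℂ) y = 0 := by
    intro y hy1
    rw [indFun_def]
    have h1 : ∑ x : G, extendByZero N (φ : N → ℂ) (x⁻¹ * (y : G) * x) = 0 := by
      refine Finset.sum_eq_zero fun x _ => ?_
      by_cases hx : x⁻¹ * (y : G) * x ∈ N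
      · rw [extendByZero_of_mem N _ hx]
        apply hvan
        obtain ⟨k, hk⟩ := (IsPGroup.iff_orderOf.1 P.isPGroup') y
        have h3 : orderOf ((⟨x⁻¹ * (y : G) * x, hx⟩ : N)) = orderOf y := by
          rw [Subgroup.orderOf_mk]
          have h4 : x⁻¹ * (y : G) * x = (MulAut.conj x⁻¹).toMonoidHom (y : G) := by simp [MulAut.conj_apply]
          rw [h4, orderOf_injective _ (MulAut.conj x⁻¹).injective, Subgroup.orderOf_coe]
        rw [h3, hk]
        rcases k with _ | k
        · exfalso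
          rw [pow_zero, orderOf_eq_one_iff] at hk
          exact hy1 hk
        · exact dvd_pow_self 2 (Nat.succ_ne_zero k)
      · exact extendByZero_of_not_mem N _ hx
    rw [h1, mul_zero]
  -- the sum
  have hsum : ((∑ χ : IrrCharacter G, m χ * r χ : ℕ) : ℂ) = (Nat.card (P : Subgroup G) : ℂ)⁻¹ * ((N.index : ℂ) * (charDegree (φ : N → ℂ) : ℂ)) := by
    have h1 : ∀ χ : IrrCharacter G, classInner (indFun N (φ : N → ℂ)) (χ : G → ℂ) = m χ := by
      intro χ
      have h3 := frobenius' N (φ : N → ℂ) χ.2.isClassFunction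
      rw [hm χ] at h3
      rw [← conj_classInner, h3, Complex.conj_natCast]
    have h2 : ∑ y : (P : Subgroup G), indFun N (φ : N → ℂ) y = indFun N (φ : N → ℂ) ((1 : (P : Subgroup G)) : G) := by
      rw [Finset.sum_eq_single (1 : (P : Subgroup G))]
      · intro y _ hy
        exact hψ y hy
      · intro h
        exact absurd (Finset.mem_univ _) h
    have h3 : ∀ y : (P : Subgroup G), indFun N (φ : N → ℂ) y = ∑ χ : IrrCharacter G, (m χ : ℂ) * (χ : G → ℂ) y := by
      intro y
      rw [classFunction_apply (indFun_isClass N (φ : N → ℂ)) (y : G)]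
      exact Finset.sum_congr rfl fun χ _ => by rw [h1]
    have h4 : (Nat.card (P : Subgroup G) : ℂ)⁻¹ * ∑ y : (P : Subgroup G), indFun N (φ : N → ℂ) y =
        ((∑ χ : IrrCharacter G, m χ * r χ : ℕ) : ℂ) := by
      simp only [h3]
      rw [Finset.sum_comm]
      push_cast
      rw [Finset.mul_sum]
      refine Finset.sum_congr rfl fun χ _ => ?_
      rw [← hr' χ, ← Finset.mul_sum]
      ring
    rw [← h4, h2, Subgroup.coe_one, indFun_one, hd]
  set a := ∑ χ : IrrCharacter G, m χ * r χ with ha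
  -- the sum is odd
  have haodd : Odd a := by
    obtain ⟨C, hC⟩ := IsPGroup.iff_card.1 h2
    have hidx : N.index = 2 ^ C := hC
    obtain ⟨d', hd'⟩ := hdef
    have hNeq := Nat.ordProj_mul_ordCompl_eq_self (Nat.card N) 2
    set mo := Nat.card N / 2 ^ (Nat.card N).factorization 2 with hmo
    have hmoodd : ¬ 2 ∣ mo := Nat.not_dvd_ordCompl Nat.prime_two hN0
    have hdvd : charDegree (φ : N → ℂ) ∣ Nat.card N := degree_dvd_card φ.2 hd
    have hd'mo : d' ∣ mo := by
      rw [hd', ← hNeq] at hdvd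
      exact Nat.dvd_of_mul_dvd_mul_left (by positivity) hdvd
    have hd'odd : Odd d' := by
      apply Nat.not_even_iff_odd.1
      intro h
      exact hmoodd ((even_iff_two_dvd.1 h).trans hd'mo)
    have hG : Nat.card G = 2 ^ (B + C) * mo := by
      rw [← Subgroup.card_mul_index N, hidx, ← hNeq, hB]
      ring
    have hmo0 : mo ≠ 0 := fun h => hmoodd (h ▸ dvd_zero 2)
    have hfac : (Nat.card G).factorization 2 = B + C := by
      rw [hG, Nat.factorization_mul (by positivity) hmo0]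
      simp [Nat.Prime.factorization_pow Nat.prime_two, Nat.factorization_eq_zero_of_not_dvd hmoodd]
    have hP : Nat.card (P : Subgroup G) = 2 ^ (B + C) := by
      rw [Sylow.card_eq_multiplicity, hfac]
    have h3 : a * 2 ^ (B + C) = 2 ^ C * (2 ^ B * d') := by
      have h4 : ((a * 2 ^ (B + C) : ℕ) : ℂ) = ((2 ^ C * (2 ^ B * d') : ℕ) : ℂ) := by
        have h5 : (Nat.card (P : Subgroup G) : ℂ) ≠ 0 := by exact_mod_cast Nat.card_pos.ne'
        have h6 : (a : ℂ) * (Nat.card (P : Subgroup G) : ℂ) = (N.index : ℂ) * (charDegree (φ : N → ℂ) : ℂ) := by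
          rw [hsum]
          field_simp
        rw [hP, hidx, hd'] at h6
        push_cast at h6 ⊢
        exact h6
      exact_mod_cast h4
    have h4 : a = d' := by
      have h5 : a * 2 ^ (B + C) = d' * 2 ^ (B + C) := by
        rw [h3]
        ring
      exact Nat.eq_of_mul_eq_mul_right (by positivity) h5
    rw [h4]
    exact hd'odd
  -- invariance under complex conjugation
  have hmconj : ∀ χ : IrrCharacter G, m (RB.conjI χ) = m χ := by
    intro χ
    have h1 := hm (RB.conjI χ)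
    have h2 : classInner (fun n : N => ((RB.conjI χ : IrrCharacter G) : G → ℂ) n) (φ : N → ℂ) = classInner (φ : N → ℂ) (fun n : N => (χ : G → ℂ) n) := by
      rw [classInner_def, classInner_def]
      congr 1
      let σ : N → N := fun n => ⟨g₀ * n * g₀⁻¹, hN.conj_mem _ n.2 g₀⟩
      have hσ : Function.Bijective σ := by
        apply Finite.injective_iff_bijective.1
        intro x y hxy
        apply Subtype.ext
        exact mul_left_cancel (mul_right_cancel (congrArg (fun z : N => (z : G)) hxy))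
      refine Fintype.sum_bijective σ hσ _ _ fun n => ?_
      have h3 : (φ : N → ℂ) (σ n) = conj ((φ : N → ℂ) n) := hg₀ n (σ n) rfl
      have h4 : (χ : G → ℂ) (σ n) = (χ : G → ℂ) n := χ.2.isClassFunction _ _
      rw [h3, h4]
      show conj ((χ : G → ℂ) n) * conj ((φ : N → ℂ) n) = _
      ring
    rw [h2, ← conj_classInner, hm χ, Complex.conj_natCast] at h1
    exact_mod_cast h1.symm
  have hrconj : ∀ χ : IrrCharacter G, r (RB.conjI χ) = r χ := by
    intro χ
    have h1 := classInner_conj_conj (fun y : (P : Subgroup G) => (χ : G → ℂ) y) (fun _ => (1 : ℂ))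
    have h2 : (fun _ : (P : Subgroup G) => conj (1 : ℂ)) = fun _ => 1 := by
      funext y
      simp
    rw [h2, hr χ, Complex.conj_natCast] at h1
    have h3 : (r (RB.conjI χ) : ℂ) = r χ := (hr (RB.conjI χ)).symm.trans h1
    exact_mod_cast h3
  -- choose a real character
  have hS : ∑ χ ∈ Finset.univ.filter (fun χ : IrrCharacter G => ¬ RB.conjI χ = χ), ((m χ * r χ : ℕ) : ZMod 2) = 0 := by
    refine Finset.sum_involution (fun χ _ => RB.conjI χ) ?_ ?_ ?_ ?_
    · intro χ _
      rw [hmconj, hrconj]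
      exact CharTwo.add_self_eq_zero _
    · intro χ hχ _
      exact (Finset.mem_filter.1 hχ).2
    · intro χ hχ
      rw [Finset.mem_filter]
      refine ⟨Finset.mem_univ _, ?_⟩
      rw [RB.conjI_conjI]
      exact fun h => (Finset.mem_filter.1 hχ).2 h.symm
    · intro χ _
      exact RB.conjI_conjI χ
  have hex : ∃ χ : IrrCharacter G, RB.conjI χ = χ ∧ Odd (m χ * r χ) := by
    by_contra hcon
    push Not at hcon
    apply Nat.not_even_iff_odd.2 haodd
    apply (ZMod.natCast_eq_zero_iff_even).1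
    rw [ha]
    push_cast
    rw [← Finset.sum_filter_add_sum_filter_not Finset.univ (fun χ : IrrCharacter G => RB.conjI χ = χ)]
    have h1 := hS
    push_cast at h1
    rw [h1, add_zero]
    refine Finset.sum_eq_zero fun χ hχ => ?_
    have h3 := hcon χ (Finset.mem_filter.1 hχ).2
    have h4 := (ZMod.natCast_eq_zero_iff_even).2 (Nat.not_odd_iff_even.1 h3)
    push_cast at h4
    exact h4
  obtain ⟨χ, hχreal, hχodd⟩ := hex
  obtain ⟨hmodd, hrodd⟩ := Nat.odd_mul.1 hχodd
  have him : ∀ g, ((χ : G → ℂ) g).im = 0 := by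
    intro g
    have h1 := congrFun (congrArg Subtype.val hχreal) g
    exact Complex.conj_eq_iff_im.1 h1
  have hν : (Nat.card G : ℂ)⁻¹ * ∑ g : G, (χ : G → ℂ) (g * g) = 1 := by
    obtain ⟨h1, h2'⟩ := fs_trichotomy χ.2
    rcases h1 with h | h | h
    · obtain ⟨s, hs⟩ := h2'.1 h
      exact absurd (him s) hs
    · exact h
    · exfalso
      obtain ⟨c, hc1, hc2⟩ := even_fixed' χ.2 him h (P : Subgroup G)
      rw [hr' χ] at hc1
      have hc3 : r χ = c := by exact_mod_cast hc1
      rw [hc3] at hrodd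
      exact Nat.not_even_iff_odd.2 hrodd hc2
  refine ⟨χ, hν, ?_⟩
  -- the multiplicity is one
  have hmχ := hm χ
  have hcon : classInner (fun n : N => (χ : G → ℂ) n) (φ : N → ℂ) ≠ 0 := by
    rw [hmχ]
    exact_mod_cast hmodd.pos.ne'
  have hc1 : (χ : G → ℂ) 1 = (charDegree (χ : G → ℂ) : ℂ) := (coe_charDegree χ.2.isCharacter).symm
  obtain ⟨h3, h4⟩ := CfsgLib.Char.degree_ratio_dvd_index N χ.2 φ.2 hcon _ _ hc1 hd
  have h5 := BL.deg_eq_mul_orbit N χ.2 φ.2 hcon hmχ
  have h6 : charDegree (χ : G → ℂ) = m χ * ((conjOrbit N (φ : N → ℂ)).card * charDegree (φ : N → ℂ)) := by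
    have h7 : ((charDegree (χ : G → ℂ) : ℕ) : ℂ) = ((m χ * ((conjOrbit N (φ : N → ℂ)).card * charDegree (φ : N → ℂ)) : ℕ) : ℂ) := by
      push_cast
      rw [← hc1, h5, hd]
    exact_mod_cast h7
  have h7 : charDegree (χ : G → ℂ) / charDegree (φ : N → ℂ) = m χ * (conjOrbit N (φ : N → ℂ)).card := by
    rw [h6, ← mul_assoc]
    exact Nat.mul_div_cancel _ (Nat.pos_of_ne_zero hd0)
  obtain ⟨C, hC⟩ := IsPGroup.iff_card.1 h2
  have hidx : N.index = 2 ^ C := hC
  rw [h7, hidx] at h4
  have h8 : m χ ∣ 2 ^ C := (Dvd.intro _ rfl).trans h4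
  have hm1 : m χ = 1 := Nat.Coprime.eq_one_of_dvd (Nat.Coprime.pow_right C (Nat.coprime_two_right.2 hmodd)) h8
  rw [← classInner_def, hmχ, hm1]
  simp

end Main

end CfsgLib.Char.DZ
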