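import Cfsg.Agent.Lib.Char.RealBlock
import Cfsg.Agent.Lib.Char.Extend2
import Cfsg.Agent.Lib.Char.GlaubCorr2
import Cfsg.Agent.Lib.Char.BlkCount
import Cfsg.Agent.Lib.Char.UniqueSing
import Cfsg.Agent.Lib.Block.FongThm
import Cfsg.Agent.Lib.SS.Sub2

/-!
# Sylow `2`-subgroups with elementary abelian commutator quotient
-/

universe u

set_option linter.unusedVariables false
set_option linter.unusedSectionVars false

open Cfsg CfsgLib.Block CfsgLib.Char
open scoped ComplexConjugate commutatorElement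

namespace CfsgLib.Char.EA

section A

variable {G : Type u} [Group G] [Fintype G]

theorem hom_pow_card {N : Type u} [Group N] [Finite N] (l : N →* ℂˣ) (n : N) : (l n) ^ Nat.card (Abelianization N) = 1 := by
  have h1 : (Abelianization.of n) ^ Nat.card (Abelianization N) = 1 := pow_card_eq_one'
  have h2 := congrArg (Abelianization.lift l) h1
  rwa [map_pow, map_one, Abelianization.lift_apply_of] at h2

theorem exists_real_extension (N : Subgroup G) [hN : N.Normal] [Fintype N] (P : Subgroup G) [Fintype P]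
    (hP2 : IsPGroup 2 P) (hodd : Odd (Nat.card (Abelianization N))) (θ : IrrCharacter N)
    (hreal : ∀ n, conj ((θ : N → ℂ) n) = (θ : N → ℂ) n) (hdeg : Odd (charDegree (θ : N → ℂ)))
    (hinv : ∀ y ∈ P, ∀ n : N, (θ : N → ℂ) ⟨y * n * y⁻¹, hN.conj_mem n n.2 y⟩ = (θ : N → ℂ) n) :
    ∃ ρ : P → ℂ, IsCharacter P ρ ∧ (∀ y, conj (ρ y) = ρ y) ∧
      ∀ (y : P) (hy : (y : G) ∈ N), ρ y = (θ : N → ℂ) ⟨y, hy⟩ := by
  classical
  set X : Subgroup G := N ⊔ P with hX
  have hNX : N ≤ X := le_sup_left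
  have hPX : P ≤ X := le_sup_right
  letI : Fintype X := Fintype.ofFinite _
  let N₁ : Subgroup X := N.subgroupOf X
  haveI hN₁ : N₁.Normal := hN.subgroupOf X
  letI : Fintype N₁ := Fintype.ofFinite _
  let e : N₁ ≃* N := Subgroup.subgroupOfEquivOfLe hNX
  let θ₁ : N₁ → ℂ := fun n => (θ : N → ℂ) (e n)
  have hθ₁ : IsIrrCharacter N₁ θ₁ := θ.2.comp_surjective e.toMonoidHom e.surjective
  have hinv₁ : ∀ (g : X) (n : N₁), θ₁ ⟨g * n * g⁻¹, hN₁.conj_mem (n : X) n.2 g⟩ = θ₁ n := by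
    intro g n
    have hg : (g : G) ∈ N ⊔ P := g.2
    rw [← SetLike.mem_coe, Subgroup.normal_mul, Set.mem_mul] at hg
    obtain ⟨n', hn', y, hy, hgeq⟩ := hg
    have hnN : ((n : X) : G) ∈ N := n.2
    have h1 := θ.2.isClassFunction ⟨y * ((n : X) : G) * y⁻¹, hN.conj_mem _ hnN y⟩ ⟨n', hn'⟩
    have h2 := hinv y hy ⟨((n : X) : G), hnN⟩
    calc θ₁ ⟨g * n * g⁻¹, hN₁.conj_mem (n : X) n.2 g⟩
        = (θ : N → ℂ) (⟨n', hn'⟩ * ⟨y * ((n : X) : G) * y⁻¹, hN.conj_mem _ hnN y⟩ * (⟨n', hn'⟩ : N)⁻¹) := by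
          refine congrArg (θ : N → ℂ) (Subtype.ext ?_)
          show (g : G) * ((n : X) : G) * (g : G)⁻¹ = n' * (y * ((n : X) : G) * y⁻¹) * n'⁻¹
          rw [← hgeq]
          group
      _ = (θ : N → ℂ) ⟨((n : X) : G), hnN⟩ := by rw [h1, h2]
      _ = θ₁ n := rfl
  have hd : θ₁ 1 = (charDegree (θ : N → ℂ) : ℂ) := by
    rw [coe_charDegree θ.2.isCharacter]
    show (θ : N → ℂ) (e 1) = _
    rw [map_one]
  obtain ⟨k, hk⟩ := IsPGroup.iff_card.1 hP2
  have hidx : N₁.index ∣ 2 ^ k := by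
    have h1 : N₁.index = N.relIndex X := rfl
    rw [h1, hX, Subgroup.relIndex_sup_left, ← hk]
    exact Subgroup.relIndex_dvd_card _ _
  have hdetO : detOrder θ₁ ∣ Nat.card (Abelianization N) := by
    apply orderOf_dvd_of_pow_eq_one
    rcases id hθ₁ with ⟨k', ρ, hρ, h9⟩
    rw [show θ₁ = ρ.character from h9.symm]
    funext g
    rw [Pi.pow_apply, detChar_character ρ]
    let l : N →* ℂˣ := (detHom ρ).comp e.symm.toMonoidHom
    have h2 := hom_pow_card l (e g)
    have h3 : l (e g) = detHom ρ g := by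
      show detHom ρ (e.symm (e g)) = _
      rw [e.symm_apply_apply]
    rw [h3] at h2
    have h4 := congrArg (fun u : ℂˣ => (u : ℂ)) h2
    simp only [Units.val_pow_eq_pow_val, Units.val_one, detHom_apply] at h4
    exact h4
  have hOdd1 : Odd (detOrder θ₁) := Odd.of_dvd_nat hodd hdetO
  have hcop2 : ∀ m : ℕ, Odd m → Nat.Coprime N₁.index m := fun m hm =>
    Nat.Coprime.coprime_dvd_left hidx (Nat.Coprime.pow_left k (Nat.coprime_two_left.2 hm))
  obtain ⟨χ, ⟨hχ, hres, hdet⟩, huniq⟩ := exists_unique_extension_of_coprime (N := N₁) θ₁ hθ₁ hinv₁ _ hd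
    (hcop2 _ (hOdd1.mul hdeg))
  -- the complex conjugate is again such an extension
  let χ' : X → ℂ := fun g => conj (χ g)
  have hχ' : IsIrrCharacter X χ' := hχ.conj
  have hres' : ∀ n : N₁, χ' n = θ₁ n := by
    intro n
    show conj (χ n) = _
    rw [hres n]
    exact hreal _
  have hm : (Nat.card X - 1).Coprime (Nat.card X) := by
    have h1 : 0 < Nat.card X := Nat.card_pos
    obtain ⟨c, hc⟩ : ∃ c, Nat.card X = c + 1 := ⟨Nat.card X - 1, by omega⟩
    rw [hc]
    simp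
  have hpow : χ' = fun x => χ (x ^ (Nat.card X - 1)) := by
    funext x
    have h1 : x ^ (Nat.card X - 1) = x⁻¹ := by
      have h2 : x ^ (Nat.card X - 1) * x = 1 := by
        rw [← pow_succ, Nat.sub_add_cancel Nat.card_pos]
        exact pow_card_eq_one'
      exact eq_inv_of_mul_eq_one_left h2
    rw [h1, hχ.map_inv]
  have hcop' : Nat.Coprime N₁.index (detOrder χ') := by
    rw [hpow]
    apply hcop2
    have h1 := detOrder_powFun_dvd hχ.isCharacter hm
    exact Odd.of_dvd_nat (by rw [hdet]; exact hOdd1) h1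
  have hconj : χ' = χ := huniq χ' hχ' hres' hcop'
  refine ⟨fun y => χ ⟨y, hPX y.2⟩, hχ.isCharacter.comp (Subgroup.inclusion hPX), fun y => congrFun hconj _, ?_⟩
  intro y hy
  have h1 := hres ⟨⟨y, hPX y.2⟩, hy⟩
  exact h1

end A

section B

variable {G : Type u} [Group G] [Fintype G]

theorem exists_good_theta (N : Subgroup G) [hN : N.Normal] [Fintype N] (P : Subgroup G) [Fintype P]
    (hP2 : IsPGroup 2 P) (Qh : Subgroup N) [Fintype Qh] (hidx : Odd Qh.index) (ν : Qh → ℂ) (hν : IsIrrCharacter Qh ν)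
    (hν1 : ν 1 = 1) (hνr : ∀ q, conj (ν q) = ν q)
    (hQn : ∀ y ∈ P, ∀ q : Qh, (⟨y * (q : N) * y⁻¹, hN.conj_mem _ (q : N).2 y⟩ : N) ∈ Qh)
    (hQinv : ∀ y (hy : y ∈ P) (q : Qh), ν ⟨⟨y * (q : N) * y⁻¹, hN.conj_mem _ (q : N).2 y⟩, hQn y hy q⟩ = ν q) :
    ∃ θ : IrrCharacter N, (∀ n, conj ((θ : N → ℂ) n) = (θ : N → ℂ) n) ∧ Odd (charDegree (θ : N → ℂ)) ∧
      (∀ y ∈ P, ∀ n : N, (θ : N → ℂ) ⟨y * n * y⁻¹, hN.conj_mem n n.2 y⟩ = (θ : N → ℂ) n) ∧
      ∃ a : ℕ, Odd a ∧ classInner (fun q : Qh => (θ : N → ℂ) q) ν = a := by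
  classical
  obtain ⟨M, hM⟩ := exists_isPModular 2 Nat.prime_two
  haveI : Fact (Nat.Prime 2) := ⟨Nat.prime_two⟩
  have hP := hM.isPrime
  choose a ha using fun θ : IrrCharacter N => (θ.2.isCharacter.restrict Qh).classInner_nat_of_char hν.isCharacter
  let W : IrrCharacter N → ℕ := fun θ => a θ * charDegree (θ : N → ℂ)
  -- the total
  have hsum : ∑ θ, W θ = Qh.index := by
    have h1 := classFunction_apply (indFun_isClass Qh ν) (1 : N)
    have h2 : ((∑ θ, W θ : ℕ) : ℂ) = (Qh.index : ℂ) := by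
      have h3 : (Qh.index : ℂ) = indFun Qh ν 1 := by
        rw [indFun_one, hν1, mul_one]
      rw [h3, h1]
      push_cast
      refine Finset.sum_congr rfl fun θ _ => ?_
      have h4 := frobenius' Qh ν θ.2.isClassFunction
      rw [ha θ] at h4
      have h5 : classInner (indFun Qh ν) (θ : N → ℂ) = a θ := by
        rw [← conj_classInner, h4, Complex.conj_natCast]
      show ((a θ * charDegree (θ : N → ℂ) : ℕ) : ℂ) = _
      push_cast
      rw [h5, coe_charDegree θ.2.isCharacter]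
    exact_mod_cast h2
  -- invariance of the weight
  have haconj : ∀ θ : IrrCharacter N, a (RB.conjI θ) = a θ := by
    intro θ
    have h1 := classInner_conj_conj (fun q : Qh => (θ : N → ℂ) q) ν
    have h2 : (fun q : Qh => conj (ν q)) = ν := funext hνr
    rw [h2, ha θ, Complex.conj_natCast] at h1
    have h3 := ha (RB.conjI θ)
    have h4 : (a (RB.conjI θ) : ℂ) = a θ := h3.symm.trans h1
    exact_mod_cast h4
  have hdconj : ∀ θ : IrrCharacter N, charDegree ((RB.conjI θ : IrrCharacter N) : N → ℂ) = charDegree (θ : N → ℂ) := by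
    intro θ
    apply charDegree_eq_of_one
    show conj ((θ : N → ℂ) 1) = _
    rw [← coe_charDegree θ.2.isCharacter, Complex.conj_natCast]
  have hWconj : ∀ θ, W (RB.conjI θ) = W θ := fun θ => by
    show a (RB.conjI θ) * charDegree ((RB.conjI θ : IrrCharacter N) : N → ℂ) = a θ * charDegree (θ : N → ℂ)
    rw [haconj, hdconj]
  -- the nonreal characters pair off
  have hS : ∑ θ ∈ Finset.univ.filter (fun θ : IrrCharacter N => ¬ RB.conjI θ = θ), ((W θ : ℕ) : ZMod 2) = 0 := by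
    refine Finset.sum_involution (fun θ _ => RB.conjI θ) ?_ ?_ ?_ ?_
    · intro θ _
      rw [hWconj]
      exact CharTwo.add_self_eq_zero _
    · intro θ hθ _
      exact (Finset.mem_filter.1 hθ).2
    · intro θ hθ
      rw [Finset.mem_filter]
      refine ⟨Finset.mem_univ _, ?_⟩
      rw [RB.conjI_conjI]
      exact fun h => (Finset.mem_filter.1 hθ).2 h.symm
    · intro θ _
      exact RB.conjI_conjI θ
  let W₂ : IrrCharacter N → ℕ := fun θ => if RB.conjI θ = θ then W θ else 0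
  have hW₂odd : Odd (∑ θ, W₂ θ) := by
    have h1 : ((∑ θ, W₂ θ : ℕ) : ZMod 2) = ((∑ θ, W θ : ℕ) : ZMod 2) := by
      push_cast
      rw [← Finset.sum_filter_add_sum_filter_not Finset.univ (fun θ : IrrCharacter N => RB.conjI θ = θ) (fun θ => ((W θ : ℕ) : ZMod 2)), hS, add_zero,
        ← Finset.sum_filter_add_sum_filter_not Finset.univ (fun θ : IrrCharacter N => RB.conjI θ = θ) (fun θ => ((W₂ θ : ℕ) : ZMod 2))]
      have h2 : ∑ θ ∈ Finset.univ.filter (fun θ : IrrCharacter N => ¬ RB.conjI θ = θ), ((W₂ θ : ℕ) : ZMod 2) = 0 := by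
        refine Finset.sum_eq_zero fun θ hθ => ?_
        simp only [W₂]
        rw [if_neg (Finset.mem_filter.1 hθ).2]
        rfl
      rw [h2, add_zero]
      refine Finset.sum_congr rfl fun θ hθ => ?_
      simp only [W₂]
      rw [if_pos (Finset.mem_filter.1 hθ).2]
    rw [hsum] at h1
    have h2 : ((Qh.index : ℕ) : ZMod 2) = 1 := (ZMod.natCast_eq_one_iff_odd).2 hidx
    rw [h2] at h1
    exact (ZMod.natCast_eq_one_iff_odd).1 h1
  -- invariance under conjugation by `P`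
  have haP : ∀ (g : G) (hg : g ∈ P) (θ : IrrCharacter N), a (CfsgLib.Block.conjIrr N g θ) = a θ := by
    intro g hg θ
    have h1 := ha (CfsgLib.Block.conjIrr N g θ)
    have h2 := ha θ
    have h3 : classInner (fun q : Qh => ((CfsgLib.Block.conjIrr N g θ : IrrCharacter N) : N → ℂ) q) ν =
        classInner (fun q : Qh => (θ : N → ℂ) q) ν := by
      rw [classInner_def, classInner_def]
      congr 1
      let σ : Qh → Qh := fun q => ⟨⟨g * (q : N) * g⁻¹, hN.conj_mem _ (q : N).2 g⟩, hQn g hg q⟩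
      have hσ : Function.Bijective σ := by
        apply Finite.injective_iff_bijective.1
        intro x y hxy
        have h4 : g * ((x : N) : G) * g⁻¹ = g * ((y : N) : G) * g⁻¹ :=
          congrArg (fun z : Qh => ((z : N) : G)) hxy
        apply Subtype.ext
        apply Subtype.ext
        exact mul_left_cancel (mul_right_cancel h4)
      refine Fintype.sum_bijective σ hσ _ _ fun q => ?_
      rw [← hQinv g hg q]
      rfl
    rw [h1, h2] at h3
    exact_mod_cast h3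
  have hdP : ∀ (g : G) (θ : IrrCharacter N), charDegree ((CfsgLib.Block.conjIrr N g θ : IrrCharacter N) : N → ℂ) = charDegree (θ : N → ℂ) := by
    intro g θ
    apply charDegree_eq_of_one
    exact conjOn_map_one N g _
  have hrP : ∀ (g : G) (θ : IrrCharacter N), RB.conjI (CfsgLib.Block.conjIrr N g θ) = CfsgLib.Block.conjIrr N g θ ↔ RB.conjI θ = θ := by
    intro g θ
    constructor
    · intro h
      apply Subtype.ext
      funext m
      have h1 := congrFun (congrArg Subtype.val h) ⟨g⁻¹ * (m : G) * g, by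
        have := hN.conj_mem _ m.2 g⁻¹
        rwa [inv_inv] at this⟩
      have h2 : (⟨g * (g⁻¹ * (m : G) * g) * g⁻¹, hN.conj_mem _ (by
        have := hN.conj_mem _ m.2 g⁻¹
        rwa [inv_inv] at this) g⟩ : N) = m := by
        apply Subtype.ext
        show g * (g⁻¹ * (m : G) * g) * g⁻¹ = m
        group
      show conj ((θ : N → ℂ) m) = (θ : N → ℂ) m
      have h3 : conj ((θ : N → ℂ) ⟨g * (g⁻¹ * (m : G) * g) * g⁻¹, _⟩) = (θ : N → ℂ) ⟨g * (g⁻¹ * (m : G) * g) * g⁻¹, _⟩ := h1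
      rwa [h2] at h3
    · intro h
      apply Subtype.ext
      funext m
      exact congrFun (congrArg Subtype.val h) _
  letI act : MulAction G (IrrCharacter N) := BL.irrAct N
  have hact : ∀ (c : P) (θ : IrrCharacter N), c • θ = CfsgLib.Block.conjIrr N (c : G)⁻¹ θ := fun _ _ => rfl
  have hW₂P : ∀ (c : P) (θ : IrrCharacter N), ((W₂ (c • θ) : ℕ) : ℂ) = ((W₂ θ : ℕ) : ℂ) := by
    intro c θ
    rw [hact]
    simp only [W₂, hrP]
    by_cases h : RB.conjI θ = θ
    · rw [if_pos h, if_pos h]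
      show ((a (CfsgLib.Block.conjIrr N (c : G)⁻¹ θ) * charDegree ((CfsgLib.Block.conjIrr N (c : G)⁻¹ θ : IrrCharacter N) : N → ℂ) : ℕ) : ℂ) =
        ((a θ * charDegree (θ : N → ℂ) : ℕ) : ℂ)
      rw [haP _ (P.inv_mem c.2), hdP]
    · rw [if_neg h, if_neg h]
  have hs : ∑ θ, ((W₂ θ : ℕ) : ℂ) ∉ locI hP := by
    have h1 : ∑ θ, ((W₂ θ : ℕ) : ℂ) = ((∑ θ, W₂ θ : ℕ) : ℂ) := by push_cast; rfl
    rw [h1, natCast_mem_locI_iff hM]
    intro h
    exact (Nat.not_even_iff_odd.2 hW₂odd) (even_iff_two_dvd.2 h)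
  obtain ⟨θ, hfix, hθW⟩ := exists_fixed_of_sum_act hM hP2 (fun θ => ((W₂ θ : ℕ) : ℂ)) hW₂P
    (fun θ => natCast_mem _ _) hs
  have hθ1 : W₂ θ ≠ 0 := by
    intro h
    apply hθW
    simp only [h]
    simpa using (locI hP).zero_mem
  have hθr : RB.conjI θ = θ := by
    by_contra h
    apply hθ1
    simp only [W₂]
    rw [if_neg h]
  have hθodd : Odd (W θ) := by
    have h1 : W₂ θ = W θ := by
      simp only [W₂]
      rw [if_pos hθr]
    rw [← h1]
    by_contra h
    apply hθW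
    rw [natCast_mem_locI_iff hM]
    exact even_iff_two_dvd.1 (Nat.not_odd_iff_even.1 h)
  obtain ⟨h1, h2⟩ := Nat.odd_mul.1 hθodd
  refine ⟨θ, fun n => congrFun (congrArg Subtype.val hθr) n, h2, ?_, a θ, h1, ha θ⟩
  intro y hy n
  have h3 : CfsgLib.Block.conjIrr N ((⟨y⁻¹, P.inv_mem hy⟩ : P) : G)⁻¹ θ = θ := hfix ⟨y⁻¹, P.inv_mem hy⟩
  have h4 : CfsgLib.Block.conjIrr N y θ = θ := by
    have h5 : ((⟨y⁻¹, P.inv_mem hy⟩ : P) : G)⁻¹ = y := inv_inv y
    rwa [h5] at h3
  exact congrFun (congrArg Subtype.val h4) n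

end B

section Main

variable {G : Type u} [Group G] [Fintype G]

theorem s4582_main (N : Subgroup G) [hN : N.Normal] [Fintype N] (P : Sylow 2 G)
    (hP : ∀ x ∈ (P : Subgroup G), x ^ 2 ∈ ((P : Subgroup G) ⊓ N) ⊔ ⁅(P : Subgroup G), (P : Subgroup G)⁆)
    (hQ : ∀ x ∈ (P : Subgroup G) ⊓ N, x ^ 2 ∈ ⁅(P : Subgroup G) ⊓ N, (P : Subgroup G) ⊓ N⁆)
    (hodd : Odd (Nat.card (Abelianization N))) :
    ∀ x ∈ (P : Subgroup G), x ^ 2 ∈ ⁅(P : Subgroup G), (P : Subgroup G)⁆ := by
  classical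
  intro x hx
  by_contra hne
  letI : Fintype (P : Subgroup G) := Fintype.ofFinite _
  haveI : Fact (Nat.Prime 2) := ⟨Nat.prime_two⟩
  let PP := ↥(P : Subgroup G)
  let xt : PP := ⟨x, hx⟩
  have h0 : xt ^ 2 ∉ _root_.commutator PP := by
    intro h
    apply hne
    have h1 := Subgroup.mem_map_of_mem (P : Subgroup G).subtype h
    rw [Subgroup.map_subtype_commutator] at h1
    exact h1
  obtain ⟨lam, hlam⟩ := exists_hom_ne_of_not_mem_commutator h0
  have hker : ∀ l : PP →* ℂˣ, ⁅(P : Subgroup G), (P : Subgroup G)⁆ ≤ l.ker.map (P : Subgroup G).subtype := by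
    intro l
    rw [← Subgroup.map_subtype_commutator]
    exact Subgroup.map_mono (Abelianization.commutator_subset_ker l)
  have hkermem : ∀ (K : Subgroup PP) {y : PP}, (y : G) ∈ K.map (P : Subgroup G).subtype → y ∈ K := by
    intro K y hy
    obtain ⟨z, hz, hzy⟩ := hy
    have : z = y := Subtype.ext hzy
    rwa [← this]
  -- the character on `Q`
  have hlam2 : ∀ (q : PP), (q : G) ∈ N → (lam q) ^ 2 = 1 := by
    intro q hq
    have h1 := hQ q ⟨q.2, hq⟩
    have h2 : ⁅(P : Subgroup G) ⊓ N, (P : Subgroup G) ⊓ N⁆ ≤ ⁅(P : Subgroup G), (P : Subgroup G)⁆ :=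
      Subgroup.commutator_mono inf_le_left inf_le_left
    have h3 : ((q ^ 2 : PP) : G) ∈ lam.ker.map (P : Subgroup G).subtype := hker lam (h2 h1)
    have h4 := hkermem _ h3
    rw [MonoidHom.mem_ker, map_pow] at h4
    exact h4
  have hlamreal : ∀ (q : PP), (q : G) ∈ N → conj ((lam q : ℂˣ) : ℂ) = ((lam q : ℂˣ) : ℂ) := by
    intro q hq
    have h1 : (((lam q : ℂˣ) : ℂ)) ^ 2 = 1 := by
      have := congrArg (fun u : ℂˣ => (u : ℂ)) (hlam2 q hq)
      simpa using this
    have h1' : ((lam q : ℂˣ) : ℂ) * ((lam q : ℂˣ) : ℂ) = 1 := by rw [← sq]; exact h1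
    rcases mul_self_eq_one_iff.1 h1' with h2 | h2 <;> rw [h2] <;> simp
  -- the subgroups
  let Q₁ : Subgroup PP := N.subgroupOf (P : Subgroup G)
  haveI hQ₁ : Q₁.Normal := hN.subgroupOf _
  letI : Fintype Q₁ := Fintype.ofFinite _
  let Qh : Subgroup N := (P : Subgroup G).subgroupOf N
  letI : Fintype Qh := Fintype.ofFinite _
  let i : Qh →* PP := MonoidHom.mk' (fun q => ⟨((q : N) : G), Subgroup.mem_subgroupOf.1 q.2⟩) (fun a b => rfl)
  let νh : Qh → ℂ := fun q => ((lam (i q) : ℂˣ) : ℂ)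
  have hνh : IsIrrCharacter Qh νh := isIrr_of_hom (lam.comp i)
  let ν₁ : Q₁ → ℂ := fun q => ((lam (q : PP) : ℂˣ) : ℂ)
  have hν₁ : IsIrrCharacter Q₁ ν₁ := isIrr_of_hom (lam.comp Q₁.subtype)
  have hidx : Odd Qh.index := by
    obtain ⟨Q', hQ'⟩ := CfsgLib.SS.exists_sylow_subgroupOf P hN.isSubnormal
    have h1 := Q'.not_dvd_index
    rw [hQ'] at h1
    exact Nat.not_even_iff_odd.1 (fun h => h1 (even_iff_two_dvd.1 h))
  have hQn : ∀ y ∈ (P : Subgroup G), ∀ q : Qh, (⟨y * (q : N) * y⁻¹, hN.conj_mem _ (q : N).2 y⟩ : N) ∈ Qh := by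
    intro y hy q
    rw [Subgroup.mem_subgroupOf]
    exact (P : Subgroup G).mul_mem ((P : Subgroup G).mul_mem hy (Subgroup.mem_subgroupOf.1 q.2)) ((P : Subgroup G).inv_mem hy)
  have hQinv : ∀ y (hy : y ∈ (P : Subgroup G)) (q : Qh), νh ⟨⟨y * (q : N) * y⁻¹, hN.conj_mem _ (q : N).2 y⟩, hQn y hy q⟩ = νh q := by
    intro y hy q
    have h1 : i ⟨⟨y * (q : N) * y⁻¹, hN.conj_mem _ (q : N).2 y⟩, hQn y hy q⟩ = (⟨y, hy⟩ : PP) * i q * (⟨y, hy⟩ : PP)⁻¹ := Subtype.ext rfl
    show ((lam (i _) : ℂˣ) : ℂ) = _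
    rw [h1, map_mul, map_mul, map_inv, mul_inv_cancel_comm]
  have hν1 : νh 1 = 1 := by
    show ((lam (i 1) : ℂˣ) : ℂ) = 1
    rw [map_one, map_one]
    rfl
  have hνr : ∀ q, conj (νh q) = νh q := fun q => hlamreal (i q) (q : N).2
  obtain ⟨θ, hr, hd, hi, a, haodd, ha⟩ := exists_good_theta N (P : Subgroup G) P.isPGroup' Qh hidx νh hνh hν1 hνr hQn hQinv
  obtain ⟨ρ, hρ, hρr, hρv⟩ := exists_real_extension N (P : Subgroup G) P.isPGroup' hodd θ hr hd hi
  -- transfer to `Q₁`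
  let fq : Q₁ → Qh := fun q => ⟨⟨((q : PP) : G), q.2⟩, Subgroup.mem_subgroupOf.2 (q : PP).2⟩
  have hfq : Function.Bijective fq := by
    constructor
    · intro x y hxy
      apply Subtype.ext
      apply Subtype.ext
      exact congrArg (fun z : Qh => ((z : N) : G)) hxy
    · intro y
      exact ⟨⟨⟨((y : N) : G), Subgroup.mem_subgroupOf.1 y.2⟩, (y : N).2⟩, rfl⟩
  have hiso : classInner (fun q : Q₁ => ρ q) ν₁ = (a : ℂ) := by
    rw [← ha, classInner_def, classInner_def, Nat.card_congr (Equiv.ofBijective fq hfq)]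
    congr 1
    refine Fintype.sum_bijective fq hfq _ _ fun q => ?_
    rw [hρv (q : PP) q.2]
    rfl
  -- decompose the restriction
  have hexp : ρ = ∑ μ : IrrCharacter PP, classInner ρ (μ : PP → ℂ) • (μ : PP → ℂ) := hρ.eq_sum_classInner
  have hres : (fun q : Q₁ => ρ q) = ∑ μ : IrrCharacter PP, classInner ρ (μ : PP → ℂ) • (fun q : Q₁ => (μ : PP → ℂ) q) := by
    funext q
    have h1 := congrFun hexp (q : PP)
    simpa [Finset.sum_apply, Pi.smul_apply] using h1
  choose b hb using fun μ : IrrCharacter PP => hρ.classInner_nat_of_char μ.2.isCharacter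
  choose c hc using fun μ : IrrCharacter PP => (μ.2.isCharacter.restrict Q₁).classInner_nat_of_char hν₁.isCharacter
  have htotal : a = ∑ μ : IrrCharacter PP, b μ * c μ := by
    have h1 : ((a : ℕ) : ℂ) = ((∑ μ : IrrCharacter PP, b μ * c μ : ℕ) : ℂ) := by
      rw [← hiso, hres, classInner_sum_left]
      push_cast
      refine Finset.sum_congr rfl fun μ _ => ?_
      rw [classInner_smul_left, hb μ, hc μ]
    exact_mod_cast h1
  have hbconj : ∀ μ : IrrCharacter PP, b (RB.conjI μ) = b μ := by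
    intro μ
    have h1 := classInner_conj_conj ρ (μ : PP → ℂ)
    have h2 : (fun g => conj (ρ g)) = ρ := funext hρr
    rw [h2, hb μ, Complex.conj_natCast] at h1
    have h3 : (b (RB.conjI μ) : ℂ) = b μ := (hb (RB.conjI μ)).symm.trans h1
    exact_mod_cast h3
  have hcconj : ∀ μ : IrrCharacter PP, c (RB.conjI μ) = c μ := by
    intro μ
    have h1 := classInner_conj_conj (fun q : Q₁ => (μ : PP → ℂ) q) ν₁
    have h2 : (fun q : Q₁ => conj (ν₁ q)) = ν₁ := funext fun q => hlamreal (q : PP) q.2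
    rw [h2, hc μ, Complex.conj_natCast] at h1
    have h3 : (c (RB.conjI μ) : ℂ) = c μ := (hc (RB.conjI μ)).symm.trans h1
    exact_mod_cast h3
  have hinvν : ∀ g : PP, conjOn Q₁ g ν₁ = ν₁ := by
    intro g
    funext q
    show ((lam (g * (q : PP) * g⁻¹) : ℂˣ) : ℂ) = ((lam (q : PP) : ℂˣ) : ℂ)
    rw [map_mul, map_mul, map_inv, mul_inv_cancel_comm]
  -- a character with odd multiplicity is not real
  have hnotreal : ∀ μ : IrrCharacter PP, Odd (c μ) → RB.conjI μ ≠ μ := by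
    intro μ hcodd hreal
    have hcne : classInner (fun q : Q₁ => (μ : PP → ℂ) q) ν₁ ≠ 0 := by
      rw [hc μ]
      exact_mod_cast hcodd.pos.ne'
    have hcl := clifford_invariant Q₁ μ.2 hν₁ hinvν hcne
    rw [hc μ] at hcl
    have hμ1 : (μ : PP → ℂ) 1 = (c μ : ℂ) := by
      have h1 := congrFun hcl (1 : Q₁)
      have h2 : ν₁ 1 = 1 := by
        show ((lam ((1 : Q₁) : PP) : ℂˣ) : ℂ) = 1
        rw [Subgroup.coe_one, map_one]
        rfl
      simpa [h2] using h1
    have hdvd := degree_dvd_card μ.2 hμ1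
    obtain ⟨k, hk⟩ := IsPGroup.iff_card.1 P.isPGroup'
    have hc1 : c μ = 1 := by
      have h1 : c μ ∣ 2 ^ k := by
        have h2 : Nat.card PP = 2 ^ k := hk
        rwa [h2] at hdvd
      exact Nat.Coprime.eq_one_of_dvd (Nat.Coprime.pow_right k (Nat.coprime_two_right.2 hcodd)) h1
    have hμ11 : (μ : PP → ℂ) 1 = 1 := by rw [hμ1, hc1]; simp
    obtain ⟨l, hl⟩ := exists_hom_of_degree_one μ.2.isCharacter hμ11
    have hlQ : ∀ q : Q₁, l (q : PP) = lam (q : PP) := by
      intro q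
      apply Units.ext
      have h1 := congrFun hcl q
      rw [hc1] at h1
      rw [hl] at h1
      simpa using h1
    -- the squares agree
    have hsq : l (xt ^ 2) = lam (xt ^ 2) := by
      let K : Subgroup PP := (l * lam⁻¹).ker
      have h1 : (P : Subgroup G) ⊓ N ≤ K.map (P : Subgroup G).subtype := by
        rintro y ⟨hy1, hy2⟩
        refine ⟨⟨y, hy1⟩, (MonoidHom.mem_ker).2 ?_, rfl⟩
        have h3 := hlQ ⟨⟨y, hy1⟩, hy2⟩
        show l ⟨y, hy1⟩ * (lam ⟨y, hy1⟩)⁻¹ = 1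
        have h4 : l ⟨y, hy1⟩ = lam ⟨y, hy1⟩ := h3
        rw [h4, mul_inv_cancel]
      have h2 : ⁅(P : Subgroup G), (P : Subgroup G)⁆ ≤ K.map (P : Subgroup G).subtype := hker (l * lam⁻¹)
      have h3 : ((xt ^ 2 : PP) : G) ∈ K.map (P : Subgroup G).subtype := sup_le h1 h2 (hP x hx)
      have h4 := hkermem K h3
      rw [MonoidHom.mem_ker] at h4
      have h5 : l (xt ^ 2) * (lam (xt ^ 2))⁻¹ = 1 := h4
      exact mul_inv_eq_one.1 h5
    apply hlam
    rw [← hsq]
    have hinv : l xt⁻¹ = l xt := by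
      apply Units.ext
      have h1 := μ.2.map_inv xt
      have h2 := congrFun (congrArg Subtype.val hreal) xt
      have h3 : conj ((μ : PP → ℂ) xt) = (μ : PP → ℂ) xt := h2
      have h4 : (μ : PP → ℂ) xt⁻¹ = (μ : PP → ℂ) xt := h1.trans h3
      rw [hl] at h4
      exact h4
    rw [map_pow, sq]
    nth_rewrite 1 [← hinv]
    rw [map_inv, inv_mul_cancel]
  -- pairing off
  have heven : ((∑ μ : IrrCharacter PP, b μ * c μ : ℕ) : ZMod 2) = 0 := by
    push_cast
    refine Finset.sum_involution (fun μ _ => RB.conjI μ) ?_ ?_ ?_ ?_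
    · intro μ _
      rw [hbconj, hcconj]
      exact CharTwo.add_self_eq_zero _
    · intro μ _ hne
      apply hnotreal
      by_contra hodd'
      apply hne
      have h1 : ((c μ : ℕ) : ZMod 2) = 0 := (ZMod.natCast_eq_zero_iff_even).2 (Nat.not_odd_iff_even.1 hodd')
      rw [h1, mul_zero]
    · intro μ _
      exact Finset.mem_univ _
    · intro μ _
      exact RB.conjI_conjI μ
  rw [← htotal] at heven
  exact (Nat.not_even_iff_odd.2 haodd) ((ZMod.natCast_eq_zero_iff_even).1 heven)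

end Main

end CfsgLib.Char.EA
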