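import Mathlib
import Cfsg.Agent.Lib.Char.BlkNormal
import Cfsg.Agent.Lib.Char.GalOdd
import Cfsg.Agent.Lib.Char.GlaubCorr2
import Cfsg.Agent.Lib.Char.BlkPow

/-!
# Counting Galois-fixed characters of degree prime to `p` over `O^p(G)` with cyclic quotient
-/

set_option linter.unusedSectionVars false
set_option linter.style.haveILetI false
set_option linter.unusedSimpArgs false
set_option linter.unusedVariables false

namespace CfsgLib.Char.GF

open Cfsg CfsgLib.Char CfsgLib.Block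
open scoped ComplexConjugate Pointwise

universe u

variable {G : Type u} [Group G]

theorem relIndex_mul_card_of_le {H L : Subgroup G} (hHL : H ≤ L) [Finite L] :
    H.relIndex L * Nat.card H = Nat.card L := by
  have h1 := Subgroup.card_mul_index (H.subgroupOf L)
  have h2 : Nat.card (H.subgroupOf L) = Nat.card H :=
    Nat.card_congr (Subgroup.subgroupOfEquivOfLe hHL).toEquiv
  rw [h2] at h1
  rw [Subgroup.relIndex, mul_comm]
  exact h1

theorem relIndex_dvd_index_of_normal_right [Finite G] (N C : Subgroup G) [hN : N.Normal] :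
    C.relIndex N ∣ C.index := by
  classical
  have h1 : N.relIndex (N ⊔ C) = N.relIndex C := Subgroup.relIndex_sup_left _ _
  have h2 : N.relIndex (N ⊔ C) * Nat.card N = Nat.card (N ⊔ C : Subgroup G) :=
    relIndex_mul_card_of_le le_sup_left
  have h3 : (N ⊓ C).relIndex C * Nat.card (N ⊓ C : Subgroup G) = Nat.card C :=
    relIndex_mul_card_of_le inf_le_right
  have h3' : (N ⊓ C).relIndex C = N.relIndex C := Subgroup.inf_relIndex_right N C
  have h4 : (N ⊓ C).relIndex N * Nat.card (N ⊓ C : Subgroup G) = Nat.card N :=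
    relIndex_mul_card_of_le inf_le_left
  have h4' : (N ⊓ C).relIndex N = C.relIndex N := Subgroup.inf_relIndex_left N C
  rw [h4'] at h4
  rw [h3'] at h3
  rw [h1] at h2
  have hD : 0 < Nat.card (N ⊓ C : Subgroup G) := Nat.card_pos
  have h6 : Nat.card (N ⊔ C : Subgroup G) = C.relIndex N * Nat.card C := by
    apply Nat.eq_of_mul_eq_mul_right hD
    rw [← h2]
    calc N.relIndex C * Nat.card N * Nat.card (N ⊓ C : Subgroup G)
        = (N.relIndex C * Nat.card (N ⊓ C : Subgroup G)) * Nat.card N := by ring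
      _ = Nat.card C * (C.relIndex N * Nat.card (N ⊓ C : Subgroup G)) := by rw [h3, h4]
      _ = C.relIndex N * Nat.card C * Nat.card (N ⊓ C : Subgroup G) := by ring
  have h7 : Nat.card (N ⊔ C : Subgroup G) ∣ Nat.card G := Subgroup.card_subgroup_dvd_card _
  have h8 := Subgroup.card_mul_index C
  rw [h6, ← h8, mul_comm (C.relIndex N)] at h7
  exact Nat.dvd_of_mul_dvd_mul_left Nat.card_pos h7

theorem exists_parts [Finite G] (p : ℕ) [hp : Fact p.Prime] (g : G) :
    ∃ x y : G, g = x * y ∧ Commute x y ∧ (∃ j, orderOf x = p ^ j) ∧ Nat.Coprime (orderOf y) p := by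
  classical
  have hm : Nat.card G ≠ 0 := Nat.card_pos.ne'
  obtain ⟨b, o, hmo, hop⟩ : ∃ b o : ℕ, p ^ b * o = Nat.card G ∧ ¬ p ∣ o :=
    ⟨_, _, Nat.ordProj_mul_ordCompl_eq_self _ p, Nat.not_dvd_ordCompl hp.out hm⟩
  have hcop : Nat.Coprime (p ^ b) o :=
    Nat.Coprime.pow_left _ ((Nat.Prime.coprime_iff_not_dvd hp.out).2 hop)
  have hb := Nat.gcd_eq_gcd_ab (p ^ b) o
  rw [hcop.gcd_eq_one] at hb
  set s := Nat.gcdA (p ^ b) o
  set t := Nat.gcdB (p ^ b) o
  have hgm : g ^ (Nat.card G : ℤ) = 1 := by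
    rw [zpow_natCast, pow_card_eq_one']
  refine ⟨g ^ ((o : ℤ) * t), g ^ (((p ^ b : ℕ) : ℤ) * s), ?_, (Commute.refl g).zpow_zpow _ _, ?_, ?_⟩
  · rw [← zpow_add]
    have : (o : ℤ) * t + ((p ^ b : ℕ) : ℤ) * s = 1 := by
      push_cast at hb ⊢
      linarith
    rw [this, zpow_one]
  · have h1 : (g ^ ((o : ℤ) * t)) ^ (p ^ b) = 1 := by
      rw [← zpow_natCast, ← zpow_mul]
      have : (o : ℤ) * t * ((p ^ b : ℕ) : ℤ) = (Nat.card G : ℤ) * t := by
        rw [← hmo]
        push_cast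
        ring
      rw [this, zpow_mul, hgm, one_zpow]
    obtain ⟨j, -, hj⟩ := (Nat.dvd_prime_pow hp.out).1 (orderOf_dvd_of_pow_eq_one h1)
    exact ⟨j, hj⟩
  · have h1 : (g ^ (((p ^ b : ℕ) : ℤ) * s)) ^ o = 1 := by
      rw [← zpow_natCast, ← zpow_mul]
      have : ((p ^ b : ℕ) : ℤ) * s * (o : ℤ) = (Nat.card G : ℤ) * s := by
        rw [← hmo]
        push_cast
        ring
      rw [this, zpow_mul, hgm, one_zpow]
    exact Nat.Coprime.coprime_dvd_left (orderOf_dvd_of_pow_eq_one h1)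
      ((Nat.Prime.coprime_iff_not_dvd hp.out).2 hop).symm

variable [Fintype G]

section Block

variable {p : ℕ} [hp : Fact p.Prime] {M : Ideal AlgInt}

theorem mem_principal_of_restrict (hM : IsPModular p M) (N : Subgroup G) [hN : N.Normal] [Fintype N]
    (hreg : ∀ g : G, ¬ p ∣ orderOf g → g ∈ N) {χ : IrrCharacter G} {θ : IrrCharacter N}
    (hθ : θ ∈ principalBlock M N) (hres : ∀ n : N, (χ : G → ℂ) n = (θ : N → ℂ) n) :
    χ ∈ principalBlock M G := by
  classical
  have hP := hM.isPrime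
  have hB : SameBlock M ((oneIrr G : IrrCharacter G) : G → ℂ) (χ : G → ℂ) := by
    apply sameBlock_of_support hM {x : G | ¬ p ∣ orderOf x}
    · intro B hB x hx
      by_contra hc
      exact hx (blockCoeff_singular hM hB (not_not.mp hc))
    · intro s hs
      have hsN : s ∈ N := hreg s hs
      let C : Subgroup G := Subgroup.centralizer ({s} : Set G)
      have hC : (Subgroup.centralizer ({(⟨s, hsN⟩ : N)} : Set N)) = C.subgroupOf N := by
        ext n
        rw [Subgroup.mem_subgroupOf, Subgroup.mem_centralizer_singleton_iff,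
          Subgroup.mem_centralizer_singleton_iff]
        exact Subtype.ext_iff
      obtain ⟨r, hr⟩ := relIndex_dvd_index_of_normal_right N C
      have hidx : ((Subgroup.centralizer ({(⟨s, hsN⟩ : N)} : Set N)).index) = C.relIndex N := by
        rw [hC]
        rfl
      have h1 : MemLocalIdeal M (centralChar (fun _ : N => (1 : ℂ)) ⟨s, hsN⟩ - centralChar (θ : N → ℂ) ⟨s, hsN⟩) :=
        hθ ⟨s, hsN⟩
      have h2 : centralChar ((oneIrr G : IrrCharacter G) : G → ℂ) s - centralChar (χ : G → ℂ) s =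
          r • (centralChar (fun _ : N => (1 : ℂ)) ⟨s, hsN⟩ - centralChar (θ : N → ℂ) ⟨s, hsN⟩) := by
        have h3 : ((oneIrr G : IrrCharacter G) : G → ℂ) = fun _ => 1 := rfl
        have h4 : (χ : G → ℂ) s = (θ : N → ℂ) ⟨s, hsN⟩ := hres ⟨s, hsN⟩
        have h5 : (χ : G → ℂ) 1 = (θ : N → ℂ) 1 := hres 1
        rw [h3]
        simp only [centralChar]
        rw [h4, h5, hidx]
        show ((C.index : ℕ) : ℂ) * 1 / 1 - ((C.index : ℕ) : ℂ) * _ / _ = _
        rw [hr]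
        push_cast
        rw [nsmul_eq_mul]
        ring
      rw [h2]
      exact nsmul_mem (S := locI hP) h1 r
  exact hB

theorem restrict_irr_of_coprime (N : Subgroup G) [hN : N.Normal] [Fintype N] (a : ℕ) (ha : N.index = p ^ a)
    {χ : IrrCharacter G} (hχ : ¬ p ∣ charDegree (χ : G → ℂ)) :
    ∃ θ : IrrCharacter N, ∀ n : N, (χ : G → ℂ) n = (θ : N → ℂ) n := by
  classical
  obtain ⟨b, hb⟩ := (χ.2.isCharacter.restrict N).exists_coeff
  have hb' : ∀ n : N, (χ : G → ℂ) n = ∑ β, (b β : ℂ) * (β : N → ℂ) n := by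
    intro n
    have := congrFun hb n
    rw [Finset.sum_apply] at this
    rw [this]
    simp
  choose deg hdeg0 hdeg using fun β : IrrCharacter N => β.2.map_one
  obtain ⟨c, hc0, hc⟩ := χ.2.map_one
  have hcd : c = charDegree (χ : G → ℂ) := by
    simp [charDegree, hc]
  have hsum : c = ∑ β, b β * deg β := by
    have h1 := hb' 1
    have h2 : (χ : G → ℂ) ((1 : N) : G) = c := hc
    rw [h2] at h1
    have : ((c : ℕ) : ℂ) = ((∑ β, b β * deg β : ℕ) : ℂ) := by
      rw [h1]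
      push_cast
      refine Finset.sum_congr rfl fun β _ => ?_
      rw [hdeg β]
    exact_mod_cast this
  obtain ⟨θ, hθ⟩ : ∃ θ, b θ ≠ 0 := by
    by_contra hcon
    push Not at hcon
    rw [Finset.sum_eq_zero (fun β _ => by rw [hcon β, zero_mul])] at hsum
    omega
  have hcon : classInner (fun n : N => (χ : G → ℂ) n) (θ : N → ℂ) ≠ 0 := by
    have h1 : (fun n : N => (χ : G → ℂ) n) = ∑ β, b β • (β : N → ℂ) := hb
    rw [h1, classInner_sum_coeff_nat]
    exact_mod_cast hθ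
  obtain ⟨h1, h2⟩ := degree_ratio_dvd_index N χ.2 θ.2 hcon c (deg θ) hc (hdeg θ)
  rw [ha] at h2
  have hcp : ¬ p ∣ c := by rw [hcd]; exact hχ
  have hone : c / deg θ = 1 := by
    obtain ⟨j, -, hj⟩ := (Nat.dvd_prime_pow hp.out).1 h2
    rcases j with _ | j
    · simpa using hj
    · exfalso
      apply hcp
      have h3 : p ∣ c / deg θ := by rw [hj]; exact dvd_pow_self _ (by omega)
      exact h3.trans (Nat.div_dvd_of_dvd h1)
  have hcdeg : c = deg θ := by
    have := Nat.div_mul_cancel h1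
    rw [hone, one_mul] at this
    exact this.symm
  have hle : b θ * deg θ ≤ c := by
    rw [hsum]
    exact Finset.single_le_sum (f := fun β => b β * deg β) (fun _ _ => Nat.zero_le _) (Finset.mem_univ θ)
  have hθd : 0 < deg θ := hdeg0 θ
  have hb1 : b θ = 1 := by
    have h3 : 1 ≤ b θ := Nat.pos_of_ne_zero hθ
    have h4 : b θ * deg θ ≤ 1 * deg θ := hle.trans (by rw [one_mul]; exact le_of_eq hcdeg)
    have h5 := Nat.le_of_mul_le_mul_right h4 hθd
    omega
  have hzero : ∀ β, β ≠ θ → b β = 0 := by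
    intro β hβ
    have h3 := Finset.add_sum_erase Finset.univ (fun β => b β * deg β) (Finset.mem_univ θ)
    rw [← hsum, hb1, one_mul, ← hcdeg] at h3
    have h4 : ∑ x ∈ Finset.univ.erase θ, b x * deg x = 0 := by omega
    have h5 := (Finset.sum_eq_zero_iff.mp h4) β (Finset.mem_erase.mpr ⟨hβ, Finset.mem_univ _⟩)
    rcases Nat.mul_eq_zero.mp h5 with h6 | h6
    · exact h6
    · have := hdeg0 β
      omega
  refine ⟨θ, fun n => ?_⟩
  rw [hb' n, Finset.sum_eq_single θ]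
  · rw [hb1]
    simp
  · intro β _ hβ
    rw [hzero β hβ]
    simp
  · intro h
    exact absurd (Finset.mem_univ _) h

end Block

section Count

variable (N : Subgroup G) [hN : N.Normal]

theorem card_omega {p : ℕ} [hp : Fact p.Prime] (hcyc : IsCyclic (G ⧸ N)) (a : ℕ) (ha : N.index = p ^ a) (ha0 : a ≠ 0) :
    Nat.card {l : G →* ℂˣ // (∀ n ∈ N, l n = 1) ∧ ∀ g, (l g) ^ p = 1} = p := by
  classical
  haveI : NeZero p := ⟨hp.out.ne_zero⟩
  obtain ⟨q, hq⟩ := hcyc.exists_generator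
  obtain ⟨g₀, rfl⟩ := QuotientGroup.mk_surjective q
  have hcard : orderOf (g₀ : G ⧸ N) = p ^ a := by
    rw [orderOf_eq_card_of_forall_mem_zpowers hq]
    exact ha
  let ev : {l : G →* ℂˣ // (∀ n ∈ N, l n = 1) ∧ ∀ g, (l g) ^ p = 1} → rootsOfUnity p ℂ := fun l =>
    ⟨l.1 g₀, by
      rw [mem_rootsOfUnity]
      exact l.2.2 g₀⟩
  have hev : Function.Bijective ev := by
    constructor
    · intro l l' h
      have h0 : l.1 g₀ = l'.1 g₀ := congrArg Subtype.val h
      apply Subtype.ext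
      apply MonoidHom.ext
      intro g
      obtain ⟨j, hj⟩ := Subgroup.mem_zpowers_iff.mp (hq (g : G ⧸ N))
      have h1 : ((g₀ ^ j : G) : G ⧸ N) = (g : G ⧸ N) := by
        rw [QuotientGroup.mk_zpow]
        exact hj
      have h2 : (g₀ ^ j)⁻¹ * g ∈ N := QuotientGroup.eq.mp h1
      have h3 : g = g₀ ^ j * ((g₀ ^ j)⁻¹ * g) := by group
      have h4 := l.2.1 _ h2
      have h5 := l'.2.1 _ h2
      rw [h3]
      simp only [map_mul, map_zpow, h4, h5, h0, mul_one]
    · intro ζ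
      have hζ : (ζ : ℂˣ) ^ p = 1 := (mem_rootsOfUnity _ _).mp ζ.2
      have hdvd : orderOf (ζ : ℂˣ) ∣ orderOf (g₀ : G ⧸ N) := by
        rw [hcard]
        exact (orderOf_dvd_of_pow_eq_one hζ).trans (dvd_pow_self _ ha0)
      let φ : G ⧸ N →* ℂˣ := monoidHomOfForallMemZpowers hq hdvd
      have hφ : φ (g₀ : G ⧸ N) = ζ := monoidHomOfForallMemZpowers_apply_gen hq hdvd
      refine ⟨⟨φ.comp (QuotientGroup.mk' N), ?_, ?_⟩, ?_⟩
      · intro n hn
        simp only [MonoidHom.comp_apply]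
        have : (QuotientGroup.mk' N) n = 1 := (QuotientGroup.eq_one_iff n).mpr hn
        rw [this, map_one]
      · intro g
        simp only [MonoidHom.comp_apply]
        obtain ⟨j, hj⟩ := Subgroup.mem_zpowers_iff.mp (hq ((QuotientGroup.mk' N) g))
        rw [← hj, map_zpow, hφ, ← zpow_natCast, ← zpow_mul, mul_comm, zpow_mul, zpow_natCast, hζ, one_zpow]
      · apply Subtype.ext
        exact hφ
  rw [Nat.card_congr (Equiv.ofBijective ev hev)]
  exact Complex.card_rootsOfUnity p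

theorem hom_mul_injective [Fintype N] {θ : N → ℂ} (hθ : IsIrrCharacter N θ)
    (hinv : ∀ (g : G) (n : N), θ ⟨g * n * g⁻¹, hN.conj_mem (n : G) n.2 g⟩ = θ n)
    {χ₀ : G → ℂ} (hχ₀ : IsIrrCharacter G χ₀) (h1 : ∀ n : N, χ₀ n = θ n) {l l' : G →* ℂˣ}
    (hl : ∀ n ∈ N, l n = 1) (hl' : ∀ n ∈ N, l' n = 1)
    (h : (fun g => ((l g : ℂˣ) : ℂ)) * χ₀ = (fun g => ((l' g : ℂˣ) : ℂ)) * χ₀) : l = l' := by
  classical
  have hone : IsIrrCharacter N (fun _ => (1 : ℂ)) := isIrrCharacter_one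
  have hmul : (fun _ : N => (1 : ℂ)) * θ = θ := by
    funext n
    simp
  have hbij := mult_bijOn N hone hθ (fun _ _ => rfl) hinv (by rw [hmul]; exact hθ) hχ₀ h1
  have hmem : ∀ m : G →* ℂˣ, (∀ n ∈ N, m n = 1) → (fun g => ((m g : ℂˣ) : ℂ)) ∈
      {β : G → ℂ | IsIrrCharacter G β ∧ classInner (indFun N (fun _ => 1)) β ≠ 0} := by
    intro m hm
    refine ⟨isIrr_of_hom m, ?_⟩
    rw [frobenius N _ (isIrr_of_hom m).isClassFunction]
    have h2 : (fun h : N => ((m h : ℂˣ) : ℂ)) = fun _ => 1 := by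
      funext n
      rw [hm n n.2]
      rfl
    rw [h2, classInner_irr_self hone]
    exact one_ne_zero
  have h3 := hbij.injOn (hmem l hl) (hmem l' hl') h
  ext1 g
  exact Units.ext (congrFun h3 g)

end Count

section Main

variable (p : ℕ) [hp : Fact p.Prime] (N : Subgroup G) [hN : N.Normal]

/-- The action of the power map on a linear character. -/
theorem hom_pow_k (k : ℕ) (hk₁ : ∀ g : G, (∃ j : ℕ, orderOf g = p ^ j) → g ^ k = g ^ (1 + p))
    (hk₂ : ∀ g : G, Nat.Coprime (orderOf g) p → g ^ k = g) (l : G →* ℂˣ) (g : G) :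
    ∃ x y : G, g = x * y ∧ (∃ j, orderOf x = p ^ j) ∧ Nat.Coprime (orderOf y) p ∧ l (g ^ k) = l g * (l x) ^ p := by
  obtain ⟨x, y, rfl, hc, hx, hy⟩ := exists_parts p g
  refine ⟨x, y, rfl, hx, hy, ?_⟩
  rw [hc.mul_pow, hk₁ x hx, hk₂ y hy, map_mul, map_mul, map_pow, pow_add, pow_one]
  rw [mul_assoc, mul_comm]
  simp only [mul_comm, mul_left_comm, mul_assoc]

theorem exists_fixed_extension (hres : N = pResidual p G) (hcyc : IsCyclic (G ⧸ N)) [Fintype N]
    (k : ℕ) (hk₁ : ∀ g : G, (∃ j : ℕ, orderOf g = p ^ j) → g ^ k = g ^ (1 + p))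
    (hk₂ : ∀ g : G, Nat.Coprime (orderOf g) p → g ^ k = g) (hkc : k.Coprime (Nat.card G))
    {θ : N → ℂ} (hθ : IsIrrCharacter N θ)
    (hinv : ∀ (g : G) (n : N), θ ⟨g * n * g⁻¹, hN.conj_mem (n : G) n.2 g⟩ = θ n)
    (d : ℕ) (hd : θ 1 = d) (hcop : Nat.Coprime N.index d) (hθk : ∀ n : N, θ (n ^ k) = θ n) :
    ∃ χ₀ : G → ℂ, IsIrrCharacter G χ₀ ∧ (∀ n : N, χ₀ n = θ n) ∧ ∀ g, χ₀ (g ^ k) = χ₀ g := by
  classical
  obtain ⟨η, hη, hηres⟩ := extends_of_cyclic_quotient N hcyc θ hθ hinv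
  obtain ⟨l, hl⟩ : ∃ l : G →* ℂˣ, ∀ n : N, ((l n : ℂˣ) : ℂ) = detChar θ n := by
    obtain ⟨m, ρ, hρ, rfl⟩ := id hθ
    obtain ⟨k', σ, -, rfl⟩ := id hη
    obtain ⟨ψ₀, hψ₀', -⟩ := exists_transport N ρ N.subtype σ hηres
    refine ⟨detHom ψ₀, fun n => ?_⟩
    rw [detChar_character, detHom_apply]
    exact congrArg _ (hψ₀' n)
  have hm : Nat.card G ≠ 0 := Nat.card_pos.ne'
  obtain ⟨b, o, hmo, hop⟩ : ∃ b o : ℕ, p ^ b * o = Nat.card G ∧ ¬ p ∣ o :=
    ⟨_, _, Nat.ordProj_mul_ordCompl_eq_self _ p, Nat.not_dvd_ordCompl hp.out hm⟩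
  have hcoprime : Nat.Coprime (p ^ b) o :=
    Nat.Coprime.pow_left _ ((Nat.Prime.coprime_iff_not_dvd hp.out).2 hop)
  obtain ⟨t, ht0, ht1⟩ : ∃ t : ℕ, t ≡ 0 [MOD p ^ b] ∧ t ≡ 1 [MOD o] :=
    ⟨_, (Nat.chineseRemainder hcoprime 0 1).2.1, (Nat.chineseRemainder hcoprime 0 1).2.2⟩
  let μ : G →* ℂˣ := l ^ t
  have hμ : ∀ g, μ g = (l g) ^ t := fun g => rfl
  have hμo : ∀ g, (μ g) ^ o = 1 := by
    intro g
    obtain ⟨t', ht'⟩ : p ^ b ∣ t := (Nat.modEq_zero_iff_dvd).1 ht0
    have h0 : t * o = Nat.card G * t' := by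
      rw [ht', ← hmo]
      ring
    rw [hμ, ← pow_mul, h0, pow_mul, ← map_pow, pow_card_eq_one', map_one, one_pow]
  have hμreg : ∀ s : G, Nat.Coprime (orderOf s) p → μ s = l s := by
    intro s hs
    have h1 : orderOf s ∣ o := by
      have h2 : orderOf s ∣ p ^ b * o := by rw [hmo]; exact orderOf_dvd_natCard s
      exact (Nat.Coprime.pow_right b hs).dvd_of_dvd_mul_left h2
    have h2 : s ^ t = s := by
      have h3 : t ≡ 1 [MOD orderOf s] := ht1.of_dvd h1
      have h4 := (pow_eq_pow_iff_modEq (x := s)).2 h3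
      rwa [pow_one] at h4
    rw [hμ, ← map_pow, h2]
  have hμN : ∀ n : N, ((μ n : ℂˣ) : ℂ) = detChar θ n := by
    intro n
    rw [← hl n]
    have h1 : N ≤ MonoidHom.eqLocus μ l := by
      rw [hres, pResidual, Subgroup.closure_le]
      intro s hs
      exact hμreg s hs
    rw [show μ (n : G) = l (n : G) from h1 n.2]
  have hμk : ∀ g, μ (g ^ k) = μ g := by
    intro g
    obtain ⟨x, y, -, ⟨j, hj⟩, hy, h⟩ := hom_pow_k p k hk₁ hk₂ μ g
    rw [h]
    have h1 : (μ x) ^ (p ^ j) = 1 := by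
      rw [← map_pow, ← hj, pow_orderOf_eq_one, map_one]
    have h2 : (μ x) ^ o = 1 := hμo x
    have h3 : μ x = 1 := by
      have h4 := pow_gcd_eq_one.2 ⟨h1, h2⟩
      have h5 : Nat.gcd (p ^ j) o = 1 :=
        Nat.Coprime.pow_left _ ((Nat.Prime.coprime_iff_not_dvd hp.out).2 hop)
      rwa [h5, pow_one] at h4
    rw [h3, one_pow, mul_one]
  obtain ⟨χ₀, ⟨h1, h2, h3⟩, huniq⟩ := exists_unique_extension_with_det N θ hθ d hd hcop ⟨η, hη, hηres⟩
    (fun g => ((μ g : ℂˣ) : ℂ)) ⟨(isIrr_of_hom μ).isCharacter, by simp⟩ hμN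
  refine ⟨χ₀, h1, h2, fun g => ?_⟩
  have hfix : (fun g => χ₀ (g ^ k)) = χ₀ := by
    apply huniq
    refine ⟨powFun_isIrr h1 hkc, ?_, ?_⟩
    · intro n
      have h4 := h2 (n ^ k)
      have h5 : ((n ^ k : N) : G) = (n : G) ^ k := rfl
      rw [h5] at h4
      rw [h4, hθk n]
    · funext x
      rw [detChar_powFun h1.isCharacter hkc x, h3]
      show ((μ x : ℂˣ) : ℂ) ^ k = ((μ x : ℂˣ) : ℂ)
      rw [← Units.val_pow_eq_pow_val, ← map_pow, hμk]
  exact congrFun hfix g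

end Main

section Final

variable (p : ℕ) [hp : Fact p.Prime] (M : Ideal AlgInt) (P : Sylow p G)
  (N : Subgroup G) [hN : N.Normal] [Fintype N]

theorem s4553_main (hM : IsPModular p M) (hNres : N = pResidual p G) (hcyc : IsCyclic (G ⧸ N)) (hnt : N ≠ ⊤) (k : ℕ)
    (hk₁ : ∀ g : G, (∃ j : ℕ, orderOf g = p ^ j) → g ^ k = g ^ (1 + p))
    (hk₂ : ∀ g : G, Nat.Coprime (orderOf g) p → g ^ k = g) :
    Nat.card {χ : IrrCharacter G // χ ∈ principalBlock M G ∧ ¬ p ∣ charDegree (χ : G → ℂ) ∧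
      ∀ g : G, (χ : G → ℂ) (g ^ k) = (χ : G → ℂ) g} =
    p * Nat.card {θ : IrrCharacter N // θ ∈ principalBlock M N ∧ ¬ p ∣ charDegree (θ : N → ℂ) ∧
      (∀ x ∈ (P : Subgroup G), ∀ n : N, (θ : N → ℂ) ⟨x * n * x⁻¹, hN.conj_mem n n.2 x⟩ = (θ : N → ℂ) n) ∧
      ∀ n : N, (θ : N → ℂ) (n ^ k) = (θ : N → ℂ) n} := by
  classical
  have hP := hM.isPrime
  have hreg' : ∀ g : G, Nat.Coprime (orderOf g) p → g ∈ N := by
    intro g hg
    rw [hNres]
    exact Subgroup.subset_closure hg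
  have hreg : ∀ g : G, ¬ p ∣ orderOf g → g ∈ N := fun g hg =>
    hreg' g ((Nat.Prime.coprime_iff_not_dvd hp.out).2 hg).symm
  have hpg : IsPGroup p (G ⧸ N) := by
    intro q
    obtain ⟨g, rfl⟩ := QuotientGroup.mk_surjective q
    obtain ⟨x, y, rfl, -, ⟨j, hj⟩, hy⟩ := exists_parts p g
    refine ⟨j, ?_⟩
    have h1 : ((x * y : G) : G ⧸ N) = (x : G ⧸ N) := by
      rw [QuotientGroup.mk_mul, (QuotientGroup.eq_one_iff y).2 (hreg' y hy), mul_one]
    rw [h1, ← QuotientGroup.mk_pow, ← hj, pow_orderOf_eq_one, QuotientGroup.mk_one]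
  obtain ⟨a, ha⟩ : ∃ a, N.index = p ^ a := IsPGroup.iff_card.1 hpg
  have ha0 : a ≠ 0 := by
    rintro rfl
    rw [pow_zero] at ha
    exact hnt (Subgroup.index_eq_one.mp ha)
  have hkc : k.Coprime (Nat.card G) := by
    by_contra hcon
    obtain ⟨r, hr, hrk, hrG⟩ := Nat.Prime.not_coprime_iff_dvd.1 hcon
    haveI : Fact r.Prime := ⟨hr⟩
    obtain ⟨g, hg⟩ := exists_prime_orderOf_dvd_card' r hrG
    have hgk : g ^ k = 1 := by
      obtain ⟨c, rfl⟩ := hrk
      rw [pow_mul, ← hg, pow_orderOf_eq_one, one_pow]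
    have hgg : g ^ k = g := by
      by_cases hrp : r = p
      · subst hrp
        rw [hk₁ g ⟨1, by rw [hg, pow_one]⟩, pow_add, pow_one, ← hg, pow_orderOf_eq_one, mul_one]
      · apply hk₂ g
        rw [hg]
        exact (Nat.coprime_primes hr hp.out).2 hrp
    rw [hgk] at hgg
    have : orderOf g = 1 := by rw [← hgg, orderOf_one]
    rw [hg] at this
    exact hr.one_lt.ne' this
  -- G = N P
  have hsup : N ⊔ (P : Subgroup G) = ⊤ := by
    have h1 : (N ⊔ (P : Subgroup G)).index ∣ N.index := Subgroup.index_dvd_of_le le_sup_left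
    have h2 : (N ⊔ (P : Subgroup G)).index ∣ (P : Subgroup G).index := Subgroup.index_dvd_of_le le_sup_right
    rw [ha] at h1
    obtain ⟨j, -, hj⟩ := (Nat.dvd_prime_pow hp.out).1 h1
    have h3 : ¬ p ∣ (P : Subgroup G).index := P.not_dvd_index
    rcases j with _ | j
    · exact Subgroup.index_eq_one.mp (by simpa using hj)
    · exfalso
      apply h3
      rw [hj] at h2
      exact (dvd_pow_self p (by omega)).trans h2
  have hdecomp : ∀ g : G, ∃ n ∈ N, ∃ x ∈ (P : Subgroup G), g = n * x := by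
    intro g
    have h1 : g ∈ ((N ⊔ (P : Subgroup G) : Subgroup G) : Set G) := by rw [hsup]; trivial
    rw [Subgroup.normal_mul, Set.mem_mul] at h1
    obtain ⟨n, hn, x, hx, rfl⟩ := h1
    exact ⟨n, hn, x, hx, rfl⟩
  -- the types
  let X := {χ : IrrCharacter G // χ ∈ principalBlock M G ∧ ¬ p ∣ charDegree (χ : G → ℂ) ∧
      ∀ g : G, (χ : G → ℂ) (g ^ k) = (χ : G → ℂ) g}
  let S := {θ : IrrCharacter N // θ ∈ principalBlock M N ∧ ¬ p ∣ charDegree (θ : N → ℂ) ∧
      (∀ x ∈ (P : Subgroup G), ∀ n : N, (θ : N → ℂ) ⟨x * n * x⁻¹, hN.conj_mem n n.2 x⟩ = (θ : N → ℂ) n) ∧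
      ∀ n : N, (θ : N → ℂ) (n ^ k) = (θ : N → ℂ) n}
  have hFex : ∀ χ : X, ∃ θ : S, ∀ n : N, (χ.1 : G → ℂ) n = (θ.1 : N → ℂ) n := by
    rintro ⟨χ, hχB, hχd, hχk⟩
    obtain ⟨θ, hθ⟩ := restrict_irr_of_coprime (p := p) N a ha hχd
    have hdeg : charDegree (θ : N → ℂ) = charDegree (χ : G → ℂ) := by
      simp only [charDegree]
      rw [← show (χ : G → ℂ) ((1 : N) : G) = (θ : N → ℂ) 1 from hθ 1]
      rfl
    refine ⟨⟨θ, ?_, ?_, ?_, ?_⟩, hθ⟩
    · apply mem_principal_of_constituent N hM hχB (θ := θ)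
      intro h0
      have h1 := multNat_spec N χ θ
      rw [h0] at h1
      have h2 : (fun n : N => (χ : G → ℂ) n) = (θ : N → ℂ) := funext hθ
      rw [h2, classInner_irr_self θ.2] at h1
      simp at h1
    · rw [hdeg]
      exact hχd
    · intro x hx n
      rw [← hθ, ← hθ]
      exact χ.2.isClassFunction _ _
    · intro n
      rw [← hθ, ← hθ]
      exact hχk n
  choose F hF using hFex
  have hFeq : ∀ (χ : X) (θ : S), F χ = θ ↔ ∀ n : N, (χ.1 : G → ℂ) n = (θ.1 : N → ℂ) n := by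
    intro χ θ
    constructor
    · rintro rfl
      exact hF χ
    · intro h
      apply Subtype.ext
      apply Subtype.ext
      funext n
      rw [← hF χ n, h n]
  have hfib : ∀ θ : S, Nat.card {χ : X // F χ = θ} = p := by
    rintro ⟨θ, hθB, hθd, hθP, hθk⟩
    have hθG : ∀ (g : G) (n : N), (θ : N → ℂ) ⟨g * n * g⁻¹, hN.conj_mem (n : G) n.2 g⟩ = (θ : N → ℂ) n := by
      intro g m
      obtain ⟨n, hn, x, hx, rfl⟩ := hdecomp g
      have h1 := θ.2.isClassFunction ⟨x * m * x⁻¹, hN.conj_mem m m.2 x⟩ ⟨n, hn⟩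
      rw [← hθP x hx m, ← h1]
      refine congrArg (θ : N → ℂ) ?_
      apply Subtype.ext
      simp only [Subgroup.coe_mul, Subgroup.coe_inv, mul_inv_rev]
      group
    obtain ⟨d, hd0, hd⟩ := θ.2.map_one
    have hdd : charDegree (θ : N → ℂ) = d := by
      simp [charDegree, hd]
    have hcop : Nat.Coprime N.index d := by
      rw [ha]
      apply Nat.Coprime.pow_left
      rw [← hdd]
      exact (Nat.Prime.coprime_iff_not_dvd hp.out).2 hθd
    obtain ⟨χ₀, hχ₀, hχ₀res, hχ₀k⟩ := exists_fixed_extension p N hNres hcyc k hk₁ hk₂ hkc θ.2 hθG d hd hcop hθk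
    have hlk : ∀ (l : G →* ℂˣ), (∀ n ∈ N, l n = 1) → ∀ g, l (g ^ k) = l g * (l g) ^ p := by
      intro l hl g
      obtain ⟨x, y, hg, -, hy, h⟩ := hom_pow_k p k hk₁ hk₂ l g
      rw [h]
      have h2 : l g = l x := by
        rw [hg, map_mul, hl y (hreg' y hy), mul_one]
      rw [← h2]
    -- the map
    let Ω := {l : G →* ℂˣ // (∀ n ∈ N, l n = 1) ∧ ∀ g, (l g) ^ p = 1}
    have hval : ∀ (l : G →* ℂˣ), (∀ n ∈ N, l n = 1) → ∀ n : N,
        ((fun g => ((l g : ℂˣ) : ℂ)) * χ₀) n = (θ : N → ℂ) n := by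
      intro l hl n
      simp only [Pi.mul_apply]
      rw [hl n n.2, hχ₀res n]
      simp
    have hmemX : ∀ l : Ω, ∃ χ : X, (χ.1 : G → ℂ) = (fun g => ((l.1 g : ℂˣ) : ℂ)) * χ₀ := by
      rintro ⟨l, hl, hlp⟩
      let χ' : IrrCharacter G := ⟨_, isIrr_hom_mul l hχ₀⟩
      have hχ'res : ∀ n : N, (χ' : G → ℂ) n = (θ : N → ℂ) n := hval l hl
      refine ⟨⟨χ', mem_principal_of_restrict hM N hreg hθB hχ'res, ?_, ?_⟩, rfl⟩
      · have : charDegree (χ' : G → ℂ) = charDegree (θ : N → ℂ) := by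
          simp only [charDegree]
          rw [← show (χ' : G → ℂ) ((1 : N) : G) = (θ : N → ℂ) 1 from hχ'res 1]
          rfl
        rw [this]
        exact hθd
      · intro g
        show ((l (g ^ k) : ℂˣ) : ℂ) * χ₀ (g ^ k) = ((l g : ℂˣ) : ℂ) * χ₀ g
        rw [hlk l hl g, hlp g, mul_one, hχ₀k]
    choose f hf using hmemX
    have hfF : ∀ l : Ω, F (f l) = ⟨θ, hθB, hθd, hθP, hθk⟩ := by
      intro l
      rw [hFeq]
      intro n
      rw [hf l]
      exact hval l.1 l.2.1 n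
    let f' : Ω → {χ : X // F χ = ⟨θ, hθB, hθd, hθP, hθk⟩} := fun l => ⟨f l, hfF l⟩
    have hf' : Function.Bijective f' := by
      constructor
      · intro l l' h
        have h1 : (f l).1 = (f l').1 := congrArg (fun z => (z.1).1) h
        have h2 : ((f l).1 : G → ℂ) = ((f l').1 : G → ℂ) := congrArg Subtype.val h1
        rw [hf l, hf l'] at h2
        exact Subtype.ext (hom_mul_injective N θ.2 hθG hχ₀ hχ₀res l.2.1 l'.2.1 h2)
      · rintro ⟨χ, hχ⟩
        have hχres := (hFeq χ _).1 hχ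
        obtain ⟨l, hl, hχl⟩ := twist_of_extensions N θ.2 hθG hχ₀ χ.1.2 hχ₀res hχres
        have hlp : ∀ g, (l g) ^ p = 1 := by
          -- `l ^ (1 + p)` and `l` twist `χ₀` to the same character
          have h1 : (fun g => (((l ^ (1 + p) : G →* ℂˣ) g : ℂˣ) : ℂ)) * χ₀ = (fun g => ((l g : ℂˣ) : ℂ)) * χ₀ := by
            funext g
            have h2 := χ.2.2.2 g
            rw [hχl] at h2
            simp only [Pi.mul_apply] at h2 ⊢
            rw [hχ₀k g] at h2
            rw [← h2, hlk l hl g]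
            congr 1
            show (((l g) ^ (1 + p) : ℂˣ) : ℂ) = _
            rw [pow_add, pow_one]
          have h3 := hom_mul_injective N θ.2 hθG hχ₀ hχ₀res (l := l ^ (1 + p)) (l' := l)
            (fun n hn => by
              show (l n) ^ (1 + p) = 1
              rw [hl n hn, one_pow]) hl h1
          intro g
          have h4 := congrArg (fun m : G →* ℂˣ => m g) h3
          have h5 : (l g) ^ (1 + p) = l g := h4
          rw [pow_add, pow_one] at h5
          exact mul_left_cancel (a := l g) (by rw [h5, mul_one])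
        refine ⟨⟨l, hl, hlp⟩, ?_⟩
        apply Subtype.ext
        apply Subtype.ext
        apply Subtype.ext
        rw [hf ⟨l, hl, hlp⟩, hχl]
    rw [← Nat.card_congr (Equiv.ofBijective f' hf')]
    exact card_omega N hcyc a ha ha0
  have hcard : Nat.card X = ∑ θ : S, Nat.card {χ : X // F χ = θ} := by
    rw [Nat.card_congr (Equiv.sigmaFiberEquiv F).symm, Nat.card_sigma]
  show Nat.card X = p * Nat.card S
  rw [hcard, Finset.sum_congr rfl fun θ _ => hfib θ]
  simp [Nat.card_eq_fintype_card, mul_comm]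

end Final

end CfsgLib.Char.GF
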