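import Mathlib
import Cfsg.Agent.Lib.Char.GlaubP6

/-!
# The Glauberman correspondence and complex conjugation: real characters and real classes.
-/

set_option linter.unusedSectionVars false
set_option linter.style.haveILetI false
set_option linter.unusedSimpArgs false
set_option linter.unusedVariables false

namespace CfsgLib.Char

open Cfsg
open scoped ComplexConjugate Pointwise

universe u

namespace GP

variable {Γ : Type u} [Group Γ] [Finite Γ]

/-- Complex conjugate of an irreducible character. -/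
noncomputable def conjIrrG {A : Type*} [Group A] [Finite A] (χ : IrrCharacter A) : IrrCharacter A :=
  ⟨fun g => conj ((χ : A → ℂ) g), χ.2.conj⟩

theorem conjIrrG_apply {A : Type*} [Group A] [Finite A] (χ : IrrCharacter A) (g : A) :
    (conjIrrG χ : A → ℂ) g = conj ((χ : A → ℂ) g) := rfl

theorem conjIrrG_eq_iff {A : Type*} [Group A] [Finite A] (χ : IrrCharacter A) :
    conjIrrG χ = χ ↔ ∀ g, ((χ : A → ℂ) g).im = 0 := by
  constructor
  · intro h g
    have h1 := congrArg (fun z : IrrCharacter A => (z : A → ℂ) g) h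
    exact Complex.conj_eq_iff_im.mp h1
  · intro h
    apply Subtype.ext
    funext g
    exact Complex.conj_eq_iff_im.mpr (h g)

theorem MultRel.conjC {p : ℕ} {A C : Subgroup Γ} {hCA : C ≤ A} {χ : IrrCharacter A} {β : IrrCharacter C}
    (h : MultRel p hCA χ β) : MultRel p hCA (conjIrrG χ) (conjIrrG β) := by
  obtain ⟨N, hN, hnd⟩ := h
  refine ⟨N, ?_, hnd⟩
  have h1 := classInner_conj_conj (fun c : C => (χ : A → ℂ) ⟨c, hCA c.2⟩) (β : C → ℂ)
  rw [hN, Complex.conj_natCast] at h1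
  exact h1

theorem Inv.conjC {S A : Subgroup Γ} {χ : IrrCharacter A} (h : Inv S A χ) : Inv S A (conjIrrG χ) := by
  intro s hs g g' hg
  rw [conjIrrG_apply, conjIrrG_apply, h s hs g g' hg]

variable {p : ℕ} {P K : Subgroup Γ}

theorem phyp_of_pgroup (hP : IsPGroup p P) (hK : (Nat.card K).Coprime (Nat.card P))
    (hPK : P ≤ Subgroup.normalizer (K : Set Γ)) : PHyp P K p := by
  refine ⟨fun s hs => hPK hs, hK, fun s hs => ?_⟩
  obtain ⟨k, hk⟩ := hP ⟨s, hs⟩
  refine ⟨k, fun g _ => ?_⟩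
  have h1 : s ^ (p ^ k) = 1 := congrArg Subtype.val hk
  rw [h1]
  simp

theorem isConj_inv' {A : Type*} [Group A] {a b : A} (h : IsConj a b) : IsConj a⁻¹ b⁻¹ := by
  obtain ⟨x, hx⟩ := isConj_iff.mp h
  refine isConj_iff.mpr ⟨x, ?_⟩
  rw [← hx]
  group

/-- Real invariant characters correspond to real characters of the fixed points. -/
theorem card_real_inv_eq (hp : p.Prime) (hA : PHyp P K p) :
    Nat.card {θ : IrrCharacter K // (∀ k, ((θ : K → ℂ) k).im = 0) ∧ Inv P K θ} =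
      Nat.card {β : IrrCharacter ↥(K ⊓ Subgroup.centralizer (P : Set Γ)) // ∀ c, ((β : ↥(K ⊓ Subgroup.centralizer (P : Set Γ)) → ℂ) c).im = 0} := by
  classical
  obtain ⟨h1, h2, h3, -⟩ := pgroup_main hp _ K rfl hA (K ⊓ Subgroup.centralizer (P : Set Γ)) rfl inf_le_left
  choose f ε hε hf using h1
  have hreal : ∀ (θ : IrrCharacter K) (hθ : Inv P K θ), (∀ k, ((θ : K → ℂ) k).im = 0) →
      ∀ c, ((f θ hθ : ↥(K ⊓ Subgroup.centralizer (P : Set Γ)) → ℂ) c).im = 0 := by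
    intro θ hθ hr
    have h4 := (hf θ hθ).multRel hp (hε θ hθ)
    have h5 := h4.conjC
    rw [(conjIrrG_eq_iff θ).mpr hr] at h5
    have h6 := (hf θ hθ).eq_of_multRel h5
    exact (conjIrrG_eq_iff _).mp h6
  apply Nat.card_congr
  refine Equiv.ofBijective (fun θ => ⟨f θ.1 θ.2.2, hreal θ.1 θ.2.2 θ.2.1⟩) ⟨?_, ?_⟩
  · intro a b hab
    apply Subtype.ext
    have h4 : f a.1 a.2.2 = f b.1 b.2.2 := congrArg Subtype.val hab
    apply h2 a.1 b.1 a.2.2 b.2.2 (f a.1 a.2.2) ((hf a.1 a.2.2).multRel hp (hε _ _))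
    rw [h4]
    exact (hf b.1 b.2.2).multRel hp (hε _ _)
  · rintro ⟨β, hβ⟩
    obtain ⟨χ, hχ, hrel⟩ := h3 β
    have h4 := hrel.conjC
    rw [(conjIrrG_eq_iff β).mpr hβ] at h4
    have h5 : conjIrrG χ = χ := h2 _ _ hχ.conjC hχ β h4 hrel
    refine ⟨⟨χ, (conjIrrG_eq_iff χ).mp h5, hχ⟩, ?_⟩
    apply Subtype.ext
    exact ((hf χ hχ).eq_of_multRel hrel).symm

/-- Real invariant classes correspond to real classes of the fixed points. -/
theorem card_real_inv_classes_eq (hA : Act P K) (hsolv : Group.IsSolvable P) :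
    Nat.card {c : ConjClasses K // (∀ k : K, ConjClasses.mk k = c → IsConj k k⁻¹) ∧
      ∀ k : K, ConjClasses.mk k = c → ∀ x ∈ P, ∀ k' : K, (k' : Γ) = x * (k : Γ) * x⁻¹ → ConjClasses.mk k' = c} =
    Nat.card {c : ConjClasses ↥(K ⊓ Subgroup.centralizer (P : Set Γ)) // ∀ g, ConjClasses.mk g = c → IsConj g g⁻¹} := by
  classical
  set C := K ⊓ Subgroup.centralizer (P : Set Γ) with hC
  let ι : C →* K := Subgroup.inclusion inf_le_left
  let f : ConjClasses C → ConjClasses K := ConjClasses.map ι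
  have hconjG : ∀ s ∈ P, ∀ g ∈ K, s * g * s⁻¹ ∈ K := fun s hs g hg =>
    (Subgroup.mem_normalizer_iff.mp (hA.norm s hs) g).mp hg
  have hfmk : ∀ c : C, f (ConjClasses.mk c) = ConjClasses.mk (ι c) := fun c => rfl
  have hfix : ∀ c₀ : ConjClasses C, ∀ k : K, ConjClasses.mk k = f c₀ → ∀ x ∈ P, ∀ k' : K,
      (k' : Γ) = x * (k : Γ) * x⁻¹ → ConjClasses.mk k' = f c₀ := by
    intro K₀ g hK s hs g' hg
    obtain ⟨c, rfl⟩ := ConjClasses.mk_surjective K₀
    have h2 : IsConj g (ι c) := ConjClasses.mk_eq_mk_iff_isConj.mp hK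
    obtain ⟨x, hx⟩ := isConj_iff.mp h2
    apply ConjClasses.mk_eq_mk_iff_isConj.mpr
    have hc : s * (c : Γ) * s⁻¹ = c := by
      rw [(Subgroup.mem_centralizer_iff.mp c.2.2) s hs]
      group
    have hxmem : s * (x : Γ) * s⁻¹ ∈ K := hconjG s hs x x.2
    refine isConj_iff.mpr ⟨⟨_, hxmem⟩, ?_⟩
    apply Subtype.ext
    have hx' : (x : Γ) * g * (x : Γ)⁻¹ = c := congrArg Subtype.val hx
    show s * (x : Γ) * s⁻¹ * g' * (s * (x : Γ) * s⁻¹)⁻¹ = c
    rw [hg, ← hc, ← hx']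
    group
  have hreal : ∀ c₀ : ConjClasses C, (∀ g, ConjClasses.mk g = c₀ → IsConj g g⁻¹) →
      ∀ k : K, ConjClasses.mk k = f c₀ → IsConj k k⁻¹ := by
    intro c₀ h0 k hk
    obtain ⟨c, rfl⟩ := ConjClasses.mk_surjective c₀
    have h1 : IsConj c c⁻¹ := h0 c rfl
    have h2 : IsConj (ι c) (ι c)⁻¹ := by
      rw [← map_inv]
      exact MonoidHom.map_isConj ι h1
    have h3 : IsConj k (ι c) := ConjClasses.mk_eq_mk_iff_isConj.mp hk
    exact h3.trans (h2.trans ((isConj_inv' h3).symm))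
  symm
  apply Nat.card_congr
  refine Equiv.ofBijective (fun c => ⟨f c.1, hreal c.1 c.2, hfix c.1⟩) ⟨?_, ?_⟩
  · intro a b h
    obtain ⟨a, ha⟩ := a
    obtain ⟨b, hb⟩ := b
    obtain ⟨c, rfl⟩ := ConjClasses.mk_surjective a
    obtain ⟨c', rfl⟩ := ConjClasses.mk_surjective b
    have h1 : f (ConjClasses.mk c) = f (ConjClasses.mk c') := congrArg Subtype.val h
    have h2 : IsConj (ι c) (ι c') := ConjClasses.mk_eq_mk_iff_isConj.mp h1
    obtain ⟨x, hx⟩ := isConj_iff.mp h2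
    apply Subtype.ext
    apply ConjClasses.mk_eq_mk_iff_isConj.mpr
    obtain ⟨y, hy, hyc⟩ := conj_in_fix hA hsolv c.2 c'.2 x.2 (congrArg Subtype.val hx)
    exact isConj_iff.mpr ⟨⟨y, hy⟩, Subtype.ext hyc⟩
  · rintro ⟨K₀, hK₁, hK₂⟩
    obtain ⟨g, rfl⟩ := ConjClasses.mk_surjective K₀
    obtain ⟨k, hk, hkfix⟩ := exists_fixed_in_class hA hsolv g (by
      intro s hs
      have h1 := hK₂ g rfl s hs ⟨s * g * s⁻¹, hconjG s hs g g.2⟩ rfl
      have h2 : IsConj g (⟨s * g * s⁻¹, hconjG s hs g g.2⟩ : K) := (ConjClasses.mk_eq_mk_iff_isConj.mp h1).symm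
      obtain ⟨x, hx⟩ := isConj_iff.mp h2
      exact ⟨x, x.2, congrArg Subtype.val hx⟩)
    have hmemG : k * (g : Γ) * k⁻¹ ∈ K := K.mul_mem (K.mul_mem hk g.2) (K.inv_mem hk)
    have hmem : k * (g : Γ) * k⁻¹ ∈ C := by
      refine ⟨hmemG, Subgroup.mem_centralizer_iff.mpr fun s hs => ?_⟩
      have h1 := hkfix s hs
      calc s * (k * (g : Γ) * k⁻¹) = (s * (k * g * k⁻¹) * s⁻¹) * s := by group
        _ = (k * g * k⁻¹) * s := by rw [h1]
    have hconj : IsConj g (ι ⟨_, hmem⟩) := by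
      refine isConj_iff.mpr ⟨⟨k, hk⟩, ?_⟩
      apply Subtype.ext
      rfl
    have hgreal : IsConj g g⁻¹ := hK₁ g rfl
    refine ⟨⟨ConjClasses.mk ⟨_, hmem⟩, ?_⟩, ?_⟩
    · intro c hc
      have h1 : IsConj c ⟨_, hmem⟩ := ConjClasses.mk_eq_mk_iff_isConj.mp hc
      have h2 : IsConj (ι ⟨_, hmem⟩) (ι ⟨_, hmem⟩)⁻¹ := hconj.symm.trans (hgreal.trans (isConj_inv' hconj))
      obtain ⟨x, hx⟩ := isConj_iff.mp h2
      have hm' : (k * (g : Γ) * k⁻¹)⁻¹ ∈ C := C.inv_mem hmem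
      obtain ⟨y, hy, hyc⟩ := conj_in_fix hA hsolv hmem hm' x.2 (congrArg Subtype.val hx)
      have h3 : IsConj (⟨_, hmem⟩ : C) (⟨_, hmem⟩ : C)⁻¹ := isConj_iff.mpr ⟨⟨y, hy⟩, Subtype.ext hyc⟩
      exact h1.trans (h3.trans (isConj_inv' h1).symm)
    · apply Subtype.ext
      show f (ConjClasses.mk _) = ConjClasses.mk g
      rw [hfmk]
      exact (ConjClasses.mk_eq_mk_iff_isConj.mpr hconj).symm

end GP

end CfsgLib.Char
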