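import Mathlib
import Cfsg.Agent.Lib.Char.Diag

/-!
# Frobenius' commutator argument for finite unitary groups

Elements within distance `< 1/2` of a scalar commute with one another.
-/

set_option linter.unusedSectionVars false
set_option linter.style.haveILetI false
set_option linter.unusedSimpArgs false
set_option linter.unusedVariables false

namespace CfsgLib.Char

open scoped InnerProductSpace ComplexConjugate
open Module

section Iso

variable {G : Type*} [Group G]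
  {E : Type*} [NormedAddCommGroup E] [InnerProductSpace ℂ E] [FiniteDimensional ℂ E]
  (π : G →* (E →L[ℂ] E))

theorem iso_norm (hπ : ∀ g a b, ⟪π g a, π g b⟫_ℂ = ⟪a, b⟫_ℂ) (g : G) (v : E) : ‖π g v‖ = ‖v‖ := by
  rw [@norm_eq_sqrt_re_inner ℂ, @norm_eq_sqrt_re_inner ℂ E _ _ _ v, hπ]

theorem iso_opnorm_le (hπ : ∀ g a b, ⟪π g a, π g b⟫_ℂ = ⟪a, b⟫_ℂ) (g : G) : ‖π g‖ ≤ 1 := by
  refine ContinuousLinearMap.opNorm_le_bound _ zero_le_one (fun v => ?_)
  rw [iso_norm π hπ, one_mul]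

theorem iso_inner_scalar (hπ : ∀ g a b, ⟪π g a, π g b⟫_ℂ = ⟪a, b⟫_ℂ) {g : G} {s : ℂ} {u : E}
    (hu : π g u = s • u) (hs : ‖s‖ = 1) (w : E) : ⟪u, π g w⟫_ℂ = s * ⟪u, w⟫_ℂ := by
  have h := hπ g u w
  rw [hu, inner_smul_left] at h
  have h2 : s * conj s = 1 := by
    rw [Complex.mul_conj, Complex.normSq_eq_norm_sq, hs]; simp
  calc ⟪u, π g w⟫_ℂ = (s * conj s) * ⟪u, π g w⟫_ℂ := by rw [h2, one_mul]
    _ = s * (conj s * ⟪u, π g w⟫_ℂ) := by ring
    _ = s * ⟪u, w⟫_ℂ := by rw [h]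

theorem iso_comm_bound (hπ : ∀ g a b, ⟪π g a, π g b⟫_ℂ = ⟪a, b⟫_ℂ) (x z : G) (c d : ℂ) :
    ‖π (x * z * x⁻¹ * z⁻¹) - 1‖ ≤ 2 * ‖π x - c • 1‖ * ‖π z - d • 1‖ := by
  set A := π x - c • (1 : E →L[ℂ] E) with hA
  set B := π z - d • (1 : E →L[ℂ] E) with hB
  have h1 : A * B - B * A = π x * π z - π z * π x := by
    rw [hA, hB]
    simp only [sub_mul, mul_sub, smul_mul_assoc, mul_smul_comm, one_mul, mul_one, smul_sub,
      smul_smul]
    rw [mul_comm c d]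
    abel
  have h2 : π (x * z * x⁻¹ * z⁻¹) - 1 = (A * B - B * A) * π (x⁻¹ * z⁻¹) := by
    rw [h1, sub_mul, ← map_mul, ← map_mul, ← map_mul, ← map_mul]
    have : z * x * (x⁻¹ * z⁻¹) = 1 := by group
    rw [this, map_one]
    congr 2
    group
  rw [h2]
  calc ‖(A * B - B * A) * π (x⁻¹ * z⁻¹)‖ ≤ ‖A * B - B * A‖ * ‖π (x⁻¹ * z⁻¹)‖ := norm_mul_le _ _
    _ ≤ ‖A * B - B * A‖ * 1 := by
        gcongr; exact iso_opnorm_le π hπ _
    _ = ‖A * B - B * A‖ := mul_one _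
    _ ≤ ‖A * B‖ + ‖B * A‖ := norm_sub_le _ _
    _ ≤ ‖A‖ * ‖B‖ + ‖B‖ * ‖A‖ := add_le_add (norm_mul_le _ _) (norm_mul_le _ _)
    _ = 2 * ‖A‖ * ‖B‖ := by ring

variable [Finite G]

/-- Frobenius' lemma: if `x` commutes with `z = [x, y]` and `y` is near a scalar then `z = 1`. -/
theorem iso_frobenius (hπ : ∀ g a b, ⟪π g a, π g b⟫_ℂ = ⟪a, b⟫_ℂ)
    (hinj : Function.Injective π) (x y : G) (c : ℂ) (hy : ‖π y - c • 1‖ < 1 / 2)
    (hc : x * (x * y * x⁻¹ * y⁻¹) = (x * y * x⁻¹ * y⁻¹) * x) : x * y * x⁻¹ * y⁻¹ = 1 := by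
  classical
  by_contra hz
  set z := x * y * x⁻¹ * y⁻¹ with hzdef
  let L : (E →L[ℂ] E) →+* (E →ₗ[ℂ] E) := ContinuousLinearMap.toLinearMapRingHom
  have hLa : ∀ (g : G) (v : E), L (π g) v = π g v := fun _ _ => rfl
  have hmul : ∀ (g h : G) (v : E), π g (π h v) = π (g * h) v := fun g h v => by rw [map_mul]; rfl
  have hn : 0 < Nat.card G := Nat.card_pos
  have hT : (L (π z)) ^ Nat.card G = 1 := by
    rw [← map_pow, ← map_pow, pow_card_eq_one', map_one, map_one]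
  obtain ⟨m, b, μ, hb, hμ⟩ := exists_eigenbasis (L (π z)) hn hT
  -- a non-trivial eigenvalue
  have hex : ∃ i, μ i ≠ 1 := by
    by_contra hall
    push Not at hall
    apply hz
    apply hinj
    rw [map_one]
    have : L (π z) = 1 := by
      apply b.ext
      intro i
      rw [hb i, hall i, one_smul]
      rfl
    ext1 v
    exact LinearMap.congr_fun this v
  obtain ⟨i, hi⟩ := hex
  -- the eigenspace
  let W := Module.End.eigenspace (L (π z)) (μ i)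
  have hbW : b i ∈ W := Module.End.mem_eigenspace_iff.mpr (hb i)
  have hbne : b i ≠ 0 := b.ne_zero i
  haveI hWnt : Nontrivial W := ⟨⟨⟨b i, hbW⟩, 0, fun h => hbne (congrArg Subtype.val h)⟩⟩
  have hXW : ∀ v ∈ W, L (π x) v ∈ W := by
    intro v hv
    rw [Module.End.mem_eigenspace_iff] at hv ⊢
    have h1 : L (π z) (L (π x) v) = L (π x) (L (π z) v) := by
      rw [hLa, hLa, hLa, hLa]
      rw [hmul, hmul, hc]
    rw [h1, hv, map_smul]
  let X : W →ₗ[ℂ] W := (L (π x)).restrict hXW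
  obtain ⟨t, ht⟩ := Module.End.exists_eigenvalue X
  obtain ⟨u', hu'⟩ := ht.exists_hasEigenvector
  have hu'1 := hu'.apply_eq_smul
  let u : E := (u' : E)
  have hune : u ≠ 0 := fun h => hu'.2 (Subtype.ext h)
  have hux : π x u = t • u := by
    have := congrArg Subtype.val hu'1
    exact this
  have huz : π z u = μ i • u := Module.End.mem_eigenspace_iff.mp u'.2
  have hupos : 0 < ‖u‖ := norm_pos_iff.mpr hune
  have ht1 : ‖t‖ = 1 := by
    have h1 := iso_norm π hπ x u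
    rw [hux, norm_smul] at h1
    exact mul_right_cancel₀ hupos.ne' (by rw [h1, one_mul])
  have hc1 : ‖μ i‖ = 1 := by
    have h1 := iso_norm π hπ z u
    rw [huz, norm_smul] at h1
    exact mul_right_cancel₀ hupos.ne' (by rw [h1, one_mul])
  have ht0 : t ≠ 0 := by
    intro h; rw [h] at ht1; simp at ht1
  -- the key computation
  have hxinv : π x⁻¹ u = t⁻¹ • u := by
    have h1 : π x⁻¹ (π x u) = u := by
      rw [hmul]; simp
    rw [hux, map_smul] at h1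
    have h2 : π x⁻¹ u = t⁻¹ • (t • π x⁻¹ u) := by
      rw [smul_smul, inv_mul_cancel₀ ht0, one_smul]
    rw [h1] at h2
    exact h2
  have hrel : x * y * x⁻¹ = z * y := by
    show x * y * x⁻¹ = (x * y * x⁻¹ * y⁻¹) * y
    group
  have hq : ⟪u, π y u⟫_ℂ = μ i * ⟪u, π y u⟫_ℂ := by
    have h1 : ⟪u, π (x * y * x⁻¹) u⟫_ℂ = ⟪u, π y u⟫_ℂ := by
      have h2 : π (x * y * x⁻¹) u = π x (π y (π x⁻¹ u)) := by
        rw [map_mul, map_mul]; rfl
      rw [h2, iso_inner_scalar π hπ hux ht1, hxinv, map_smul, inner_smul_right, ← mul_assoc,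
        mul_inv_cancel₀ ht0, one_mul]
    have h3 : ⟪u, π (z * y) u⟫_ℂ = μ i * ⟪u, π y u⟫_ℂ := by
      have h2 : π (z * y) u = π z (π y u) := by
        rw [map_mul]; rfl
      rw [h2, iso_inner_scalar π hπ huz hc1]
    calc ⟪u, π y u⟫_ℂ = ⟪u, π (x * y * x⁻¹) u⟫_ℂ := h1.symm
      _ = ⟪u, π (z * y) u⟫_ℂ := by rw [hrel]
      _ = _ := h3
  have hq0 : ⟪u, π y u⟫_ℂ = 0 := by
    have h1 : (1 - μ i) * ⟪u, π y u⟫_ℂ = 0 := by
      rw [sub_mul, one_mul, sub_eq_zero]; exact hq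
    rcases mul_eq_zero.mp h1 with h | h
    · exact absurd (sub_eq_zero.mp h).symm hi
    · exact h
  -- the norm
  have h1 : ‖(π y - c • 1) u‖ ≤ ‖π y - c • 1‖ * ‖u‖ := ContinuousLinearMap.le_opNorm _ _
  have h2 : ‖(π y - c • 1) u‖ ^ 2 = ‖c‖ ^ 2 * ‖u‖ ^ 2 + ‖u‖ ^ 2 := by
    have h3 : (π y - c • (1 : E →L[ℂ] E)) u = π y u - c • u := by
      simp
    rw [h3, norm_sub_sq (𝕜 := ℂ), inner_smul_right, ← inner_conj_symm, hq0, iso_norm π hπ, norm_smul]
    simp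
    ring
  have h4 : ‖u‖ ≤ (1 / 2 + ‖c‖) * ‖u‖ := by
    have h5 : ‖π y u‖ ≤ ‖(π y - c • (1 : E →L[ℂ] E)) u‖ + ‖c • u‖ := by
      have : π y u = (π y - c • (1 : E →L[ℂ] E)) u + c • u := by simp
      rw [this]
      exact norm_add_le _ _ |>.trans (by simp)
    rw [iso_norm π hπ, norm_smul] at h5
    nlinarith [h1, hy.le, norm_nonneg (π y - c • (1 : E →L[ℂ] E))]
  have hc2 : 1 / 2 ≤ ‖c‖ := by
    have : 1 ≤ 1 / 2 + ‖c‖ := by
      by_contra h
      push Not at h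
      nlinarith
    linarith
  have h6 : ‖(π y - c • (1 : E →L[ℂ] E)) u‖ ≤ ‖c‖ * ‖u‖ := by
    refine h1.trans ?_
    gcongr
    linarith
  have h7 : ‖c‖ ^ 2 * ‖u‖ ^ 2 + ‖u‖ ^ 2 ≤ (‖c‖ * ‖u‖) ^ 2 := by
    rw [← h2]
    exact pow_le_pow_left₀ (norm_nonneg _) h6 2
  nlinarith [sq_pos_of_pos hupos]

/-- Two elements near scalars commute. -/
theorem iso_near_comm (hπ : ∀ g a b, ⟪π g a, π g b⟫_ℂ = ⟪a, b⟫_ℂ)
    (hinj : Function.Injective π) (x y : G) (c d : ℂ) (hx : ‖π x - c • 1‖ < 1 / 2)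
    (hy : ‖π y - d • 1‖ < 1 / 2) : x * y = y * x := by
  classical
  -- Step 1: `x` commutes with everything within `1/2` of the identity
  have key : ∀ z : G, ‖π z - (1 : ℂ) • 1‖ < 1 / 2 → x * z = z * x := by
    by_contra hne
    push Not at hne
    obtain ⟨z₀, hz₀, hz₀x⟩ := hne
    have hfin : {z : G | ‖π z - (1 : ℂ) • 1‖ < 1 / 2 ∧ x * z ≠ z * x}.Finite := Set.toFinite _
    obtain ⟨z, ⟨hz1, hz2⟩, hmin⟩ := Set.exists_min_image _ (fun z : G => ‖π z - (1 : ℂ) • 1‖) hfin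
      ⟨z₀, hz₀, hz₀x⟩
    have hzpos : 0 < ‖π z - (1 : ℂ) • 1‖ := by
      rw [norm_pos_iff, sub_ne_zero, one_smul]
      intro h
      apply hz2
      have : z = 1 := hinj (by rw [h, map_one])
      rw [this, mul_one, one_mul]
    set z' := x * z * x⁻¹ * z⁻¹ with hz'
    have hb : ‖π z' - (1 : ℂ) • 1‖ < ‖π z - (1 : ℂ) • 1‖ := by
      have h1 := iso_comm_bound π hπ x z c 1
      have h3 : 2 * ‖π x - c • 1‖ < 1 := by linarith
      have h4 : ‖π z' - (1 : ℂ) • 1‖ = ‖π z' - 1‖ := by rw [one_smul]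
      rw [h4]
      calc ‖π z' - 1‖ ≤ 2 * ‖π x - c • 1‖ * ‖π z - (1 : ℂ) • 1‖ := h1
        _ < 1 * ‖π z - (1 : ℂ) • 1‖ := by gcongr
        _ = _ := one_mul _
    have hcomm : x * z' = z' * x := by
      by_contra h
      have := hmin z' ⟨hb.trans hz1, h⟩
      exact absurd hb (not_lt.mpr this)
    have h1 := iso_frobenius π hπ hinj x z 1 hz1 hcomm
    apply hz2
    have : x * z * x⁻¹ * z⁻¹ * (z * x) = 1 * (z * x) := by rw [h1]
    simpa [mul_assoc] using this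
  have hz : ‖π (x * y * x⁻¹ * y⁻¹) - (1 : ℂ) • 1‖ < 1 / 2 := by
    rw [one_smul]
    have h1 := iso_comm_bound π hπ x y c d
    have h2 := norm_nonneg (π x - c • 1)
    have h3 := norm_nonneg (π y - d • 1)
    nlinarith
  have h1 := iso_frobenius π hπ hinj x y d hy (key _ hz)
  have : x * y * x⁻¹ * y⁻¹ * (y * x) = 1 * (y * x) := by rw [h1]
  simpa [mul_assoc] using this

/-- Elements near scalars are conjugation invariant. -/
theorem iso_near_conj (hπ : ∀ g a b, ⟪π g a, π g b⟫_ℂ = ⟪a, b⟫_ℂ) (g x : G) (c : ℂ) :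
    ‖π (g * x * g⁻¹) - c • 1‖ ≤ ‖π x - c • 1‖ := by
  have h : π (g * x * g⁻¹) - c • 1 = π g * (π x - c • 1) * π g⁻¹ := by
    rw [mul_sub, sub_mul, ← map_mul, ← map_mul, mul_smul_comm, smul_mul_assoc, mul_one, ← map_mul]
    simp
  rw [h]
  calc ‖π g * (π x - c • 1) * π g⁻¹‖ ≤ ‖π g‖ * ‖π x - c • 1‖ * ‖π g⁻¹‖ := norm_mul₃_le
    _ ≤ 1 * ‖π x - c • 1‖ * 1 := by
        gcongr
        · exact iso_opnorm_le π hπ _
        · exact iso_opnorm_le π hπ _
    _ = _ := by ring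

end Iso

end CfsgLib.Char
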