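import Cfsg.Agent.Lib.Char.Lin9
import Cfsg.Agent.Lib.Char.TIP1
import Cfsg.Agent.Lib.Char.ItoMichler

/-!
# Character degrees below a prime force a normal abelian Sylow subgroup
-/

set_option linter.unusedSectionVars false
set_option linter.style.haveILetI false
set_option linter.unusedSimpArgs false
set_option linter.unusedVariables false

namespace CfsgLib.Char

open Cfsg
open scoped Pointwise

universe u

section

variable {G : Type u} [Group G] [Finite G]

/-- Irreducible degrees of a subgroup are bounded by those of the group. -/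
theorem deg_subgroup {m : ℕ} (hb : ∀ χ : IrrCharacter G, charDegree (χ : G → ℂ) ≤ m)
    (H : Subgroup G) (θ : IrrCharacter H) : charDegree (θ : H → ℂ) ≤ m := by
  classical
  cases nonempty_fintype G
  letI : Fintype H := Fintype.ofFinite _
  have hτ := isCharacter_indFun H θ.2.isCharacter
  have h1 : indFun H (θ : H → ℂ) 1 ≠ 0 := by
    rw [indFun_one]
    refine mul_ne_zero ?_ θ.2.map_one_ne_zero
    exact_mod_cast Subgroup.index_ne_zero_of_finite
  obtain ⟨χ, hχ, hne⟩ := exists_constituent hτ h1
  rw [frobenius H _ hχ.isClassFunction] at hne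
  have hres := hχ.isCharacter.restrict H
  have h2 : classInner (fun h : H => χ h) (θ : H → ℂ) ≠ 0 := by
    rw [← conj_classInner]
    exact (map_ne_zero _).2 hne
  have h3 := degree_le_of_classInner_ne_zero hres θ.2 h2
  rw [irr_one_eq_charDegree θ] at h3
  have h4 : χ 1 = (charDegree χ : ℂ) := irr_one_eq_charDegree ⟨χ, hχ⟩
  have h5 : (fun h : H => χ h) 1 = (charDegree χ : ℂ) := by
    show χ ((1 : H) : G) = _
    rw [Subgroup.coe_one, h4]
  have h5' : χ ((1 : H) : G) = (charDegree χ : ℂ) := h5
  rw [h5'] at h3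
  simp only [Complex.norm_natCast] at h3
  have h6 : charDegree (θ : H → ℂ) ≤ charDegree χ := by exact_mod_cast h3
  exact h6.trans (hb ⟨χ, hχ⟩)

theorem deg_quotient {m : ℕ} (hb : ∀ χ : IrrCharacter G, charDegree (χ : G → ℂ) ≤ m)
    (N : Subgroup G) [N.Normal] (θ : IrrCharacter (G ⧸ N)) : charDegree (θ : (G ⧸ N) → ℂ) ≤ m := by
  have h1 : IsIrrCharacter G ((θ : (G ⧸ N) → ℂ) ∘ QuotientGroup.mk' N) :=
    θ.2.comp_surjective _ (QuotientGroup.mk'_surjective N)
  have h2 := hb ⟨_, h1⟩
  have h3 : charDegree ((θ : (G ⧸ N) → ℂ) ∘ QuotientGroup.mk' N) = charDegree (θ : (G ⧸ N) → ℂ) := by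
    unfold charDegree
    show ⌊((θ : (G ⧸ N) → ℂ) (QuotientGroup.mk' N 1)).re⌋₊ = _
    rw [map_one]
  rw [← h3]
  exact h2

/-- A `p`-subgroup is abelian when the degrees are below `p`. -/
theorem comm_of_deg_lt (p : ℕ) (hp : p.Prime)
    (hb : ∀ χ : IrrCharacter G, charDegree (χ : G → ℂ) < p)
    (P : Subgroup G) (hP : IsPGroup p P) : ∀ x ∈ P, ∀ y ∈ P, x * y = y * x := by
  classical
  haveI : Fact p.Prime := ⟨hp⟩
  letI : Fintype P := Fintype.ofFinite _
  have h1 : ∀ θ : IrrCharacter P, (θ : P → ℂ) 1 = 1 := by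
    intro θ
    have h2 : charDegree (θ : P → ℂ) < p := by
      have := deg_subgroup (m := p - 1) (fun χ => by have := hb χ; omega) P θ
      have := hp.pos
      omega
    have h3 := charDegree_dvd θ
    obtain ⟨a, ha⟩ := IsPGroup.iff_card.mp hP
    rw [ha] at h3
    obtain ⟨j, -, hj⟩ := (Nat.dvd_prime_pow hp).mp h3
    have hj0 : j = 0 := by
      by_contra h0
      have : p ≤ p ^ j := Nat.le_self_pow h0 p
      omega
    rw [hj0, pow_zero] at hj
    rw [irr_one_eq_charDegree θ, hj]
    simp
  intro x hx y hy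
  have h2 := (comm_iff_all_linear (G := P)).mpr h1 ⟨x, hx⟩ ⟨y, hy⟩
  exact congrArg Subtype.val h2

end

section Orbit

variable {G : Type u} [Group G] [Finite G] [Fintype G]

theorem conj_fix_of_small_orbit (N : Subgroup G) [N.Normal] (θ : N → ℂ) (x : G) {p k : ℕ}
    (hp : p.Prime) (hx : x ^ p ^ k = 1) (hcard : (conjOrbit N θ).card < p) : conjOn N x θ = θ := by
  classical
  let σ : Equiv.Perm (conjOrbit N θ) :=
    { toFun := fun ψ => ⟨conjOn N x ψ.1, by
        obtain ⟨g, hg⟩ := (mem_conjOrbit N).mp ψ.2
        refine (mem_conjOrbit N).mpr ⟨g * x, ?_⟩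
        rw [hg, conjOn_mul]⟩
      invFun := fun ψ => ⟨conjOn N x⁻¹ ψ.1, by
        obtain ⟨g, hg⟩ := (mem_conjOrbit N).mp ψ.2
        refine (mem_conjOrbit N).mpr ⟨g * x⁻¹, ?_⟩
        rw [hg, conjOn_mul]⟩
      left_inv := fun ψ => Subtype.ext (conjOn_inv_conjOn N x ψ.1)
      right_inv := fun ψ => Subtype.ext (conjOn_conjOn_inv N x ψ.1) }
  have hσ : ∀ (n : ℕ) (ψ : conjOrbit N θ), ((σ ^ n) ψ).1 = conjOn N (x ^ n) ψ.1 := by
    intro n
    induction n with
    | zero => intro ψ; simp [conjOn_one]
    | succ n ih =>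
      intro ψ
      rw [pow_succ', Equiv.Perm.mul_apply, pow_succ, conjOn_mul, ← ih ψ]
      rfl
  have h1 : σ ^ p ^ k = 1 := by
    ext1 ψ
    apply Subtype.ext
    rw [hσ, hx, conjOn_one]
    rfl
  have h2 : σ ^ (Nat.card (Equiv.Perm (conjOrbit N θ))) = 1 := pow_card_eq_one'
  have hc : Nat.Coprime (p ^ k) (Nat.card (Equiv.Perm (conjOrbit N θ))) := by
    rw [Nat.card_perm]
    apply Nat.Coprime.pow_left
    rw [hp.coprime_iff_not_dvd, hp.dvd_factorial]
    simp only [Nat.card_eq_fintype_card, Fintype.card_coe]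
    omega
  have h3 : σ = 1 := by
    have := (pow_gcd_eq_one).mpr ⟨h1, h2⟩
    rw [Nat.Coprime.gcd_eq_one hc, pow_one] at this
    exact this
  have hm : θ ∈ conjOrbit N θ := (mem_conjOrbit N).mpr ⟨1, (conjOn_one N θ).symm⟩
  have h4 : σ ⟨θ, hm⟩ = ⟨θ, hm⟩ := by rw [h3]; rfl
  exact congrArg Subtype.val h4

/-- Orbits of `G` on `Irr(N)` have size at most the degree of a character of `G` above. -/
theorem orbit_card_le {m : ℕ} (hb : ∀ χ : IrrCharacter G, charDegree (χ : G → ℂ) ≤ m)
    (N : Subgroup G) [N.Normal] (θ : IrrCharacter N) : (conjOrbit N (θ : N → ℂ)).card ≤ m := by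
  classical
  letI : Fintype N := Fintype.ofFinite _
  have hτ := isCharacter_indFun N θ.2.isCharacter
  have h1 : indFun N (θ : N → ℂ) 1 ≠ 0 := by
    rw [indFun_one]
    refine mul_ne_zero ?_ θ.2.map_one_ne_zero
    exact_mod_cast Subgroup.index_ne_zero_of_finite
  obtain ⟨χ, hχ, hne⟩ := exists_constituent hτ h1
  rw [frobenius N _ hχ.isClassFunction] at hne
  have h2 : classInner (fun h : N => χ h) (θ : N → ℂ) ≠ 0 := by
    rw [← conj_classInner]
    exact (map_ne_zero _).2 hne
  have hcl := clifford N hχ θ.2 h2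
  obtain ⟨e, he⟩ := (hχ.isCharacter.restrict N).classInner_nat θ.2
  rw [he] at h2 hcl
  have he0 : e ≠ 0 := by
    rintro rfl
    exact h2 (by simp)
  have h3 := congrFun hcl 1
  have h4 : χ ((1 : N) : G) = (charDegree χ : ℂ) := by
    rw [Subgroup.coe_one]
    exact irr_one_eq_charDegree ⟨χ, hχ⟩
  have h5 : ∀ ψ ∈ conjOrbit N (θ : N → ℂ), ψ 1 = (charDegree (θ : N → ℂ) : ℂ) := by
    intro ψ hψ
    obtain ⟨g, rfl⟩ := (mem_conjOrbit N).mp hψ
    rw [conjOn_apply, ← irr_one_eq_charDegree θ]
    exact congrArg (θ : N → ℂ) (Subtype.ext (by simp))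
  rw [h4] at h3
  simp only [Pi.smul_apply, Finset.sum_apply, Finset.sum_congr rfl h5, Finset.sum_const] at h3
  have h7 : charDegree χ = e * ((conjOrbit N (θ : N → ℂ)).card * charDegree (θ : N → ℂ)) := by
    have : ((charDegree χ : ℕ) : ℂ) = ((e * ((conjOrbit N (θ : N → ℂ)).card * charDegree (θ : N → ℂ)) : ℕ) : ℂ) := by
      rw [h3]
      push_cast
      simp
    exact_mod_cast this
  have h8 := charDegree_pos θ
  have h9 := hb ⟨χ, hχ⟩
  have h10 : (conjOrbit N (θ : N → ℂ)).card ≤ charDegree χ := by
    rw [h7]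
    calc (conjOrbit N (θ : N → ℂ)).card ≤ (conjOrbit N (θ : N → ℂ)).card * charDegree (θ : N → ℂ) :=
          Nat.le_mul_of_pos_right _ h8
      _ ≤ _ := Nat.le_mul_of_pos_left _ (Nat.pos_of_ne_zero he0)
  exact h10.trans h9

/-- A `p`-element centralizes every normal `p'`-subgroup when degrees are below `p`. -/
theorem centralizes_of_deg_lt (p : ℕ) (hp : p.Prime)
    (hb : ∀ χ : IrrCharacter G, charDegree (χ : G → ℂ) < p)
    (N : Subgroup G) [hN : N.Normal] (hN' : ¬ p ∣ Nat.card N) (x : G) (k : ℕ) (hx : x ^ p ^ k = 1)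
    (y : G) (hy : y ∈ N) : x * y = y * x := by
  classical
  letI : Fintype N := Fintype.ofFinite _
  have hb' : ∀ χ : IrrCharacter G, charDegree (χ : G → ℂ) ≤ p - 1 := fun χ => by
    have := hb χ; omega
  have hfix : ∀ θ : IrrCharacter N, conjOn N x (θ : N → ℂ) = θ := by
    intro θ
    refine conj_fix_of_small_orbit N _ x hp hx ?_
    have := orbit_card_le hb' N θ
    have := hp.pos
    omega
  have hcl : ∀ z : N, IsConj (⟨x * z * x⁻¹, hN.conj_mem z z.2 x⟩ : N) z := by
    intro z
    rw [isConj_iff_irr]
    intro θ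
    have := congrFun (hfix θ) z
    rw [conjOn_apply] at this
    exact this
  have hnorm : x ∈ Subgroup.normalizer (N : Set G) := by
    rw [Subgroup.normalizer_eq_top_iff.2 hN]
    exact Subgroup.mem_top _
  have hcop : Nat.Coprime (orderOf x) (Nat.card N) := by
    obtain ⟨j, -, hj⟩ := (Nat.dvd_prime_pow hp).mp (orderOf_dvd_of_pow_eq_one hx)
    rw [hj]
    apply Nat.Coprime.pow_left
    exact (hp.coprime_iff_not_dvd).mpr hN'
  let C : Subgroup N := Subgroup.comap N.subtype (Subgroup.centralizer {x})
  have hC : C = ⊤ := by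
    apply eq_top_of_forall_conj_mem
    intro a
    let Ω : Set G := {w | ∃ c ∈ N, c * a * c⁻¹ = w}
    obtain ⟨w, ⟨c, hc, rfl⟩, hw⟩ := exists_commute_of_coprime N x hnorm hcop Ω
      ⟨a, 1, N.one_mem, by simp⟩
      (by
        rintro b hb2 _ ⟨c, hc, rfl⟩
        exact ⟨b * c, N.mul_mem hb2 hc, by group⟩)
      (by
        rintro _ ⟨c, hc, rfl⟩
        have h2 : IsConj a (⟨c * a * c⁻¹, N.mul_mem (N.mul_mem hc a.2) (N.inv_mem hc)⟩ : N) := by
          refine isConj_iff.mpr ⟨⟨c, hc⟩, ?_⟩
          apply Subtype.ext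
          simp
        have h1 := h2.trans (hcl ⟨c * a * c⁻¹, N.mul_mem (N.mul_mem hc a.2) (N.inv_mem hc)⟩).symm
        obtain ⟨d, hd⟩ := isConj_iff.mp h1
        exact ⟨d, d.2, congrArg Subtype.val hd⟩)
      (by
        rintro _ ⟨c, hc, rfl⟩ _ ⟨c', hc', rfl⟩
        exact ⟨c' * c⁻¹, N.mul_mem hc' (N.inv_mem hc), by group⟩)
    refine ⟨⟨c, hc⟩, ?_⟩
    rw [Subgroup.mem_comap, Subgroup.mem_centralizer_singleton_iff]
    simpa using hw.symm
  have h1 : (⟨y, hy⟩ : N) ∈ C := by rw [hC]; exact Subgroup.mem_top _
  rw [Subgroup.mem_comap, Subgroup.mem_centralizer_singleton_iff] at h1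
  exact h1.symm

end Orbit

section Main

open CfsgLib.Solv

variable {G : Type u} [Group G] [Finite G]

theorem sylow_le_map_of_normal (p : ℕ) [Fact p.Prime] (L : Subgroup G)
    (hL : ∀ Q : Sylow p L, (Q : Subgroup L).Normal) (Q₀ : Sylow p L) (T : Subgroup G) (hT : T ≤ L)
    (hTp : IsPGroup p T) : T ≤ (Q₀ : Subgroup L).map L.subtype := by
  have h1 : IsPGroup p (T.subgroupOf L) := hTp.comap_of_injective L.subtype Subtype.val_injective
  obtain ⟨Q, hQ⟩ := h1.exists_le_sylow
  have hQQ : Q = Q₀ := by
    letI := Sylow.unique_of_normal Q₀ (hL Q₀)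
    exact Subsingleton.elim _ _
  intro t ht
  have h2 : (⟨t, hT ht⟩ : L) ∈ T.subgroupOf L := by
    rw [Subgroup.mem_subgroupOf]
    exact ht
  have h3 := hQ h2
  rw [hQQ] at h3
  exact ⟨_, h3, rfl⟩

theorem map_normal_of_normal (p : ℕ) [Fact p.Prime] (L : Subgroup G) [hLn : L.Normal]
    (hL : ∀ Q : Sylow p L, (Q : Subgroup L).Normal) (Q₀ : Sylow p L) :
    ((Q₀ : Subgroup L).map L.subtype).Normal := by
  constructor
  intro n hn g
  have h1 : IsPGroup p ((Q₀ : Subgroup L).map L.subtype) := Q₀.isPGroup'.map L.subtype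
  have h2 := sylow_le_map_of_normal p L hL Q₀
    (((Q₀ : Subgroup L).map L.subtype).map (MulAut.conj g).toMonoidHom)
    (by
      rintro _ ⟨_, ⟨w, _, rfl⟩, rfl⟩
      exact hLn.conj_mem _ w.2 g)
    (h1.map _)
  exact h2 ⟨n, hn, by simp⟩

theorem normal_of_le_normal (p : ℕ) [Fact p.Prime] (P : Sylow p G) (L : Subgroup G) [hLn : L.Normal]
    (hPL : (P : Subgroup G) ≤ L) (hL : ∀ Q : Sylow p L, (Q : Subgroup L).Normal) :
    (P : Subgroup G).Normal := by
  obtain ⟨Q₀⟩ : Nonempty (Sylow p L) := inferInstance
  have h1 := sylow_le_map_of_normal p L hL Q₀ P hPL P.isPGroup'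
  have h3 := P.is_maximal' (Q₀.isPGroup'.map L.subtype) h1
  have h4 := map_normal_of_normal p L hL Q₀
  rw [h3] at h4
  exact h4

theorem normal_sylow_of_deg_lt : ∀ (n : ℕ) (G : Type u) [Group G] [Finite G], Nat.card G = n →
    ∀ (p : ℕ) [Fact p.Prime], (∀ χ : IrrCharacter G, charDegree (χ : G → ℂ) < p) →
    ∀ P : Sylow p G, (P : Subgroup G).Normal := by
  intro n
  induction n using Nat.strong_induction_on with
  | _ n IH =>
    intro G _ _ hn p _ hb P
    classical
    have hp : p.Prime := Fact.out
    have hb' : ∀ χ : IrrCharacter G, charDegree (χ : G → ℂ) ≤ p - 1 := fun χ => by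
      have := hb χ; omega
    have hsub : ∀ L : Subgroup G, L ≠ ⊤ → ∀ Q : Sylow p L, (Q : Subgroup L).Normal := by
      intro L hL Q
      refine IH (Nat.card L) ?_ L rfl p ?_ Q
      · rw [← hn]
        have h1 := Subgroup.card_mul_index L
        have h2 := Subgroup.one_lt_index_of_ne_top hL
        have h3 : 0 < Nat.card L := Nat.card_pos
        nlinarith
      · intro θ
        have := deg_subgroup hb' L θ
        have := hp.pos
        omega
    have hquot : ∀ (N : Subgroup G) [N.Normal], N ≠ ⊥ → ∀ Q : Sylow p (G ⧸ N), (Q : Subgroup (G ⧸ N)).Normal := by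
      intro N _ hN Q
      refine IH (Nat.card (G ⧸ N)) ?_ (G ⧸ N) rfl p ?_ Q
      · rw [← hn]
        have h1 := Subgroup.card_mul_index N
        have h2 : 1 < Nat.card N := by
          have := (Subgroup.nontrivial_iff_ne_bot N).mpr hN
          exact Finite.one_lt_card
        have h3 : 0 < N.index := Nat.pos_of_ne_zero Subgroup.index_ne_zero_of_finite
        rw [Subgroup.index_eq_card] at h1 h3
        nlinarith
      · intro θ
        have := deg_quotient hb' N θ
        have := hp.pos
        omega
    by_contra hP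
    by_cases hS : ∃ N : Subgroup G, N.Normal ∧ N ≠ ⊥ ∧ N ≠ ⊤
    · obtain ⟨N, hN, hN1, hN2⟩ := hS
      haveI := hN
      have h1 := hquot N hN1 (P.mapSurjective (QuotientGroup.mk'_surjective N))
      have h2 : ((((P.mapSurjective (QuotientGroup.mk'_surjective N)) : Sylow p (G ⧸ N)) :
          Subgroup (G ⧸ N)).comap (QuotientGroup.mk' N)).Normal := h1.comap _
      have h3 : (((P.mapSurjective (QuotientGroup.mk'_surjective N)) : Sylow p (G ⧸ N)) :
          Subgroup (G ⧸ N)).comap (QuotientGroup.mk' N) = (P : Subgroup G) ⊔ N := by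
        rw [Sylow.coe_mapSurjective, Subgroup.comap_map_eq, QuotientGroup.ker_mk']
      rw [h3] at h2
      by_cases h4 : (P : Subgroup G) ⊔ N = ⊤
      · obtain ⟨S⟩ : Nonempty (Sylow p N) := inferInstance
        have hSn := hsub N hN2
        have hS₀ := map_normal_of_normal p N hSn S
        have hS₀p : IsPGroup p ((S : Subgroup N).map N.subtype) := S.isPGroup'.map N.subtype
        by_cases h5 : (S : Subgroup N).map N.subtype = ⊥
        · have hpN : ¬ p ∣ Nat.card N := by
            have h6 : (S : Subgroup N) = ⊥ := by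
              rwa [Subgroup.map_eq_bot_iff_of_injective _ Subtype.val_injective] at h5
            have h7 := S.not_dvd_index
            rw [h6, Subgroup.index_bot] at h7
            exact h7
          apply hP
          rw [← Subgroup.normalizer_eq_top_iff]
          refine eq_top_iff.2 (h4 ▸ sup_le Subgroup.le_normalizer ?_)
          intro y hy
          rw [Subgroup.mem_normalizer_iff]
          have hcomm : ∀ h ∈ (P : Subgroup G), h * y = y * h := by
            intro h hh
            obtain ⟨k, hk⟩ := (IsPGroup.iff_orderOf.mp P.isPGroup') ⟨h, hh⟩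
            have hk' : h ^ p ^ k = 1 := by
              have := pow_orderOf_eq_one (⟨h, hh⟩ : (P : Subgroup G))
              rw [hk] at this
              simpa using congrArg Subtype.val this
            cases nonempty_fintype G
            exact centralizes_of_deg_lt p hp hb N hpN h k hk' y hy
          intro h
          constructor
          · intro hh
            have : y * h * y⁻¹ = h := by rw [← hcomm h hh]; group
            rwa [this]
          · intro hh
            have h7 := hcomm _ hh
            have : h = y * h * y⁻¹ := by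
              have h8 : (y * h * y⁻¹) * y = y * (y * h * y⁻¹) := h7
              have h9 : y * h = y * (y * h * y⁻¹) := by
                rw [← h8]; group
              exact mul_left_cancel h9
            rwa [this]
        · have h6 : (S : Subgroup N).map N.subtype ≤ P := by
            haveI := hS₀
            exact hS₀p.le_sylow_of_normal P
          have h7 := hquot _ h5 (P.mapSurjective (QuotientGroup.mk'_surjective ((S : Subgroup N).map N.subtype)))
          have h8 := h7.comap (QuotientGroup.mk' ((S : Subgroup N).map N.subtype))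
          rw [Sylow.coe_mapSurjective, Subgroup.comap_map_eq, QuotientGroup.ker_mk', sup_eq_left.mpr h6] at h8
          exact hP h8
      · exact hP (normal_of_le_normal p P _ le_sup_left (hsub _ h4))
    · push Not at hS
      have hPne : (P : Subgroup G) ≠ ⊥ := by
        intro h
        apply hP
        rw [h]
        infer_instance
      have hcomm := comm_of_deg_lt p hp hb P P.isPGroup'
      cases nonempty_fintype G
      have hTI : ∀ g : G, g ∉ Subgroup.normalizer ((P : Subgroup G) : Set G) →
          (P : Subgroup G) ⊓ (MulAut.conj g • (P : Subgroup G)) = ⊥ := by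
        intro g hg
        by_contra hD
        let D : Subgroup G := (P : Subgroup G) ⊓ (MulAut.conj g • (P : Subgroup G))
        let M : Subgroup G := Subgroup.normalizer (D : Set G)
        have hPM : (P : Subgroup G) ≤ M := by
          intro x hx
          rw [Subgroup.mem_normalizer_iff]
          intro h
          constructor
          · intro hh
            have : x * h * x⁻¹ = h := by rw [hcomm x hx h hh.1]; group
            rwa [this]
          · intro hh
            have h7 := hcomm x hx _ hh.1
            have : h = x * h * x⁻¹ := by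
              have h8 : x * (x * h * x⁻¹) = (x * h * x⁻¹) * x := h7
              have h9 : x * h = x * (x * h * x⁻¹) := by
                rw [h8]; group
              exact mul_left_cancel h9
            rwa [this]
        have hcomm2 : ∀ x ∈ (MulAut.conj g • (P : Subgroup G)), ∀ y ∈ (MulAut.conj g • (P : Subgroup G)), x * y = y * x := by
          intro x hx y hy
          rw [mem_conj_smul] at hx hy
          have h7 := hcomm _ hx _ hy
          have h8 : g * (g⁻¹ * x * g * (g⁻¹ * y * g)) * g⁻¹ = g * (g⁻¹ * y * g * (g⁻¹ * x * g)) * g⁻¹ := by rw [h7]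
          simpa [mul_assoc] using h8
        have hgPM : (MulAut.conj g • (P : Subgroup G)) ≤ M := by
          intro x hx
          rw [Subgroup.mem_normalizer_iff]
          intro h
          constructor
          · intro hh
            have : x * h * x⁻¹ = h := by rw [hcomm2 x hx h hh.2]; group
            rwa [this]
          · intro hh
            have h7 := hcomm2 x hx _ hh.2
            have : h = x * h * x⁻¹ := by
              have h8 : x * (x * h * x⁻¹) = (x * h * x⁻¹) * x := h7
              have h9 : x * h = x * (x * h * x⁻¹) := by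
                rw [h8]; group
              exact mul_left_cancel h9
            rwa [this]
        have hM : M ≠ ⊤ := by
          intro h
          have hDn : D.Normal := Subgroup.normalizer_eq_top_iff.1 h
          have h5 := hS D hDn hD
          apply hP
          have h6 : (P : Subgroup G) = ⊤ := top_le_iff.1 (h5 ▸ inf_le_left)
          rw [h6]
          infer_instance
        obtain ⟨Q₀⟩ : Nonempty (Sylow p M) := inferInstance
        have h1 := sylow_le_map_of_normal p M (hsub M hM) Q₀ P hPM P.isPGroup'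
        have hgp : IsPGroup p (MulAut.conj g • (P : Subgroup G) : Subgroup G) := by
          rw [conj_smul_eq_map]
          exact P.isPGroup'.map _
        have h2 := sylow_le_map_of_normal p M (hsub M hM) Q₀ _ hgPM hgp
        have h3 := P.is_maximal' (Q₀.isPGroup'.map M.subtype) h1
        rw [h3] at h2
        have h4 : (MulAut.conj g • (P : Subgroup G) : Subgroup G) = P :=
          Subgroup.eq_of_le_of_card_ge h2 (by rw [card_conj_smul])
        apply hg
        rw [Subgroup.mem_normalizer_iff]
        intro h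
        conv_rhs => rw [← h4, mem_conj_smul]
        simp [mul_assoc]
      let K : Subgroup G := Subgroup.normalizer ((P : Subgroup G) : Set G)
      have hK : K ≠ ⊤ := fun h => hP (Subgroup.normalizer_eq_top_iff.1 h)
      letI : Fintype K := Fintype.ofFinite _
      have hΦ : IsCharacter G (indFun K (fun _ => (1 : ℂ))) :=
        isCharacter_indFun K ((isIrrCharacter_one (G := K)).isCharacter)
      have h1 : classInner (indFun K (fun _ => (1 : ℂ))) (fun _ : G => (1 : ℂ)) = 1 := by
        rw [frobenius K _ (isIrrCharacter_one (G := G)).isClassFunction]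
        exact classInner_irr_self (isIrrCharacter_one (G := K))
      have h2 := sub_isCharacter_of_classInner_ne_zero hΦ (isIrrCharacter_one (G := G)) (by rw [h1]; exact one_ne_zero)
      have h3 : (indFun K (fun _ => (1 : ℂ)) - fun _ : G => (1 : ℂ)) 1 ≠ 0 := by
        rw [Pi.sub_apply, indFun_one, mul_one, sub_ne_zero]
        have := Subgroup.one_lt_index_of_ne_top hK
        intro h
        have h' : K.index = 1 := by exact_mod_cast h
        omega
      obtain ⟨ψ, hψ, hψ2⟩ := exists_constituent h2 h3
      have hψ1 : ψ ≠ fun _ => 1 := by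
        intro h
        rw [h, classInner_sub_left, h1, classInner_irr_self (isIrrCharacter_one (G := G))] at hψ2
        exact hψ2 (sub_self _)
      have hψ3 : classInner (indFun K (fun _ => (1 : ℂ))) ψ ≠ 0 := by
        rw [classInner_sub_left, classInner_irr_ne (isIrrCharacter_one (G := G)) hψ (Ne.symm hψ1), sub_zero] at hψ2
        exact hψ2
      rw [frobenius K _ hψ.isClassFunction] at hψ3
      have hψ4 : classInner (fun k : K => ψ k) (fun _ => (1 : ℂ)) ≠ 0 := by
        rw [← conj_classInner]
        exact (map_ne_zero _).2 hψ3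
      have h5 := irr_fixed_large hTI ⟨ψ, hψ⟩ hψ1 K le_rfl hψ4
      have h6 := hb ⟨ψ, hψ⟩
      obtain ⟨a, ha⟩ := IsPGroup.iff_card.mp P.isPGroup'
      have ha0 : a ≠ 0 := by
        rintro rfl
        rw [pow_zero] at ha
        exact hPne (Subgroup.card_eq_one.mp ha)
      have h7 : p ≤ p ^ a := Nat.le_self_pow ha0 p
      simp only at h5 h6
      omega

theorem exists_normal_abelian_sylow (p : ℕ) (hp : p.Prime)
    (hb : ∀ χ : IrrCharacter G, charDegree (χ : G → ℂ) < p) :
    ∃ P : Subgroup G, P.Normal ∧ (∀ x ∈ P, ∀ y ∈ P, x * y = y * x) ∧ IsPGroup p P ∧ ¬ p ∣ P.index := by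
  haveI : Fact p.Prime := ⟨hp⟩
  obtain ⟨P⟩ : Nonempty (Sylow p G) := inferInstance
  exact ⟨P, normal_sylow_of_deg_lt _ G rfl p hb P, comm_of_deg_lt p hp hb P P.isPGroup', P.isPGroup', P.not_dvd_index⟩

end Main

end CfsgLib.Char
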