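import Cfsg.Agent.Lib.Char.Lin1

/-!
# Weight spaces of abelian subgroups and the `12^n` pigeonhole
-/

set_option linter.unusedSectionVars false
set_option linter.style.haveILetI false
set_option linter.unusedSimpArgs false
set_option linter.unusedVariables false

namespace CfsgLib.Char

open scoped InnerProductSpace ComplexConjugate
open Module

section Box

/-- A sector of the circle. -/
noncomputable def boxF (z : ℂ) : Fin 12 := Fin.ofNat 12 (⌈(Complex.arg z + Real.pi) * 6 / Real.pi⌉₊ - 1)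

theorem boxF_eq {z w : ℂ} (h : boxF z = boxF w) : |Complex.arg z - Complex.arg w| < Real.pi / 6 := by
  have hpi := Real.pi_pos
  set a := (Complex.arg z + Real.pi) * 6 / Real.pi with ha
  set b := (Complex.arg w + Real.pi) * 6 / Real.pi with hb
  have h1 : ∀ y : ℂ, 0 < (Complex.arg y + Real.pi) * 6 / Real.pi := fun y => by
    have := Complex.neg_pi_lt_arg y
    apply div_pos _ hpi
    apply mul_pos _ (by norm_num)
    linarith
  have h2 : ∀ y : ℂ, (Complex.arg y + Real.pi) * 6 / Real.pi ≤ 12 := fun y => by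
    have := Complex.arg_le_pi y
    rw [div_le_iff₀ hpi]
    nlinarith
  have h3 : ∀ y : ℂ, ⌈(Complex.arg y + Real.pi) * 6 / Real.pi⌉₊ - 1 < 12 := fun y => by
    have h4 : ⌈(Complex.arg y + Real.pi) * 6 / Real.pi⌉₊ ≤ 12 := Nat.ceil_le.mpr (by simpa using h2 y)
    omega
  have h5 : ∀ y : ℂ, 0 < ⌈(Complex.arg y + Real.pi) * 6 / Real.pi⌉₊ := fun y => Nat.ceil_pos.mpr (h1 y)
  have h6 : ⌈a⌉₊ = ⌈b⌉₊ := by
    have h7 : (⌈a⌉₊ - 1) % 12 = (⌈b⌉₊ - 1) % 12 := congrArg Fin.val h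
    have h3a : ⌈a⌉₊ - 1 < 12 := h3 z
    have h3b : ⌈b⌉₊ - 1 < 12 := h3 w
    rw [Nat.mod_eq_of_lt h3a, Nat.mod_eq_of_lt h3b] at h7
    have h8 : 0 < ⌈a⌉₊ := h5 z
    have h9 : 0 < ⌈b⌉₊ := h5 w
    omega
  have h8 : a ≤ ⌈a⌉₊ := Nat.le_ceil a
  have h9 : (⌈a⌉₊ : ℝ) < a + 1 := Nat.ceil_lt_add_one (h1 z).le
  have h10 : b ≤ ⌈b⌉₊ := Nat.le_ceil b
  have h11 : (⌈b⌉₊ : ℝ) < b + 1 := Nat.ceil_lt_add_one (h1 w).le
  rw [h6] at h8 h9
  have h12 : |a - b| < 1 := by
    rw [abs_lt]; constructor <;> linarith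
  have h13 : a - b = (Complex.arg z - Complex.arg w) * 6 / Real.pi := by
    rw [ha, hb]; field_simp; ring
  rw [h13, abs_div, abs_mul, abs_of_pos hpi, div_lt_one hpi] at h12
  norm_num at h12
  linarith

theorem boxF_norm {z w : ℂ} (hz : ‖z‖ = 1) (hw : ‖w‖ = 1) (h : boxF z = boxF w) :
    ‖z / w - ((Real.sqrt 3 / 2 : ℝ) : ℂ)‖ < 1 / 2 := by
  have hd := boxF_eq h
  set δ := Complex.arg z - Complex.arg w with hδ
  have h1 : z / w = Complex.exp (δ * Complex.I) := by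
    have h2 := Complex.norm_mul_exp_arg_mul_I z
    have h3 := Complex.norm_mul_exp_arg_mul_I w
    rw [hz] at h2
    rw [hw] at h3
    simp only [Complex.ofReal_one, one_mul] at h2 h3
    rw [hδ, Complex.ofReal_sub, sub_mul, Complex.exp_sub, h2, h3]
  have h4 : Real.cos (Real.pi / 6) < Real.cos δ := by
    rw [← Real.cos_abs δ]
    apply Real.cos_lt_cos_of_nonneg_of_le_pi_div_two (abs_nonneg _) (by linarith [Real.pi_pos]) hd
  rw [Real.cos_pi_div_six] at h4
  have hs3 : Real.sqrt 3 ^ 2 = 3 := Real.sq_sqrt (by norm_num)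
  have h5 : ‖z / w - ((Real.sqrt 3 / 2 : ℝ) : ℂ)‖ ^ 2 < (1 / 2) ^ 2 := by
    rw [h1, Complex.exp_mul_I, ← Complex.ofReal_cos, ← Complex.ofReal_sin, Complex.sq_norm,
      Complex.normSq_apply]
    simp
    have h6 := Real.sin_sq_add_cos_sq δ
    have h7 : 0 < Real.sqrt 3 := Real.sqrt_pos.mpr (by norm_num)
    have h8 : Real.sqrt 3 * (Real.sqrt 3 / 2) < Real.sqrt 3 * Real.cos δ := mul_lt_mul_of_pos_left h4 h7
    rw [Complex.cos_ofReal_re, Complex.sin_ofReal_re]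
    nlinarith
  exact lt_of_pow_lt_pow_left₀ 2 (by norm_num) h5

end Box

section Orth

variable {E : Type*} [NormedAddCommGroup E] [InnerProductSpace ℂ E]

theorem norm_sq_sum_orth {ι : Type*} (s : Finset ι) (g : ι → E)
    (h : ∀ i ∈ s, ∀ j ∈ s, i ≠ j → ⟪g i, g j⟫_ℂ = 0) :
    ‖∑ i ∈ s, g i‖ ^ 2 = ∑ i ∈ s, ‖g i‖ ^ 2 := by
  classical
  induction s using Finset.induction_on with
  | empty => simp
  | insert a s ha ih =>
    rw [Finset.sum_insert ha, Finset.sum_insert ha, norm_add_sq (𝕜 := ℂ), inner_sum,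
      Finset.sum_eq_zero, ih]
    · simp
    · intro i hi j hj hij
      exact h i (Finset.mem_insert_of_mem hi) j (Finset.mem_insert_of_mem hj) hij
    · intro i hi
      exact h a (Finset.mem_insert_self _ _) i (Finset.mem_insert_of_mem hi)
        (fun hh => ha (hh ▸ hi))

end Orth

section Iso

variable {G : Type*} [Group G] [Finite G]
  {E : Type*} [NormedAddCommGroup E] [InnerProductSpace ℂ E] [FiniteDimensional ℂ E]
  (π : G →* (E →L[ℂ] E))

/-- Linear endomorphisms from the representation. -/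
noncomputable def isoEnd (g : G) : Module.End ℂ E :=
  (ContinuousLinearMap.toLinearMapRingHom : (E →L[ℂ] E) →+* (E →ₗ[ℂ] E)) (π g)

theorem isoEnd_apply (g : G) (v : E) : isoEnd π g v = π g v := rfl

theorem isoEnd_semisimple (g : G) : (isoEnd π g).IsSemisimple := by
  have hn : 0 < Nat.card G := Nat.card_pos
  have hT : (isoEnd π g) ^ Nat.card G = 1 := by
    rw [isoEnd, ← map_pow, ← map_pow, pow_card_eq_one', map_one, map_one]
  have hsep : (Polynomial.X ^ Nat.card G - 1 : Polynomial ℂ).Separable :=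
    Polynomial.X_pow_sub_one_separable_iff.mpr (by exact_mod_cast hn.ne')
  exact Module.End.isSemisimple_of_squarefree_aeval_eq_zero hsep.squarefree (by simp [hT])

variable (H : Subgroup G)

/-- A weight space of the subgroup `H`. -/
noncomputable def wsp (χ : H → ℂ) : Submodule ℂ E :=
  ⨅ h : H, Module.End.eigenspace (isoEnd π (h : G)) (χ h)

theorem mem_wsp {χ : H → ℂ} {v : E} : v ∈ wsp π H χ ↔ ∀ h : H, π (h : G) v = χ h • v := by
  simp only [wsp, Submodule.mem_iInf, Module.End.mem_eigenspace_iff]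
  rfl

variable {H} in
theorem wsp_top (hab : ∀ a ∈ H, ∀ b ∈ H, a * b = b * a) : (⨆ χ : H → ℂ, wsp π H χ) = ⊤ := by
  have h1 := Module.End.iSup_iInf_maxGenEigenspace_eq_top_of_iSup_maxGenEigenspace_eq_top_of_commute
    (fun h : H => isoEnd π (h : G)) (fun a b _ => by
      show isoEnd π (a : G) * isoEnd π (b : G) = isoEnd π (b : G) * isoEnd π (a : G)
      simp only [isoEnd, ← map_mul]
      rw [hab a a.2 b b.2])
    (fun i => Module.End.iSup_maxGenEigenspace_eq_top _)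
  simp only [(isoEnd_semisimple π _).isFinitelySemisimple.maxGenEigenspace_eq_eigenspace] at h1
  exact h1

variable {H} in
theorem wsp_indep (hab : ∀ a ∈ H, ∀ b ∈ H, a * b = b * a) :
    iSupIndep (fun χ : H → ℂ => wsp π H χ) := by
  have h1 := Module.End.independent_iInf_maxGenEigenspace_of_forall_mapsTo
    (fun h : H => isoEnd π (h : G)) (fun i j φ => by
      apply Module.End.mapsTo_maxGenEigenspace_of_comm
      show isoEnd π (j : G) * isoEnd π (i : G) = isoEnd π (i : G) * isoEnd π (j : G)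
      simp only [isoEnd, ← map_mul]
      rw [hab j j.2 i i.2])
  simp only [(isoEnd_semisimple π _).isFinitelySemisimple.maxGenEigenspace_eq_eigenspace] at h1
  exact h1

theorem wsp_unit (hπ : ∀ g a b, ⟪π g a, π g b⟫_ℂ = ⟪a, b⟫_ℂ) {χ : H → ℂ} (hχ : wsp π H χ ≠ ⊥) (h : H) :
    ‖χ h‖ = 1 := by
  obtain ⟨v, hv, hv0⟩ := (Submodule.ne_bot_iff _).mp hχ
  have h1 := (mem_wsp π H).mp hv h
  have h2 := iso_norm π hπ (h : G) v
  rw [h1, norm_smul] at h2
  exact mul_right_cancel₀ (norm_pos_iff.mpr hv0).ne' (by rw [h2, one_mul])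

theorem wsp_mul {χ : H → ℂ} (hχ : wsp π H χ ≠ ⊥) (a b : H) : χ (a * b) = χ a * χ b := by
  obtain ⟨v, hv, hv0⟩ := (Submodule.ne_bot_iff _).mp hχ
  have h1 := (mem_wsp π H).mp hv
  have h2 : π ((a * b : H) : G) v = (χ a * χ b) • v := by
    have : π ((a * b : H) : G) v = π (a : G) (π (b : G) v) := by
      rw [Subgroup.coe_mul, map_mul]; rfl
    rw [this, h1 b, map_smul, h1 a, smul_smul, mul_comm]
  rw [h1 (a * b)] at h2
  have h3 : (χ (a * b) - χ a * χ b) • v = 0 := by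
    rw [sub_smul, h2, sub_self]
  rcases smul_eq_zero.mp h3 with h | h
  · exact sub_eq_zero.mp h
  · exact absurd h hv0

theorem wsp_one {χ : H → ℂ} (hχ : wsp π H χ ≠ ⊥) : χ 1 = 1 := by
  obtain ⟨v, hv, hv0⟩ := (Submodule.ne_bot_iff _).mp hχ
  have h1 := (mem_wsp π H).mp hv 1
  have h2 : π ((1 : H) : G) v = v := by simp
  rw [h2] at h1
  have h3 : (χ 1 - 1) • v = 0 := by
    rw [sub_smul, ← h1, one_smul, sub_self]
  rcases smul_eq_zero.mp h3 with h | h
  · exact sub_eq_zero.mp h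
  · exact absurd h hv0

theorem wsp_inv {χ : H → ℂ} (hχ : wsp π H χ ≠ ⊥) (a : H) : χ a⁻¹ = (χ a)⁻¹ := by
  have h1 := wsp_mul π H hχ a⁻¹ a
  rw [inv_mul_cancel, wsp_one π H hχ] at h1
  exact eq_inv_of_mul_eq_one_left h1.symm

variable {H} in
theorem weight_opnorm (hπ : ∀ g a b, ⟪π g a, π g b⟫_ℂ = ⟪a, b⟫_ℂ)
    (hab : ∀ a ∈ H, ∀ b ∈ H, a * b = b * a) (h : H) (c : ℂ) (r : ℝ) (hr : 0 ≤ r)
    (hle : ∀ χ : H → ℂ, wsp π H χ ≠ ⊥ → ‖χ h - c‖ ≤ r) : ‖π (h : G) - c • 1‖ ≤ r := by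
  classical
  refine ContinuousLinearMap.opNorm_le_bound _ hr (fun v => ?_)
  have hv : v ∈ ⨆ χ : H → ℂ, wsp π H χ := by rw [wsp_top π hab]; trivial
  obtain ⟨f, hf, hsum⟩ := (Submodule.mem_iSup_iff_exists_finsupp _ _).mp hv
  have hsum' : v = ∑ χ ∈ f.support, f χ := hsum.symm
  have horth : ∀ χ ∈ f.support, ∀ ψ ∈ f.support, χ ≠ ψ → ⟪f χ, f ψ⟫_ℂ = 0 := by
    intro χ hχ ψ hψ hne
    obtain ⟨h₀, hh₀⟩ := Function.ne_iff.mp hne
    have hχ0 : wsp π H χ ≠ ⊥ := by
      intro hbot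
      have := hf χ
      rw [hbot, Submodule.mem_bot] at this
      exact (Finsupp.mem_support_iff.mp hχ) this
    have h1 := iso_inner_scalar π hπ ((mem_wsp π H).mp (hf χ) h₀) (wsp_unit π H hπ hχ0 h₀) (f ψ)
    rw [(mem_wsp π H).mp (hf ψ) h₀, inner_smul_right] at h1
    have h2 : (χ h₀ - ψ h₀) * ⟪f χ, f ψ⟫_ℂ = 0 := by
      rw [sub_mul, sub_eq_zero]; exact h1.symm
    rcases mul_eq_zero.mp h2 with h3 | h3
    · exact absurd (sub_eq_zero.mp h3) hh₀
    · exact h3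
  have h1 : (π (h : G) - c • (1 : E →L[ℂ] E)) v = ∑ χ ∈ f.support, (χ h - c) • f χ := by
    conv_lhs => rw [hsum']
    rw [map_sum]
    refine Finset.sum_congr rfl (fun χ _ => ?_)
    have := (mem_wsp π H).mp (hf χ) h
    simp [this, sub_smul]
  have h2 : ‖(π (h : G) - c • (1 : E →L[ℂ] E)) v‖ ^ 2 = ∑ χ ∈ f.support, ‖χ h - c‖ ^ 2 * ‖f χ‖ ^ 2 := by
    rw [h1, norm_sq_sum_orth]
    · refine Finset.sum_congr rfl (fun χ _ => ?_)
      rw [norm_smul, mul_pow]
    · intro χ hχ ψ hψ hne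
      rw [inner_smul_left, inner_smul_right, horth χ hχ ψ hψ hne]
      simp
  have h3 : ‖v‖ ^ 2 = ∑ χ ∈ f.support, ‖f χ‖ ^ 2 := by
    conv_lhs => rw [hsum']
    exact norm_sq_sum_orth _ _ horth
  have h4 : ‖(π (h : G) - c • (1 : E →L[ℂ] E)) v‖ ^ 2 ≤ (r * ‖v‖) ^ 2 := by
    rw [h2, mul_pow, h3, Finset.mul_sum]
    refine Finset.sum_le_sum (fun χ hχ => ?_)
    have hχ0 : wsp π H χ ≠ ⊥ := by
      intro hbot
      have := hf χ
      rw [hbot, Submodule.mem_bot] at this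
      exact (Finsupp.mem_support_iff.mp hχ) this
    gcongr
    exact hle χ hχ0
  exact (pow_le_pow_iff_left₀ (norm_nonneg _) (by positivity) (by norm_num)).mp h4

/-- The elements within distance `< 1/2` of a scalar. -/
def nearSet : Set G := {x | ∃ c : ℂ, ‖π x - c • 1‖ < 1 / 2}

/-- The normal subgroup generated by the near-scalar elements. -/
def nearA : Subgroup G := Subgroup.normalClosure (nearSet π)

instance : (nearA π).Normal := Subgroup.normalClosure_normal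

theorem nearSet_comm (hπ : ∀ g a b, ⟪π g a, π g b⟫_ℂ = ⟪a, b⟫_ℂ)
    (hinj : Function.Injective π) : ∀ x ∈ nearA π, ∀ y ∈ nearA π, x * y = y * x := by
  have hconj : Group.conjugatesOfSet (nearSet π) ⊆ nearSet π := by
    intro x hx
    obtain ⟨a, ha, hax⟩ := Group.mem_conjugatesOfSet_iff.mp hx
    obtain ⟨g, hg⟩ := isConj_iff.mp hax
    obtain ⟨c, hc⟩ := ha
    refine ⟨c, lt_of_le_of_lt ?_ hc⟩
    rw [← hg]
    exact iso_near_conj π hπ g a c
  have hle : nearA π ≤ Subgroup.closure (nearSet π) := by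
    rw [nearA, Subgroup.normalClosure]
    exact Subgroup.closure_mono hconj
  have hcomm : ∀ x ∈ nearSet π, ∀ y ∈ nearSet π, x * y = y * x := by
    rintro x ⟨c, hc⟩ y ⟨d, hd⟩
    exact iso_near_comm π hπ hinj x y c d hc hd
  have h1 : Subgroup.closure (nearSet π) ≤ Subgroup.centralizer (nearSet π) := by
    rw [Subgroup.closure_le]
    intro x hx
    rw [SetLike.mem_coe, Subgroup.mem_centralizer_iff]
    intro y hy
    exact hcomm y hy x hx
  have h2 : Subgroup.closure (nearSet π) ≤ Subgroup.centralizer (Subgroup.closure (nearSet π) : Set G) := by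
    rw [Subgroup.closure_le]
    intro x hx
    rw [SetLike.mem_coe, Subgroup.mem_centralizer_iff]
    intro y hy
    have := Subgroup.mem_centralizer_iff.mp (h1 hy) x hx
    exact this.symm
  intro x hx y hy
  exact (Subgroup.mem_centralizer_iff.mp (h2 (hle hx)) y (hle hy)).symm

theorem exists_bound_lt {ι : Type*} [Finite ι] (f : ι → ℝ) (hf : ∀ i, f i < 1 / 2) :
    ∃ r : ℝ, 0 ≤ r ∧ r < 1 / 2 ∧ ∀ i, f i ≤ r := by
  rcases isEmpty_or_nonempty ι with h | h
  · exact ⟨0, le_rfl, by norm_num, fun i => (h.false i).elim⟩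
  · obtain ⟨i₀, hi₀⟩ := Finite.exists_max f
    exact ⟨max 0 (f i₀), le_max_left _ _, max_lt (by norm_num) (hf i₀),
      fun i => (hi₀ i).trans (le_max_right _ _)⟩

theorem nearA_index (hπ : ∀ g a b, ⟪π g a, π g b⟫_ℂ = ⟪a, b⟫_ℂ)
    (hH : ∀ a ∈ H, ∀ b ∈ H, a * b = b * a) :
    ((nearA π).subgroupOf H).index ≤ 12 ^ finrank ℂ E := by
  classical
  have hind := wsp_indep π hH
  haveI hfin : Finite {χ : H → ℂ // wsp π H χ ≠ ⊥} :=
    WellFoundedGT.finite_ne_bot_of_iSupIndep hind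
  letI : Fintype {χ : H → ℂ // wsp π H χ ≠ ⊥} := Fintype.ofFinite _
  have hcard := hind.subtype_ne_bot_le_finrank
  let label : H → ({χ : H → ℂ // wsp π H χ ≠ ⊥} → Fin 12) := fun h χ => boxF (χ.1 h)
  have hlabel : ∀ a b : H, label a = label b → a⁻¹ * b ∈ (nearA π).subgroupOf H := by
    intro a b hab
    rw [Subgroup.mem_subgroupOf]
    apply Subgroup.subset_normalClosure
    have h1 : ∀ χ : {χ : H → ℂ // wsp π H χ ≠ ⊥},
        ‖χ.1 (a⁻¹ * b) - ((Real.sqrt 3 / 2 : ℝ) : ℂ)‖ < 1 / 2 := by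
      intro χ
      rw [wsp_mul π H χ.2, wsp_inv π H χ.2, inv_mul_eq_div]
      exact boxF_norm (wsp_unit π H hπ χ.2 b) (wsp_unit π H hπ χ.2 a) (congrFun hab χ).symm
    obtain ⟨r, hr0, hr1, hr⟩ := exists_bound_lt _ h1
    refine ⟨((Real.sqrt 3 / 2 : ℝ) : ℂ), lt_of_le_of_lt ?_ hr1⟩
    exact weight_opnorm π hπ hH (a⁻¹ * b) _ r hr0 (fun χ hχ => hr ⟨χ, hχ⟩)
  have hinj : Function.Injective
      (fun q : H ⧸ (nearA π).subgroupOf H => label q.out) := by
    intro p q hpq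
    have h1 := hlabel _ _ hpq
    have h2 : ((p.out : H) : H ⧸ (nearA π).subgroupOf H) = (q.out : H) := QuotientGroup.eq.mpr h1
    simpa using h2
  have h3 := Nat.card_le_card_of_injective _ hinj
  rw [Subgroup.index]
  refine h3.trans ?_
  rw [Nat.card_eq_fintype_card, Fintype.card_fun, Fintype.card_fin]
  exact Nat.pow_le_pow_right (by norm_num) hcard

end Iso

end CfsgLib.Char
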