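import Cfsg.Agent.Lib.Char.Lin2
import Cfsg.Agent.Lib.Char.UniqueSing

/-!
# The averaged inner product; normal abelian subgroups of linear groups (the `12^n` bound)
-/

set_option linter.unusedSectionVars false
set_option linter.style.haveILetI false
set_option linter.unusedSimpArgs false
set_option linter.unusedVariables false

namespace CfsgLib.Char

open scoped InnerProductSpace ComplexConjugate
open Module

universe u

/-- Type synonym carrying the averaged inner product. -/
def AvgSp {G : Type u} [Group G] {n : ℕ} (ρ : Representation ℂ G (Fin n → ℂ)) : Type := Fin n → ℂ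

section

variable {G : Type u} [Group G] [Fintype G] {n : ℕ} (ρ : Representation ℂ G (Fin n → ℂ))

noncomputable instance : AddCommGroup (AvgSp ρ) := inferInstanceAs (AddCommGroup (Fin n → ℂ))
noncomputable instance : Module ℂ (AvgSp ρ) := inferInstanceAs (Module ℂ (Fin n → ℂ))
instance : FiniteDimensional ℂ (AvgSp ρ) := inferInstanceAs (FiniteDimensional ℂ (Fin n → ℂ))

/-- The coordinate identification. -/
noncomputable def avgL : AvgSp ρ ≃ₗ[ℂ] (Fin n → ℂ) := LinearEquiv.refl ℂ _

/-- The averaged inner product. -/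
noncomputable def avgCore : InnerProductSpace.Core ℂ (AvgSp ρ) where
  inner a b := ∑ g : G, ∑ i, conj ((ρ g (avgL ρ a)) i) * ((ρ g (avgL ρ b)) i)
  conj_inner_symm x y := by
    simp only [map_sum, map_mul, Complex.conj_conj]
    refine Finset.sum_congr rfl (fun g _ => Finset.sum_congr rfl (fun i _ => ?_))
    ring
  re_inner_nonneg x := by
    simp only [map_sum]
    refine Finset.sum_nonneg (fun g _ => Finset.sum_nonneg (fun i _ => ?_))
    rw [mul_comm, Complex.mul_conj]
    simp [Complex.normSq_nonneg]
  add_left x y z := by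
    simp only [map_add, Pi.add_apply, add_mul, Finset.sum_add_distrib]
  smul_left x y r := by
    simp only [map_smul, Pi.smul_apply, smul_eq_mul, map_mul, Finset.mul_sum]
    refine Finset.sum_congr rfl (fun g _ => Finset.sum_congr rfl (fun i _ => ?_))
    ring
  definite x hx := by
    have h1 : ∀ g : G, ∀ i, conj ((ρ g (avgL ρ x)) i) * ((ρ g (avgL ρ x)) i) = (Complex.normSq ((ρ g (avgL ρ x)) i) : ℂ) := by
      intro g i
      rw [mul_comm, Complex.mul_conj]
    simp only [h1] at hx
    have h2 : (∑ g : G, ∑ i, Complex.normSq ((ρ g (avgL ρ x)) i)) = 0 := by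
      exact_mod_cast hx
    have h3 := (Finset.sum_eq_zero_iff_of_nonneg (fun g _ => Finset.sum_nonneg (fun i _ => Complex.normSq_nonneg _))).mp h2 1 (Finset.mem_univ _)
    have h4 := (Finset.sum_eq_zero_iff_of_nonneg (fun i _ => Complex.normSq_nonneg _)).mp h3
    have h5 : (ρ 1 (avgL ρ x)) = 0 := by
      funext i
      exact Complex.normSq_eq_zero.mp (h4 i (Finset.mem_univ _))
    rw [map_one] at h5
    exact h5

/-- The normed group structure on the averaged space. -/
noncomputable instance avgNAG : NormedAddCommGroup (AvgSp ρ) :=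
  @InnerProductSpace.Core.toNormedAddCommGroup ℂ _ _ _ _ (avgCore ρ)

noncomputable instance avgIPS : InnerProductSpace ℂ (AvgSp ρ) :=
  InnerProductSpace.ofCore (avgCore ρ).toCore

theorem avg_inner (a b : AvgSp ρ) :
    ⟪a, b⟫_ℂ = ∑ g : G, ∑ i, conj ((ρ g (avgL ρ a)) i) * ((ρ g (avgL ρ b)) i) := rfl

/-- The transported representation. -/
noncomputable def avgPi : G →* (AvgSp ρ →L[ℂ] AvgSp ρ) where
  toFun g := LinearMap.toContinuousLinearMap ((avgL ρ).symm.toLinearMap ∘ₗ ρ g ∘ₗ (avgL ρ).toLinearMap)
  map_one' := by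
    ext v
    simp
  map_mul' x y := by
    ext v
    simp

theorem avgPi_apply (g : G) (v : AvgSp ρ) : avgL ρ (avgPi ρ g v) = ρ g (avgL ρ v) := rfl

theorem avgPi_iso (g : G) (a b : AvgSp ρ) : ⟪avgPi ρ g a, avgPi ρ g b⟫_ℂ = ⟪a, b⟫_ℂ := by
  rw [avg_inner, avg_inner]
  simp only [avgPi_apply]
  refine Fintype.sum_equiv (Equiv.mulRight g) _ _ (fun h => ?_)
  simp [map_mul]

theorem avgPi_inj (hρ : Function.Injective ρ) : Function.Injective (avgPi ρ) := by
  intro x y hxy
  apply hρ
  refine LinearMap.ext (fun v => ?_)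
  have := congrArg (fun T => avgL ρ (T ((avgL ρ).symm v))) hxy
  simpa [avgPi_apply] using this

end

/-- **Jordan-Frobenius**: a finite linear group of degree `n` has a normal abelian subgroup `A` with
`[H : H ∩ A] ≤ 12 ^ n` for all abelian `H`. -/
theorem linear_normal_abelian {G : Type u} [Group G] [Finite G] {n : ℕ}
    (ρ : Representation ℂ G (Fin n → ℂ)) (hρ : Function.Injective ρ) :
    ∃ A : Subgroup G, A.Normal ∧ (∀ x ∈ A, ∀ y ∈ A, x * y = y * x) ∧
      ∀ H : Subgroup G, (∀ x ∈ H, ∀ y ∈ H, x * y = y * x) → (A.subgroupOf H).index ≤ 12 ^ n := by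
  classical
  cases nonempty_fintype G
  refine ⟨nearA (avgPi ρ), inferInstance, nearSet_comm _ (avgPi_iso ρ) (avgPi_inj ρ hρ), ?_⟩
  intro H hH
  have h := nearA_index (avgPi ρ) H (avgPi_iso ρ) hH
  have h2 : finrank ℂ (AvgSp ρ) = n := by
    show finrank ℂ (Fin n → ℂ) = n
    simp
  rwa [h2] at h

/-- The representation of a faithful character is faithful. -/
theorem rep_injective_of_faithful {G : Type u} [Group G] {n : ℕ} (ρ : Representation ℂ G (Fin n → ℂ))
    (hfaith : ∀ g : G, ρ.character g = ρ.character 1 → g = 1) : Function.Injective ρ := by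
  intro x y hxy
  have h1 : ρ (x * y⁻¹) = 1 := by
    rw [map_mul, hxy, ← map_mul]; simp
  have h2 : x * y⁻¹ = 1 := by
    apply hfaith
    simp only [Representation.character, h1, map_one]
  exact mul_inv_eq_one.mp h2

theorem charDegree_of_rep {G : Type u} [Group G] {n : ℕ} (ρ : Representation ℂ G (Fin n → ℂ)) :
    Cfsg.charDegree ρ.character = n := by
  have h1 : ρ.character 1 = n := by
    simp [Representation.character, map_one]
  simp [Cfsg.charDegree, h1]

end CfsgLib.Char
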