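import Cfsg.Agent.Lib.Char.Lin3
import Cfsg.Agent.Lib.Char.StarP4
import Cfsg.Agent.Lib.Char.PowerMap

/-!
# Blichfeldt: commuting elements for primes `> n + 1`
-/

set_option linter.unusedSectionVars false
set_option linter.style.haveILetI false
set_option linter.unusedSimpArgs false
set_option linter.unusedVariables false

namespace CfsgLib.Char

open Cfsg

universe u

/-- `G` has a faithful character of degree at most `m`. -/
def LinDeg (G : Type u) [Group G] (m : ℕ) : Prop :=
  ∃ χ : G → ℂ, IsCharacter G χ ∧ (∀ g, χ g = χ 1 → g = 1) ∧ charDegree χ ≤ m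

section

variable {G : Type u} [Group G]

theorem LinDeg.of_injective {K : Type u} [Group K] {m : ℕ} (h : LinDeg G m) (f : K →* G)
    (hf : Function.Injective f) : LinDeg K m := by
  obtain ⟨χ, hχ, hfaith, hm⟩ := h
  refine ⟨fun k => χ (f k), hχ.comp f, fun g hg => ?_, ?_⟩
  · apply hf
    rw [map_one]
    apply hfaith
    simpa using hg
  · simpa [charDegree] using hm

theorem LinDeg.subgroup {m : ℕ} (h : LinDeg G m) (H : Subgroup G) : LinDeg H m :=
  h.of_injective H.subtype H.subtype_injective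

variable [Finite G]

/-- A character: constituents have degree at most that of the character. -/
theorem constituent_degree_le {χ : G → ℂ} {a : IrrCharacter G → ℕ}
    (hχ : χ = ∑ ψ, a ψ • (ψ : G → ℂ)) (ψ : IrrCharacter G) (h : a ψ ≠ 0) :
    charDegree (ψ : G → ℂ) ≤ charDegree χ := by
  classical
  cases nonempty_fintype G
  have h1 : χ 1 = ((∑ φ : IrrCharacter G, a φ * charDegree (φ : G → ℂ) : ℕ) : ℂ) := by
    rw [hχ, Finset.sum_apply]
    push_cast
    refine Finset.sum_congr rfl (fun φ _ => ?_)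
    show a φ • ((φ : G → ℂ) 1) = _
    rw [irr_one_eq_charDegree φ, nsmul_eq_mul]
  rw [charDegree_eq h1]
  calc charDegree (ψ : G → ℂ) ≤ a ψ * charDegree (ψ : G → ℂ) :=
        Nat.le_mul_of_pos_left _ (Nat.pos_of_ne_zero h)
    _ ≤ _ := Finset.single_le_sum (f := fun φ : IrrCharacter G => a φ * charDegree (φ : G → ℂ))
        (fun _ _ => Nat.zero_le _) (Finset.mem_univ ψ)

theorem value_eq_of_constituents {χ : G → ℂ} {a : IrrCharacter G → ℕ}
    (hχ : χ = ∑ ψ, a ψ • (ψ : G → ℂ)) (g : G)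
    (h : ∀ ψ : IrrCharacter G, a ψ ≠ 0 → (ψ : G → ℂ) g = (ψ : G → ℂ) 1) : χ g = χ 1 := by
  rw [hχ]
  simp only [Finset.sum_apply, Pi.smul_apply]
  refine Finset.sum_congr rfl (fun φ _ => ?_)
  by_cases h0 : a φ = 0
  · simp [h0]
  · rw [h φ h0]

/-- A faithful character whose constituents all have degree dividing a power of a prime `q` larger
than the degree: the group is abelian. -/
theorem comm_of_degree_dvd {m q : ℕ} (hL : LinDeg G m) (hq : q.Prime) (hmq : m < q)
    (hd : ∀ ψ : IrrCharacter G, ∃ k, charDegree (ψ : G → ℂ) ∣ q ^ k) (x y : G) : x * y = y * x := by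
  classical
  cases nonempty_fintype G
  obtain ⟨χ, hχ, hfaith, hm⟩ := hL
  obtain ⟨a, ha⟩ := hχ.exists_coeff
  have h1 : x * y * x⁻¹ * y⁻¹ = 1 := by
    apply hfaith
    refine value_eq_of_constituents ha _ (fun ψ hψ => ?_)
    obtain ⟨k, hk⟩ := hd ψ
    have h2 := (constituent_degree_le ha ψ hψ).trans hm
    obtain ⟨j, -, hj⟩ := (Nat.dvd_prime_pow hq).mp hk
    have h3 : j = 0 := by
      by_contra h0
      have : q ≤ q ^ j := Nat.le_self_pow h0 q
      omega
    have h4 : charDegree (ψ : G → ℂ) = 1 := by rw [hj, h3, pow_zero]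
    have h5 : (ψ : G → ℂ) 1 = 1 := by
      rw [irr_one_eq_charDegree ψ, h4]; simp
    rw [commutator_eq_one_of_degree_one ψ.2.isCharacter h5, h5]
  have : x * y * x⁻¹ * y⁻¹ * (y * x) = 1 * (y * x) := by rw [h1]
  simpa [mul_assoc] using this

/-- Sylow subgroups for large primes are abelian. -/
theorem comm_of_pgroup {m q : ℕ} (hL : LinDeg G m) (hq : q.Prime) (hmq : m < q)
    (hG : IsPGroup q G) (x y : G) : x * y = y * x := by
  cases nonempty_fintype G
  refine comm_of_degree_dvd hL hq hmq (fun ψ => ?_) x y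
  haveI : Fact q.Prime := ⟨hq⟩
  obtain ⟨k, hk⟩ := IsPGroup.iff_card.mp hG
  exact ⟨k, hk ▸ charDegree_dvd ψ⟩

theorem comm_of_pSubgroup {m q : ℕ} (hL : LinDeg G m) (hq : q.Prime) (hmq : m < q)
    (P : Subgroup G) (hP : IsPGroup q P) : ∀ x ∈ P, ∀ y ∈ P, x * y = y * x := by
  intro x hx y hy
  have := comm_of_pgroup (hL.subgroup P) hq hmq hP ⟨x, hx⟩ ⟨y, hy⟩
  exact congrArg Subtype.val this

/-- A `q`-element normalizing an abelian subgroup centralizes it, when `q` exceeds the degree. -/
theorem comm_of_normalize {m q : ℕ} (hL : LinDeg G m) (hq : q.Prime) (hmq : m < q)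
    (S : Subgroup G) (hS : ∀ a ∈ S, ∀ b ∈ S, a * b = b * a) (x : G) (k : ℕ) (hxk : x ^ q ^ k = 1)
    (hxS : x ∈ Subgroup.normalizer (S : Set G)) (b : G) (hb : b ∈ S) : x * b = b * x := by
  classical
  let N := Subgroup.normalizer (S : Set G)
  let S' : Subgroup N := S.subgroupOf N
  haveI hS' : S'.Normal := Subgroup.normal_subgroupOf_iff_le_normalizer (Subgroup.le_normalizer) |>.mpr le_rfl
  let x' : N := ⟨x, hxS⟩
  let X' : Subgroup N := Subgroup.zpowers x'
  let T : Subgroup N := X' ⊔ S'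
  let S'' : Subgroup T := S'.subgroupOf T
  haveI hS'' : S''.Normal := Subgroup.normal_subgroupOf
  have hidx : S''.index ∣ q ^ k := by
    show S'.relIndex T ∣ q ^ k
    rw [Subgroup.relIndex_sup_right]
    refine (Subgroup.relIndex_dvd_card _ _).trans ?_
    rw [Nat.card_zpowers]
    apply orderOf_dvd_of_pow_eq_one
    ext
    simpa [x'] using hxk
  have hcomm : ∀ a ∈ S'', ∀ b ∈ S'', a * b = b * a := by
    intro a ha b hb
    have h1 : ((a : N) : G) ∈ S := ha
    have h2 : ((b : N) : G) ∈ S := hb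
    apply Subtype.ext
    apply Subtype.ext
    exact hS _ h1 _ h2
  let f : T →* G := N.subtype.comp T.subtype
  have hf : Function.Injective f := N.subtype_injective.comp T.subtype_injective
  have hL' := hL.of_injective f hf
  have hT := comm_of_degree_dvd hL' hq hmq (fun ψ => by
    obtain ⟨n, ρ, hρ, hψ⟩ := ψ.2
    haveI := hρ
    have h1 := finrank_dvd_index_of_abelian ρ S'' hcomm
    refine ⟨k, ?_⟩
    have h2 : charDegree (ψ : T → ℂ) = n := by
      rw [← hψ]; exact charDegree_of_rep ρ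
    rw [h2]
    simp only [Module.finrank_fin_fun] at h1
    exact h1.trans hidx)
  have hx' : x' ∈ T := (le_sup_left : X' ≤ T) (Subgroup.mem_zpowers x')
  have hb' : (⟨b, Subgroup.le_normalizer hb⟩ : N) ∈ T :=
    (le_sup_right : S' ≤ T) (by show b ∈ S; exact hb)
  have := hT ⟨x', hx'⟩ ⟨⟨b, Subgroup.le_normalizer hb⟩, hb'⟩
  exact congrArg (fun t : T => ((t : N) : G)) this

end

end CfsgLib.Char
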