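import Cfsg.Agent.Lib.Char.Lin4

/-!
# Blichfeldt: an element of order divisible by `r s` for primes `r, s > n + 1`
-/

set_option linter.unusedSectionVars false
set_option linter.style.haveILetI false
set_option linter.unusedSimpArgs false
set_option linter.unusedVariables false

namespace CfsgLib.Char

open Cfsg
open scoped ComplexConjugate commutatorElement

universe u

section

variable {G : Type u} [Group G] [Finite G]

theorem value_constant_root {χ : G → ℂ} (hχ : IsCharacter G χ) {s : ℕ} (hs : s.Prime) {y : G}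
    (hy : y ^ s = 1) (hconst : ∀ t, 0 < t → t < s → χ (y ^ t) = χ y) (hne : χ y ≠ χ 1) :
    s - 1 ≤ charDegree χ := by
  classical
  obtain ⟨n, ρ, rfl⟩ := hχ
  have hT : (ρ y) ^ s = 1 := by rw [← map_pow, hy, map_one]
  obtain ⟨m, b, μ, hb, hμ⟩ := exists_eigenbasis (ρ y) hs.pos hT
  have hmn : m = n := by
    have := finrank_eq_of_basis b
    simpa using this.symm
  subst hmn
  rw [charDegree_of_rep]
  have hbk : ∀ (k : ℕ) (i : Fin m), ρ (y ^ k) (b i) = (μ i ^ k) • b i := by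
    intro k i
    induction k with
    | zero => simp
    | succ k ih =>
      rw [pow_succ, map_mul, Module.End.mul_apply, hb, map_smul, ih, smul_smul, pow_succ, mul_comm]
  have hchar : ∀ k : ℕ, ρ.character (y ^ k) = ∑ i, μ i ^ k := fun k =>
    character_eq_sum ρ (y ^ k) b _ (hbk k)
  have hgeom : ∀ ξ : ℂ, ξ ^ s = 1 → ξ ≠ 1 → ∑ k ∈ Finset.range s, ξ ^ k = 0 := by
    intro ξ h1 h2
    have h3 := geom_sum_mul ξ s
    rw [h1, sub_self] at h3
    exact (mul_eq_zero.mp h3).resolve_right (sub_ne_zero.mpr h2)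
  have hroot : ∀ ω : ℂ, ω ^ s = 1 → ω ≠ 1 → ∃ i, μ i = ω := by
    intro ω h1 h2
    by_contra hcon
    push Not at hcon
    have hω0 : ω ≠ 0 := by
      intro h; rw [h, zero_pow hs.ne_zero] at h1; exact zero_ne_one h1
    have h3 : ∑ k ∈ Finset.range s, (ω⁻¹) ^ k * ρ.character (y ^ k) = 0 := by
      simp only [hchar, Finset.mul_sum]
      rw [Finset.sum_comm]
      refine Finset.sum_eq_zero (fun i _ => ?_)
      have h4 : ∀ k, (ω⁻¹) ^ k * μ i ^ k = (ω⁻¹ * μ i) ^ k := fun k => (mul_pow _ _ _).symm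
      simp only [h4]
      apply hgeom
      · rw [mul_pow, inv_pow, h1, hμ i]; simp
      · intro h
        apply hcon i
        have : μ i = ω * (ω⁻¹ * μ i) := by field_simp
        rw [this, h, mul_one]
    have h5 : ∑ k ∈ Finset.range s, (ω⁻¹) ^ k = 0 := by
      apply hgeom
      · rw [inv_pow, h1, inv_one]
      · intro h
        apply h2
        exact inv_eq_one.mp h
    have h6 : ∑ k ∈ Finset.range s, (ω⁻¹) ^ k * ρ.character (y ^ k) = ρ.character 1 - ρ.character y := by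
      have h7 : ∑ k ∈ Finset.range s, (ω⁻¹) ^ k * ρ.character (y ^ k)
          = ∑ k ∈ Finset.range s, (ω⁻¹) ^ k * (ρ.character (y ^ k) - ρ.character y) := by
        simp only [mul_sub, Finset.sum_sub_distrib, ← Finset.sum_mul, h5, zero_mul, sub_zero]
      rw [h7, Finset.sum_eq_single 0]
      · simp
      · intro k hk hk0
        rw [hconst k (Nat.pos_of_ne_zero hk0) (Finset.mem_range.mp hk), sub_self, mul_zero]
      · intro h
        exact absurd (Finset.mem_range.mpr hs.pos) h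
    rw [h6] at h3
    exact hne (sub_eq_zero.mp h3).symm
  have hζ := Complex.isPrimitiveRoot_exp s hs.ne_zero
  set ζ := Complex.exp (2 * Real.pi * Complex.I / s) with hζdef
  have hpick : ∀ j : Fin (s - 1), ∃ i, μ i = ζ ^ ((j : ℕ) + 1) := by
    intro j
    apply hroot
    · rw [← pow_mul, mul_comm, pow_mul, hζ.pow_eq_one, one_pow]
    · intro h
      have h1 := hζ.dvd_of_pow_eq_one _ h
      have h2 := Nat.le_of_dvd (Nat.succ_pos _) h1
      have h3 := j.2
      have := hs.pos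
      omega
  choose f hf using hpick
  have hfinj : Function.Injective f := by
    intro j j' hjj
    have h1 := hf j
    rw [hjj, hf j'] at h1
    have h2 := hζ.pow_inj (i := (j' : ℕ) + 1) (j := (j : ℕ) + 1)
      (by have := j'.2; have := hs.pos; omega) (by have := j.2; have := hs.pos; omega) h1
    apply Fin.ext
    omega
  have := Fintype.card_le_of_injective f hfinj
  simpa using this

/-- A Galois twist moving a character that sees an element of order `s`. -/
theorem exists_twist_ne (ψ : IrrCharacter G) {s : ℕ} (hs : s.Prime)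
    (hdeg : charDegree (ψ : G → ℂ) + 2 ≤ s) {y : G} (hy : y ^ s = 1)
    (hne : (ψ : G → ℂ) y ≠ (ψ : G → ℂ) 1) :
    ∃ ψ' : G → ℂ, IsIrrCharacter G ψ' ∧ ψ' ≠ (ψ : G → ℂ) ∧
      ∀ g : G, ¬ s ∣ orderOf g → ψ' g = (ψ : G → ℂ) g := by
  classical
  haveI : Fact s.Prime := ⟨hs⟩
  have hex : ∃ t, 0 < t ∧ t < s ∧ (ψ : G → ℂ) (y ^ t) ≠ (ψ : G → ℂ) y := by
    by_contra hcon
    push Not at hcon
    have := value_constant_root ψ.2.isCharacter hs hy (fun t h1 h2 => hcon t h1 h2) hne
    omega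
  obtain ⟨t, ht0, hts, ht⟩ := hex
  have hy1 : y ≠ 1 := by
    rintro rfl
    exact hne rfl
  have hoy : orderOf y = s := orderOf_eq_prime hy hy1
  have hsN : s ∣ Nat.card G := hoy ▸ orderOf_dvd_natCard y
  set N := Nat.card G with hN
  have hN0 : N ≠ 0 := Nat.card_pos.ne'
  set v := N.factorization s with hv
  have hab : N = s ^ v * (N / s ^ v) := (Nat.ordProj_mul_ordCompl_eq_self N s).symm
  have hcop : Nat.Coprime (s ^ v) (N / s ^ v) := by
    apply Nat.Coprime.pow_left
    exact (Nat.Prime.coprime_iff_not_dvd hs).mpr (Nat.not_dvd_ordCompl hs hN0)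
  have hv1 : 1 ≤ v := (hs.dvd_iff_one_le_factorization hN0).mp hsN
  have htc : Nat.Coprime t (s ^ v) := by
    apply Nat.Coprime.pow_right
    exact ((Nat.Prime.coprime_iff_not_dvd hs).mpr (Nat.not_dvd_of_pos_of_lt ht0 hts)).symm
  obtain ⟨ψ', h1, h2, h3, h4⟩ := galois_twist (s ^ v) (N / s ^ v) t hab hcop htc (ψ : G → ℂ) ψ.2.isCharacter
  refine ⟨ψ', h2 ψ.2, ?_, ?_⟩
  · intro h
    have h5 := h3 y (by rw [hoy]; exact dvd_pow_self s (by omega))
    rw [h] at h5
    exact ht h5.symm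
  · intro g hg
    apply h4
    apply Nat.Coprime.pow_right
    exact ((Nat.Prime.coprime_iff_not_dvd hs).mpr hg).symm

/-- The character argument: a character seeing elements of orders `r` and `s` of degree at most
`min(r,s)-2` forces an element of order divisible by `r s`. -/
theorem exists_order_mul_of_irr (ψ : IrrCharacter G) {r s : ℕ} (hr : r.Prime) (hs : s.Prime)
    (hrs : r ≠ s) (hdr : charDegree (ψ : G → ℂ) + 2 ≤ r) (hds : charDegree (ψ : G → ℂ) + 2 ≤ s)
    {x y : G} (hx : x ^ r = 1) (hxne : (ψ : G → ℂ) x ≠ (ψ : G → ℂ) 1) (hy : y ^ s = 1)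
    (hyne : (ψ : G → ℂ) y ≠ (ψ : G → ℂ) 1) : ∃ g : G, r * s ∣ orderOf g := by
  classical
  cases nonempty_fintype G
  by_contra hcon
  push Not at hcon
  obtain ⟨ψ₁, h1, h2, h3⟩ := exists_twist_ne ψ hs hds hy hyne
  obtain ⟨ψ₂, h4, h5, h6⟩ := exists_twist_ne ψ hr hdr hx hxne
  have hzero : classInner ((ψ : G → ℂ) - ψ₁) ((ψ : G → ℂ) - ψ₂) = 0 := by
    rw [classInner_def]
    refine mul_eq_zero_of_right _ (Finset.sum_eq_zero (fun g _ => ?_))
    by_cases hgs : s ∣ orderOf g
    · by_cases hgr : r ∣ orderOf g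
      · exact absurd (Nat.Coprime.mul_dvd_of_dvd_of_dvd ((Nat.coprime_primes hr hs).mpr hrs) hgr hgs) (hcon g)
      · simp [h6 g hgr]
    · simp [h3 g hgs]
  have h7 : classInner (ψ : G → ℂ) ψ₂ = 0 := classInner_irr_ne ψ.2 h4 h5.symm
  have h8 : classInner ψ₁ (ψ : G → ℂ) = 0 := classInner_irr_ne h1 ψ.2 h2
  have h9 : classInner (ψ : G → ℂ) (ψ : G → ℂ) = 1 := classInner_irr_self ψ.2
  have h10 : classInner ψ₁ ψ₂ = 0 ∨ classInner ψ₁ ψ₂ = 1 := by
    by_cases h : ψ₁ = ψ₂
    · right; rw [← h]; exact classInner_irr_self h1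
    · left; exact classInner_irr_ne h1 h4 h
  rw [classInner_sub_left, classInner_sub_right, classInner_sub_right, h7, h8, h9] at hzero
  rcases h10 with h | h <;> rw [h] at hzero <;> norm_num at hzero

/-- **Blichfeldt's lemma**. -/
theorem exists_order_mul {m r s : ℕ} (hL : LinDeg G m) (hr : r.Prime) (hs : s.Prime)
    (hrs : r ≠ s) (hmr : m + 1 < r) (hms : m + 1 < s) (hrG : r ∣ Nat.card G) (hsG : s ∣ Nat.card G) :
    ∃ g : G, r * s ∣ orderOf g := by
  classical
  cases nonempty_fintype G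
  obtain ⟨χ, hχ, hfaith, hm⟩ := hL
  obtain ⟨a, ha⟩ := hχ.exists_coeff
  by_cases hcase : ∃ ψ : IrrCharacter G, a ψ ≠ 0 ∧ (∃ x, x ^ r = 1 ∧ (ψ : G → ℂ) x ≠ (ψ : G → ℂ) 1) ∧
      (∃ y, y ^ s = 1 ∧ (ψ : G → ℂ) y ≠ (ψ : G → ℂ) 1)
  · obtain ⟨ψ, hψ, ⟨x, hx, hxne⟩, ⟨y, hy, hyne⟩⟩ := hcase
    have hd := (constituent_degree_le ha ψ hψ).trans hm
    exact exists_order_mul_of_irr ψ hr hs hrs (by omega) (by omega) hx hxne hy hyne
  · push Not at hcase
    haveI : Fact r.Prime := ⟨hr⟩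
    haveI : Fact s.Prime := ⟨hs⟩
    obtain ⟨x, hx⟩ := exists_prime_orderOf_dvd_card' r hrG
    obtain ⟨y, hy⟩ := exists_prime_orderOf_dvd_card' s hsG
    have hxr : x ^ r = 1 := hx ▸ pow_orderOf_eq_one x
    have hys : y ^ s = 1 := hy ▸ pow_orderOf_eq_one y
    have hcomm : x * y * x⁻¹ * y⁻¹ = 1 := by
      apply hfaith
      refine value_eq_of_constituents ha _ (fun ψ hψ => ?_)
      obtain ⟨K, hK, hKmem⟩ := exists_kerS ψ.2
      by_cases h : ∀ x : G, x ^ r = 1 → (ψ : G → ℂ) x = (ψ : G → ℂ) 1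
      · have hxK : x ∈ K := (hKmem x).mpr (h x hxr)
        have h1 : x * y * x⁻¹ * y⁻¹ ∈ K := by
          have h2 : y * x⁻¹ * y⁻¹ ∈ K := hK.conj_mem _ (K.inv_mem hxK) y
          have h3 := K.mul_mem hxK h2
          have h4 : x * y * x⁻¹ * y⁻¹ = x * (y * x⁻¹ * y⁻¹) := by group
          rw [h4]; exact h3
        exact (hKmem _).mp h1
      · push Not at h
        obtain ⟨x', hx', hne'⟩ := h
        have h2 := hcase ψ hψ ⟨x', hx', hne'⟩ y hys
        have hyK : y ∈ K := (hKmem y).mpr h2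
        have h1 : x * y * x⁻¹ * y⁻¹ ∈ K := by
          have h3 : x * y * x⁻¹ ∈ K := hK.conj_mem _ hyK x
          exact K.mul_mem h3 (K.inv_mem hyK)
        exact (hKmem _).mp h1
    have hc : Commute x y := by
      show x * y = y * x
      have : x * y * x⁻¹ * y⁻¹ * (y * x) = 1 * (y * x) := by rw [hcomm]
      simpa [mul_assoc] using this
    refine ⟨x * y, ?_⟩
    rw [hc.orderOf_mul_eq_mul_orderOf_of_coprime (by rw [hx, hy]; exact (Nat.coprime_primes hr hs).mpr hrs), hx, hy]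

end

end CfsgLib.Char
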