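import Cfsg.Agent.Lib.Char.Lin5

/-!
# Blichfeldt: a linear group of degree `n` has an abelian Hall subgroup for the primes `> n + 1`
-/

set_option linter.unusedSectionVars false
set_option linter.style.haveILetI false
set_option linter.unusedSimpArgs false
set_option linter.unusedVariables false

namespace CfsgLib.Char

open Cfsg
open scoped Pointwise commutatorElement

universe u

/-- Abelian Hall subgroup for the primes `> m + 1`. -/
structure IsH (m : ℕ) (G : Type u) [Group G] (A : Subgroup G) : Prop where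
  comm : ∀ x ∈ A, ∀ y ∈ A, x * y = y * x
  big : ∀ q : ℕ, q.Prime → q ∣ Nat.card A → m + 1 < q
  small : ∀ q : ℕ, q.Prime → q ∣ A.index → q ≤ m + 1

section

variable {G : Type u} [Group G] [Finite G]

theorem exists_sylow_le (L : Subgroup G) (t : ℕ) [ht : Fact t.Prime] (h : ¬ t ∣ L.index) :
    ∃ T : Sylow t G, (T : Subgroup G) ≤ L := by
  obtain ⟨Q⟩ : Nonempty (Sylow t L) := inferInstance
  have hP : IsPGroup t ((Q : Subgroup L).map L.subtype) := Q.isPGroup'.map L.subtype
  have hi : ¬ t ∣ ((Q : Subgroup L).map L.subtype).index := by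
    rw [Subgroup.index_map_subtype]
    intro hd
    rcases (Nat.Prime.dvd_mul ht.out).mp hd with h1 | h1
    · exact Q.not_dvd_index h1
    · exact h h1
  refine ⟨hP.toSylow hi, ?_⟩
  rw [IsPGroup.toSylow_coe]
  exact Subgroup.map_subtype_le _

theorem exists_sylow_mem (t : ℕ) [ht : Fact t.Prime] (x : G) (k : ℕ) (hx : x ^ t ^ k = 1) :
    ∃ T : Sylow t G, x ∈ (T : Subgroup G) := by
  have h1 : IsPGroup t (Subgroup.zpowers x) := by
    rw [IsPGroup.iff_card, Nat.card_zpowers]
    obtain ⟨j, -, hj⟩ := (Nat.dvd_prime_pow ht.out).mp (orderOf_dvd_of_pow_eq_one hx)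
    exact ⟨j, hj⟩
  obtain ⟨T, hT⟩ := h1.exists_le_sylow
  exact ⟨T, hT (Subgroup.mem_zpowers x)⟩

/-- Commuting pairs of Sylow subgroups can be conjugated. -/
theorem comm_syl_conj {r s : ℕ} [Fact r.Prime] [Fact s.Prime] {R₀ R : Sylow r G} {S₀ : Sylow s G}
    (h : ∀ a ∈ (R₀ : Subgroup G), ∀ b ∈ (S₀ : Subgroup G), a * b = b * a) :
    ∃ S : Sylow s G, ∀ a ∈ (R : Subgroup G), ∀ b ∈ (S : Subgroup G), a * b = b * a := by
  obtain ⟨g, hg⟩ := MulAction.exists_smul_eq G R₀ R
  refine ⟨g • S₀, fun a ha b hb => ?_⟩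
  have hmem : ∀ {p : ℕ} [Fact p.Prime] (P : Sylow p G) (x : G), x ∈ ((g • P : Sylow p G) : Subgroup G) →
      g⁻¹ * x * g ∈ (P : Subgroup G) := by
    intro p _ P x hx
    rw [Sylow.coe_subgroup_smul, Subgroup.mem_pointwise_smul_iff_inv_smul_mem] at hx
    simpa [MulAut.smul_def] using hx
  rw [← hg] at ha
  have h1 := h _ (hmem R₀ a ha) _ (hmem S₀ b hb)
  have h2 : g * (g⁻¹ * a * g * (g⁻¹ * b * g)) * g⁻¹ = g * (g⁻¹ * b * g * (g⁻¹ * a * g)) * g⁻¹ := by rw [h1]
  simpa [mul_assoc] using h2

theorem not_dvd_index_of_big {m : ℕ} {A : Subgroup G} (h : IsH m G A) {t : ℕ} (ht : t.Prime)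
    (hm : m + 1 < t) : ¬ t ∣ A.index := fun hd => by
  have := h.small t ht hd
  omega

theorem IsH.map {m : ℕ} {C : Subgroup G} {A₀ : Subgroup C} (h : IsH m C A₀)
    (hC : ∀ q : ℕ, q.Prime → q ∣ C.index → q ≤ m + 1) : IsH m G (A₀.map C.subtype) := by
  refine ⟨?_, ?_, ?_⟩
  · rintro _ ⟨a, ha, rfl⟩ _ ⟨b, hb, rfl⟩
    have := h.comm a ha b hb
    exact congrArg Subtype.val this
  · intro q hq hd
    have h1 : Nat.card (A₀.map C.subtype) = Nat.card A₀ :=
      Subgroup.card_map_of_injective C.subtype_injective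
    rw [h1] at hd
    exact h.big q hq hd
  · intro q hq hd
    rw [Subgroup.index_map_subtype] at hd
    rcases (Nat.Prime.dvd_mul hq).mp hd with h1 | h1
    · exact h.small q hq h1
    · exact hC q hq h1

/-- The common centralizer of a Sylow subgroup. -/
theorem hall_of_centralizer {m r : ℕ} (hL : LinDeg G m) (hr : r.Prime) (hmr : m + 1 < r)
    (IH : ∀ C : Subgroup G, C ≠ ⊤ → ∃ A₀ : Subgroup C, IsH m C A₀)
    [Fact r.Prime] (R : Sylow r G) (hnc : ¬ (R : Subgroup G) ≤ Subgroup.center G)
    (hS : ∀ s : ℕ, ∀ _ : Fact s.Prime, m + 1 < s → s ≠ r →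
      ∃ S : Sylow s G, ∀ a ∈ (R : Subgroup G), ∀ b ∈ (S : Subgroup G), a * b = b * a) :
    ∃ A : Subgroup G, IsH m G A := by
  have hRab := comm_of_pSubgroup hL hr (by omega) (R : Subgroup G) R.isPGroup'
  let C := Subgroup.centralizer ((R : Subgroup G) : Set G)
  have hCne : C ≠ ⊤ := by
    intro h
    apply hnc
    intro z hz
    rw [Subgroup.mem_center_iff]
    intro g
    have hg : g ∈ C := by rw [h]; trivial
    exact (Subgroup.mem_centralizer_iff.mp hg) z hz |>.symm ▸ rfl
  obtain ⟨A₀, hA₀⟩ := IH C hCne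
  refine ⟨A₀.map C.subtype, hA₀.map ?_⟩
  intro q hq hd
  by_contra hcon
  push Not at hcon
  haveI : Fact q.Prime := ⟨hq⟩
  by_cases hqr : q = r
  · subst hqr
    have hle : (R : Subgroup G) ≤ C := by
      intro a ha
      rw [Subgroup.mem_centralizer_iff]
      intro b hb
      exact hRab b hb a ha
    exact R.not_dvd_index (hd.trans (Subgroup.index_dvd_of_le hle))
  · obtain ⟨S, hS'⟩ := hS q ⟨hq⟩ hcon hqr
    have hle : (S : Subgroup G) ≤ C := by
      intro b hb
      rw [Subgroup.mem_centralizer_iff]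
      intro a ha
      exact hS' a ha b hb
    exact S.not_dvd_index (hd.trans (Subgroup.index_dvd_of_le hle))

theorem exists_prime_index_of_not_perfect (h : commutator G ≠ ⊤) :
    ∃ M : Subgroup G, M.Normal ∧ M.index.Prime := by
  classical
  obtain h' | ⟨M, hM, hle⟩ := eq_top_or_exists_le_coatom (commutator G)
  · exact absurd h' h
  have hnorm : M.Normal := by
    constructor
    intro n hn g
    have h1 : g * n * g⁻¹ * n⁻¹ ∈ M := hle (Subgroup.commutator_mem_commutator (Subgroup.mem_top g) (Subgroup.mem_top n))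
    have h2 := M.mul_mem h1 hn
    simpa using h2
  refine ⟨M, hnorm, ?_⟩
  haveI := hnorm
  have hne : Nontrivial (G ⧸ M) := QuotientGroup.nontrivial_iff.mpr hM.1
  obtain ⟨q, hq, hqd⟩ := Nat.exists_prime_and_dvd (Finite.one_lt_card (α := G ⧸ M)).ne'
  haveI : Fact q.Prime := ⟨hq⟩
  obtain ⟨x, hx⟩ := exists_prime_orderOf_dvd_card' q hqd
  obtain ⟨g, rfl⟩ := QuotientGroup.mk_surjective x
  have hg : g ∉ M := by
    intro hg
    have : ((g : G) : G ⧸ M) = 1 := (QuotientGroup.eq_one_iff g).mpr hg
    rw [this, orderOf_one] at hx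
    exact hq.one_lt.ne hx
  let L : Subgroup G := (Subgroup.zpowers (g : G ⧸ M)).comap (QuotientGroup.mk' M)
  have hML : M < L := by
    refine lt_of_le_of_ne ?_ ?_
    · intro a ha
      have : ((a : G) : G ⧸ M) = 1 := (QuotientGroup.eq_one_iff a).mpr ha
      simp only [L, Subgroup.mem_comap, QuotientGroup.coe_mk']
      rw [this]
      exact Subgroup.one_mem _
    · intro hEq
      apply hg
      rw [hEq]
      simp only [L, Subgroup.mem_comap, QuotientGroup.coe_mk']
      exact Subgroup.mem_zpowers _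
  have hLtop : L = ⊤ := hM.2 L hML
  have htop : Subgroup.zpowers (g : G ⧸ M) = ⊤ := by
    rw [eq_top_iff]
    intro y _
    obtain ⟨a, rfl⟩ := QuotientGroup.mk_surjective y
    have : a ∈ L := by rw [hLtop]; trivial
    exact this
  have hcard : Nat.card (G ⧸ M) = q := by
    rw [← hx, ← Nat.card_zpowers, htop]
    simp
  rw [Subgroup.index, hcard]
  exact hq

/-- A central element of an abelian Sylow subgroup of a perfect group is trivial. -/
theorem central_sylow_trivial (hperf : commutator G = ⊤) {r : ℕ} [hr : Fact r.Prime] (R : Sylow r G)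
    (hab : ∀ a ∈ (R : Subgroup G), ∀ b ∈ (R : Subgroup G), a * b = b * a) {z : G} (hzR : z ∈ (R : Subgroup G))
    (hz : z ∈ Subgroup.center G) : z = 1 := by
  classical
  letI : CommGroup (R : Subgroup G) :=
    { (inferInstance : Group (R : Subgroup G)) with
      mul_comm := fun a b => Subtype.ext (hab a a.2 b b.2) }
  haveI : (R : Subgroup G).FiniteIndex := inferInstance
  let ϕ : (R : Subgroup G) →* (R : Subgroup G) := MonoidHom.id _
  let τ : G →* (R : Subgroup G) := MonoidHom.transfer ϕ
  have hτ : ∀ g, τ g = 1 := by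
    have h1 : commutator G ≤ τ.ker := by
      rw [commutator_def, Subgroup.commutator_le]
      intro a _ b _
      rw [MonoidHom.mem_ker, commutatorElement_def]
      simp only [map_mul, map_inv]
      rw [mul_comm (τ a) (τ b)]
      group
    intro g
    have h2 : g ∈ τ.ker := h1 (by rw [hperf]; trivial)
    exact h2
  have hkey : ∀ (k : ℕ) (g₀ : G), g₀⁻¹ * z ^ k * g₀ ∈ (R : Subgroup G) → g₀⁻¹ * z ^ k * g₀ = z ^ k := by
    intro k g₀ _
    have h1 : z ^ k ∈ Subgroup.center G := Subgroup.pow_mem _ hz k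
    have h2 := Subgroup.mem_center_iff.mp h1 g₀
    rw [mul_assoc, ← h2, ← mul_assoc, inv_mul_cancel, one_mul]
  have h1 := MonoidHom.transfer_eq_pow ϕ z hkey
  rw [show MonoidHom.transfer ϕ z = 1 from hτ z] at h1
  have h2 : z ^ (R : Subgroup G).index = 1 := by
    have := congrArg Subtype.val h1
    simpa [ϕ] using this.symm
  have h3 : orderOf z ∣ (R : Subgroup G).index := orderOf_dvd_of_pow_eq_one h2
  obtain ⟨k, hk⟩ := (IsPGroup.iff_orderOf.mp R.isPGroup') ⟨z, hzR⟩
  have h4 : orderOf z = r ^ k := by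
    rw [← hk]; exact (Subgroup.orderOf_mk z hzR).symm
  rcases Nat.eq_zero_or_pos k with hk0 | hk0
  · rw [hk0, pow_zero] at h4
    exact orderOf_eq_one_iff.mp h4
  · exfalso
    apply R.not_dvd_index
    rw [h4] at h3
    exact (dvd_pow_self r hk0.ne').trans h3

/-- Non-perfect step with a large prime index. -/
theorem hall_stepA {m q : ℕ} (hL : LinDeg G m) (hq : q.Prime) (hmq : m + 1 < q)
    (IH : ∀ C : Subgroup G, C ≠ ⊤ → ∃ A₀ : Subgroup C, IsH m C A₀)
    (N : Subgroup G) [hN : N.Normal] (hNi : N.index = q) (A₀ : Subgroup N) (hA₀ : IsH m N A₀) :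
    ∃ A : Subgroup G, IsH m G A := by
  classical
  haveI : Fact q.Prime := ⟨hq⟩
  obtain ⟨R⟩ : Nonempty (Sylow q G) := inferInstance
  set A := A₀.map N.subtype with hAdef
  have hAcomm : ∀ x ∈ A, ∀ y ∈ A, x * y = y * x := by
    rintro _ ⟨a, ha, rfl⟩ _ ⟨b, hb, rfl⟩
    exact congrArg Subtype.val (hA₀.comm a ha b hb)
  have hAN : A ≤ N := Subgroup.map_subtype_le _
  have hAidx : A.index = A₀.index * q := by
    rw [hAdef, Subgroup.index_map_subtype, hNi]
  have hAq : ¬ q ∣ A₀.index := not_dvd_index_of_big hA₀ hq hmq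
  have hpair : ∀ s : ℕ, ∀ _ : Fact s.Prime, m + 1 < s → s ≠ q →
      ∃ S : Sylow s G, ∀ a ∈ (R : Subgroup G), ∀ b ∈ (S : Subgroup G), a * b = b * a := by
    intro s hs hms hsq
    have hsi : ¬ s ∣ A.index := by
      rw [hAidx]
      intro hd
      rcases (Nat.Prime.dvd_mul hs.out).mp hd with h1 | h1
      · exact not_dvd_index_of_big hA₀ hs.out hms h1
      · exact hsq ((Nat.prime_dvd_prime_iff_eq hs.out hq).mp h1)
    obtain ⟨S, hSA⟩ := exists_sylow_le A s hsi
    have hSN : (S : Subgroup G) ≤ N := hSA.trans hAN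
    let L := Subgroup.normalizer ((S : Subgroup G) : Set G)
    have hLsup : L ⊔ N = ⊤ := by
      have h1 := Sylow.normalizer_sup_eq_top (S.subtype hSN)
      have h2 : ((S.subtype hSN : Sylow s N) : Subgroup N).map N.subtype = (S : Subgroup G) := by
        rw [Sylow.coe_subtype]
        exact Subgroup.map_subgroupOf_eq_of_le hSN
      rw [h2] at h1
      exact h1
    have hAL : A ≤ L := by
      intro a ha
      rw [Subgroup.mem_normalizer_iff]
      intro b
      constructor
      · intro hb
        have h1 := hAcomm a ha b (hSA hb)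
        have h2 : a * b * a⁻¹ = b := by rw [h1]; simp
        rw [h2]; exact hb
      · intro hb
        have h3 := hAcomm a ha _ (hSA hb)
        have h4 : b = a * b * a⁻¹ := by
          have : a * (a * b * a⁻¹) = (a * b * a⁻¹) * a := h3
          have h5 : a * a * b * a⁻¹ = a * b := by
            calc a * a * b * a⁻¹ = a * (a * b * a⁻¹) := by group
              _ = (a * b * a⁻¹) * a := this
              _ = a * b := by group
          have h6 : a * b * a⁻¹ = b := by
            have h7 := congrArg (fun t => a⁻¹ * t) h5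
            simpa [mul_assoc] using h7
          exact h6.symm
        rw [h4]; exact hb
    have hLidx : ¬ q ∣ L.index := by
      have h1 : N.relIndex L = q := by
        have h2 := Subgroup.relIndex_sup_right (H := L) (K := N)
        rw [hLsup, Subgroup.relIndex_top_right, hNi] at h2
        exact h2.symm
      have h3 : (L ⊓ N).relIndex L * L.index = (L ⊓ N).index :=
        Subgroup.relIndex_mul_index inf_le_left
      have h4 : (L ⊓ N).relIndex N * N.index = (L ⊓ N).index :=
        Subgroup.relIndex_mul_index inf_le_right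
      have h5 : (L ⊓ N).relIndex L = q := by
        rw [inf_comm, Subgroup.inf_relIndex_right]; exact h1
      have h6 : (L ⊓ N).relIndex N = L.relIndex N := Subgroup.inf_relIndex_right _ _
      have h7 : L.index = L.relIndex N := by
        rw [h5] at h3
        rw [h6, hNi] at h4
        have h8 : q * L.index = L.relIndex N * q := by rw [h3, h4]
        have h9 : q * L.index = q * L.relIndex N := by rw [h8, mul_comm]
        exact Nat.eq_of_mul_eq_mul_left hq.pos h9
      rw [h7]
      intro hd
      apply hAq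
      refine hd.trans (Subgroup.index_dvd_of_le ?_)
      intro a ha
      exact hAL ⟨a, ha, rfl⟩
    obtain ⟨R₁, hR₁⟩ := exists_sylow_le L q hLidx
    have hS1 : ∀ a ∈ (S : Subgroup G), ∀ b ∈ (S : Subgroup G), a * b = b * a :=
      fun a ha b hb => hAcomm a (hSA ha) b (hSA hb)
    have hcomm : ∀ a ∈ (R₁ : Subgroup G), ∀ b ∈ (S : Subgroup G), a * b = b * a := by
      intro a ha b hb
      obtain ⟨k, hk⟩ := (IsPGroup.iff_orderOf.mp R₁.isPGroup') ⟨a, ha⟩
      have hak : a ^ q ^ k = 1 := by
        have h1 := pow_orderOf_eq_one (⟨a, ha⟩ : (R₁ : Subgroup G))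
        rw [hk] at h1
        exact congrArg Subtype.val h1
      exact comm_of_normalize hL hq (by omega) (S : Subgroup G) hS1 a k hak (hR₁ ha) b hb
    exact comm_syl_conj hcomm
  by_cases hcen : (R : Subgroup G) ≤ Subgroup.center G
  · -- central case
    haveI hRn : (R : Subgroup G).Normal := by
      constructor
      intro n hn g
      have := Subgroup.mem_center_iff.mp (hcen hn) g
      have h2 : g * n * g⁻¹ = n := by rw [this]; simp
      rw [h2]
      exact hn
    have hcomm' : ∀ y ∈ A ⊔ (R : Subgroup G), ∀ a ∈ A, y * a = a * y := by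
      intro y hy a ha
      have h1 : A ⊔ (R : Subgroup G) ≤ Subgroup.centralizer ({a} : Set G) := by
        apply sup_le
        · intro b hb
          rw [Subgroup.mem_centralizer_iff]
          rintro _ rfl
          exact hAcomm _ ha _ hb
        · intro b hb
          rw [Subgroup.mem_centralizer_iff]
          rintro _ rfl
          exact (Subgroup.mem_center_iff.mp (hcen hb) _)
      exact ((Subgroup.mem_centralizer_iff.mp (h1 hy)) a rfl).symm
    refine ⟨A ⊔ (R : Subgroup G), ?_, ?_, ?_⟩
    · intro x hx y hy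
      have h1 : A ⊔ (R : Subgroup G) ≤ Subgroup.centralizer ({y} : Set G) := by
        apply sup_le
        · intro a ha
          rw [Subgroup.mem_centralizer_iff]
          intro c hc
          have hc' : c = y := hc
          rw [hc']
          exact hcomm' y hy a ha
        · intro b hb
          rw [Subgroup.mem_centralizer_iff]
          intro c hc
          exact (Subgroup.mem_center_iff.mp (hcen hb) _)
      exact ((Subgroup.mem_centralizer_iff.mp (h1 hx)) y rfl).symm
    · intro t ht hd
      by_contra hcon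
      push Not at hcon
      have hle : (R : Subgroup G) ≤ A ⊔ (R : Subgroup G) := le_sup_right
      have h1 : (R : Subgroup G).relIndex (A ⊔ (R : Subgroup G)) * Nat.card (R : Subgroup G) =
          Nat.card (A ⊔ (R : Subgroup G) : Subgroup G) := by
        rw [← Nat.card_congr (Subgroup.subgroupOfEquivOfLe hle).toEquiv, mul_comm, Subgroup.relIndex]
        exact Subgroup.card_mul_index _
      rw [Subgroup.relIndex_sup_right] at h1
      rw [← h1] at hd
      rcases (Nat.Prime.dvd_mul ht).mp hd with h2 | h2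
      · have h3 := h2.trans (Subgroup.relIndex_dvd_card _ _)
        have h4 : Nat.card A = Nat.card A₀ := Subgroup.card_map_of_injective N.subtype_injective
        rw [h4] at h3
        have := hA₀.big t ht h3
        omega
      · obtain ⟨k, hk⟩ := IsPGroup.iff_card.mp R.isPGroup'
        rw [hk] at h2
        have h5 := (Nat.prime_dvd_prime_iff_eq ht hq).mp (ht.dvd_of_dvd_pow h2)
        omega
    · intro t ht hd
      by_contra hcon
      push Not at hcon
      by_cases htq : t = q
      · subst htq
        exact R.not_dvd_index (hd.trans (Subgroup.index_dvd_of_le le_sup_right))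
      · have h1 := hd.trans (Subgroup.index_dvd_of_le (le_sup_left : A ≤ _))
        rw [hAidx] at h1
        rcases (Nat.Prime.dvd_mul ht).mp h1 with h2 | h2
        · exact not_dvd_index_of_big hA₀ ht hcon h2
        · exact htq ((Nat.prime_dvd_prime_iff_eq ht hq).mp h2)
  · exact hall_of_centralizer hL hq hmq IH R hcen hpair

end

end CfsgLib.Char
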