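import Cfsg.Agent.Lib.Char.Lin6

/-!
# Blichfeldt: a linear group of degree `n` has an abelian Hall subgroup for the primes `> n + 1`
-/

set_option linter.unusedSectionVars false
set_option linter.style.haveILetI false
set_option linter.unusedSimpArgs false
set_option linter.unusedVariables false

namespace CfsgLib.Char

open Cfsg
open scoped Pointwise commutatorElement

universe u

section

variable {G : Type u} [Group G] [Finite G]

theorem not_central_of_perfect {m r : ℕ} (hL : LinDeg G m) (hr : r.Prime) (hmr : m + 1 < r)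
    (hperf : commutator G = ⊤) {x : G} (hx : orderOf x = r) : x ∉ Subgroup.center G := by
  intro hc
  haveI : Fact r.Prime := ⟨hr⟩
  obtain ⟨R, hR⟩ := exists_sylow_mem r x 1 (by rw [pow_one, ← hx]; exact pow_orderOf_eq_one x)
  have hRab := comm_of_pSubgroup hL hr (by omega) (R : Subgroup G) R.isPGroup'
  have := central_sylow_trivial hperf R hRab hR hc
  rw [this, orderOf_one] at hx
  exact hr.one_lt.ne hx

/-- The pair lemma in a perfect group. -/
theorem comm_pair_of_perfect {m r s : ℕ} (hL : LinDeg G m) (hr : r.Prime) (hs : s.Prime) (hrs : r ≠ s)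
    (hmr : m + 1 < r) (hms : m + 1 < s) (hrG : r ∣ Nat.card G) (hsG : s ∣ Nat.card G)
    (hperf : commutator G = ⊤)
    (IH : ∀ C : Subgroup G, C ≠ ⊤ → ∃ A₀ : Subgroup C, IsH m C A₀)
    [Fact r.Prime] [Fact s.Prime] :
    ∃ (R : Sylow r G) (S : Sylow s G), ∀ a ∈ (R : Subgroup G), ∀ b ∈ (S : Subgroup G), a * b = b * a := by
  classical
  obtain ⟨g, hg⟩ := exists_order_mul hL hr hs hrs hmr hms hrG hsG
  have hg0 : orderOf g ≠ 0 := (orderOf_pos g).ne'
  have hrg : r ∣ orderOf g := (Dvd.intro _ rfl).trans hg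
  have hsg : s ∣ orderOf g := (Dvd.intro_left _ rfl).trans hg
  set x := g ^ (orderOf g / r) with hxdef
  set y := g ^ (orderOf g / s) with hydef
  have hxo : orderOf x = r := orderOf_pow_orderOf_div hg0 hrg
  have hyo : orderOf y = s := orderOf_pow_orderOf_div hg0 hsg
  have hxy : x * y = y * x := by
    rw [hxdef, hydef, ← pow_add, ← pow_add, add_comm]
  have hxc := not_central_of_perfect hL hr hmr hperf hxo
  have hyc := not_central_of_perfect hL hs hms hperf hyo
  have hxr : x ^ r = 1 := hxo ▸ pow_orderOf_eq_one x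
  have hys : y ^ s = 1 := hyo ▸ pow_orderOf_eq_one y
  -- centralizer of `y`
  let Cy := Subgroup.centralizer ({y} : Set G)
  have hcne : ∀ z : G, z ∉ Subgroup.center G → Subgroup.centralizer ({z} : Set G) ≠ ⊤ := by
    intro z hz h
    apply hz
    rw [Subgroup.mem_center_iff]
    intro a
    have : a ∈ Subgroup.centralizer ({z} : Set G) := by rw [h]; trivial
    exact Subgroup.mem_centralizer_singleton_iff.mp this |>.symm ▸ rfl
  have hmemc : ∀ {z a : G}, a * z = z * a → a ∈ Subgroup.centralizer ({z} : Set G) := by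
    intro z a h
    exact Subgroup.mem_centralizer_singleton_iff.mpr h
  have hsyl : ∀ (t : ℕ) [Fact t.Prime] (_ : t.Prime) (_ : m + 1 < t) (z : G), z ^ t = 1 →
      ¬ t ∣ (Subgroup.centralizer ({z} : Set G)).index := by
    intro t _ ht hmt z hz
    obtain ⟨T, hT⟩ := exists_sylow_mem t z 1 (by rwa [pow_one])
    have hTab := comm_of_pSubgroup hL ht (by omega) (T : Subgroup G) T.isPGroup'
    have hle : (T : Subgroup G) ≤ Subgroup.centralizer ({z} : Set G) := fun a ha => hmemc (hTab a ha z hT)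
    exact fun hd => T.not_dvd_index (hd.trans (Subgroup.index_dvd_of_le hle))
  obtain ⟨A₀, hA₀⟩ := IH Cy (hcne y hyc)
  have hA1idx : ∀ (A : Subgroup Cy) (t : ℕ), t.Prime → ¬ t ∣ A.index → ¬ t ∣ Cy.index →
      ¬ t ∣ (A.map Cy.subtype).index := by
    intro A t ht h1 h2
    rw [Subgroup.index_map_subtype]
    intro hd
    rcases (Nat.Prime.dvd_mul ht).mp hd with h3 | h3
    · exact h1 h3
    · exact h2 h3
  obtain ⟨S₁, hS₁⟩ := exists_sylow_le (A₀.map Cy.subtype) s
    (hA1idx A₀ s hs (not_dvd_index_of_big hA₀ hs hms) (hsyl s hs hms y hys))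
  -- conjugate `x` into `A₀`
  let x' : Cy := ⟨x, hmemc hxy⟩
  have hx'r : x' ^ r ^ 1 = 1 := by
    apply Subtype.ext
    simpa [x'] using hxr
  obtain ⟨T, hT⟩ := exists_sylow_mem r x' 1 hx'r
  obtain ⟨T₁, hT₁⟩ := exists_sylow_le A₀ r (not_dvd_index_of_big hA₀ hr hmr)
  obtain ⟨c, hc⟩ := MulAction.exists_smul_eq Cy T T₁
  have hcx : c * x' * c⁻¹ ∈ (T₁ : Subgroup Cy) := by
    rw [← hc, Sylow.coe_subgroup_smul, Subgroup.mem_pointwise_smul_iff_inv_smul_mem]
    simpa [MulAut.smul_def, mul_assoc] using hT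
  have hcxA : ((c : G) * x * (c : G)⁻¹) ∈ A₀.map Cy.subtype := by
    refine ⟨c * x' * c⁻¹, hT₁ hcx, ?_⟩
    simp [x']
  have hAcomm : ∀ a ∈ A₀.map Cy.subtype, ∀ b ∈ A₀.map Cy.subtype, a * b = b * a := by
    rintro _ ⟨a, ha, rfl⟩ _ ⟨b, hb, rfl⟩
    exact congrArg Subtype.val (hA₀.comm a ha b hb)
  -- the conjugated Sylow subgroup lies in the centralizer of `x`
  obtain ⟨S₂, hS₂⟩ : ∃ S₂ : Sylow s G, ∀ b ∈ (S₂ : Subgroup G), b * x = x * b := by
    refine ⟨(c : G)⁻¹ • S₁, fun b hb => ?_⟩
    have h1 : (c : G) * b * (c : G)⁻¹ ∈ (S₁ : Subgroup G) := by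
      rw [Sylow.coe_subgroup_smul, Subgroup.mem_pointwise_smul_iff_inv_smul_mem] at hb
      simpa [MulAut.smul_def] using hb
    have h2 := hAcomm _ (hS₁ h1) _ hcxA
    have h3 : (c : G)⁻¹ * ((c : G) * b * (c : G)⁻¹ * ((c : G) * x * (c : G)⁻¹)) * (c : G) =
        (c : G)⁻¹ * ((c : G) * x * (c : G)⁻¹ * ((c : G) * b * (c : G)⁻¹)) * (c : G) := by rw [h2]
    simpa [mul_assoc] using h3
  -- centralizer of `x`
  let Cx := Subgroup.centralizer ({x} : Set G)
  obtain ⟨A₂, hA₂⟩ := IH Cx (hcne x hxc)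
  have hA2idx : ∀ (t : ℕ), t.Prime → m + 1 < t → ¬ t ∣ Cx.index → ¬ t ∣ (A₂.map Cx.subtype).index := by
    intro t ht hmt h2
    rw [Subgroup.index_map_subtype]
    intro hd
    rcases (Nat.Prime.dvd_mul ht).mp hd with h3 | h3
    · exact not_dvd_index_of_big hA₂ ht hmt h3
    · exact h2 h3
  have hsCx : ¬ s ∣ Cx.index := by
    have hle : (S₂ : Subgroup G) ≤ Cx := fun b hb => hmemc (hS₂ b hb)
    exact fun hd => S₂.not_dvd_index (hd.trans (Subgroup.index_dvd_of_le hle))
  obtain ⟨R₃, hR₃⟩ := exists_sylow_le (A₂.map Cx.subtype) r (hA2idx r hr hmr (hsyl r hr hmr x hxr))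
  obtain ⟨S₃, hS₃⟩ := exists_sylow_le (A₂.map Cx.subtype) s (hA2idx s hs hms hsCx)
  refine ⟨R₃, S₃, fun a ha b hb => ?_⟩
  obtain ⟨a', ha', rfl⟩ := hR₃ ha
  obtain ⟨b', hb', rfl⟩ := hS₃ hb
  exact congrArg Subtype.val (hA₂.comm a' ha' b' hb')

/-- **Blichfeldt's theorem**. -/
theorem hall_exists (m : ℕ) : ∀ (N : ℕ) (G : Type u) [Group G] [Finite G], Nat.card G = N → LinDeg G m →
    ∃ A : Subgroup G, IsH m G A := by
  intro N
  induction N using Nat.strong_induction_on with
  | _ N ih =>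
  intro G _ _ hN hL
  classical
  have IH : ∀ C : Subgroup G, C ≠ ⊤ → ∃ A₀ : Subgroup C, IsH m C A₀ := by
    intro C hC
    refine ih (Nat.card C) ?_ C rfl (hL.subgroup C)
    rw [← hN]
    have h1 := Subgroup.one_lt_index_of_ne_top hC
    have h2 := Subgroup.card_mul_index C
    have h3 : 0 < Nat.card G := Nat.card_pos
    have h4 : 0 < Nat.card C := Nat.card_pos
    nlinarith
  by_cases hperf : commutator G = ⊤
  · by_cases hex : ∃ r : ℕ, r.Prime ∧ m + 1 < r ∧ r ∣ Nat.card G
    · obtain ⟨r, hr, hmr, hrG⟩ := hex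
      haveI : Fact r.Prime := ⟨hr⟩
      obtain ⟨R⟩ : Nonempty (Sylow r G) := inferInstance
      obtain ⟨x, hx⟩ := exists_prime_orderOf_dvd_card' r hrG
      have hnc : ¬ (R : Subgroup G) ≤ Subgroup.center G := by
        intro h
        obtain ⟨g, hg⟩ := (Sylow.exists_subgroup_card_pow_prime r (n := 1) (by simpa using hrG))
        have hRab := comm_of_pSubgroup hL hr (by omega) (R : Subgroup G) R.isPGroup'
        -- a nontrivial element of `R`
        have hcard : Nontrivial (R : Subgroup G) := by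
          have h1 := Sylow.card_eq_multiplicity R
          have h2 : 1 ≤ (Nat.card G).factorization r :=
            (hr.dvd_iff_one_le_factorization Nat.card_pos.ne').mp hrG
          apply Finite.one_lt_card_iff_nontrivial.mp
          rw [h1]
          exact Nat.one_lt_pow (by omega) hr.one_lt
        obtain ⟨z, hz⟩ := exists_ne (1 : (R : Subgroup G))
        exact hz (Subtype.ext (central_sylow_trivial hperf R hRab z.2 (h z.2)))
      refine hall_of_centralizer hL hr hmr IH R hnc ?_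
      intro s hs hms hsr
      by_cases hsG : s ∣ Nat.card G
      · obtain ⟨R₀, S₀, h⟩ := comm_pair_of_perfect hL hr hs.out hsr.symm hmr hms hrG hsG hperf IH
        exact comm_syl_conj h
      · obtain ⟨S⟩ : Nonempty (Sylow s G) := inferInstance
        refine ⟨S, fun a _ b hb => ?_⟩
        obtain ⟨k, hk⟩ := (IsPGroup.iff_orderOf.mp S.isPGroup') ⟨b, hb⟩
        have h1 : orderOf b = s ^ k := by rw [← hk]; exact (Subgroup.orderOf_mk b hb).symm
        have h2 : orderOf b ∣ Nat.card G := orderOf_dvd_natCard b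
        have hk0 : k = 0 := by
          by_contra h0
          exact hsG ((dvd_pow_self s h0).trans (h1 ▸ h2))
        rw [hk0, pow_zero, orderOf_eq_one_iff] at h1
        rw [h1, mul_one, one_mul]
    · push Not at hex
      refine ⟨⊥, ?_, ?_, ?_⟩
      · intro x hx y hy
        rw [Subgroup.mem_bot] at hx hy
        rw [hx, hy, mul_one]
      · intro q hq hd
        rw [Subgroup.card_bot] at hd
        exact absurd (Nat.dvd_one.mp hd) hq.one_lt.ne'
      · intro q hq hd
        rw [Subgroup.index_bot] at hd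
        by_contra h
        exact hex q hq (by omega) hd
  · obtain ⟨M, hM, hMi⟩ := exists_prime_index_of_not_perfect hperf
    obtain ⟨A₀, hA₀⟩ := IH M (by
      intro h
      rw [h, Subgroup.index_top] at hMi
      exact Nat.not_prime_one hMi)
    by_cases hq : M.index ≤ m + 1
    · refine ⟨A₀.map M.subtype, hA₀.map ?_⟩
      intro q hq' hd
      have := (Nat.prime_dvd_prime_iff_eq hq' hMi).mp hd
      omega
    · exact hall_stepA hL hMi (by omega) IH M rfl A₀ hA₀

end

end CfsgLib.Char
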