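import Cfsg.Agent.Lib.Char.Lin7
import Cfsg.Agent.Lib.Char.Monomial

/-!
# Jordan's theorem with the explicit bound
-/

set_option linter.unusedSectionVars false
set_option linter.style.haveILetI false
set_option linter.unusedSimpArgs false
set_option linter.unusedVariables false

namespace CfsgLib.Char

open Cfsg
open scoped Nat

universe u

theorem normalCore_index_dvd {G : Type u} [Group G] [Finite G] (H : Subgroup G) :
    H.normalCore.index ∣ H.index ! := by
  rw [Subgroup.normalCore_eq_ker, Subgroup.index_ker, Subgroup.index_eq_card, ← Nat.card_perm]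
  exact Subgroup.card_subgroup_dvd_card (MulAction.toPermHom G (G ⧸ H)).range

theorem iInf_index_dvd {G : Type u} [Group G] [Finite G] {ι : Type*} (s : Finset ι) (K : ι → Subgroup G)
    (hK : ∀ i, (K i).Normal) : (⨅ i ∈ s, K i).index ∣ ∏ i ∈ s, (K i).index := by
  classical
  induction s using Finset.induction_on with
  | empty => simp
  | insert a s ha ih =>
    rw [Finset.prod_insert ha, Finset.iInf_insert]
    haveI := hK a
    have h1 : (K a ⊓ ⨅ i ∈ s, K i).relIndex (⨅ i ∈ s, K i) * (⨅ i ∈ s, K i).index =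
        (K a ⊓ ⨅ i ∈ s, K i).index := Subgroup.relIndex_mul_index inf_le_right
    rw [← h1, Subgroup.inf_relIndex_right]
    exact mul_dvd_mul (Subgroup.relIndex_dvd_index_of_normal _ _) ih

/-- A faithful character of a nilpotent group: a normal abelian subgroup of index dividing `m!`. -/
theorem monomial_abelian {Q : Type u} [Group Q] [Fintype Q] [Group.IsNilpotent Q] {m : ℕ}
    (hL : LinDeg Q m) :
    ∃ D : Subgroup Q, (∀ a ∈ D, ∀ b ∈ D, a * b = b * a) ∧ D.index ∣ m ! := by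
  classical
  obtain ⟨χ, hχ, hfaith, hm⟩ := hL
  obtain ⟨a, ha⟩ := hχ.exists_coeff
  have hmono : ∀ ψ : IrrCharacter Q, ∃ (H : Subgroup Q) (lam : H →* ℂˣ),
      (ψ : Q → ℂ) = indFun H (fun h => (lam h : ℂ)) := fun ψ =>
    monomial_of_nilpotent _ Q rfl (ψ : Q → ℂ) ψ.2
  choose H lam hH using hmono
  let S : Finset (IrrCharacter Q) := Finset.univ.filter (fun ψ => a ψ ≠ 0)
  let K : IrrCharacter Q → Subgroup Q := fun ψ => (H ψ).normalCore
  have hKn : ∀ ψ, (K ψ).Normal := fun ψ => (H ψ).normalCore_normal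
  refine ⟨⨅ ψ ∈ S, K ψ, ?_, ?_⟩
  · intro x hx y hy
    have hmem : ∀ z ∈ ⨅ ψ ∈ S, K ψ, ∀ ψ, ψ ∈ S → z ∈ K ψ := by
      intro z hz ψ hψ
      have h1 := (Subgroup.mem_iInf.mp hz) ψ
      exact (Subgroup.mem_iInf.mp h1) hψ
    have h1 : x * y * x⁻¹ * y⁻¹ = 1 := by
      apply hfaith
      refine value_eq_of_constituents ha _ (fun ψ hψ => ?_)
      have hψS : ψ ∈ S := Finset.mem_filter.mpr ⟨Finset.mem_univ _, hψ⟩
      have hx' := hmem x hx ψ hψS
      have hy' := hmem y hy ψ hψS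
      rw [hH ψ, indFun_def, indFun_def]
      congr 1
      refine Finset.sum_congr rfl (fun u _ => ?_)
      have hxu : u⁻¹ * x * u ∈ H ψ := by
        apply Subgroup.normalCore_le
        have := (hKn ψ).conj_mem _ hx' u⁻¹
        simpa using this
      have hyu : u⁻¹ * y * u ∈ H ψ := by
        apply Subgroup.normalCore_le
        have := (hKn ψ).conj_mem _ hy' u⁻¹
        simpa using this
      have heq : u⁻¹ * (x * y * x⁻¹ * y⁻¹) * u =
          (u⁻¹ * x * u) * (u⁻¹ * y * u) * (u⁻¹ * x * u)⁻¹ * (u⁻¹ * y * u)⁻¹ := by group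
      have hmem2 : u⁻¹ * (x * y * x⁻¹ * y⁻¹) * u ∈ H ψ := by
        rw [heq]
        exact (H ψ).mul_mem ((H ψ).mul_mem ((H ψ).mul_mem hxu hyu) ((H ψ).inv_mem hxu)) ((H ψ).inv_mem hyu)
      have hone : u⁻¹ * 1 * u ∈ H ψ := by simp [(H ψ).one_mem]
      rw [extendByZero_of_mem _ _ hmem2, extendByZero_of_mem _ _ hone]
      have h3 : (⟨u⁻¹ * (x * y * x⁻¹ * y⁻¹) * u, hmem2⟩ : H ψ) =
          ⟨_, hxu⟩ * ⟨_, hyu⟩ * (⟨_, hxu⟩ : H ψ)⁻¹ * (⟨_, hyu⟩ : H ψ)⁻¹ := Subtype.ext heq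
      have h4 : (⟨u⁻¹ * 1 * u, hone⟩ : H ψ) = 1 := Subtype.ext (by simp)
      rw [h3, h4]
      simp only [map_mul, map_inv, map_one]
      rw [mul_comm (lam ψ ⟨_, hxu⟩) (lam ψ ⟨_, hyu⟩)]
      simp
    have : x * y * x⁻¹ * y⁻¹ * (y * x) = 1 * (y * x) := by rw [h1]
    simpa [mul_assoc] using this
  · -- the index
    have hdeg : ∀ ψ : IrrCharacter Q, charDegree (ψ : Q → ℂ) = (H ψ).index := by
      intro ψ
      have h1 : (ψ : Q → ℂ) 1 = ((H ψ).index : ℂ) := by
        rw [hH ψ, indFun_def]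
        have h2 : ∀ u : Q, extendByZero (H ψ) (fun h => ((lam ψ h : ℂˣ) : ℂ)) (u⁻¹ * 1 * u) = 1 := by
          intro u
          have hone : u⁻¹ * 1 * u ∈ H ψ := by simp [(H ψ).one_mem]
          rw [extendByZero_of_mem _ _ hone]
          have h4 : (⟨u⁻¹ * 1 * u, hone⟩ : H ψ) = 1 := Subtype.ext (by simp)
          rw [h4]
          simp
        rw [Finset.sum_congr rfl (fun u _ => h2 u)]
        simp only [Finset.sum_const, Finset.card_univ, nsmul_eq_mul, mul_one]
        have h5 := Subgroup.card_mul_index (H ψ)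
        have h6 : ((Nat.card (H ψ) : ℂ)) ≠ 0 := card_subgroup_ne_zero _
        rw [← Nat.card_eq_fintype_card, ← h5]
        push_cast
        field_simp
      exact charDegree_eq h1
    have h1 := iInf_index_dvd S K hKn
    have h2 : ∀ ψ, (K ψ).index ∣ (charDegree (ψ : Q → ℂ)) ! := by
      intro ψ
      rw [hdeg ψ]
      exact normalCore_index_dvd _
    have h3 : ∏ ψ ∈ S, (K ψ).index ∣ ∏ ψ ∈ S, (charDegree (ψ : Q → ℂ)) ! :=
      Finset.prod_dvd_prod_of_dvd _ _ (fun ψ _ => h2 ψ)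
    have h4 := Nat.prod_factorial_dvd_factorial_sum S (fun ψ : IrrCharacter Q => charDegree (ψ : Q → ℂ))
    have h5 : ∑ ψ ∈ S, charDegree (ψ : Q → ℂ) ≤ m := by
      have h6 : χ 1 = ((∑ f₀ : IrrCharacter Q, a f₀ * charDegree (f₀ : Q → ℂ) : ℕ) : ℂ) := by
        rw [ha, Finset.sum_apply]
        push_cast
        refine Finset.sum_congr rfl (fun f₀ _ => ?_)
        show a f₀ • ((f₀ : Q → ℂ) 1) = _
        rw [irr_one_eq_charDegree f₀, nsmul_eq_mul]
      rw [charDegree_eq h6] at hm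
      refine le_trans ?_ hm
      calc ∑ ψ ∈ S, charDegree (ψ : Q → ℂ) ≤ ∑ ψ ∈ S, a ψ * charDegree (ψ : Q → ℂ) := by
            refine Finset.sum_le_sum (fun ψ hψ => ?_)
            exact Nat.le_mul_of_pos_left _ (Nat.pos_of_ne_zero (Finset.mem_filter.mp hψ).2)
        _ ≤ ∑ f₀ : IrrCharacter Q, a f₀ * charDegree (f₀ : Q → ℂ) :=
            Finset.sum_le_sum_of_subset (Finset.filter_subset _ _)
    exact h1.trans (h3.trans (h4.trans (Nat.factorial_dvd_factorial h5)))

end CfsgLib.Char
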