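import Cfsg.Agent.Lib.Char.Lin8

/-!
# Jordan's theorem with the explicit bound
-/

set_option linter.unusedSectionVars false
set_option linter.style.haveILetI false
set_option linter.unusedSimpArgs false
set_option linter.unusedVariables false

namespace CfsgLib.Char

open Cfsg
open scoped Nat

universe u

section

variable {G : Type u} [Group G] [Finite G]

theorem part_bound {n : ℕ} (hL : LinDeg G n) (A : Subgroup G)
    (hA : ∀ H : Subgroup G, (∀ x ∈ H, ∀ y ∈ H, x * y = y * x) → (A.subgroupOf H).index ≤ 12 ^ n)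
    (p : ℕ) (hp : p.Prime) :
    p ^ A.index.factorization p ≤ p ^ (n !).factorization p * 12 ^ n := by
  classical
  haveI : Fact p.Prime := ⟨hp⟩
  obtain ⟨P⟩ : Nonempty (Sylow p G) := inferInstance
  letI : Fintype (P : Subgroup G) := Fintype.ofFinite _
  haveI : Group.IsNilpotent (P : Subgroup G) := P.isPGroup'.isNilpotent
  obtain ⟨D₀, hD₀, hD₀i⟩ := monomial_abelian (hL.subgroup (P : Subgroup G))
  let D : Subgroup G := D₀.map (P : Subgroup G).subtype
  have hDP : D ≤ (P : Subgroup G) := Subgroup.map_subtype_le _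
  have hDcomm : ∀ x ∈ D, ∀ y ∈ D, x * y = y * x := by
    rintro _ ⟨a, ha, rfl⟩ _ ⟨b, hb, rfl⟩
    exact congrArg Subtype.val (hD₀ a ha b hb)
  have hDidx : D.relIndex (P : Subgroup G) = D₀.index := by
    rw [Subgroup.relIndex]
    congr 1
    exact Subgroup.comap_map_eq_self_of_injective (P : Subgroup G).subtype_injective D₀
  have hEle : A ⊓ D ≤ D := inf_le_right
  have h1 : (A ⊓ D).relIndex D = (A.subgroupOf D).index := by
    rw [Subgroup.inf_relIndex_right]; rfl
  have h2 : (A ⊓ D).relIndex D * D.relIndex (P : Subgroup G) = (A ⊓ D).relIndex (P : Subgroup G) :=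
    Subgroup.relIndex_mul_relIndex _ _ _ hEle hDP
  have h3 : (A ⊓ D).relIndex (P : Subgroup G) * (P : Subgroup G).index = (A ⊓ D).index :=
    Subgroup.relIndex_mul_index (hEle.trans hDP)
  have h4 : A.index ∣ (A ⊓ D).index := Subgroup.index_dvd_of_le inf_le_left
  have hI0 : A.index ≠ 0 := Subgroup.index_ne_zero_of_finite
  have h5 : p ^ A.index.factorization p ∣ (A ⊓ D).relIndex (P : Subgroup G) := by
    have h6 : p ^ A.index.factorization p ∣ (A ⊓ D).relIndex (P : Subgroup G) * (P : Subgroup G).index := by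
      rw [h3]
      exact (Nat.ordProj_dvd _ _).trans h4
    refine Nat.Coprime.dvd_of_dvd_mul_right ?_ h6
    apply Nat.Coprime.pow_left
    exact (Nat.Prime.coprime_iff_not_dvd hp).mpr P.not_dvd_index
  have hpos : 0 < (A ⊓ D).relIndex (P : Subgroup G) := by
    rw [Nat.pos_iff_ne_zero, ← h2]
    apply mul_ne_zero
    · rw [h1]; exact Subgroup.index_ne_zero_of_finite
    · rw [hDidx]; exact Subgroup.index_ne_zero_of_finite
  have h7 := Nat.le_of_dvd hpos h5
  have h8 : D₀.index ≤ p ^ (n !).factorization p := by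
    have h9 : D₀.index ∣ p ^ (Nat.card (P : Subgroup G)).factorization p := by
      obtain ⟨k, hk⟩ := IsPGroup.iff_card.mp P.isPGroup'
      rw [hk]
      rw [Nat.factorization_pow, Finsupp.smul_apply, hp.factorization_self]
      simp only [smul_eq_mul, mul_one]
      rw [← hk]
      exact Subgroup.index_dvd_card _
    obtain ⟨j, -, hj⟩ := (Nat.dvd_prime_pow hp).mp h9
    rw [hj]
    have h10 : p ^ j ∣ n ! := hj ▸ hD₀i
    exact Nat.pow_le_pow_right hp.pos
      ((hp.pow_dvd_iff_le_factorization (Nat.factorial_ne_zero n)).mp h10)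
  calc p ^ A.index.factorization p ≤ (A ⊓ D).relIndex (P : Subgroup G) := h7
    _ = (A ⊓ D).relIndex D * D.relIndex (P : Subgroup G) := h2.symm
    _ = D₀.index * (A.subgroupOf D).index := by rw [h1, hDidx, mul_comm]
    _ ≤ _ := Nat.mul_le_mul h8 (hA D hDcomm)

/-- **Jordan's theorem** with the explicit bound. -/
theorem jordan_explicit {n : ℕ} (hL : LinDeg G n) (A B : Subgroup G) (hB : IsH n G B)
    (hA : ∀ H : Subgroup G, (∀ x ∈ H, ∀ y ∈ H, x * y = y * x) → (A.subgroupOf H).index ≤ 12 ^ n) :
    A.index ≤ n ! * 12 ^ (n * (Nat.primeCounting (n + 1) + 1)) := by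
  classical
  set I := A.index with hI
  have hI0 : I ≠ 0 := Subgroup.index_ne_zero_of_finite
  let f : ℕ → ℕ := fun p => p ^ I.factorization p
  have hprod : ∏ p ∈ I.primeFactors, f p = I := Nat.factorization_prod_pow_eq_self hI0
  have hsplit := Finset.prod_filter_mul_prod_filter_not I.primeFactors (fun p => p ≤ n + 1) f
  rw [hprod] at hsplit
  set X := ∏ p ∈ I.primeFactors.filter (fun p => p ≤ n + 1), f p with hX
  set w := ∏ p ∈ I.primeFactors.filter (fun p => ¬ p ≤ n + 1), f p with hw
  -- the large part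
  have hwdvd : w ∣ I := ⟨X, by rw [← hsplit, mul_comm]⟩
  have hwcop : Nat.Coprime w B.index := by
    apply Nat.coprime_of_dvd
    intro k hk hkw hkB
    have h1 := hB.small k hk hkB
    rw [hw] at hkw
    obtain ⟨p, hp, hkp⟩ := (Prime.exists_mem_finset_dvd hk.prime hkw)
    have hp' := Finset.mem_filter.mp hp
    have hpp : p.Prime := Nat.prime_of_mem_primeFactors hp'.1
    have h2 : k = p := (Nat.prime_dvd_prime_iff_eq hk hpp).mp (hk.dvd_of_dvd_pow hkp)
    have := hp'.2
    omega
  have hwle : w ≤ 12 ^ n := by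
    have h1 : (A ⊓ B).relIndex B * B.index = (A ⊓ B).index := Subgroup.relIndex_mul_index inf_le_right
    have h2 : I ∣ (A ⊓ B).index := Subgroup.index_dvd_of_le inf_le_left
    have h3 : w ∣ (A ⊓ B).relIndex B * B.index := by
      rw [h1]; exact hwdvd.trans h2
    have h4 := hwcop.dvd_of_dvd_mul_right h3
    rw [Subgroup.inf_relIndex_right] at h4
    have h5 := hA B hB.comm
    exact (Nat.le_of_dvd (Nat.pos_of_ne_zero Subgroup.index_ne_zero_of_finite) h4).trans h5
  -- the small part
  let T := (Finset.range (n + 2)).filter Nat.Prime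
  have hTcard : T.card = Nat.primeCounting (n + 1) := by
    rw [Nat.primeCounting, Nat.primeCounting', Nat.count_eq_card_filter_range]
  let g : ℕ → ℕ := fun p => p ^ (n !).factorization p * 12 ^ n
  have hg1 : ∀ p ∈ T, 1 ≤ g p := by
    intro p hp
    have : 0 < p := (Finset.mem_filter.mp hp).2.pos
    exact Nat.succ_le_of_lt (by positivity)
  have hXle : X ≤ ∏ p ∈ T, g p := by
    have hsub : I.primeFactors.filter (fun p => p ≤ n + 1) ⊆ T := by
      intro p hp
      have hp' := Finset.mem_filter.mp hp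
      exact Finset.mem_filter.mpr ⟨Finset.mem_range.mpr (by omega), Nat.prime_of_mem_primeFactors hp'.1⟩
    calc X ≤ ∏ p ∈ I.primeFactors.filter (fun p => p ≤ n + 1), g p := by
          refine Finset.prod_le_prod' (fun p hp => ?_)
          exact part_bound hL A hA p (Nat.prime_of_mem_primeFactors (Finset.mem_filter.mp hp).1)
      _ ≤ ∏ p ∈ T, g p := by
          refine Finset.prod_le_prod_of_subset_of_one_le' hsub (fun p hp _ => hg1 p hp)
  have hfac : ∏ p ∈ T, p ^ (n !).factorization p = n ! := by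
    have h1 : ∏ p ∈ (n !).primeFactors, p ^ (n !).factorization p = n ! :=
      Nat.factorization_prod_pow_eq_self (Nat.factorial_ne_zero n)
    have hsub : (n !).primeFactors ⊆ T := by
      intro p hp
      have hpp := Nat.prime_of_mem_primeFactors hp
      have h2 : p ∣ n ! := Nat.dvd_of_mem_primeFactors hp
      have h3 : p ≤ n := (hpp.dvd_factorial).mp h2
      exact Finset.mem_filter.mpr ⟨Finset.mem_range.mpr (by omega), hpp⟩
    have h5 : ∏ p ∈ T, p ^ (n !).factorization p = ∏ p ∈ (n !).primeFactors, p ^ (n !).factorization p := by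
      refine (Finset.prod_subset hsub (fun p hp hnp => ?_)).symm
      have h4 : (n !).factorization p = 0 := by
        rw [← Finsupp.notMem_support_iff, Nat.support_factorization]
        exact hnp
      simp [h4]
    rw [h5]
    exact h1
  have hprodg : ∏ p ∈ T, g p = n ! * 12 ^ (n * Nat.primeCounting (n + 1)) := by
    simp only [g]
    rw [Finset.prod_mul_distrib, hfac, Finset.prod_const, hTcard, ← pow_mul]
  calc I = X * w := hsplit.symm
    _ ≤ (∏ p ∈ T, g p) * 12 ^ n := Nat.mul_le_mul hXle hwle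
    _ = n ! * 12 ^ (n * (Nat.primeCounting (n + 1) + 1)) := by
        rw [hprodg, mul_add, pow_add, mul_one, mul_assoc]

/-- **Jordan's theorem**: final form. -/
theorem jordan_final (χ : G → ℂ) (hχ : IsCharacter G χ) (hfaith : ∀ g : G, χ g = χ 1 → g = 1) (n : ℕ)
    (hn : charDegree χ = n) : ∃ A : Subgroup G, A.Normal ∧ (∀ x ∈ A, ∀ y ∈ A, x * y = y * x) ∧
      A.index ≤ n ! * 12 ^ (n * (Nat.primeCounting (n + 1) + 1)) := by
  have hL : LinDeg G n := ⟨χ, hχ, hfaith, hn.le⟩
  obtain ⟨B, hB⟩ := hall_exists n _ G rfl hL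
  obtain ⟨m, ρ, rfl⟩ := hχ
  have hm : m = n := by rw [← hn, charDegree_of_rep]
  subst hm
  obtain ⟨A, hA, hAc, hAb⟩ := linear_normal_abelian ρ (rep_injective_of_faithful ρ hfaith)
  exact ⟨A, hA, hAc, jordan_explicit hL A B hB hAb⟩

end

end CfsgLib.Char
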