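import Cfsg.Agent.Lib.Char.KerPprime
import Cfsg.Agent.Lib.Char.Multiplicity
import Cfsg.Agent.Lib.Block.Infl

/-!
# The sum of the squares of the odd degrees
-/

universe u

open Cfsg CfsgLib.Block CfsgLib.Char.KP
open scoped ComplexConjugate commutatorElement Pointwise

namespace CfsgLib.Char.OS

section Basic

variable {H : Type u} [Group H] [Fintype H]

theorem deg_decomp {φ : H → ℂ} (hφ : IsCharacter H φ) (c : IrrCharacter H → ℕ)
    (hc : ∀ τ : IrrCharacter H, classInner φ (τ : H → ℂ) = c τ) :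
    charDegree φ = ∑ ψ : IrrCharacter H, c ψ * charDegree (ψ : H → ℂ) := by
  have h1 := classFunction_apply hφ.isClassFunction 1
  have h3 : ((charDegree φ : ℕ) : ℂ) = ((∑ ψ : IrrCharacter H, c ψ * charDegree (ψ : H → ℂ) : ℕ) : ℂ) := by
    rw [coe_charDegree hφ, h1]
    push_cast
    refine Finset.sum_congr rfl fun ψ _ => ?_
    rw [hc ψ, coe_charDegree ψ.2.isCharacter]
  exact_mod_cast h3

theorem eq_of_deg_eq {φ : H → ℂ} (hφ : IsCharacter H φ) (β : IrrCharacter H)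
    (hβ : classInner φ (β : H → ℂ) ≠ 0) (hd : charDegree (β : H → ℂ) = charDegree φ) : φ = β := by
  classical
  choose c hc using fun τ : IrrCharacter H => hφ.classInner_nat_of_char τ.2.isCharacter
  have h1 := deg_decomp hφ c hc
  have hcβ : c β ≠ 0 := by
    intro h0
    apply hβ
    rw [hc β, h0, Nat.cast_zero]
  have ha : ∀ ψ : IrrCharacter H, 0 < charDegree (ψ : H → ℂ) := fun ψ => Nat.pos_of_ne_zero (charDegree_ne_zero ψ.2)
  have hsplit := Finset.add_sum_erase Finset.univ (fun ψ : IrrCharacter H => c ψ * charDegree (ψ : H → ℂ)) (Finset.mem_univ β)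
  rw [← h1, ← hd] at hsplit
  have h2 : c β = 1 := by
    have h3 : c β * charDegree (β : H → ℂ) ≤ 1 * charDegree (β : H → ℂ) := by
      rw [one_mul]
      omega
    have h4 := Nat.le_of_mul_le_mul_right h3 (ha β)
    omega
  rw [h2, one_mul] at hsplit
  have h5 : ∑ ψ ∈ Finset.univ.erase β, c ψ * charDegree (ψ : H → ℂ) = 0 := by omega
  have h6 : ∀ ψ, ψ ≠ β → c ψ = 0 := by
    intro ψ hψ
    have h7 := (Finset.sum_eq_zero_iff.1 h5) ψ (Finset.mem_erase.2 ⟨hψ, Finset.mem_univ _⟩)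
    exact (mul_eq_zero.1 h7).resolve_right (ha ψ).ne'
  funext g
  rw [classFunction_apply hφ.isClassFunction g, Finset.sum_eq_single β]
  · rw [hc β, h2, Nat.cast_one, one_mul]
  · intro ψ _ hψ
    rw [hc ψ, h6 ψ hψ, Nat.cast_zero, zero_mul]
  · intro h0
    exact absurd (Finset.mem_univ _) h0

theorem sum_deg_le {φ : H → ℂ} (hφ : IsCharacter H φ) (S : Finset (IrrCharacter H))
    (hS : ∀ β ∈ S, classInner φ (β : H → ℂ) ≠ 0) : ∑ β ∈ S, charDegree (β : H → ℂ) ≤ charDegree φ := by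
  classical
  choose c hc using fun τ : IrrCharacter H => hφ.classInner_nat_of_char τ.2.isCharacter
  rw [deg_decomp hφ c hc]
  calc ∑ β ∈ S, charDegree (β : H → ℂ) ≤ ∑ β ∈ S, c β * charDegree (β : H → ℂ) := by
        refine Finset.sum_le_sum fun β hβ => ?_
        have hcβ : c β ≠ 0 := by
          intro h0
          apply hS β hβ
          rw [hc β, h0, Nat.cast_zero]
        exact Nat.le_mul_of_pos_left _ (Nat.pos_of_ne_zero hcβ)
    _ ≤ _ := Finset.sum_le_sum_of_subset (Finset.subset_univ _)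

theorem sum_sq_le {φ : H → ℂ} (hφ : IsCharacter H φ) (S : Finset (IrrCharacter H))
    (hS : ∀ β ∈ S, classInner φ (β : H → ℂ) ≠ 0) :
    ∑ β ∈ S, charDegree (β : H → ℂ) ^ 2 ≤ charDegree φ ^ 2 := by
  have h1 := sum_deg_le hφ S hS
  calc ∑ β ∈ S, charDegree (β : H → ℂ) ^ 2 ≤ ∑ β ∈ S, charDegree (β : H → ℂ) * charDegree φ := by
        refine Finset.sum_le_sum fun β hβ => ?_
        rw [pow_two]
        exact Nat.mul_le_mul_left _ ((Finset.single_le_sum (f := fun β : IrrCharacter H => charDegree (β : H → ℂ))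
          (fun _ _ => Nat.zero_le _) hβ).trans h1)
    _ = (∑ β ∈ S, charDegree (β : H → ℂ)) * charDegree φ := (Finset.sum_mul _ _ _).symm
    _ ≤ charDegree φ * charDegree φ := Nat.mul_le_mul_right _ h1
    _ = charDegree φ ^ 2 := (pow_two _).symm

theorem exists_eq_of_sum_sq_eq {φ : H → ℂ} (hφ : IsCharacter H φ) (S : Finset (IrrCharacter H))
    (hS : ∀ β ∈ S, classInner φ (β : H → ℂ) ≠ 0) (hD : 0 < charDegree φ)
    (heq : ∑ β ∈ S, charDegree (β : H → ℂ) ^ 2 = charDegree φ ^ 2) : ∃ β ∈ S, φ = β := by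
  classical
  by_contra hcon
  push Not at hcon
  have h1 := sum_deg_le hφ S hS
  have hlt : ∀ β ∈ S, charDegree (β : H → ℂ) < charDegree φ := by
    intro β hβ
    refine lt_of_le_of_ne ((Finset.single_le_sum (f := fun β : IrrCharacter H => charDegree (β : H → ℂ))
          (fun _ _ => Nat.zero_le _) hβ).trans h1) ?_
    intro h2
    exact hcon β hβ (eq_of_deg_eq hφ β (hS β hβ) h2)
  have hne : S.Nonempty := by
    by_contra h3
    rw [Finset.not_nonempty_iff_eq_empty] at h3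
    rw [h3, Finset.sum_empty] at heq
    exact (pow_pos hD 2).ne heq
  have h2 : ∑ β ∈ S, charDegree (β : H → ℂ) ^ 2 < ∑ β ∈ S, charDegree (β : H → ℂ) * charDegree φ := by
    refine Finset.sum_lt_sum_of_nonempty hne fun β hβ => ?_
    rw [pow_two]
    exact Nat.mul_lt_mul_of_pos_left (hlt β hβ) (Nat.pos_of_ne_zero (charDegree_ne_zero β.2))
  rw [← Finset.sum_mul] at h2
  have h3 := Nat.mul_le_mul_right (charDegree φ) h1
  rw [heq, pow_two] at h2
  omega

/-- Characters trivial on a normal subgroup separate the elements outside. -/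
theorem mem_of_forall_ker (D : Subgroup H) [hD : D.Normal] {x : H}
    (h : ∀ ψ : IrrCharacter H, (∀ m ∈ D, (ψ : H → ℂ) m = (ψ : H → ℂ) 1) → (ψ : H → ℂ) x = (ψ : H → ℂ) 1) : x ∈ D := by
  classical
  letI : Fintype (H ⧸ D) := Fintype.ofFinite _
  by_contra hx
  have hx1 : (x : H ⧸ D) ≠ 1 := fun h1 => hx ((QuotientGroup.eq_one_iff x).1 h1)
  have h1 := column_orthogonality (1 : H ⧸ D) (x : H ⧸ D)
  rw [if_neg (by rw [isConj_one_right]; exact hx1)] at h1
  have h2 : ∀ γ : IrrCharacter (H ⧸ D), (γ : H ⧸ D → ℂ) (x : H ⧸ D) = (γ : H ⧸ D → ℂ) 1 := by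
    intro γ
    have h3 := h (inflIrr D γ) (by
      intro m hm
      rw [inflIrr_apply, inflIrr_apply, (QuotientGroup.eq_one_iff m).2 hm]
      rfl)
    rw [inflIrr_apply, inflIrr_apply] at h3
    exact h3
  simp only [h2] at h1
  have h4 : ∑ γ : IrrCharacter (H ⧸ D), (γ : H ⧸ D → ℂ) 1 * conj ((γ : H ⧸ D → ℂ) 1) =
      ((∑ γ : IrrCharacter (H ⧸ D), charDegree (γ : H ⧸ D → ℂ) ^ 2 : ℕ) : ℂ) := by
    push_cast
    refine Finset.sum_congr rfl fun γ _ => ?_
    rw [← coe_charDegree γ.2.isCharacter, Complex.conj_natCast, pow_two]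
  rw [h4, CfsgLib.Char.sum_deg_sq] at h1
  have h5 : Nat.card (H ⧸ D) = 0 := by exact_mod_cast h1
  exact Nat.card_pos.ne' h5

/-- The kernel of an irreducible character. -/
def kerI (χ : IrrCharacter H) : Subgroup H where
  carrier := {g | (χ : H → ℂ) g = (χ : H → ℂ) 1}
  one_mem' := rfl
  mul_mem' := by
    intro a b ha hb
    show (χ : H → ℂ) (a * b) = _
    rw [char_mul_of_ker χ.2 ha]
    exact hb
  inv_mem' := by
    intro a ha
    have := char_mul_of_ker χ.2 ha a⁻¹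
    rw [mul_inv_cancel] at this
    exact this.symm

theorem mem_kerI {χ : IrrCharacter H} {g : H} : g ∈ kerI χ ↔ (χ : H → ℂ) g = (χ : H → ℂ) 1 := Iff.rfl

instance kerI_normal (χ : IrrCharacter H) : (kerI χ).Normal := by
  constructor
  intro a ha g
  show (χ : H → ℂ) (g * a * g⁻¹) = _
  rw [χ.2.isClassFunction a g]
  exact ha

end Basic

section Main

variable {G : Type u} [Group G] [Fintype G] [Fact (Nat.Prime 2)] (P : Sylow 2 G)

/-- The normalizer. -/
abbrev NP : Subgroup G := Subgroup.normalizer ((P : Subgroup G) : Set G)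

/-- The derived subgroup of `P`, inside the normalizer. -/
def DD : Subgroup (NP P) :=
  (⁅(P : Subgroup G), (P : Subgroup G)⁆).subgroupOf (NP P)

/-- `P`, inside the normalizer. -/
abbrev PP : Subgroup (NP P) := (P : Subgroup G).subgroupOf (NP P)

instance DD_normal : (DD P).Normal := by
  constructor
  intro a ha n
  show (n : G) * (a : G) * (n : G)⁻¹ ∈ ⁅(P : Subgroup G), (P : Subgroup G)⁆
  have h1 : ⁅(P : Subgroup G), (P : Subgroup G)⁆ ≤
      (⁅(P : Subgroup G), (P : Subgroup G)⁆).comap (MulAut.conj (n : G)).toMonoidHom := by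
    rw [Subgroup.commutator_le]
    intro x hx y hy
    have hn := Subgroup.mem_normalizer_iff.1 n.2
    show (n : G) * ⁅x, y⁆ * (n : G)⁻¹ ∈ ⁅(P : Subgroup G), (P : Subgroup G)⁆
    have h2 : (n : G) * ⁅x, y⁆ * (n : G)⁻¹ = ⁅(n : G) * x * (n : G)⁻¹, (n : G) * y * (n : G)⁻¹⁆ := by
      simp only [commutatorElement_def]
      group
    rw [h2]
    exact Subgroup.commutator_mem_commutator ((hn x).1 hx) ((hn y).1 hy)
  exact h1 ha

variable [Fintype (NP P)]

/-- The irreducible characters of the normalizer with `P'` in the kernel. -/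
noncomputable def BB : Finset (IrrCharacter (NP P)) := by
  classical
  exact Finset.univ.filter fun β : IrrCharacter (NP P) => ∀ m ∈ DD P, (β : NP P → ℂ) m = (β : NP P → ℂ) 1

theorem mem_BB {β : IrrCharacter (NP P)} :
    β ∈ BB P ↔ ∀ m ∈ DD P, (β : NP P → ℂ) m = (β : NP P → ℂ) 1 := by
  classical
  unfold BB
  simp

theorem sum_BB : ∑ β ∈ BB P, charDegree (β : NP P → ℂ) ^ 2 = (DD P).index := by
  classical
  have h1 := CfsgLib.Char.sum_deg_sq_trivial (DD P)
  have h2 : BB P = Finset.univ.filter (fun ψ : IrrCharacter (NP P) =>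
      ∀ m ∈ DD P, (ψ : NP P → ℂ) m = (ψ : NP P → ℂ) 1) := by
    ext β
    rw [mem_BB]
    simp
  rw [h2]
  exact h1

/-- A character of the normalizer with `P'` in the kernel has odd degree. -/
theorem odd_of_mem_BB {β : IrrCharacter (NP P)} (hβ : β ∈ BB P) : ¬ 2 ∣ charDegree (β : NP P → ℂ) := by
  classical
  letI : Fintype (PP P) := Fintype.ofFinite _
  haveI hPPn : (PP P).Normal := Subgroup.normal_in_normalizer
  obtain ⟨μ, hμ⟩ := exists_constituent_irr (PP P) β.2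
  have hker : ∀ a : PP P, ((a : NP P) : NP P) ∈ DD P → (μ : PP P → ℂ) a = (μ : PP P → ℂ) 1 := by
    intro a ha
    exact constituent_of_ker (β.2.isCharacter.restrict (PP P)) (a := a) ((mem_BB P).1 hβ _ ha) μ hμ
  have h1 : (μ : PP P → ℂ) 1 = 1 := by
    refine CfsgLib.Char.degree_one_of_abelian_quot ((DD P).subgroupOf (PP P)) μ.2 (fun n hn => hker n hn) ?_
    intro x y
    show ((x : NP P) : G) * ((y : NP P) : G) * ((x : NP P) : G)⁻¹ * ((y : NP P) : G)⁻¹ ∈ ⁅(P : Subgroup G), (P : Subgroup G)⁆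
    exact Subgroup.commutator_mem_commutator (show ((x : NP P) : G) ∈ (P : Subgroup G) from x.2) y.2
  obtain ⟨c, hc⟩ : ∃ c : ℕ, (β : NP P → ℂ) 1 = c := by
    obtain ⟨c, -, hc⟩ := β.2.map_one
    exact ⟨c, hc⟩
  have h2 := CfsgLib.Char.degree_ratio_dvd_index (PP P) β.2 μ.2 hμ c 1 hc (by rw [h1, Nat.cast_one])
  rw [Nat.div_one] at h2
  rw [charDegree_eq hc]
  intro h3
  have h4 : (PP P).index ∣ (P : Subgroup G).index := by
    have h5 : (P : Subgroup G).relIndex (NP P) * (NP P).index = (P : Subgroup G).index :=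
      Subgroup.relIndex_mul_index Subgroup.le_normalizer
    exact Dvd.intro _ h5
  exact P.not_dvd_index (h3.trans (h2.2.trans h4))

/-- Every character in `BB` lies under an odd degree character of `G`. -/
theorem exists_odd_over {β : IrrCharacter (NP P)} (hβ : β ∈ BB P) :
    ∃ χ : IrrCharacter G, ¬ 2 ∣ charDegree (χ : G → ℂ) ∧ classInner (fun n : NP P => (χ : G → ℂ) n) (β : NP P → ℂ) ≠ 0 := by
  classical
  have hodd := odd_of_mem_BB P hβ
  have hΨ := isCharacter_indFun (NP P) β.2.isCharacter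
  obtain ⟨d, hd0, hd⟩ := β.2.map_one
  have hdeg : ¬ 2 ∣ charDegree (indFun (NP P) (β : NP P → ℂ)) := by
    have h1 : indFun (NP P) (β : NP P → ℂ) 1 = (((NP P).index * d : ℕ) : ℂ) := by
      rw [indFun_one, hd]
      push_cast
      rfl
    rw [charDegree_eq h1]
    intro h2
    rw [charDegree_eq hd] at hodd
    rcases (Nat.Prime.dvd_mul Nat.prime_two).1 h2 with h3 | h3
    · exact P.not_dvd_index (h3.trans (Subgroup.index_dvd_of_le Subgroup.le_normalizer))
    · exact hodd h3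
  obtain ⟨ξ, hξ, hξd⟩ := exists_pprime_constituent hΨ hdeg
  refine ⟨ξ, hξd, ?_⟩
  rw [frobenius (NP P) _ ξ.2.isClassFunction] at hξ
  rw [← conj_classInner]
  exact fun h0 => hξ ((map_eq_zero (starRingEnd ℂ)).1 h0)

/-- The odd degree characters of `G`. -/
noncomputable def OO : Finset (IrrCharacter G) := by
  classical
  exact Finset.univ.filter fun χ : IrrCharacter G => ¬ 2 ∣ charDegree (χ : G → ℂ)

omit [Fact (Nat.Prime 2)] in
theorem mem_OO {χ : IrrCharacter G} : χ ∈ (OO : Finset (IrrCharacter G)) ↔ ¬ 2 ∣ charDegree (χ : G → ℂ) := by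
  classical
  unfold OO
  simp

/-- The basic inequality, with the sums in the middle. -/
theorem sum_BB_le_middle : ∑ β ∈ BB P, charDegree (β : NP P → ℂ) ^ 2 ≤
    ∑ χ ∈ (OO : Finset (IrrCharacter G)), ∑ β ∈ (BB P).filter (fun β : IrrCharacter (NP P) => classInner (fun n : NP P => (χ : G → ℂ) n) (β : NP P → ℂ) ≠ 0),
      charDegree (β : NP P → ℂ) ^ 2 := by
  classical
  simp only [Finset.sum_filter]
  rw [Finset.sum_comm]
  refine Finset.sum_le_sum fun β hβ => ?_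
  obtain ⟨χ, hχ, hin⟩ := exists_odd_over P hβ
  have h1 := Finset.single_le_sum (f := fun χ : IrrCharacter G =>
    if classInner (fun n : NP P => (χ : G → ℂ) n) (β : NP P → ℂ) ≠ 0 then charDegree (β : NP P → ℂ) ^ 2 else 0)
    (fun _ _ => Nat.zero_le _) ((mem_OO).2 hχ)
  beta_reduce at h1
  rw [if_pos hin] at h1
  exact h1

theorem middle_le : ∑ χ ∈ (OO : Finset (IrrCharacter G)), ∑ β ∈ (BB P).filter (fun β : IrrCharacter (NP P) => classInner (fun n : NP P => (χ : G → ℂ) n) (β : NP P → ℂ) ≠ 0),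
      charDegree (β : NP P → ℂ) ^ 2 ≤ ∑ χ ∈ (OO : Finset (IrrCharacter G)), charDegree (χ : G → ℂ) ^ 2 := by
  classical
  refine Finset.sum_le_sum fun χ _ => ?_
  exact sum_sq_le (χ.2.isCharacter.restrict (NP P)) _ (fun β hβ => (Finset.mem_filter.1 hβ).2)

/-- Equality: the restriction statements. -/
theorem restrict_of_eq (h : ∑ χ ∈ (OO : Finset (IrrCharacter G)), charDegree (χ : G → ℂ) ^ 2 ≤ ∑ β ∈ BB P, charDegree (β : NP P → ℂ) ^ 2) :
    (∀ χ ∈ (OO : Finset (IrrCharacter G)), ∃ β ∈ BB P, (fun n : NP P => (χ : G → ℂ) n) = β) ∧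
      ∀ β ∈ BB P, ∃ χ ∈ (OO : Finset (IrrCharacter G)), (fun n : NP P => (χ : G → ℂ) n) = β := by
  classical
  have h1 := sum_BB_le_middle P
  have h2 := middle_le P
  have h3 := (Finset.sum_eq_sum_iff_of_le (s := (OO : Finset (IrrCharacter G))) (fun χ _ =>
    sum_sq_le (χ.2.isCharacter.restrict (NP P)) ((BB P).filter (fun β : IrrCharacter (NP P) => classInner (fun n : NP P => (χ : G → ℂ) n) (β : NP P → ℂ) ≠ 0))
      (fun β hβ => (Finset.mem_filter.1 hβ).2))).1 (le_antisymm h2 (h.trans h1))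
  have hF1 : ∀ χ ∈ (OO : Finset (IrrCharacter G)), ∃ β ∈ BB P, (fun n : NP P => (χ : G → ℂ) n) = β := by
    intro χ hχ
    obtain ⟨β, hβ, hβe⟩ := exists_eq_of_sum_sq_eq (χ.2.isCharacter.restrict (NP P))
      ((BB P).filter (fun β : IrrCharacter (NP P) => classInner (fun n : NP P => (χ : G → ℂ) n) (β : NP P → ℂ) ≠ 0))
      (fun β hβ => (Finset.mem_filter.1 hβ).2) (show 0 < charDegree (χ : G → ℂ) from Nat.pos_of_ne_zero (charDegree_ne_zero χ.2)) (h3 χ hχ)
    exact ⟨β, (Finset.mem_filter.1 hβ).1, hβe⟩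
  refine ⟨hF1, ?_⟩
  intro β hβ
  obtain ⟨χ, hχ, hin⟩ := exists_odd_over P hβ
  obtain ⟨β', hβ', hβ'e⟩ := hF1 χ ((mem_OO).2 hχ)
  have h4 : β' = β := by
    by_contra hne
    apply hin
    rw [hβ'e]
    exact classInner_irr_ne β'.2 β.2 (fun h5 => hne (Subtype.ext h5))
  exact ⟨χ, (mem_OO).2 hχ, by rw [hβ'e, h4]⟩

/-- Odd degree characters of the normalizer have `P'` in the kernel. -/
theorem mem_BB_of_odd {β : IrrCharacter (NP P)} (hd : ¬ 2 ∣ charDegree (β : NP P → ℂ)) : β ∈ BB P := by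
  classical
  letI : Fintype (PP P) := Fintype.ofFinite _
  haveI hPPn : (PP P).Normal := Subgroup.normal_in_normalizer
  have hP₂ : IsPGroup 2 (PP P) := P.2.comap_subtype
  rw [mem_BB]
  intro a ha
  have hlin : ∀ μ : IrrCharacter (PP P), classInner (fun n : PP P => (β : NP P → ℂ) n) (μ : PP P → ℂ) ≠ 0 →
      (μ : PP P → ℂ) 1 = 1 := by
    intro μ hμ
    obtain ⟨c, -, hc⟩ := β.2.map_one
    obtain ⟨d, -, hd'⟩ := μ.2.map_one
    have h2 := (CfsgLib.Char.degree_ratio_dvd_index (PP P) β.2 μ.2 hμ c d hc hd').1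
    have h3 : d ∣ Nat.card (PP P) := degree_dvd_card μ.2 hd'
    obtain ⟨k, hk⟩ := IsPGroup.iff_card.1 hP₂
    rw [hk] at h3
    obtain ⟨j, -, hj⟩ := (Nat.dvd_prime_pow Nat.prime_two).1 h3
    have hj0 : j = 0 := by
      rcases j with _ | j
      · rfl
      · apply absurd _ hd
        rw [charDegree_eq hc]
        exact (dvd_pow_self 2 (Nat.succ_ne_zero j)).trans (hj ▸ h2)
    rw [hj0, pow_zero] at hj
    rw [hd', hj, Nat.cast_one]
  have haP : ((a : NP P) : G) ∈ (P : Subgroup G) := by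
    have h1 : ((a : NP P) : G) ∈ ⁅(P : Subgroup G), (P : Subgroup G)⁆ := ha
    exact Subgroup.commutator_le.2 (fun a ha b hb => (P : Subgroup G).mul_mem ((P : Subgroup G).mul_mem ((P : Subgroup G).mul_mem ha hb)
      ((P : Subgroup G).inv_mem ha)) ((P : Subgroup G).inv_mem hb)) h1
  let a' : PP P := ⟨a, haP⟩
  let j : PP P →* G := (NP P).subtype.comp (PP P).subtype
  have hjinj : Function.Injective j := (NP P).subtype_injective.comp (PP P).subtype_injective
  have hjr : (⊤ : Subgroup (PP P)).map j = (P : Subgroup G) := by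
    ext z
    constructor
    · rintro ⟨v, -, rfl⟩
      exact v.2
    · intro hz
      exact ⟨⟨⟨z, Subgroup.le_normalizer hz⟩, hz⟩, trivial, rfl⟩
  have h2 : (commutator (PP P)).map j = ⁅(P : Subgroup G), (P : Subgroup G)⁆ := by
    rw [commutator_def, Subgroup.map_commutator, hjr]
  have ha' : a' ∈ commutator (PP P) := by
    have h1 : j a' ∈ (commutator (PP P)).map j := by
      rw [h2]
      exact ha
    obtain ⟨v, hv, hva⟩ := h1
    rwa [← hjinj hva]
  have hφ := β.2.isCharacter.restrict (PP P)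
  have h1 := classFunction_apply hφ.isClassFunction a'
  have h3 := classFunction_apply hφ.isClassFunction 1
  have h4 : (β : NP P → ℂ) a = (β : NP P → ℂ) 1 := by
    refine h1.trans (Eq.trans ?_ h3.symm)
    refine Finset.sum_congr rfl fun μ _ => ?_
    by_cases hμ : classInner (fun n : PP P => (β : NP P → ℂ) n) (μ : PP P → ℂ) = 0
    · rw [hμ, zero_mul, zero_mul]
    · congr 1
      obtain ⟨l, hl⟩ := CfsgLib.Char.exists_hom_of_degree_one μ.2.isCharacter (hlin μ hμ)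
      have h5 : l a' = 1 := Abelianization.commutator_subset_ker l ha'
      rw [hl]
      simp [h5]
  exact h4

/-- The reverse direction: a complement gives the upper bound. -/
theorem sum_OO_le_of_complement (K : Subgroup G) [hK : K.Normal] (hK1 : K ⊓ NP P = ⊥) (hK2 : K ⊔ NP P = ⊤) :
    ∑ χ ∈ (OO : Finset (IrrCharacter G)), charDegree (χ : G → ℂ) ^ 2 ≤ ∑ β ∈ BB P, charDegree (β : NP P → ℂ) ^ 2 := by
  classical
  letI : Fintype K := Fintype.ofFinite _
  letI : Fintype (G ⧸ K) := Fintype.ofFinite _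
  haveI : Nonempty (IrrCharacter (NP P)) := ⟨oneIrr _⟩
  have hKC : K ⊓ Subgroup.centralizer ((P : Subgroup G) : Set G) = ⊥ := by
    rw [eq_bot_iff, ← hK1]
    exact inf_le_inf_left _ (Subgroup.centralizer_le_normalizer _)
  have hker : ∀ χ ∈ (OO : Finset (IrrCharacter G)), ∀ k ∈ K, (χ : G → ℂ) k = (χ : G → ℂ) 1 := fun χ hχ =>
    pprime_ker_of_normal P K hKC χ ((mem_OO).1 hχ)
  have hmul : ∀ g : G, ∃ k ∈ K, ∃ n ∈ NP P, g = k * n := by
    intro g
    have h1 : g ∈ ((K ⊔ NP P : Subgroup G) : Set G) := by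
      rw [hK2]
      trivial
    rw [Subgroup.normal_mul K _, Set.mem_mul] at h1
    obtain ⟨k, hk, n, hn, h⟩ := h1
    exact ⟨k, hk, n, hn, h.symm⟩
  have hirr : ∀ χ ∈ (OO : Finset (IrrCharacter G)), ∃ β : IrrCharacter (NP P), β ∈ BB P ∧ (fun n : NP P => (χ : G → ℂ) n) = β := by
    intro χ hχ
    obtain ⟨χb, hχb⟩ := exists_descend K (θ := χ) (hker χ hχ)
    let jj : NP P →* G ⧸ K := (QuotientGroup.mk' K).comp (NP P).subtype
    have hjj : Function.Surjective jj := by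
      intro q
      obtain ⟨g, rfl⟩ := QuotientGroup.mk_surjective q
      obtain ⟨k, hk, n, hn, rfl⟩ := hmul g
      refine ⟨⟨n, hn⟩, ?_⟩
      show ((n : G) : G ⧸ K) = ((k * n : G) : G ⧸ K)
      rw [QuotientGroup.eq]
      have h9 := hK.conj_mem k hk (n : G)⁻¹
      simpa [mul_assoc] using h9
    have h1 := χb.2.comp_surjective jj hjj
    have h2 : (χb : G ⧸ K → ℂ) ∘ jj = fun n : NP P => (χ : G → ℂ) n := by
      funext n
      rw [← hχb]
      rfl
    rw [h2] at h1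
    let β : IrrCharacter (NP P) := ⟨_, h1⟩
    refine ⟨β, mem_BB_of_odd P ?_, rfl⟩
    have h3 : ¬ 2 ∣ charDegree (χ : G → ℂ) := (mem_OO).1 hχ
    exact h3
  choose! F hF using hirr
  have hinj : Set.InjOn F (OO : Finset (IrrCharacter G)) := by
    intro χ hχ χ' hχ' h
    have h1 : (fun n : NP P => (χ : G → ℂ) n) = fun n : NP P => (χ' : G → ℂ) n := by
      rw [(hF χ hχ).2, (hF χ' hχ').2, h]
    apply Subtype.ext
    funext g
    obtain ⟨k, hk, n, hn, rfl⟩ := hmul g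
    rw [char_mul_of_ker χ.2 (hker χ hχ k hk), char_mul_of_ker χ'.2 (hker χ' hχ' k hk)]
    exact congrFun h1 ⟨n, hn⟩
  calc ∑ χ ∈ (OO : Finset (IrrCharacter G)), charDegree (χ : G → ℂ) ^ 2
      = ∑ χ ∈ (OO : Finset (IrrCharacter G)), charDegree (F χ : NP P → ℂ) ^ 2 := by
        refine Finset.sum_congr rfl fun χ hχ => ?_
        rw [← (hF χ hχ).2]
        rfl
    _ = ∑ β ∈ (OO : Finset (IrrCharacter G)).image F, charDegree (β : NP P → ℂ) ^ 2 :=
        (Finset.sum_image (f := fun β : IrrCharacter (NP P) => charDegree (β : NP P → ℂ) ^ 2) hinj).symm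
    _ ≤ _ := by
        refine Finset.sum_le_sum_of_subset ?_
        intro β hβ
        obtain ⟨χ, hχ, rfl⟩ := Finset.mem_image.1 hβ
        exact (hF χ hχ).1

theorem main_sup {T : Subgroup G}
    (hF2 : ∀ β ∈ BB P, ∃ χ ∈ (OO : Finset (IrrCharacter G)), (fun n : NP P => (χ : G → ℂ) n) = β)
    (hTK : T ≤ pprimeKer 2 G) (hdec : ∀ k ∈ pprimeKer 2 G, ∃ β ∈ T, ∃ τ ∈ (P : Subgroup G), k = β * τ)
    (hAK : ⁅(P : Subgroup G), (P : Subgroup G)⁆ ≤ pprimeKer 2 G) : T ⊔ NP P = ⊤ := by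
  classical
  let K₁ : Subgroup G := pprimeKer 2 G
  haveI hK₁n : K₁.Normal := pprimeKer_normal
  let π : G →* G ⧸ K₁ := QuotientGroup.mk' K₁
  have hπs : Function.Surjective π := QuotientGroup.mk'_surjective K₁
  letI : Fintype (G ⧸ K₁) := Fintype.ofFinite _
  let Pb : Sylow 2 (G ⧸ K₁) := P.mapSurjective hπs
  have hPbmem : ∀ y ∈ (P : Subgroup G), π y ∈ (Pb : Subgroup (G ⧸ K₁)) := fun y hy => ⟨y, hy, rfl⟩
  have hAP : ⁅(P : Subgroup G), (P : Subgroup G)⁆ ≤ (P : Subgroup G) :=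
      Subgroup.commutator_le.2 (fun a ha b hb => (P : Subgroup G).mul_mem ((P : Subgroup G).mul_mem ((P : Subgroup G).mul_mem ha hb)
      ((P : Subgroup G).inv_mem ha)) ((P : Subgroup G).inv_mem hb))
  have hab : ∀ x ∈ (Pb : Subgroup (G ⧸ K₁)), ∀ y ∈ (Pb : Subgroup (G ⧸ K₁)), x * y = y * x := by
    rintro _ ⟨a, ha, rfl⟩ _ ⟨b, hb, rfl⟩
    have h1 : ⁅a, b⁆ ∈ K₁ := hAK (Subgroup.commutator_mem_commutator ha hb)
    have h2 : π ⁅a, b⁆ = 1 := (QuotientGroup.eq_one_iff _).2 h1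
    rw [commutatorElement_def, map_mul, map_mul, map_mul, map_inv, map_inv] at h2
    have h3 : π a * π b * (π a)⁻¹ = π b := by
      have := congrArg (fun z => z * π b) h2
      simpa using this
    have h4 := congrArg (fun z => z * π a) h3
    simpa using h4
  let Rb : Subgroup (G ⧸ K₁) := Subgroup.normalClosure ((Pb : Subgroup (G ⧸ K₁)) : Set (G ⧸ K₁))
  haveI hRbn : Rb.Normal := Subgroup.normalClosure_normal
  have hPbR : (Pb : Subgroup (G ⧸ K₁)) ≤ Rb := Subgroup.le_normalClosure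
  -- characters trivial on `P` are trivial on the closure
  have hchar : ∀ χ ∈ (OO : Finset (IrrCharacter G)), (∀ y ∈ (P : Subgroup G), (χ : G → ℂ) y = (χ : G → ℂ) 1) →
      ∀ g : G, π g ∈ Rb → (χ : G → ℂ) g = (χ : G → ℂ) 1 := by
    intro χ hχ hy g hg
    obtain ⟨χb, hχb⟩ := exists_descend K₁ (θ := χ) (fun k hk => hk χ ((mem_OO).1 hχ))
    have hval : ∀ x : G, (χb : G ⧸ K₁ → ℂ) (π x) = (χ : G → ℂ) x := by
      intro x
      rw [← hχb]
      rfl
    have h1 : Rb ≤ kerI χb := by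
      apply Subgroup.normalClosure_le_normal
      rintro _ ⟨a, ha, rfl⟩
      show (χb : G ⧸ K₁ → ℂ) (π a) = (χb : G ⧸ K₁ → ℂ) 1
      have h2 : (χb : G ⧸ K₁ → ℂ) 1 = (χ : G → ℂ) 1 := by
        rw [← map_one π, hval]
      rw [hval, h2]
      exact hy a ha
    have h3 := h1 hg
    have h4 : (χb : G ⧸ K₁ → ℂ) (π g) = (χb : G ⧸ K₁ → ℂ) 1 := h3
    have h2 : (χb : G ⧸ K₁ → ℂ) 1 = (χ : G → ℂ) 1 := by
      rw [← map_one π, hval]
    rw [hval, h2] at h4
    exact h4
  -- the key lemma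
  have hb : ∀ xb ∈ Rb, xb ∈ Subgroup.normalizer ((Pb : Subgroup (G ⧸ K₁)) : Set (G ⧸ K₁)) → xb ∈ (Pb : Subgroup (G ⧸ K₁)) := by
    intro xb hxR hxN
    obtain ⟨x, rfl⟩ := hπs xb
    let Z : Subgroup G := (Pb : Subgroup (G ⧸ K₁)).comap π
    have hPZ : (P : Subgroup G) ≤ Z := fun y hy => hPbmem y hy
    have hxPZ : ((x • P : Sylow 2 G) : Subgroup G) ≤ Z := by
      intro w hw
      have h1 : w ∈ MulAut.conj x • (P : Subgroup G) := by
        rw [← Sylow.coe_subgroup_smul]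
        exact hw
      have h2 : (MulAut.conj x)⁻¹ • w ∈ (P : Subgroup G) := Subgroup.mem_pointwise_smul_iff_inv_smul_mem.1 h1
      have h3 : (MulAut.conj x)⁻¹ • w = x⁻¹ * w * x := by
        rw [MulAut.smul_def, ← map_inv, MulAut.conj_apply, inv_inv]
      rw [h3] at h2
      have h4 := (Subgroup.mem_normalizer_iff.1 hxN (π (x⁻¹ * w * x))).1 (hPbmem _ h2)
      show π w ∈ (Pb : Subgroup (G ⧸ K₁))
      have h5 : π x * π (x⁻¹ * w * x) * (π x)⁻¹ = π w := by
        rw [← map_inv, ← map_mul, ← map_mul]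
        congr 1
        group
      rwa [h5] at h4
    obtain ⟨z, hz⟩ := MulAction.exists_smul_eq Z ((x • P).subtype hxPZ) (P.subtype hPZ)
    have hzP : (z : G) • (x • P) = P := by
      rw [Sylow.smul_subtype] at hz
      exact Sylow.subtype_injective hz
    have hn : (z : G) * x ∈ NP P := by
      have h1 : ((z : G) * x) • P = P := by
        rw [mul_smul]
        exact hzP
      exact Sylow.smul_eq_iff_mem_normalizer.1 h1
    have hzmem : π (z : G) ∈ (Pb : Subgroup (G ⧸ K₁)) := z.2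
    have hnR : π ((z : G) * x) ∈ Rb := by
      rw [map_mul]
      exact Rb.mul_mem (hPbR hzmem) hxR
    have hnP : (⟨(z : G) * x, hn⟩ : NP P) ∈ PP P := by
      refine mem_of_forall_ker (PP P) (hD := Subgroup.normal_in_normalizer) fun ψ hψ => ?_
      have hψB : ψ ∈ BB P := by
        rw [mem_BB]
        intro m hm
        exact hψ m (show ((m : NP P) : G) ∈ (P : Subgroup G) from hAP hm)
      obtain ⟨χ, hχ, he⟩ := hF2 ψ hψB
      rw [← he]
      refine hchar χ hχ ?_ _ hnR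
      intro y hy
      have h1 := hψ ⟨y, Subgroup.le_normalizer hy⟩ hy
      rw [← he] at h1
      exact h1
    have h3 : π ((z : G) * x) ∈ (Pb : Subgroup (G ⧸ K₁)) := hPbmem _ hnP
    rw [map_mul] at h3
    have h4 := (Pb : Subgroup (G ⧸ K₁)).mul_mem ((Pb : Subgroup (G ⧸ K₁)).inv_mem hzmem) h3
    simpa using h4
  -- Burnside's transfer theorem in `Rb`
  let P₂ : Sylow 2 Rb := Pb.subtype hPbR
  have hP₂mem : ∀ u : Rb, u ∈ (P₂ : Subgroup Rb) ↔ (u : G ⧸ K₁) ∈ (Pb : Subgroup (G ⧸ K₁)) := by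
    intro u
    rw [Sylow.coe_subtype]
    rfl
  have hN₂ : Subgroup.normalizer ((P₂ : Subgroup Rb) : Set Rb) ≤ Subgroup.centralizer ((P₂ : Subgroup Rb) : Set Rb) := by
    intro u hu
    have h1 : (u : G ⧸ K₁) ∈ Subgroup.normalizer ((Pb : Subgroup (G ⧸ K₁)) : Set (G ⧸ K₁)) := by
      rw [Subgroup.mem_normalizer_iff]
      intro y
      constructor
      · intro hy
        have h2 := (Subgroup.mem_normalizer_iff.1 hu ⟨y, hPbR hy⟩).1 ((hP₂mem _).2 hy)
        exact (hP₂mem _).1 h2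
      · intro hy
        have hyR : y ∈ Rb := by
          have h3 := hPbR hy
          have h4 : (u : G ⧸ K₁)⁻¹ * ((u : G ⧸ K₁) * y * (u : G ⧸ K₁)⁻¹) * (u : G ⧸ K₁) ∈ Rb :=
            Rb.mul_mem (Rb.mul_mem (Rb.inv_mem u.2) h3) u.2
          simpa [mul_assoc] using h4
        have h2 := (Subgroup.mem_normalizer_iff.1 hu ⟨y, hyR⟩).2 ((hP₂mem _).2 hy)
        exact (hP₂mem _).1 h2
    have h2 := hb _ u.2 h1
    rw [Subgroup.mem_centralizer_iff]
    intro v hv
    apply Subtype.ext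
    exact hab _ ((hP₂mem v).1 hv) _ h2
  let f : Rb →* (P₂ : Subgroup Rb) := MonoidHom.transferSylow P₂ hN₂
  have hc := MonoidHom.ker_transferSylow_isComplement' P₂ hN₂
  have hWc : ¬ 2 ∣ Nat.card f.ker := MonoidHom.not_dvd_card_ker_transferSylow P₂ hN₂
  have hreg : ∀ u : Rb, ¬ 2 ∣ orderOf u → u ∈ f.ker := by
    intro u hu
    obtain ⟨k, hk⟩ := (IsPGroup.iff_orderOf.1 P₂.2) (f u)
    have h1 : orderOf (f u) ∣ orderOf u := orderOf_map_dvd f u
    rw [hk] at h1
    rcases k with _ | k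
    · rw [pow_zero] at hk
      exact orderOf_eq_one_iff.1 hk
    · exact absurd ((dvd_pow_self 2 (Nat.succ_ne_zero k)).trans h1) hu
  let Wb : Subgroup (G ⧸ K₁) := f.ker.map Rb.subtype
  have hWodd : ∀ w ∈ Wb, ¬ 2 ∣ orderOf w := by
    rintro _ ⟨u, hu, rfl⟩ h
    have h1 : orderOf (⟨u, hu⟩ : f.ker) = orderOf u := Subgroup.orderOf_mk u hu
    have h2 : orderOf (u : G ⧸ K₁) = orderOf u := Subgroup.orderOf_coe u
    apply hWc
    refine (h.trans ?_).trans (orderOf_dvd_natCard (⟨u, hu⟩ : f.ker))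
    show orderOf (u : G ⧸ K₁) ∣ _
    rw [h2, h1]
  haveI hWn : Wb.Normal := by
    constructor
    intro w hw g
    have hwR : w ∈ Rb := by
      obtain ⟨u, -, rfl⟩ := hw
      exact u.2
    have hgw : g * w * g⁻¹ ∈ Rb := hRbn.conj_mem w hwR g
    refine ⟨⟨g * w * g⁻¹, hgw⟩, hreg _ ?_, rfl⟩
    have h1 : orderOf (⟨g * w * g⁻¹, hgw⟩ : Rb) = orderOf (g * w * g⁻¹) := Subgroup.orderOf_mk _ hgw
    have h2 : orderOf (g * w * g⁻¹) = orderOf w := by
      rw [← MulAut.conj_apply, MulEquiv.orderOf_eq]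
    rw [h1, h2]
    exact hWodd w hw
  have hWC : Wb ⊓ Subgroup.centralizer ((Pb : Subgroup (G ⧸ K₁)) : Set (G ⧸ K₁)) = ⊥ := by
    rw [eq_bot_iff]
    rintro c ⟨hcW, hcC⟩
    have hcR : c ∈ Rb := by
      obtain ⟨u, -, rfl⟩ := hcW
      exact u.2
    have hcP := hb c hcR (Subgroup.centralizer_le_normalizer _ hcC)
    obtain ⟨k, hk⟩ := (IsPGroup.iff_orderOf.1 Pb.2) ⟨c, hcP⟩
    have h4 : orderOf c = 2 ^ k := by rw [← Subgroup.orderOf_mk c hcP, hk]
    have h5 := hWodd c hcW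
    rw [h4] at h5
    rcases k with _ | k
    · rw [pow_zero] at h4
      exact Subgroup.mem_bot.2 (orderOf_eq_one_iff.1 h4)
    · exact absurd (dvd_pow_self 2 (Nat.succ_ne_zero k)) h5
  have hWbot : Wb = ⊥ := by
    rw [eq_bot_iff]
    intro w hw
    obtain ⟨g, rfl⟩ := hπs w
    have h1 : g ∈ K₁ := by
      intro χ hd
      obtain ⟨χb, hχb⟩ := exists_descend K₁ (θ := χ) (fun k hk => hk χ hd)
      have hval : ∀ x : G, (χb : G ⧸ K₁ → ℂ) (π x) = (χ : G → ℂ) x := by
        intro x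
        rw [← hχb]
        rfl
      have h2 : (χb : G ⧸ K₁ → ℂ) 1 = (χ : G → ℂ) 1 := by
        rw [← map_one π, hval]
      have hdb : ¬ 2 ∣ charDegree (χb : G ⧸ K₁ → ℂ) := by
        unfold charDegree at hd ⊢
        rw [h2]
        exact hd
      have h3 := pprime_ker_of_normal Pb Wb hWC χb hdb (π g) hw
      rw [hval, h2] at h3
      exact h3
    exact Subgroup.mem_bot.2 ((QuotientGroup.eq_one_iff g).2 h1)
  have hRP : Rb ≤ (Pb : Subgroup (G ⧸ K₁)) := by
    intro r hr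
    obtain ⟨⟨w, y⟩, hwy⟩ := hc.2 (⟨r, hr⟩ : Rb)
    have hwy' : ((w : f.ker) : Rb) * (y : Rb) = ⟨r, hr⟩ := hwy
    have hw1 : ((w : f.ker) : Rb) = 1 := by
      have h1 : (((w : f.ker) : Rb) : G ⧸ K₁) ∈ Wb := ⟨_, w.2, rfl⟩
      rw [hWbot, Subgroup.mem_bot] at h1
      exact Subtype.ext h1
    rw [hw1, one_mul] at hwy'
    have h2 := (hP₂mem _).1 y.2
    rw [hwy'] at h2
    exact h2
  have hPbn : (Pb : Subgroup (G ⧸ K₁)).Normal := by
    have h1 : (Pb : Subgroup (G ⧸ K₁)) = Rb := le_antisymm hPbR hRP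
    rw [h1]
    exact hRbn
  let Z : Subgroup G := (Pb : Subgroup (G ⧸ K₁)).comap π
  haveI hZn : Z.Normal := hPbn.comap π
  have hPZ : (P : Subgroup G) ≤ Z := fun y hy => hPbmem y hy
  have htop := Sylow.normalizer_sup_eq_top' P hPZ
  rw [eq_top_iff, ← htop]
  refine sup_le le_sup_right ?_
  intro z hz
  have hz' : π z ∈ (Pb : Subgroup (G ⧸ K₁)) := hz
  obtain ⟨y, hy, hyz⟩ := hz'
  have hk : y⁻¹ * z ∈ K₁ := by
    have h1 : π (y⁻¹ * z) = 1 := by
      rw [map_mul, map_inv, hyz, inv_mul_cancel]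
    exact (QuotientGroup.eq_one_iff _).1 h1
  obtain ⟨β, hβ, τ, hτ, hβτ⟩ := hdec _ hk
  have hz2 : z = y * (β * τ) := by
    rw [← hβτ]
    group
  rw [hz2]
  refine Subgroup.mul_mem _ (Subgroup.mem_sup_right (Subgroup.le_normalizer hy)) (Subgroup.mul_mem _ (Subgroup.mem_sup_left hβ)
    (Subgroup.mem_sup_right (Subgroup.le_normalizer hτ)))

/-- The forward direction. -/
theorem exists_complement_of_le
    (h : ∑ χ ∈ (OO : Finset (IrrCharacter G)), charDegree (χ : G → ℂ) ^ 2 ≤ ∑ β ∈ BB P, charDegree (β : NP P → ℂ) ^ 2) :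
    ∃ K : Subgroup G, K.Normal ∧ K ⊓ NP P = ⊥ ∧ K ⊔ NP P = ⊤ := by
  classical
  obtain ⟨hF1, hF2⟩ := restrict_of_eq P h
  obtain ⟨T, hTn, hTK, hTc, hdec⟩ := reg_part P
  have hAK : ⁅(P : Subgroup G), (P : Subgroup G)⁆ ≤ pprimeKer 2 G := by
    intro a ha χ hd
    obtain ⟨β, hβ, he⟩ := hF1 χ ((mem_OO).2 hd)
    have hAP : ⁅(P : Subgroup G), (P : Subgroup G)⁆ ≤ (P : Subgroup G) :=
      Subgroup.commutator_le.2 (fun a ha b hb => (P : Subgroup G).mul_mem ((P : Subgroup G).mul_mem ((P : Subgroup G).mul_mem ha hb)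
      ((P : Subgroup G).inv_mem ha)) ((P : Subgroup G).inv_mem hb))
    let a' : NP P := ⟨a, Subgroup.le_normalizer (hAP ha)⟩
    have h1 := (mem_BB P).1 hβ a' ha
    rw [← he] at h1
    exact h1
  have hKN : ∀ n : NP P, (n : G) ∈ pprimeKer 2 G → n ∈ DD P := by
    intro n hn
    refine mem_of_forall_ker (DD P) fun ψ hψ => ?_
    obtain ⟨χ, hχ, he⟩ := hF2 ψ ((mem_BB P).2 hψ)
    rw [← he]
    exact hn χ ((mem_OO).1 hχ)
  refine ⟨T, hTn, ?_, ?_⟩
  · rw [eq_bot_iff]
    rintro t ⟨ht, htN⟩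
    have h1 := hKN ⟨t, htN⟩ (hTK ht)
    have h2 : t ∈ ⁅(P : Subgroup G), (P : Subgroup G)⁆ := h1
    have hAP : ⁅(P : Subgroup G), (P : Subgroup G)⁆ ≤ (P : Subgroup G) :=
      Subgroup.commutator_le.2 (fun a ha b hb => (P : Subgroup G).mul_mem ((P : Subgroup G).mul_mem ((P : Subgroup G).mul_mem ha hb)
      ((P : Subgroup G).inv_mem ha)) ((P : Subgroup G).inv_mem hb))
    have h3 : t ∈ (P : Subgroup G) := hAP h2
    obtain ⟨k, hk⟩ := (IsPGroup.iff_orderOf.1 P.2) ⟨t, h3⟩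
    have h4 : orderOf t = 2 ^ k := by rw [← Subgroup.orderOf_mk t h3, hk]
    have h5 : orderOf (⟨t, ht⟩ : T) = orderOf t := Subgroup.orderOf_mk t ht
    have h6 : orderOf t ∣ Nat.card T := h5 ▸ orderOf_dvd_natCard _
    rw [h4] at h6
    rcases k with _ | k
    · rw [pow_zero] at h4
      exact Subgroup.mem_bot.2 (orderOf_eq_one_iff.1 h4)
    · exact absurd ((dvd_pow_self 2 (Nat.succ_ne_zero k)).trans h6) hTc
  · exact main_sup P hF2 hTK hdec hAK

end Main

theorem s4930_main {G : Type u} [Group G] [Finite G] (P : Sylow 2 G) :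
    Nat.card (Subgroup.normalizer ((P : Subgroup G) : Set G)) ≤ Nat.card (commutator ↥P) * (∑ᶠ χ : {χ : Cfsg.IrrCharacter G // ¬ 2 ∣ Cfsg.charDegree (χ : G → ℂ)}, Cfsg.charDegree (χ.1 : G → ℂ) ^ 2) ∧
    (Nat.card (Subgroup.normalizer ((P : Subgroup G) : Set G)) = Nat.card (commutator ↥P) * (∑ᶠ χ : {χ : Cfsg.IrrCharacter G // ¬ 2 ∣ Cfsg.charDegree (χ : G → ℂ)}, Cfsg.charDegree (χ.1 : G → ℂ) ^ 2) ↔
      ∃ K : Subgroup G, K.Normal ∧ K ⊓ Subgroup.normalizer ((P : Subgroup G) : Set G) = ⊥ ∧ K ⊔ Subgroup.normalizer ((P : Subgroup G) : Set G) = ⊤) := by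
  classical
  letI := Fintype.ofFinite G
  haveI : Fact (Nat.Prime 2) := ⟨Nat.prime_two⟩
  letI : Fintype (NP P) := Fintype.ofFinite _
  have hX : (∑ᶠ χ : {χ : Cfsg.IrrCharacter G // ¬ 2 ∣ Cfsg.charDegree (χ : G → ℂ)}, Cfsg.charDegree (χ.1 : G → ℂ) ^ 2) =
      ∑ χ ∈ (OO : Finset (IrrCharacter G)), charDegree (χ : G → ℂ) ^ 2 := by
    rw [finsum_eq_sum_of_fintype]
    exact (Finset.sum_subtype (p := fun χ : IrrCharacter G => ¬ 2 ∣ charDegree (χ : G → ℂ)) (OO : Finset (IrrCharacter G))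
      (fun χ : IrrCharacter G => mem_OO (G := G) (χ := χ)) (fun χ : IrrCharacter G => charDegree (χ : G → ℂ) ^ 2)).symm
  have hcard : Nat.card (NP P) = Nat.card (commutator ↥P) * ∑ β ∈ BB P, charDegree (β : NP P → ℂ) ^ 2 := by
    rw [sum_BB, ← Subgroup.card_mul_index (DD P)]
    congr 1
    have hAN : ⁅(P : Subgroup G), (P : Subgroup G)⁆ ≤ NP P := by
      have hAP : ⁅(P : Subgroup G), (P : Subgroup G)⁆ ≤ (P : Subgroup G) :=
        Subgroup.commutator_le.2 (fun a ha b hb => (P : Subgroup G).mul_mem ((P : Subgroup G).mul_mem ((P : Subgroup G).mul_mem ha hb)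
        ((P : Subgroup G).inv_mem ha)) ((P : Subgroup G).inv_mem hb))
      exact hAP.trans Subgroup.le_normalizer
    have h1 : Nat.card (DD P) = Nat.card (⁅(P : Subgroup G), (P : Subgroup G)⁆ : Subgroup G) :=
      Nat.card_congr (Subgroup.subgroupOfEquivOfLe hAN).toEquiv
    rw [h1, ← Subgroup.map_subtype_commutator]
    exact Subgroup.card_map_of_injective (f := (P : Subgroup G).subtype) (Subgroup.subtype_injective _)
  have hle := (sum_BB_le_middle P).trans (middle_le P)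
  have hpos : 0 < Nat.card (commutator ↥P) := Nat.card_pos
  rw [hX]
  refine ⟨?_, ?_, ?_⟩
  · show Nat.card (NP P) ≤ _
    rw [hcard]
    exact Nat.mul_le_mul_left _ hle
  · intro h
    have h1 : ∑ β ∈ BB P, charDegree (β : NP P → ℂ) ^ 2 = ∑ χ ∈ (OO : Finset (IrrCharacter G)), charDegree (χ : G → ℂ) ^ 2 := by
      refine Nat.eq_of_mul_eq_mul_left hpos ?_
      rw [← hcard]
      exact h
    exact exists_complement_of_le P h1.ge
  · rintro ⟨K, hK, hK1, hK2⟩
    show Nat.card (NP P) = _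
    rw [hcard]
    congr 1
    exact le_antisymm hle (sum_OO_le_of_complement P K hK1 hK2)

end CfsgLib.Char.OS
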