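import Mathlib
import Cfsg.Agent.Lib.Char.ItoMichler
import Cfsg.Prelude.Def_Transfer

/-!
# The order of `O^p(G)` modulo `p`
-/

set_option linter.unusedSectionVars false
set_option linter.style.haveILetI false
set_option linter.unusedSimpArgs false
set_option linter.unusedVariables false

namespace CfsgLib.Char

open Cfsg
open scoped ComplexConjugate Pointwise

universe u

variable {G : Type u} [Group G] [Fintype G]

theorem residual_normal (p : ℕ) : (pResidual p G).Normal := by
  constructor
  intro x hx g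
  unfold pResidual at hx ⊢
  induction hx using Subgroup.closure_induction with
  | mem x hx =>
    apply Subgroup.subset_closure
    show Nat.Coprime _ _
    have h1 := MulEquiv.orderOf_eq (MulAut.conj g) x
    rw [MulAut.conj_apply] at h1
    rw [h1]
    exact hx
  | one => simp
  | mul a b _ _ ha hb =>
    have : g * (a * b) * g⁻¹ = (g * a * g⁻¹) * (g * b * g⁻¹) := by group
    rw [this]
    exact Subgroup.mul_mem _ ha hb
  | inv a _ ha =>
    have : g * a⁻¹ * g⁻¹ = (g * a * g⁻¹)⁻¹ := by group
    rw [this]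
    exact Subgroup.inv_mem _ ha

theorem residual_index (p : ℕ) [hp : Fact p.Prime] : ∃ k, (pResidual p G).index = p ^ k := by
  classical
  haveI := residual_normal (G := G) p
  have h1 : IsPGroup p (G ⧸ pResidual p G) := by
    intro a
    obtain ⟨g, rfl⟩ := QuotientGroup.mk_surjective a
    set A := (orderOf g).factorization p with hA
    refine ⟨A, ?_⟩
    rw [← QuotientGroup.mk_pow, QuotientGroup.eq_one_iff]
    apply Subgroup.subset_closure
    show Nat.Coprime _ _
    have h0 : orderOf g ≠ 0 := (orderOf_pos g).ne'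
    have h2 : p ^ A ∣ orderOf g := Nat.ordProj_dvd _ _
    rw [orderOf_pow_of_dvd (pow_ne_zero _ hp.out.ne_zero) h2]
    exact (Nat.coprime_ordCompl hp.out h0).symm
  obtain ⟨k, hk⟩ := IsPGroup.iff_card.mp h1
  exact ⟨k, hk⟩

theorem residual_hom_pow (p : ℕ) [hp : Fact p.Prime] [hN : (pResidual p G).Normal] [Fintype (pResidual p G)]
    (l : pResidual p G →* ℂˣ) (x : pResidual p G) :
    (l x) ^ (Nat.card (pResidual p G) / p ^ (Nat.card (pResidual p G)).factorization p) = 1 := by
  classical
  set m := Nat.card (pResidual p G) / p ^ (Nat.card (pResidual p G)).factorization p with hm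
  obtain ⟨x, hx⟩ := x
  have key : ∀ (y : G) (hy : y ∈ pResidual p G), (l ⟨y, hy⟩) ^ m = 1 := by
    intro y hy
    have hy' := hy
    unfold pResidual at hy'
    induction hy' using Subgroup.closure_induction with
    | mem y hy2 =>
      have hcop : Nat.Coprime (orderOf y) p := hy2
      have h1 : orderOf y ∣ Nat.card (pResidual p G) := Subgroup.orderOf_dvd_natCard _ hy
      have h2 : Nat.card (pResidual p G) = p ^ (Nat.card (pResidual p G)).factorization p * m :=
        (Nat.ordProj_mul_ordCompl_eq_self _ _).symm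
      have h3 : orderOf y ∣ m := by
        rw [h2] at h1
        exact (Nat.Coprime.pow_right _ hcop).dvd_of_dvd_mul_left h1
      have h4 : y ^ m = 1 := orderOf_dvd_iff_pow_eq_one.mp h3
      rw [← map_pow]
      have h5 : (⟨y, hy⟩ : pResidual p G) ^ m = 1 := by
        apply Subtype.ext
        simpa using h4
      rw [h5, map_one]
    | one =>
      have : (⟨1, hy⟩ : pResidual p G) = 1 := rfl
      rw [this, map_one, one_pow]
    | mul a b ha hb iha ihb =>
      have ha' : a ∈ pResidual p G := ha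
      have hb' : b ∈ pResidual p G := hb
      have : (⟨a * b, hy⟩ : pResidual p G) = ⟨a, ha'⟩ * ⟨b, hb'⟩ := rfl
      rw [this, map_mul, mul_pow, iha ha', ihb hb', one_mul]
    | inv a ha iha =>
      have ha' : a ∈ pResidual p G := ha
      have : (⟨a⁻¹, hy⟩ : pResidual p G) = (⟨a, ha'⟩)⁻¹ := rfl
      rw [this, map_inv, inv_pow, iha ha', inv_one]
  exact key x hx

/-- S4455 -/
theorem residual_card_congruence (p : ℕ) (hp' : p.Prime) :
    (Nat.card (pResidual p G) : ℤ) ≡ (∑ᶠ χ ∈ {χ : IrrCharacter G | ¬ p ∣ charDegree (χ : G → ℂ) ∧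
      ¬ p ∣ detOrder (χ : G → ℂ)}, (charDegree (χ : G → ℂ) : ℤ) ^ 2) [ZMOD p] := by
  classical
  haveI hp : Fact p.Prime := ⟨hp'⟩
  haveI hNn : (pResidual p G).Normal := residual_normal p
  obtain ⟨k, hk⟩ := residual_index (G := G) p
  set H := pResidual p G with hH
  letI : Fintype (IrrCharacter H) := Fintype.ofFinite _
  letI : Fintype (IrrCharacter G) := Fintype.ofFinite _
  set deg : IrrCharacter H → ℕ := fun φ => charDegree (φ : H → ℂ) with hdegdef
  have hdegv : ∀ φ : IrrCharacter H, (φ : H → ℂ) 1 = deg φ := by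
    intro φ
    obtain ⟨n, hn, hn'⟩ := φ.2.map_one
    simp only [hdegdef]
    rw [charDegree_eq hn']
    exact hn'
  -- the action of a Sylow subgroup
  obtain ⟨P⟩ : Nonempty (Sylow p G) := inferInstance
  letI hact : MulAction (P : Subgroup G) (IrrCharacter H) := irrAction H P
  have hsmul : ∀ (g : (P : Subgroup G)) (φ : IrrCharacter H),
      ((g • φ : IrrCharacter H) : H → ℂ) = conjOn H (g : G)⁻¹ φ.1 := fun _ _ => rfl
  have hPp : IsPGroup p (P : Subgroup G) := P.isPGroup'
  have hsup : (P : Subgroup G) ⊔ H = ⊤ := by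
    have h1 : ((P : Subgroup G) ⊔ H).index ∣ H.index := Subgroup.index_dvd_of_le le_sup_right
    have h2 : ((P : Subgroup G) ⊔ H).index ∣ (P : Subgroup G).index := Subgroup.index_dvd_of_le le_sup_left
    rw [hk] at h1
    obtain ⟨j, -, hj⟩ := (Nat.dvd_prime_pow hp.out).mp h1
    rcases Nat.eq_zero_or_pos j with rfl | hjpos
    · rw [pow_zero] at hj
      exact Subgroup.index_eq_one.mp hj
    · exfalso
      apply P.not_dvd_index
      rw [hj] at h2
      exact (dvd_pow_self p hjpos.ne').trans h2
  have hHfix : ∀ (φ : H → ℂ), IsIrrCharacter H φ → ∀ h ∈ H, conjOn H h φ = φ := by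
    intro φ hφ h hh
    funext n
    exact hφ.isClassFunction n ⟨h, hh⟩
  have hfixG : ∀ φ : IrrCharacter H, (∀ g : (P : Subgroup G), g • φ = φ) → ∀ g : G, conjOn H g φ.1 = φ.1 := by
    intro φ hφ g
    have hg : g ∈ (P : Subgroup G) ⊔ H := by rw [hsup]; trivial
    obtain ⟨u, hu, h, hh, rfl⟩ := Subgroup.mem_sup_of_normal_right.mp hg
    have h2 : conjOn H (u * h) φ.1 = conjOn H h (conjOn H u φ.1) := conjOn_mul H u h φ.1
    have h3 : conjOn H u φ.1 = φ.1 := by
      have h4 := congrArg Subtype.val (hφ ⟨u⁻¹, P.inv_mem hu⟩)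
      rw [hsmul] at h4
      simpa using h4
    rw [h2, h3, hHfix _ φ.2 h hh]
  have hdeginv : ∀ (g : (P : Subgroup G)) (φ : IrrCharacter H), deg (g • φ) = deg φ := by
    intro g φ
    have h1 := hdegv (g • φ)
    rw [hsmul, conjOn_one_apply, hdegv φ] at h1
    exact_mod_cast h1.symm
  -- `det` order
  have hdetcop : ∀ φ : IrrCharacter H, ¬ p ∣ detOrder φ.1 := by
    intro φ
    set m' := Nat.card H / p ^ (Nat.card H).factorization p with hm'
    have h1 : detOrder φ.1 ∣ m' := by
      apply orderOf_dvd_of_pow_eq_one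
      obtain ⟨φ, m, ρ, hρ, rfl⟩ := φ
      funext x
      rw [Pi.pow_apply, detChar_character ρ]
      have h2 := residual_hom_pow p (detHom ρ) x
      have h3 := congrArg Units.val h2
      rw [Units.val_pow_eq_pow_val, detHom_apply, Units.val_one] at h3
      exact h3
    have h2 : ¬ p ∣ m' := Nat.not_dvd_ordCompl hp' Nat.card_pos.ne'
    exact fun h => h2 (h.trans h1)
  -- congruence
  let f : IrrCharacter H → ℕ := fun φ => deg φ ^ 2
  have hf : ∀ (g : (P : Subgroup G)) (a : IrrCharacter H), f (g • a) = f a := fun g a => by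
    simp only [f, hdeginv]
  have h₁ := sum_modEq_fixed hPp f hf
  have hsum₁ : ∑ φ, f φ = Nat.card H := by
    have h3 := sum_irr_sq (G := H)
    have h4 : ((∑ φ, f φ : ℕ) : ℂ) = (Nat.card H : ℂ) := by
      rw [← h3]
      push_cast
      refine Finset.sum_congr rfl fun φ _ => ?_
      rw [hdegv φ]
      simp [f]
    exact_mod_cast h4
  set Fx := Finset.univ.filter (fun a : IrrCharacter H => ∀ g : (P : Subgroup G), g • a = a) with hFx
  set T := Fx.filter (fun a => ¬ p ∣ deg a) with hT
  have h₂ : ∑ a ∈ Fx, f a ≡ ∑ a ∈ T, f a [MOD p] := by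
    have hsplit := Finset.sum_filter_add_sum_filter_not Fx (fun a => p ∣ deg a) f
    rw [← hsplit]
    have hz : ∑ a ∈ Fx.filter (fun a => p ∣ deg a), f a ≡ 0 [MOD p] := by
      rw [Nat.modEq_zero_iff_dvd]
      apply Finset.dvd_sum
      intro a ha
      exact (Finset.mem_filter.mp ha).2.trans (dvd_pow_self _ two_ne_zero)
    have := hz.add_right (∑ a ∈ T, f a)
    rwa [zero_add] at this
  -- the bijection
  have hext : ∀ a : IrrCharacter H, a ∈ T → ∃ χ : IrrCharacter G, (∀ n : H, (χ : G → ℂ) n = (a : H → ℂ) n) ∧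
      ¬ p ∣ detOrder (χ : G → ℂ) ∧
      ∀ χ' : IrrCharacter G, (∀ n : H, (χ' : G → ℂ) n = (a : H → ℂ) n) → ¬ p ∣ detOrder (χ' : G → ℂ) → χ' = χ := by
    intro a ha
    have ha1 := (Finset.mem_filter.mp ha).1
    have ha2 := (Finset.mem_filter.mp ha).2
    have ha3 := (Finset.mem_filter.mp ha1).2
    have hinv := hfixG a ha3
    have hinv' : ∀ (g : G) (n : H), a.1 ⟨g * n * g⁻¹, hNn.conj_mem (n : G) n.2 g⟩ = a.1 n := fun g n =>
      congrFun (hinv g) n
    have hcop : Nat.Coprime H.index (detOrder a.1 * deg a) := by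
      rw [hk]
      apply Nat.Coprime.pow_left
      apply Nat.Coprime.mul_right
      · exact (Nat.Prime.coprime_iff_not_dvd hp.out).mpr (hdetcop a)
      · exact (Nat.Prime.coprime_iff_not_dvd hp.out).mpr ha2
    obtain ⟨χ, ⟨h1, h2, h3⟩, h4⟩ := exists_unique_extension_of_coprime H a.1 a.2 hinv' (deg a) (hdegv a) hcop
    refine ⟨⟨χ, h1⟩, h2, ?_, ?_⟩
    · show ¬ p ∣ detOrder χ
      rw [h3]
      exact hdetcop a
    · intro χ' h5 h6
      apply Subtype.ext
      apply h4 χ'.1 χ'.2 h5
      rw [hk]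
      apply Nat.Coprime.pow_left
      exact (Nat.Prime.coprime_iff_not_dvd hp.out).mpr h6
  haveI : Nonempty (IrrCharacter G) := ⟨⟨fun _ => 1, isIrrCharacter_one⟩⟩
  choose! ext hext1 hext2 hext3 using hext
  have hextdeg : ∀ a ∈ T, charDegree ((ext a : IrrCharacter G) : G → ℂ) = deg a := by
    intro a ha
    have h1 := hext1 a ha 1
    have h2 : ((ext a : IrrCharacter G) : G → ℂ) 1 = deg a := by
      rw [← hdegv a, ← h1]
      rfl
    exact charDegree_eq h2
  set S := {χ : IrrCharacter G | ¬ p ∣ charDegree (χ : G → ℂ) ∧ ¬ p ∣ detOrder (χ : G → ℂ)} with hS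
  have hSfin : S.Finite := Set.toFinite _
  rw [finsum_mem_eq_finite_toFinset_sum _ hSfin]
  have hbij : ∑ a ∈ T, f a = ∑ χ ∈ hSfin.toFinset, (charDegree (χ : G → ℂ)) ^ 2 := by
    refine Finset.sum_bij (fun a _ => ext a) ?_ ?_ ?_ ?_
    · intro a ha
      rw [Set.Finite.mem_toFinset]
      refine ⟨?_, hext2 a ha⟩
      rw [hextdeg a ha]
      exact (Finset.mem_filter.mp ha).2
    · intro a ha b hb hab
      apply Subtype.ext
      funext n
      rw [← hext1 a ha n, ← hext1 b hb n, hab]
    · intro χ hχ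
      rw [Set.Finite.mem_toFinset] at hχ
      obtain ⟨hχ1, hχ2⟩ := hχ
      -- the restriction is irreducible
      obtain ⟨c, hc0, hc⟩ := χ.2.map_one
      have hne : (fun n : H => (χ : G → ℂ) n) 1 ≠ 0 := by
        show (χ : G → ℂ) 1 ≠ 0
        exact χ.2.map_one_ne_zero
      obtain ⟨θ, hθ, hθc⟩ := exists_constituent (χ.2.isCharacter.restrict H) hne
      obtain ⟨d, hd0, hd⟩ := hθ.map_one
      obtain ⟨hdvd, hdvd2⟩ := degree_ratio_dvd_index H χ.2 hθ hθc c d hc hd
      rw [hk] at hdvd2
      obtain ⟨j, -, hj⟩ := (Nat.dvd_prime_pow hp.out).mp hdvd2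
      rw [charDegree_eq hc] at hχ1
      have hj0 : j = 0 := by
        by_contra hj0
        apply hχ1
        have h1 : p ∣ c / d := by
          rw [hj]
          exact dvd_pow_self p hj0
        exact h1.trans (Nat.div_dvd_of_dvd hdvd)
      rw [hj0, pow_zero] at hj
      have hcd : c = d := by
        have := Nat.div_mul_cancel hdvd
        rw [hj, one_mul] at this
        exact this.symm
      have hres : (fun n : H => (χ : G → ℂ) n) = θ := by
        apply eq_of_degree_eq_of_constituent (χ.2.isCharacter.restrict H) hθ hθc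
        show (χ : G → ℂ) 1 = θ 1
        rw [hc, hd, hcd]
      have hθval : ∀ n : H, θ n = (χ : G → ℂ) n := fun n => (congrFun hres n).symm
      let a : IrrCharacter H := ⟨θ, hθ⟩
      have ha : a ∈ T := by
        apply Finset.mem_filter.mpr
        refine ⟨?_, ?_⟩
        · apply Finset.mem_filter.mpr
          refine ⟨Finset.mem_univ _, ?_⟩
          intro g
          apply Subtype.ext
          rw [hsmul]
          funext n
          show θ _ = θ n
          rw [hθval, hθval]
          exact χ.2.isClassFunction _ _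
        · simp only [hdegdef, a]
          rw [charDegree_eq hd, ← hcd]
          exact hχ1
      refine ⟨a, ha, ?_⟩
      symm
      exact hext3 a ha χ (fun n => (hθval n).symm) hχ2
    · intro a ha
      simp only [f]
      rw [hextdeg a ha]
  have hfinal : Nat.card H ≡ ∑ χ ∈ hSfin.toFinset, (charDegree (χ : G → ℂ)) ^ 2 [MOD p] := by
    rw [← hsum₁, ← hbij]
    have h₁' : ∑ a, f a ≡ ∑ a ∈ Fx, f a [MOD p] := by
      convert h₁
    exact h₁'.trans h₂
  have := (Int.natCast_modEq_iff.mpr hfinal)
  push_cast at this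
  exact this

end CfsgLib.Char
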