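import Cfsg.Agent.Lib.Char.BlkNormal
import Cfsg.Agent.Lib.Char.Residual
import Cfsg.Agent.Lib.Block.Height

/-! # Normal `p`-complements from the principal block -/

set_option autoImplicit false
set_option linter.unusedSectionVars false
set_option linter.unusedVariables false
set_option linter.style.haveILetI false

namespace CfsgLib.Char

open Cfsg CfsgLib.Block
open scoped ComplexConjugate

universe u

/-- Sums of invariant functions over a set without fixed points of a `p`-group are divisible by `p`. -/
theorem dvd_sum_of_no_fixed {p : ℕ} [hp : Fact p.Prime] {H α : Type*} [Group H] [Finite H] [MulAction H α] [Fintype α]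
    (hH : IsPGroup p H) (T : Finset α) (hT : ∀ (h : H), ∀ x ∈ T, h • x ∈ T) (f : α → ℕ)
    (hf : ∀ (h : H) (x : α), f (h • x) = f x) (hfix : ∀ x ∈ T, ∃ h : H, h • x ≠ x) :
    p ∣ ∑ x ∈ T, f x := by
  classical
  have key : ∀ m : ℕ, p ∣ (T.filter fun x => f x = m).card := by
    intro m
    let X := {x : α // x ∈ T ∧ f x = m}
    letI : MulAction H X :=
      { smul := fun h x => ⟨h • x.1, hT h _ x.2.1, by rw [hf]; exact x.2.2⟩
        one_smul := fun x => Subtype.ext (one_smul H x.1)
        mul_smul := fun a b x => Subtype.ext (mul_smul a b x.1) }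
    have h1 := IsPGroup.card_modEq_card_fixedPoints hH X
    have h2 : IsEmpty (MulAction.fixedPoints H X) := by
      refine ⟨fun x => ?_⟩
      obtain ⟨h, hh⟩ := hfix x.1.1 x.1.2.1
      exact hh (congrArg Subtype.val (x.2 h))
    have h4 : Nat.card (MulAction.fixedPoints H X) = 0 := Nat.card_of_isEmpty
    rw [h4] at h1
    have h3 : Nat.card X = (T.filter fun x => f x = m).card := by
      rw [Nat.card_eq_fintype_card, Fintype.card_subtype]
      congr 1
      ext x
      simp
    rw [← h3]
    exact (Nat.modEq_zero_iff_dvd).mp h1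
  have h2 : ∑ x ∈ T, f x = ∑ m ∈ T.image f, (T.filter fun x => f x = m).card * m := by
    rw [← Finset.sum_fiberwise_of_maps_to (s := T) (t := T.image f) (g := f) (fun x hx => Finset.mem_image_of_mem f hx)]
    refine Finset.sum_congr rfl fun m _ => ?_
    rw [Finset.sum_congr rfl (g := fun _ => m) (fun x hx => (Finset.mem_filter.mp hx).2), Finset.sum_const, smul_eq_mul]
  rw [h2]
  exact Finset.dvd_sum fun m _ => (key m).mul_right m

variable {G : Type u} [Group G] [Fintype G]

section Action

variable (N : Subgroup G) [hN : N.Normal] [Fintype N]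

/-- The conjugation action on irreducible characters. -/
noncomputable def blockIrrAction : MulAction G (IrrCharacter N) where
  smul g θ := CfsgLib.Block.conjIrr N g⁻¹ θ
  one_smul θ := by
    show CfsgLib.Block.conjIrr N 1⁻¹ θ = θ
    rw [inv_one, CfsgLib.Block.conjIrr_one]
  mul_smul x y θ := by
    show CfsgLib.Block.conjIrr N (x * y)⁻¹ θ = CfsgLib.Block.conjIrr N x⁻¹ (CfsgLib.Block.conjIrr N y⁻¹ θ)
    rw [mul_inv_rev, CfsgLib.Block.conjIrr_mul]

theorem charDegree_conjIrr (g : G) (θ : IrrCharacter N) :
    charDegree (CfsgLib.Block.conjIrr N g θ : N → ℂ) = charDegree (θ : N → ℂ) := by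
  rw [CfsgLib.Block.coe_conjIrr]
  unfold charDegree
  rw [conjOn_map_one]

theorem conjIrr_mem_principal {M : Ideal AlgInt} (hP : M.IsPrime) (g : G) {θ : IrrCharacter N}
    (hθ : θ ∈ principalBlock M N) : CfsgLib.Block.conjIrr N g θ ∈ principalBlock M N := by
  have h1 : SameBlock M (fun _ : N => (1 : ℂ)) (θ : N → ℂ) := (mem_blockOf hP).1 hθ
  have h2 := sameBlock_conjOn N g h1
  have h3 : conjOn N g (fun _ : N => (1 : ℂ)) = fun _ => 1 := by
    funext x; simp [conjOn_apply]
  rw [h3] at h2
  exact (mem_blockOf hP).2 h2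

end Action

section Residual

variable {p : ℕ} [hp : Fact p.Prime]

instance residualNormal : (pResidual p G).Normal := residual_normal p

noncomputable instance residualFintype : Fintype (pResidual p G) := Fintype.ofFinite _

theorem hom_residual_trivial (l : pResidual p G →* ℂˣ) (h : l ^ p = 1) : l = 1 := by
  classical
  have h1 : pResidual p G ≤ (l.ker).map (pResidual p G).subtype := by
    refine (Subgroup.closure_le _).2 ?_
    intro g hg
    have hgN : g ∈ pResidual p G := Subgroup.subset_closure hg
    refine ⟨⟨g, hgN⟩, ?_, rfl⟩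
    rw [SetLike.mem_coe, MonoidHom.mem_ker]
    have h2 : (l ⟨g, hgN⟩) ^ p = 1 := by
      have := congrArg (fun f : pResidual p G →* ℂˣ => f ⟨g, hgN⟩) h
      simpa using this
    have h3 : (l ⟨g, hgN⟩) ^ orderOf g = 1 := by
      rw [← map_pow]
      have h4 : (⟨g, hgN⟩ : pResidual p G) ^ orderOf g = 1 := by
        apply Subtype.ext
        simp [pow_orderOf_eq_one]
      rw [h4, map_one]
    have h5 : Nat.Coprime (orderOf g) p := hg
    have h6 : orderOf (l ⟨g, hgN⟩) ∣ Nat.gcd (orderOf g) p :=
      Nat.dvd_gcd (orderOf_dvd_of_pow_eq_one h3) (orderOf_dvd_of_pow_eq_one h2)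
    rw [h5] at h6
    exact orderOf_eq_one_iff.mp (Nat.dvd_one.mp h6)
  ext x
  obtain ⟨y, hy, hyx⟩ := h1 x.2
  have h2 : y = x := Subtype.ext hyx
  rw [← h2]
  have := MonoidHom.mem_ker.mp hy
  rw [this]
  rfl

theorem not_dvd_detOrder_residual {θ : pResidual p G → ℂ} (hθ : IsIrrCharacter (pResidual p G) θ) :
    ¬ p ∣ detOrder θ := by
  classical
  obtain ⟨m, ρ, hρ, rfl⟩ := id hθ
  have hdvd : detOrder ρ.character ∣ Nat.card (pResidual p G) := by
    apply orderOf_dvd_of_pow_eq_one
    funext h
    rw [Pi.pow_apply, detChar_character ρ, ← map_pow, ← map_pow, pow_card_eq_one', map_one, map_one]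
    rfl
  intro hd
  set o := detOrder ρ.character with ho
  have ho0 : 0 < o := Nat.pos_of_dvd_of_pos hdvd Nat.card_pos
  obtain ⟨c, hc⟩ := hd
  have hD : ∀ k : ℕ, (detChar ρ.character) ^ k = 1 ↔ (detHom ρ) ^ k = 1 := by
    intro k
    constructor
    · intro h
      ext n
      have := congrFun h n
      rw [Pi.pow_apply, detChar_character ρ] at this
      simpa [detHom_apply] using this
    · intro h
      funext n
      rw [Pi.pow_apply, detChar_character ρ]
      have := congrArg (fun f : pResidual p G →* ℂˣ => ((f n : ℂˣ) : ℂ)) h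
      simpa [detHom_apply] using this
  have h1 : (detChar ρ.character) ^ o = 1 := pow_orderOf_eq_one _
  have h2 : ((detHom ρ) ^ c) ^ p = 1 := by
    have h3 := (hD o).1 h1
    rw [hc, mul_comm] at h3
    exact (pow_mul (detHom ρ) c p).symm.trans h3
  have h3 := hom_residual_trivial _ h2
  have h4 := (hD c).2 h3
  have h5 : o ∣ c := orderOf_dvd_of_pow_eq_one h4
  have hc0 : 0 < c := by
    rcases Nat.eq_zero_or_pos c with h0 | h0
    · rw [h0, mul_zero] at hc; omega
    · exact h0
  have h6 := Nat.le_of_dvd hc0 h5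
  have h7 : c < o := by
    rw [hc]
    exact lt_mul_of_one_lt_left hc0 hp.out.one_lt
  omega

variable {M : Ideal AlgInt}

theorem lin_mem_principal_iff (hP : M.IsPrime) {N : Type*} [Group N] [Fintype N] (l : N →* ℂˣ) :
    (⟨fun g => ((l g : ℂˣ) : ℂ), isIrr_of_hom l⟩ : IrrCharacter N) ∈ principalBlock M N ↔
      ∀ x : N, ((Subgroup.centralizer ({x} : Set N)).index : ℂ) * (1 - ((l x : ℂˣ) : ℂ)) ∈ locI hP := by
  have h0 : principalBlock M N = blockOf M (fun _ : N => (1 : ℂ)) := rfl
  rw [h0, mem_blockOf hP]
  refine forall_congr' fun x => ?_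
  have h1 : centralChar (fun _ : N => (1 : ℂ)) x - centralChar (fun g : N => ((l g : ℂˣ) : ℂ)) x =
      ((Subgroup.centralizer ({x} : Set N)).index : ℂ) * (1 - ((l x : ℂˣ) : ℂ)) := by
    unfold centralChar
    simp only [map_one, Units.val_one, div_one, mul_one]
    ring
  show MemLocalIdeal M (centralChar (fun _ : N => (1 : ℂ)) x - centralChar (fun g : N => ((l g : ℂˣ) : ℂ)) x) ↔ _
  rw [h1]
  rfl

/-- The linear characters in the principal block form a group. -/
noncomputable def linPrincipal (hM : IsPModular p M) (N : Type*) [Group N] [Fintype N] : Subgroup (N →* ℂˣ) where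
  carrier := {l | (⟨fun g => ((l g : ℂˣ) : ℂ), isIrr_of_hom l⟩ : IrrCharacter N) ∈ principalBlock M N}
  one_mem' := by
    rw [Set.mem_setOf_eq, lin_mem_principal_iff hM.isPrime]
    intro x
    simp
  mul_mem' := by
    intro a b ha hb
    have hP := hM.isPrime
    rw [Set.mem_setOf_eq, lin_mem_principal_iff hP] at ha hb ⊢
    intro x
    have h1 := ha x
    have h2 := hb x
    have h3 : ((a x : ℂˣ) : ℂ) ∈ locR hP := by
      apply locR_of_isIntegral
      exact ((isIrr_of_hom a).isCharacter.isIntegral x)
    have h4 := locI_mul_left hP h3 h2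
    have h5 := add_mem h1 h4
    convert h5 using 1
    simp only [MonoidHom.mul_apply, Units.val_mul]
    ring
  inv_mem' := by
    intro a ha
    have hP := hM.isPrime
    rw [Set.mem_setOf_eq, lin_mem_principal_iff hP] at ha ⊢
    intro x
    have h1 := ha x
    have h3 : (((a x)⁻¹ : ℂˣ) : ℂ) ∈ locR hP := by
      apply locR_of_isIntegral
      have := (isIrr_of_hom a).isCharacter.isIntegral x⁻¹
      simpa using this
    have h4 := locI_mul_left hP h3 h1
    have hne : ((a x : ℂˣ) : ℂ) ≠ 0 := (a x).ne_zero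
    have h5 := neg_mem h4
    convert h5 using 1
    simp only [MonoidHom.inv_apply, Units.val_inv_eq_inv_val]
    field_simp
    ring

end Residual

section Main

variable {p : ℕ} [hp : Fact p.Prime] {M : Ideal AlgInt} (hM : IsPModular p M)
include hM

theorem not_dvd_card_linPrincipal : ¬ p ∣ Nat.card (linPrincipal hM (pResidual p G)) := by
  intro hd
  haveI : Finite (pResidual p G →* ℂˣ) := Finite.of_equiv _ linearEquivHom
  obtain ⟨x, hx⟩ := exists_prime_orderOf_dvd_card' p hd
  have h1 : (x : pResidual p G →* ℂˣ) ^ p = 1 := by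
    have := pow_orderOf_eq_one x
    rw [hx] at this
    exact congrArg Subtype.val this
  have h2 := hom_residual_trivial _ h1
  have h3 : x = 1 := Subtype.ext h2
  rw [h3, orderOf_one] at hx
  exact hp.out.one_lt.ne hx

/-- If an invariant character of `p'`-degree lies in the principal block of `O^p(G)`, it extends to the
principal block of `G`. -/
theorem exists_extension_principal {θ : IrrCharacter (pResidual p G)} (hθ : θ ∈ principalBlock M (pResidual p G))
    (hdeg : ¬ p ∣ charDegree (θ : pResidual p G → ℂ))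
    (hinv : ∀ (g : G) (n : pResidual p G), (θ : pResidual p G → ℂ) ⟨g * n * g⁻¹, residualNormal.conj_mem (n : G) n.2 g⟩ = (θ : pResidual p G → ℂ) n) :
    ∃ χ : IrrCharacter G, χ ∈ principalBlock M G ∧ charDegree (χ : G → ℂ) = charDegree (θ : pResidual p G → ℂ) := by
  classical
  have hP := hM.isPrime
  obtain ⟨k, hk⟩ := residual_index (G := G) p
  have hcop : Nat.Coprime (pResidual p G).index (detOrder (θ : pResidual p G → ℂ) * charDegree (θ : pResidual p G → ℂ)) := by
    rw [hk]
    refine Nat.Coprime.pow_left k ?_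
    rw [Nat.Prime.coprime_iff_not_dvd hp.out, hp.out.dvd_mul]
    rintro (h | h)
    · exact not_dvd_detOrder_residual θ.2 h
    · exact hdeg h
  obtain ⟨χ, ⟨h1, h2, -⟩, -⟩ := exists_unique_extension_of_coprime (pResidual p G) (θ : pResidual p G → ℂ) θ.2 hinv _
    (irr_one_eq_charDegree θ) hcop
  refine ⟨⟨χ, h1⟩, ?_, ?_⟩
  · have h3 : classInner (fun n : pResidual p G => χ n) (θ : pResidual p G → ℂ) ≠ 0 := by
      have h4 : (fun n : pResidual p G => χ n) = (θ : pResidual p G → ℂ) := funext h2
      rw [h4, classInner_irr_self θ.2]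
      exact one_ne_zero
    have h5 : classInner (fun n : pResidual p G => ((oneIrr G : IrrCharacter G) : G → ℂ) n)
        ((oneIrr (pResidual p G) : IrrCharacter (pResidual p G)) : pResidual p G → ℂ) ≠ 0 := by
      have : classInner (fun n : pResidual p G => ((oneIrr G : IrrCharacter G) : G → ℂ) n)
        ((oneIrr (pResidual p G) : IrrCharacter (pResidual p G)) : pResidual p G → ℂ) = 1 :=
        classInner_irr_self (oneIrr (pResidual p G)).2
      rw [this]
      exact one_ne_zero
    have hb : SameBlock M ((oneIrr (pResidual p G) : IrrCharacter (pResidual p G)) : pResidual p G → ℂ) (θ : pResidual p G → ℂ) :=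
      (mem_blockOf hP).1 hθ
    have h6 := sameBlock_of_constituents_of_pIndex (pResidual p G) hM hk (χ₁ := oneIrr G) (χ₂ := ⟨χ, h1⟩)
      (θ₁ := oneIrr (pResidual p G)) (θ₂ := θ) hb h5 h3
    exact (mem_blockOf hP).2 (SameBlock.symm hP h6)
  · have h7 : χ 1 = (θ : pResidual p G → ℂ) 1 := h2 1
    show charDegree χ = _
    unfold charDegree
    rw [h7]

/-- **The key step.** -/
theorem not_dvd_card_residual
    (hyp : ∀ χ ∈ principalBlock M G, ¬ p ∣ charDegree (χ : G → ℂ) → charDegree (χ : G → ℂ) = 1) :
    ¬ p ∣ Nat.card (pResidual p G) := by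
  classical
  intro hd
  have hP := hM.isPrime
  obtain ⟨k, hk⟩ := residual_index (G := G) p
  let P : Sylow p G := default
  have hsup : pResidual p G ⊔ (P : Subgroup G) = ⊤ := by
    have h1 : (pResidual p G ⊔ (P : Subgroup G)).index ∣ p ^ k := by
      rw [← hk]
      exact Subgroup.index_dvd_of_le le_sup_left
    have h2 : (pResidual p G ⊔ (P : Subgroup G)).index ∣ (P : Subgroup G).index :=
      Subgroup.index_dvd_of_le le_sup_right
    obtain ⟨j, -, hj⟩ := (Nat.dvd_prime_pow hp.out).mp h1
    have hj0 : j = 0 := by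
      by_contra h0
      apply P.not_dvd_index
      rw [hj] at h2
      exact (dvd_pow_self p h0).trans h2
    rw [hj0, pow_zero] at hj
    exact Subgroup.index_eq_one.mp hj
  letI act : MulAction G (IrrCharacter (pResidual p G)) := blockIrrAction (pResidual p G)
  have hsmul : ∀ (g : G) (θ : IrrCharacter (pResidual p G)), g • θ = CfsgLib.Block.conjIrr (pResidual p G) g⁻¹ θ := fun _ _ => rfl
  set B := principalBlock M (pResidual p G) with hB
  set T₀ := (Set.toFinite B).toFinset with hT₀
  have hT₀m : ∀ θ, θ ∈ T₀ ↔ θ ∈ B := fun θ => by simp [hT₀]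
  set f : IrrCharacter (pResidual p G) → ℕ := fun θ => charDegree (θ : pResidual p G → ℂ) ^ 2 with hf
  -- the sum is divisible by `p`
  have hS : p ∣ ∑ θ ∈ T₀, f θ := by
    have h1 := factorization_sum_sq hM (isPBlock_principal hM (pResidual p G) : IsPBlock M B)
    rw [minNu_principal hP, add_zero] at h1
    rw [finsum_mem_eq_finite_toFinset_sum _ (Set.toFinite B)] at h1
    have h2 : 0 < (Nat.card (pResidual p G)).factorization p :=
      (hp.out.dvd_iff_one_le_factorization Nat.card_pos.ne').mp hd
    rw [← h1] at h2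
    exact Nat.dvd_of_factorization_pos h2.ne'
  -- the three parts
  set T₁ := T₀.filter fun θ : IrrCharacter (pResidual p G) => p ∣ charDegree (θ : pResidual p G → ℂ) with hT₁
  set T₄ := T₀.filter fun θ : IrrCharacter (pResidual p G) => ¬ p ∣ charDegree (θ : pResidual p G → ℂ) with hT₄
  set T₂ := T₄.filter fun θ : IrrCharacter (pResidual p G) => charDegree (θ : pResidual p G → ℂ) ≠ 1 with hT₂
  set T₃ := T₄.filter fun θ : IrrCharacter (pResidual p G) => ¬ charDegree (θ : pResidual p G → ℂ) ≠ 1 with hT₃
  have hsplit : ∑ θ ∈ T₀, f θ = ∑ θ ∈ T₁, f θ + (∑ θ ∈ T₂, f θ + ∑ θ ∈ T₃, f θ) := by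
    rw [← Finset.sum_filter_add_sum_filter_not T₀ (fun θ : IrrCharacter (pResidual p G) => p ∣ charDegree (θ : pResidual p G → ℂ)),
      ← Finset.sum_filter_add_sum_filter_not T₄ (fun θ : IrrCharacter (pResidual p G) => charDegree (θ : pResidual p G → ℂ) ≠ 1)]
  have h1 : p ∣ ∑ θ ∈ T₁, f θ := by
    refine Finset.dvd_sum fun θ hθ => ?_
    exact (Finset.mem_filter.mp hθ).2.trans (dvd_pow_self _ two_ne_zero)
  have h2 : p ∣ ∑ θ ∈ T₂, f θ := by
    have hPp : IsPGroup p (P : Subgroup G) := P.isPGroup'
    refine dvd_sum_of_no_fixed hPp T₂ ?_ f ?_ ?_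
    · intro h θ hθ
      have hconj : (h • θ) = CfsgLib.Block.conjIrr (pResidual p G) (h : G)⁻¹ θ := rfl
      simp only [hT₂, hT₄, Finset.mem_filter, hT₀m] at hθ ⊢
      rw [hconj, charDegree_conjIrr]
      exact ⟨⟨conjIrr_mem_principal _ hP _ hθ.1.1, hθ.1.2⟩, hθ.2⟩
    · intro h θ
      have hconj : (h • θ) = CfsgLib.Block.conjIrr (pResidual p G) (h : G)⁻¹ θ := rfl
      simp only [hf]
      rw [hconj, charDegree_conjIrr]
    · intro θ hθ
      by_contra hfix
      push Not at hfix
      simp only [hT₂, hT₄, Finset.mem_filter, hT₀m] at hθ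
      -- the stabilizer is everything
      have hst : (⊤ : Subgroup G) ≤ MulAction.stabilizer G θ := by
        rw [← hsup]
        refine sup_le ?_ ?_
        · intro n hn
          rw [MulAction.mem_stabilizer_iff, hsmul]
          apply Subtype.ext
          funext x
          rw [CfsgLib.Block.coe_conjIrr, conjOn_apply]
          have := θ.2.isClassFunction x ⟨n⁻¹, (pResidual p G).inv_mem hn⟩
          exact this
        · intro h hh
          exact hfix ⟨h, hh⟩
      have hinv : ∀ (g : G) (n : pResidual p G), (θ : pResidual p G → ℂ) ⟨g * n * g⁻¹, residualNormal.conj_mem (n : G) n.2 g⟩ = (θ : pResidual p G → ℂ) n := by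
        intro g n
        have h3 : g⁻¹ • θ = θ := hst (Subgroup.mem_top g⁻¹)
        rw [hsmul, inv_inv] at h3
        have h4 := congrFun (congrArg Subtype.val h3) n
        rw [CfsgLib.Block.coe_conjIrr, conjOn_apply] at h4
        exact h4
      obtain ⟨χ, hχ, hdegχ⟩ := exists_extension_principal hM hθ.1.1 hθ.1.2 hinv
      have h5 := hyp χ hχ (by rw [hdegχ]; exact hθ.1.2)
      rw [hdegχ] at h5
      exact hθ.2 h5
  have h3 : p ∣ ∑ θ ∈ T₃, f θ := by
    rw [hsplit] at hS
    exact (Nat.dvd_add_right h2).mp ((Nat.dvd_add_right h1).mp hS)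
  have h4 : ∑ θ ∈ T₃, f θ = T₃.card := by
    rw [Finset.card_eq_sum_ones]
    refine Finset.sum_congr rfl fun θ hθ => ?_
    have := (Finset.mem_filter.mp hθ).2
    push Not at this
    simp [hf, this]
  rw [h4] at h3
  -- compare with the group of linear characters
  haveI : Finite (pResidual p G →* ℂˣ) := Finite.of_equiv _ linearEquivHom
  letI : Fintype (linPrincipal hM (pResidual p G)) := Fintype.ofFinite _
  let φ : linPrincipal hM (pResidual p G) → IrrCharacter (pResidual p G) :=
    fun l => ⟨fun g => (((l : pResidual p G →* ℂˣ) g : ℂˣ) : ℂ), isIrr_of_hom _⟩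
  have hφ : Function.Injective φ := by
    intro a b hab
    apply Subtype.ext
    ext x
    exact congrFun (congrArg Subtype.val hab) x
  have hT₃ : T₃ = Finset.univ.image φ := by
    ext θ
    simp only [hT₃, hT₄, Finset.mem_filter, hT₀m, Finset.mem_image, Finset.mem_univ, true_and]
    constructor
    · rintro ⟨⟨hθ, -⟩, hd1⟩
      push Not at hd1
      have h5 : (θ : pResidual p G → ℂ) 1 = 1 := by
        rw [irr_one_eq_charDegree, hd1]
        simp
      obtain ⟨l, hl⟩ := exists_hom_of_degree_one θ.2.isCharacter h5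
      have h6 : (⟨fun g => ((l g : ℂˣ) : ℂ), isIrr_of_hom l⟩ : IrrCharacter (pResidual p G)) = θ :=
        Subtype.ext hl.symm
      exact ⟨⟨l, by
        show (⟨fun g => ((l g : ℂˣ) : ℂ), isIrr_of_hom l⟩ : IrrCharacter (pResidual p G)) ∈ principalBlock M (pResidual p G)
        rw [h6]; exact hθ⟩, h6⟩
    · rintro ⟨l, rfl⟩
      have hdeg1 : charDegree (φ l : pResidual p G → ℂ) = 1 := by
        unfold charDegree
        simp [φ]
      refine ⟨⟨l.2, ?_⟩, ?_⟩
      · rw [hdeg1]
        exact fun h => hp.out.one_lt.ne' (Nat.dvd_one.mp h)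
      · push Not
        exact hdeg1
  rw [hT₃, Finset.card_image_of_injective _ hφ, Finset.card_univ, ← Nat.card_eq_fintype_card] at h3
  exact not_dvd_card_linPrincipal hM h3

theorem height_zero_of_not_dvd {B : Set (IrrCharacter G)} {χ : G → ℂ} (h : ¬ p ∣ charDegree χ) :
    blockHeight p B χ = 0 := by
  unfold blockHeight
  rw [Nat.factorization_eq_zero_of_not_dvd h]
  exact Nat.zero_sub _

/-- **S4888.** -/
theorem height_zero_same_degree_iff :
    (∃ d : ℕ, ∀ χ : IrrCharacter G, χ ∈ principalBlock M G → blockHeight p (principalBlock M G) (χ : G → ℂ) = 0 →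
      charDegree (χ : G → ℂ) = d) ↔ HasNormalPComplement p G := by
  classical
  have hP := hM.isPrime
  constructor
  · rintro ⟨d, hd⟩
    have hd1 : d = 1 := by
      have h1 := hd (oneIrr G) (oneIrr_mem_principal hP) (height_zero_of_not_dvd hM (by
        rw [charDegree_oneIrr]
        exact fun h => hp.out.one_lt.ne' (Nat.dvd_one.mp h)))
      rw [charDegree_oneIrr] at h1
      exact h1.symm
    have hN := not_dvd_card_residual hM fun χ hχ hdeg => by
      rw [hd χ hχ (height_zero_of_not_dvd hM hdeg), hd1]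
    obtain ⟨k, hk⟩ := residual_index (G := G) p
    let P : Sylow p G := default
    have hcard : Nat.card (P : Subgroup G) = (pResidual p G).index := by
      have h0 := Nat.factorization_eq_zero_of_not_dvd hN
      have h1 : Nat.card G = Nat.card (pResidual p G) * p ^ k := by rw [← hk, Subgroup.card_mul_index]
      rw [Sylow.card_eq_multiplicity, hk, h1, Nat.factorization_mul Nat.card_pos.ne' (pow_ne_zero _ hp.out.ne_zero),
        Nat.factorization_pow]
      simp only [Finsupp.add_apply, Finsupp.smul_apply, smul_eq_mul, hp.out.factorization_self, h0, mul_one, zero_add]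
    refine ⟨P, pResidual p G, inferInstance, ?_⟩
    apply Subgroup.isComplement'_of_coprime
    · rw [hcard, Subgroup.card_mul_index]
    · rw [hcard, hk]
      exact Nat.Coprime.pow_right _ ((Nat.Prime.coprime_iff_not_dvd hp.out).mpr hN).symm
  · rintro ⟨P, L, hL, hc⟩
    haveI := hL
    have hcard : Nat.card L * Nat.card (P : Subgroup G) = Nat.card G := hc.card_mul_card
    have hLp : ¬ p ∣ Nat.card L := by
      intro hd
      have h1 : p ^ ((Nat.card G).factorization p + 1) ∣ Nat.card G := by
        rw [pow_succ, ← Sylow.card_eq_multiplicity P, ← hcard, mul_comm (Nat.card L)]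
        exact mul_dvd_mul_left _ hd
      exact Nat.pow_succ_factorization_not_dvd Nat.card_pos.ne' hp.out h1
    have hLO : L ≤ pPrimeCore p G := CfsgLib.Solv.le_pPrimeCore' L ((Nat.Prime.coprime_iff_not_dvd hp.out).mpr hLp).symm
    have hidxL : L.index = p ^ (Nat.card G).factorization p := by
      have h1 := Subgroup.card_mul_index L
      rw [← hcard] at h1
      have h2 : 0 < Nat.card L := Nat.card_pos
      rw [← Sylow.card_eq_multiplicity P]
      exact Nat.eq_of_mul_eq_mul_left h2 h1
    have hnc : ∃ k : ℕ, (pPrimeCore p G).index = p ^ k := by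
      have h1 : (pPrimeCore p G).index ∣ p ^ (Nat.card G).factorization p := by
        rw [← hidxL]
        exact Subgroup.index_dvd_of_le hLO
      obtain ⟨j, -, hj⟩ := (Nat.dvd_prime_pow hp.out).mp h1
      exact ⟨j, hj⟩
    refine ⟨1, fun χ hχ hh => ?_⟩
    haveI hOn : (pPrimeCore p G).Normal := CfsgLib.Solv.pPrimeCore_normal' p
    have h1 := principal_eq_ker hM hnc
    rw [h1] at hχ
    obtain ⟨χb, rfl⟩ := exists_descend (pPrimeCore p G) hχ
    obtain ⟨k, hk⟩ := hnc
    have h2 : charDegree (inflIrr (pPrimeCore p G) χb : G → ℂ) = charDegree (χb : G ⧸ pPrimeCore p G → ℂ) := by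
      unfold charDegree
      rw [inflIrr_apply]
      rfl
    have h3 : charDegree (χb : G ⧸ pPrimeCore p G → ℂ) ∣ p ^ k := by
      rw [← hk]
      exact charDegree_dvd χb
    obtain ⟨j, -, hj⟩ := (Nat.dvd_prime_pow hp.out).mp h3
    rw [h2, hj]
    have h4 : j = 0 := by
      by_contra h0
      have h5 : blockHeight p (principalBlock M G) (inflIrr (pPrimeCore p G) χb : G → ℂ) = j := by
        have h6 : blockHeight p (principalBlock M G) (inflIrr (pPrimeCore p G) χb : G → ℂ) =
            (charDegree (inflIrr (pPrimeCore p G) χb : G → ℂ)).factorization p - minNu p (principalBlock M G) := rfl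
        rw [h6, minNu_principal hP, h2, hj, Nat.factorization_pow]
        simp [hp.out.factorization_self]
      rw [h5] at hh
      exact h0 hh
    rw [h4, pow_zero]

end Main

end CfsgLib.Char
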