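import Cfsg.Agent.Lib.Char.KerPprime
import Cfsg.Agent.Lib.Block.Graded2
import Cfsg.Agent.Lib.Block.FirstMain

/-!
# Characters of degree prime to `p` in the principal block lying over a given character
-/

universe u

set_option linter.unusedVariables false
set_option linter.unusedSectionVars false

open Cfsg CfsgLib.Block CfsgLib.Char
open scoped ComplexConjugate

namespace CfsgLib.Char.PO

section Orbit

variable {G : Type u} [Group G] [Fintype G] {p : ℕ} [hp : Fact p.Prime] {M : Ideal AlgInt}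

open Classical in
/-- The sum of `a` over a subgroup. -/
noncomputable def sX (a : G → ℂ) (X : Subgroup G) : ℂ := ∑ y : G, if y ∈ X then a y else 0

theorem sX_sub_mem (hM : IsPModular p M) {R : Subgroup G} (hR : IsPGroup p R) (a : G → ℂ)
    (ha : ∀ y, a y ∈ locR hM.isPrime) (hcl : ∀ (r : R) (y : G), a ((r : G) * y * (r : G)⁻¹) = a y)
    {X Y : Subgroup G} (hX : R ≤ X) (hY : R ≤ Y) (hXY : ∀ y ∈ Subgroup.centralizer (R : Set G), (y ∈ X ↔ y ∈ Y)) :
    sX a X - sX a Y ∈ locI hM.isPrime := by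
  classical
  have hP := hM.isPrime
  by_contra hcon
  let W : G → ℂ := fun y => (if y ∈ X then a y else 0) - (if y ∈ Y then a y else 0)
  have hs : ∑ y, W y = sX a X - sX a Y := by
    simp only [W, sX]
    rw [Finset.sum_sub_distrib]
  have hmem : ∀ (Z : Subgroup G), R ≤ Z → ∀ (r : R) (y : G), ((r : G) * y * (r : G)⁻¹ ∈ Z ↔ y ∈ Z) := by
    intro Z hZ r y
    have hr := hZ r.2
    constructor
    · intro h
      have h1 := Z.mul_mem (Z.mul_mem (Z.inv_mem hr) h) hr
      have h2 : (r : G)⁻¹ * ((r : G) * y * (r : G)⁻¹) * (r : G) = y := by group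
      rwa [h2] at h1
    · intro h
      exact Z.mul_mem (Z.mul_mem hr h) (Z.inv_mem hr)
  have hW : ∀ (r : R) (y : G), W ((r : G) * y * (r : G)⁻¹) = W y := by
    intro r y
    simp only [W, hcl r y]
    simp only [hmem X hX r y, hmem Y hY r y]
  have hm : ∀ y, W y ∈ locR hP := by
    intro y
    simp only [W]
    refine (locR hP).sub_mem ?_ ?_
    · split_ifs
      · exact ha y
      · exact (locR hP).zero_mem
    · split_ifs
      · exact ha y
      · exact (locR hP).zero_mem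
  obtain ⟨y, hy, hy2⟩ := exists_fixed_of_sum hM hR W hW hm (by rw [hs]; exact hcon)
  apply hy2
  have hyC : y ∈ Subgroup.centralizer (R : Set G) := by
    rw [Subgroup.mem_centralizer_iff]
    intro r hr
    have h1 := hy r hr
    calc r * y = r * y * r⁻¹ * r := by group
      _ = y * r := by rw [h1]
  have h0 : W y = 0 := by
    simp only [W]
    by_cases h : y ∈ X
    · rw [if_pos h, if_pos ((hXY y hyC).1 h), sub_self]
    · rw [if_neg h, if_neg (fun h' => h ((hXY y hyC).2 h')), sub_self]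
  rw [h0]
  exact (locI hP).zero_mem

theorem sX_eq (a : G → ℂ) (X : Subgroup G) [Fintype X] : sX a X = ∑ x : X, a x := by
  classical
  rw [sX]
  symm
  refine Fintype.sum_of_injective (fun x : X => (x : G)) Subtype.val_injective _ _ ?_ ?_
  · intro y hy
    rw [if_neg]
    intro h
    exact hy ⟨⟨y, h⟩, rfl⟩
  · intro x
    rw [if_pos x.2]

end Orbit

section Res

variable {G : Type u} [Group G] [Fintype G]

theorem om_res_eq_of_restrict {N L : Subgroup G} [Fintype N] [Fintype L] (hNL : N ≤ L) (w : GA G)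
    (hoff : ∀ h : L, (h : G) ∉ N → w.coeff h = 0) {ξ : L → ℂ} {τ : N → ℂ}
    (h : ∀ n : N, ξ (Subgroup.inclusion hNL n) = τ n) : om ξ (res L w) = om τ (res N w) := by
  classical
  have h1 : ξ 1 = τ 1 := by
    have := h 1
    rwa [map_one] at this
  rw [om, om, h1, hat, hat]
  congr 1
  symm
  refine Fintype.sum_of_injective (Subgroup.inclusion hNL) (Subgroup.inclusion_injective hNL) _ _ ?_ ?_
  · intro x hx
    rw [coeff_res, hoff x, zero_mul]
    intro hxN
    exact hx ⟨⟨x, hxN⟩, rfl⟩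
  · intro n
    rw [coeff_res, coeff_res, h n]
    rfl

theorem om_oneIrr (w : GA G) : om ((oneIrr G : IrrCharacter G) : G → ℂ) w = ∑ g, w.coeff g := by
  have h1 : ((oneIrr G : IrrCharacter G) : G → ℂ) = fun _ => 1 := rfl
  rw [om, hat, h1]
  simp

end Res

section Third

variable {G : Type u} [Group G] [Fintype G] {p : ℕ} [hp : Fact p.Prime] {M : Ideal AlgInt}

theorem om_res_principal (hM : IsPModular p M) {P H : Subgroup G} [Fintype H] (hP : IsPGroup p P) (hPH : P ≤ H)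
    (hCH : Subgroup.centralizer (P : Set G) ≤ H) (hHN : H ≤ Subgroup.normalizer (P : Set G)) (ψ : IrrCharacter H)
    [Decidable (ψ ∈ principalBlock M H)] :
    om (ψ : H → ℂ) (res H (fB (principalBlock M G))) - (if ψ ∈ principalBlock M H then 1 else 0) ∈ locI hM.isPrime := by
  classical
  have hP' := hM.isPrime
  have hB₀ : IsPBlock M (principalBlock M G) := ⟨oneIrr G, rfl⟩
  by_cases hψ : ψ ∈ principalBlock M H
  · rw [if_pos hψ]
    have hdef := inducedBlockDefined hM hP hPH hCH hHN (b := principalBlock M H) ⟨oneIrr H, rfl⟩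
    have hind := (third_main hM hdef).2 rfl
    have h1 := om_res_sub_mem (oneIrr G).2 (hind.2.2 ψ hψ (oneIrr G) (oneIrr_mem_principal hP')) (isCent_fB (principalBlock M G)) (sval_fB hM hB₀)
    rw [om_fB, if_pos (oneIrr_mem_principal hP')] at h1
    exact h1
  · rw [if_neg hψ, sub_zero]
    obtain ⟨B, hB⟩ := exists_isInduced hM hP hPH hCH hHN ψ
    obtain ⟨χ, hχ⟩ := IsPBlock.nonempty hP' hB.2.1
    have h1 := om_res_sub_mem χ.2 (hB.2.2 ψ (self_mem_blockOf hP' ψ) χ hχ) (isCent_fB (principalBlock M G)) (sval_fB hM hB₀)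
    have hχ0 : χ ∉ principalBlock M G := by
      intro h
      have hBeq : B = principalBlock M G := by
        rw [blockOf_eq_of_mem hP' hB.2.1 hχ, ← blockOf_eq_of_mem hP' hB₀ h]
      rw [hBeq] at hB
      have hdef : InducedBlockDefined M H (blockOf M (ψ : H → ℂ)) := ⟨_, hB⟩
      have h2 := (third_main hM hdef).1 hB
      apply hψ
      rw [← h2]
      exact self_mem_blockOf hP' ψ
    rw [om_fB, if_neg hχ0, sub_zero] at h1
    exact h1

end Third

section Quot

variable {X : Type u} [Group X] [Fintype X] {p : ℕ} [hp : Fact p.Prime] {M : Ideal AlgInt}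

theorem sum_coeff_notMem (hM : IsPModular p M) (U : Subgroup X) [hU : U.Normal] [Fintype U] (f : GA X)
    (h1 : ∀ ψ : IrrCharacter X, ∀ [Decidable (ψ ∈ principalBlock M X)],
      om (ψ : X → ℂ) f - (if ψ ∈ principalBlock M X then 1 else 0) ∈ locI hM.isPrime)
    (h2 : ∀ ψ ∈ principalBlock M X, (∀ u ∈ U, (ψ : X → ℂ) u = (ψ : X → ℂ) 1) → ψ = oneIrr X) :
    (∑ u : U, f.coeff u) ∉ locI hM.isPrime := by
  classical
  have hP := hM.isPrime
  letI : Fintype (X ⧸ U) := Fintype.ofFinite _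
  intro hmem
  -- the column orthogonality relation
  have hcol : ∀ x : X, ∑ ψ : IrrCharacter (X ⧸ U), ((charDegree (ψ : X ⧸ U → ℂ) : ℕ) : ℂ) * (ψ : X ⧸ U → ℂ) (x : X ⧸ U) =
      if x ∈ U then (Nat.card (X ⧸ U) : ℂ) else 0 := by
    intro x
    have h3 := column_orthogonality (x : X ⧸ U) (1 : X ⧸ U)
    have h4 : ∀ ψ : IrrCharacter (X ⧸ U), (ψ : X ⧸ U → ℂ) (x : X ⧸ U) * conj ((ψ : X ⧸ U → ℂ) 1) =
        ((charDegree (ψ : X ⧸ U → ℂ) : ℕ) : ℂ) * (ψ : X ⧸ U → ℂ) (x : X ⧸ U) := by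
      intro ψ
      rw [← coe_charDegree ψ.2.isCharacter, Complex.conj_natCast, mul_comm]
    rw [Finset.sum_congr rfl fun ψ _ => h4 ψ] at h3
    rw [h3]
    by_cases hx : x ∈ U
    · rw [if_pos hx, if_pos]
      · have h5 : Subgroup.centralizer ({1} : Set (X ⧸ U)) = ⊤ := by
          ext y
          simp [Subgroup.mem_centralizer_iff]
        rw [h5, Subgroup.card_top]
      · rw [(QuotientGroup.eq_one_iff x).2 hx]
    · rw [if_neg hx, if_neg]
      intro hc
      exact hx ((QuotientGroup.eq_one_iff x).1 (isConj_one_right.1 hc.symm))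
  -- the two evaluations of the total
  have hT : ∑ x : X, f.coeff x * (∑ ψ : IrrCharacter (X ⧸ U), ((charDegree (ψ : X ⧸ U → ℂ) : ℕ) : ℂ) * (ψ : X ⧸ U → ℂ) (x : X ⧸ U)) =
      (Nat.card (X ⧸ U) : ℂ) * ∑ u : U, f.coeff u := by
    simp only [hcol]
    rw [Finset.mul_sum]
    symm
    refine Fintype.sum_of_injective (fun u : U => (u : X)) Subtype.val_injective _ _ ?_ ?_
    · intro x hx
      rw [if_neg, mul_zero]
      intro h
      exact hx ⟨⟨x, h⟩, rfl⟩
    · intro u
      rw [if_pos u.2]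
      ring
  have hT2 : ∑ x : X, f.coeff x * (∑ ψ : IrrCharacter (X ⧸ U), ((charDegree (ψ : X ⧸ U → ℂ) : ℕ) : ℂ) * (ψ : X ⧸ U → ℂ) (x : X ⧸ U)) =
      ∑ ψ : IrrCharacter (X ⧸ U), ((charDegree (ψ : X ⧸ U → ℂ) : ℕ) : ℂ) ^ 2 * om (inflIrr U ψ : X → ℂ) f := by
    simp only [Finset.mul_sum]
    rw [Finset.sum_comm]
    refine Finset.sum_congr rfl fun ψ _ => ?_
    have h5 : (inflIrr U ψ : X → ℂ) 1 = ((charDegree (ψ : X ⧸ U → ℂ) : ℕ) : ℂ) := by
      rw [inflIrr_apply, coe_charDegree ψ.2.isCharacter]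
      rfl
    have h6 : ψ.2.map_one_ne_zero = ψ.2.map_one_ne_zero := rfl
    have h7 : ((charDegree (ψ : X ⧸ U → ℂ) : ℕ) : ℂ) ≠ 0 := by
      rw [coe_charDegree ψ.2.isCharacter]
      exact ψ.2.map_one_ne_zero
    rw [om, h5, hat]
    have h8 : ∑ g : X, f.coeff g * (inflIrr U ψ : X → ℂ) g = ∑ g : X, f.coeff g * (ψ : X ⧸ U → ℂ) (g : X ⧸ U) :=
      Finset.sum_congr rfl fun g _ => by rw [inflIrr_apply]
    rw [h8]
    field_simp
    rw [Finset.mul_sum]
    refine Finset.sum_congr rfl fun g _ => by ring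
  -- modulo the ideal only the trivial character survives
  have hE : ∑ ψ : IrrCharacter (X ⧸ U), ((charDegree (ψ : X ⧸ U → ℂ) : ℕ) : ℂ) ^ 2 *
      (if (inflIrr U ψ) ∈ principalBlock M X then (1 : ℂ) else 0) = 1 := by
    rw [Finset.sum_eq_single (oneIrr (X ⧸ U))]
    · have h9 : inflIrr U (oneIrr (X ⧸ U)) = oneIrr X := rfl
      rw [h9, if_pos (oneIrr_mem_principal hP), charDegree_oneIrr]
      simp
    · intro ψ _ hψ
      rw [if_neg, mul_zero]
      intro hm
      apply hψ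
      apply inflIrr_injective U
      have h9 : inflIrr U (oneIrr (X ⧸ U)) = oneIrr X := rfl
      rw [h9]
      refine h2 _ hm fun u hu => ?_
      rw [inflIrr_apply, inflIrr_apply, (QuotientGroup.eq_one_iff u).2 hu]
      rfl
    · intro h
      exact absurd (Finset.mem_univ _) h
  have hdiff : ∑ ψ : IrrCharacter (X ⧸ U), ((charDegree (ψ : X ⧸ U → ℂ) : ℕ) : ℂ) ^ 2 * om (inflIrr U ψ : X → ℂ) f - 1 ∈ locI hP := by
    rw [← hE, ← Finset.sum_sub_distrib]
    refine sum_mem fun ψ _ => ?_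
    rw [← mul_sub]
    have h5 := h1 (inflIrr U ψ)
    have h6 : ((charDegree (ψ : X ⧸ U → ℂ) : ℕ) : ℂ) ^ 2 = ((charDegree (ψ : X ⧸ U → ℂ) ^ 2 : ℕ) : ℂ) := by push_cast; ring
    rw [h6]
    exact locI_mul_left hP (natCast_mem _ _) h5
  rw [← hT2, hT] at hdiff
  have h7 : (Nat.card (X ⧸ U) : ℂ) * ∑ u : U, f.coeff u ∈ locI hP := locI_mul_left hP (natCast_mem _ _) hmem
  have h8 := (locI hP).sub_mem h7 hdiff
  rw [sub_sub_cancel] at h8
  exact one_notMem_locI hP h8

end Quot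

section Main

variable {G : Type u} [Group G] [Fintype G] {p : ℕ} [hp : Fact p.Prime] {M : Ideal AlgInt}

theorem mem_sup_centralizer {P : Subgroup G} {g : G} (hg : g ∈ P ⊔ Subgroup.centralizer (P : Set G)) :
    ∃ y ∈ P, ∃ c ∈ Subgroup.centralizer (P : Set G), y * c = g := by
  rw [Subgroup.sup_eq_closure] at hg
  induction hg using Subgroup.closure_induction with
  | mem x hx =>
    rcases hx with hx | hx
    · exact ⟨x, hx, 1, one_mem _, by simp⟩
    · exact ⟨1, one_mem _, x, hx, by simp⟩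
  | one => exact ⟨1, one_mem _, 1, one_mem _, by simp⟩
  | mul a b _ _ ha hb =>
    obtain ⟨y₁, hy₁, c₁, hc₁, rfl⟩ := ha
    obtain ⟨y₂, hy₂, c₂, hc₂, rfl⟩ := hb
    refine ⟨y₁ * y₂, mul_mem hy₁ hy₂, c₁ * c₂, mul_mem hc₁ hc₂, ?_⟩
    have h1 : c₁ * y₂ = y₂ * c₁ := (Subgroup.mem_centralizer_iff.1 hc₁ y₂ hy₂).symm
    calc y₁ * y₂ * (c₁ * c₂) = y₁ * (y₂ * c₁) * c₂ := by group
      _ = y₁ * c₁ * (y₂ * c₂) := by rw [← h1]; group
  | inv a _ ha =>
    obtain ⟨y, hy, c, hc, rfl⟩ := ha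
    refine ⟨y⁻¹, inv_mem hy, c⁻¹, inv_mem hc, ?_⟩
    have h1 : c * y = y * c := (Subgroup.mem_centralizer_iff.1 hc y hy).symm
    rw [mul_inv_rev]
    have h2 : c⁻¹ * y⁻¹ = y⁻¹ * c⁻¹ := by
      rw [← mul_inv_rev, ← mul_inv_rev, h1]
    exact h2.symm

/-- `P C_G(P) = P × O` with `O` of order prime to `p`. -/
theorem exists_O (P : Sylow p G) : ∃ O : Subgroup G, O ≤ Subgroup.centralizer ((P : Subgroup G) : Set G) ∧ ¬ p ∣ Nat.card O ∧
    (∀ c ∈ Subgroup.centralizer ((P : Subgroup G) : Set G), ∀ o ∈ O, c * o * c⁻¹ ∈ O) ∧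
    ∀ x ∈ (P : Subgroup G) ⊔ Subgroup.centralizer ((P : Subgroup G) : Set G), ∃ y ∈ (P : Subgroup G), ∃ o ∈ O, x = y * o := by
  classical
  set K : Subgroup G := Subgroup.centralizer ((P : Subgroup G) : Set G) with hK
  obtain ⟨Q⟩ : Nonempty (Sylow p K) := inferInstance
  have hQG : IsPGroup p (((Q : Subgroup K)).map K.subtype) := Q.isPGroup'.map K.subtype
  have hQN : ((Q : Subgroup K)).map K.subtype ≤ Subgroup.normalizer ((P : Subgroup G) : Set G) := by
    refine le_trans ?_ (Subgroup.centralizer_le_normalizer _)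
    rintro _ ⟨q, -, rfl⟩
    exact q.2
  have hsup := hQG.to_sup_of_normal_right' P.isPGroup' hQN
  have heq := P.is_maximal' hsup le_sup_right
  have hQP : ∀ q ∈ (Q : Subgroup K), (q : G) ∈ (P : Subgroup G) := by
    intro q hq
    have h1 : (q : G) ∈ ((Q : Subgroup K)).map K.subtype ⊔ (P : Subgroup G) :=
      Subgroup.mem_sup_left ⟨q, hq, rfl⟩
    rwa [heq] at h1
  have hcomm : ∀ q ∈ (Q : Subgroup K), ∀ c : K, q * c = c * q := by
    intro q hq c
    apply Subtype.ext
    exact Subgroup.mem_centralizer_iff.1 c.2 (q : G) (hQP q hq)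
  have hnc : Subgroup.normalizer ((Q : Subgroup K) : Set K) ≤ Subgroup.centralizer ((Q : Subgroup K) : Set K) := by
    intro x _
    rw [Subgroup.mem_centralizer_iff]
    intro h hh
    exact hcomm h hh x
  obtain ⟨T, hTn, hc, hTp⟩ : ∃ T : Subgroup K, T.Normal ∧ Subgroup.IsComplement' T (Q : Subgroup K) ∧ ¬ p ∣ Nat.card T :=
    ⟨_, MonoidHom.normal_ker _, MonoidHom.ker_transferSylow_isComplement' Q hnc,
      MonoidHom.not_dvd_card_ker_transferSylow Q hnc⟩
  refine ⟨T.map K.subtype, ?_, ?_, ?_, ?_⟩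
  · rintro _ ⟨t, -, rfl⟩
    exact t.2
  · rwa [Subgroup.card_map_of_injective (f := K.subtype) Subtype.val_injective]
  · rintro c hc' _ ⟨t, ht, rfl⟩
    exact ⟨⟨c, hc'⟩ * t * ⟨c, hc'⟩⁻¹, hTn.conj_mem t ht _, rfl⟩
  · intro x hx
    obtain ⟨y, hy, c, hcK, rfl⟩ := mem_sup_centralizer hx
    obtain ⟨⟨⟨t, ht⟩, ⟨q, hq⟩⟩, hh⟩ := hc.2 (⟨c, hcK⟩ : K)
    have h1 : (t : G) * (q : G) = c := congrArg Subtype.val hh
    refine ⟨y * (q : G), P.1.mul_mem hy (hQP q hq), (t : G), ⟨t, ht, rfl⟩, ?_⟩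
    have h2 : (q : G) * (t : G) = (t : G) * (q : G) := congrArg Subtype.val (hcomm q hq t)
    rw [← h1, mul_assoc, h2]

theorem mem_of_regular_sup {N : Subgroup G} [hN : N.Normal] {P : Subgroup G} (hP : IsPGroup p P) {h : G}
    (hh : h ∈ N ⊔ P) (hr : ¬ p ∣ orderOf h) : h ∈ N := by
  classical
  rw [← SetLike.mem_coe, Subgroup.normal_mul, Set.mem_mul] at hh
  obtain ⟨n, hn, y, hy, rfl⟩ := hh
  obtain ⟨k, hk⟩ := (IsPGroup.iff_orderOf.1 hP) ⟨y, hy⟩
  have hk' : orderOf y = p ^ k := by rwa [Subgroup.orderOf_mk] at hk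
  let q := QuotientGroup.mk' N
  have h1 : q (n * y) = q y := by
    have h0 : q n = 1 := (QuotientGroup.eq_one_iff n).2 hn
    rw [map_mul, h0, one_mul]
  have h2 : orderOf (q (n * y)) ∣ orderOf (n * y) := orderOf_map_dvd q _
  have h3 : orderOf (q (n * y)) ∣ p ^ k := by
    rw [h1, ← hk']
    exact orderOf_map_dvd q _
  have h4 : Nat.Coprime (orderOf (n * y)) (p ^ k) :=
    Nat.Coprime.pow_right _ (Nat.coprime_comm.1 ((Nat.Prime.coprime_iff_not_dvd hp.out).2 hr))
  have h5 : orderOf (q (n * y)) = 1 := Nat.eq_one_of_dvd_coprimes h4 h2 h3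
  exact (QuotientGroup.eq_one_iff _).1 (orderOf_eq_one_iff.1 h5)

theorem s4583_main (N : Subgroup G) [hN : N.Normal] [Fintype N] (hM : IsPModular p M) (P : Sylow p G)
    (θ : IrrCharacter N) (hθ : θ ∈ principalBlock M N) (hdeg : ¬ p ∣ charDegree (θ : N → ℂ))
    (hext : ∃ η : IrrCharacter ↥(N ⊔ (P : Subgroup G)), ∀ n : N,
      (η : ↥(N ⊔ (P : Subgroup G)) → ℂ) (Subgroup.inclusion le_sup_left n) = (θ : N → ℂ) n) :
    ∃ χ : IrrCharacter G, χ ∈ principalBlock M G ∧ ¬ p ∣ charDegree (χ : G → ℂ) ∧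
      classInner (fun n : N => (χ : G → ℂ) n) (θ : N → ℂ) ≠ 0 := by
  classical
  have hP := hM.isPrime
  set L : Subgroup G := N ⊔ (P : Subgroup G) with hL
  obtain ⟨η, hη⟩ := hext
  letI : Fintype L := Fintype.ofFinite _
  have hPL : (P : Subgroup G) ≤ L := le_sup_right
  have hNL : N ≤ L := le_sup_left
  have hB₀ : IsPBlock M (principalBlock M G) := ⟨oneIrr G, rfl⟩
  set f : GA G := fB (principalBlock M G) with hf
  have hfc : IsCent f := isCent_fB _
  have hfs : SVal hP f := sval_fB hM hB₀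
  have hoff : ∀ h : L, (h : G) ∉ N → f.coeff h = 0 := by
    intro h hh
    rw [hf, coeff_fB]
    apply blockCoeff_singular hM hB₀
    by_contra hr
    exact hh (mem_of_regular_sup P.isPGroup' h.2 hr)
  have h1 : om (η : L → ℂ) (res L f) = om (θ : N → ℂ) (res N f) := om_res_eq_of_restrict hNL f hoff hη
  have h2 : om ((oneIrr L : IrrCharacter L) : L → ℂ) (res L f) = om ((oneIrr N : IrrCharacter N) : N → ℂ) (res N f) :=
    om_res_eq_of_restrict hNL f hoff (fun n => rfl)
  have hsame : SameBlock M (θ : N → ℂ) ((oneIrr N : IrrCharacter N) : N → ℂ) :=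
    sameBlock_of_mem hP ⟨oneIrr N, rfl⟩ hθ (oneIrr_mem_principal hP)
  have h3 := om_sub_mem_of_sameBlock hP θ.2 (oneIrr N).2 hsame (isCent_res_of_isCent N hfc) (sval_res N hP hfs)
  -- the group `H₀ = P C_G(P)`
  set C : Subgroup G := Subgroup.centralizer ((P : Subgroup G) : Set G) with hC
  set H₀ : Subgroup G := (P : Subgroup G) ⊔ C with hH₀
  letI : Fintype H₀ := Fintype.ofFinite _
  have hPH : (P : Subgroup G) ≤ H₀ := le_sup_left
  have hCH : C ≤ H₀ := le_sup_right
  have hHN : H₀ ≤ Subgroup.normalizer ((P : Subgroup G) : Set G) :=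
    sup_le Subgroup.le_normalizer (Subgroup.centralizer_le_normalizer _)
  obtain ⟨O, hOC, hOp, hOn, hdec⟩ := exists_O P
  -- `L` is normalized by `H₀`
  let U : Subgroup H₀ := L.subgroupOf H₀
  haveI hUn : U.Normal := by
    refine ⟨fun u hu g => ?_⟩
    rw [Subgroup.mem_subgroupOf] at hu ⊢
    have hu' : (u : G) ∈ N ⊔ (P : Subgroup G) := hu
    rw [← SetLike.mem_coe, Subgroup.normal_mul, Set.mem_mul] at hu'
    obtain ⟨n, hn, y, hy, hu2⟩ := hu'
    have hgN := hHN g.2
    rw [Subgroup.mem_normalizer_iff] at hgN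
    have h5 : ((g * u * g⁻¹ : H₀) : G) = ((g : G) * n * (g : G)⁻¹) * ((g : G) * y * (g : G)⁻¹) := by
      push_cast
      rw [← hu2]
      group
    rw [h5]
    exact L.mul_mem (hNL (hN.conj_mem n hn _)) (hPL ((hgN y).1 hy))
  letI : Fintype U := Fintype.ofFinite _
  -- the sum over `U`
  have h4 : (∑ u : U, (res H₀ f).coeff u) ∉ locI hP := by
    refine sum_coeff_notMem hM U (res H₀ f) ?_ ?_
    · intro ψ _
      exact om_res_principal hM P.isPGroup' hPH hCH hHN ψ
    · intro ψ hψ hker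
      -- `ψ` is trivial on `P` and on `O`
      let O' : Subgroup H₀ := O.subgroupOf H₀
      have hOH : O ≤ H₀ := le_trans hOC hCH
      haveI hO'n : O'.Normal := by
        refine ⟨fun o ho g => ?_⟩
        rw [Subgroup.mem_subgroupOf] at ho ⊢
        obtain ⟨y, hy, o₁, ho₁, hg⟩ := hdec (g : G) g.2
        have h5 : ((g * o * g⁻¹ : H₀) : G) = y * (o₁ * (o : G) * o₁⁻¹) * y⁻¹ := by
          push_cast
          rw [hg]
          group
        rw [h5]
        have h6 : o₁ * (o : G) * o₁⁻¹ ∈ O := hOn o₁ (hOC ho₁) _ ho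
        have h7 : y * (o₁ * (o : G) * o₁⁻¹) = (o₁ * (o : G) * o₁⁻¹) * y :=
          (Subgroup.mem_centralizer_iff.1 (hOC h6) y hy)
        rw [h7, mul_inv_cancel_right]
        exact h6
      have hO'p : ¬ p ∣ Nat.card O' := by
        have h5 : Nat.card O' = Nat.card O := Nat.card_congr (Subgroup.subgroupOfEquivOfLe hOH).toEquiv
        rwa [h5]
      have hall : ∀ x : H₀, (ψ : H₀ → ℂ) x = (ψ : H₀ → ℂ) 1 := by
        intro x
        obtain ⟨y, hy, o, ho, hx⟩ := hdec (x : G) x.2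
        have hyU : (⟨y, hPH hy⟩ : H₀) ∈ U := by
          rw [Subgroup.mem_subgroupOf]
          exact hPL hy
        have hoU : (⟨o, hOH ho⟩ : H₀) ∈ O' := by
          rw [Subgroup.mem_subgroupOf]
          exact ho
        have h5 := hker _ hyU
        have h6 := principal_ker hM O' hO'p hψ hoU
        have h7 : x = (⟨y, hPH hy⟩ : H₀) * ⟨o, hOH ho⟩ := Subtype.ext hx
        rw [h7, KP.char_mul_of_ker ψ.2 h5, h6]
      by_contra hne
      have h5 : (ψ : H₀ → ℂ) ≠ ((oneIrr H₀ : IrrCharacter H₀) : H₀ → ℂ) := fun h => hne (Subtype.ext h)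
      have h6 := classInner_irr_ne ψ.2 (oneIrr H₀).2 h5
      have h7 : ((oneIrr H₀ : IrrCharacter H₀) : H₀ → ℂ) = fun _ => 1 := rfl
      rw [classInner_def, h7] at h6
      simp only [hall, map_one, mul_one, Finset.sum_const, Finset.card_univ] at h6
      have h8 : (Nat.card H₀ : ℂ) ≠ 0 := by exact_mod_cast Nat.card_pos.ne'
      have h9 := ψ.2.map_one_ne_zero
      simp only [nsmul_eq_mul, ← Nat.card_eq_fintype_card] at h6
      rcases mul_eq_zero.1 h6 with h10 | h10
      · exact inv_ne_zero h8 h10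
      · rcases mul_eq_zero.1 h10 with h11 | h11
        · exact h8 h11
        · exact h9 h11
  -- compare sums over `L` and over `L ∩ H₀`
  have hcl : ∀ (r : (P : Subgroup G)) (y : G), f.coeff ((r : G) * y * (r : G)⁻¹) = f.coeff y :=
    fun r y => hfc.conj y r
  have h5 := sX_sub_mem hM P.isPGroup' (fun g => f.coeff g) hfs hcl (X := L) (Y := L ⊓ H₀) hPL (le_inf hPL hPH)
    (fun y hy => ⟨fun h => ⟨h, hCH hy⟩, fun h => h.1⟩)
  letI : Fintype ↥(L ⊓ H₀) := Fintype.ofFinite _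
  have h6 : sX (fun g => f.coeff g) (L ⊓ H₀) = ∑ u : U, (res H₀ f).coeff u := by
    rw [sX_eq]
    symm
    refine Fintype.sum_bijective (fun u : U => (⟨((u : H₀) : G), ?_, (u : H₀).2⟩ : ↥(L ⊓ H₀))) ?_ _ _ ?_
    · exact Subgroup.mem_subgroupOf.1 u.2
    · constructor
      · intro a b hab
        apply Subtype.ext
        apply Subtype.ext
        exact congrArg (fun z : ↥(L ⊓ H₀) => (z : G)) hab
      · rintro ⟨x, hx1, hx2⟩
        exact ⟨⟨⟨x, hx2⟩, Subgroup.mem_subgroupOf.2 hx1⟩, rfl⟩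
    · intro u
      rfl
  have h7 : sX (fun g => f.coeff g) L = om ((oneIrr L : IrrCharacter L) : L → ℂ) (res L f) := by
    rw [sX_eq, om_oneIrr]
    rfl
  have h8 : om (η : L → ℂ) (res L f) ∉ locI hP := by
    intro hc
    rw [h1] at hc
    have h9 := (locI hP).sub_mem hc h3
    rw [sub_sub_cancel, ← h2, ← h7] at h9
    have h10 := (locI hP).sub_mem h9 h5
    rw [sub_sub_cancel, h6] at h10
    exact h4 h10
  -- pass to the number `n_B`
  obtain ⟨n, hn⟩ := nB_natCast (principalBlock M G) (ξ := η)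
  rw [hf, om_res_fB, hn, indFun_one] at h8
  have hη1 : (η : L → ℂ) 1 = ((charDegree (θ : N → ℂ) : ℕ) : ℂ) := by
    have h9 := hη 1
    rw [map_one] at h9
    rw [coe_charDegree θ.2.isCharacter, ← h9]
  have hLp : ¬ p ∣ L.index := by
    intro h
    exact P.not_dvd_index (h.trans (Subgroup.index_dvd_of_le hPL))
  have hDp : ¬ p ∣ L.index * charDegree (θ : N → ℂ) := by
    intro h
    rcases (Nat.Prime.dvd_mul hp.out).1 h with h9 | h9
    · exact hLp h9
    · exact hdeg h9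
  have hnp : ¬ p ∣ n := by
    intro h
    apply h8
    rw [hη1, div_eq_mul_inv]
    have h9 : ((L.index : ℂ) * ((charDegree (θ : N → ℂ) : ℕ) : ℂ))⁻¹ ∈ locR hP := by
      have h10 := natCast_inv_mem hM hDp
      push_cast at h10
      exact h10
    exact locI_mul_right hP h9 ((natCast_mem_locI_iff hM n).2 h)
  -- choose a constituent
  have hind := isCharacter_indFun L η.2.isCharacter
  have hnat : ∀ χ : IrrCharacter G, ∃ m : ℕ, classInner (indFun L (η : L → ℂ)) (χ : G → ℂ) = m :=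
    fun χ => hind.classInner_nat χ.2
  choose a ha using hnat
  have hsum : (∑ χ : IrrCharacter G, if χ ∈ principalBlock M G then a χ * charDegree (χ : G → ℂ) else 0) = n := by
    have h9 : ((∑ χ : IrrCharacter G, if χ ∈ principalBlock M G then a χ * charDegree (χ : G → ℂ) else 0 : ℕ) : ℂ) = n := by
      rw [← hn, nB]
      push_cast
      refine Finset.sum_congr rfl fun χ _ => ?_
      split_ifs
      · rw [ha, coe_charDegree χ.2.isCharacter]
      · rfl
    exact_mod_cast h9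
  have hex : ∃ χ : IrrCharacter G, χ ∈ principalBlock M G ∧ ¬ p ∣ a χ * charDegree (χ : G → ℂ) := by
    by_contra hc
    push Not at hc
    apply hnp
    rw [← hsum]
    refine Finset.dvd_sum fun χ _ => ?_
    split_ifs with h9
    · exact hc χ h9
    · exact dvd_zero p
  obtain ⟨χ, hχ, hχp⟩ := hex
  refine ⟨χ, hχ, fun h => hχp (Dvd.dvd.mul_left h _), ?_⟩
  have ha0 : a χ ≠ 0 := by
    intro h
    apply hχp
    rw [h, zero_mul]
    exact dvd_zero p
  have h9 : classInner (fun h : L => (χ : G → ℂ) h) (η : L → ℂ) ≠ 0 := by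
    intro h
    apply ha0
    have h10 := ha χ
    rw [frobenius L _ χ.2.isClassFunction, ← conj_classInner, h, map_zero] at h10
    exact_mod_cast h10.symm
  exact FR.cons_of_res (Subgroup.inclusion hNL) (χ.2.isCharacter.restrict L) θ.2 hη h9

end Main

end CfsgLib.Char.PO
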