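import Cfsg.Agent.Lib.Char.Lin10
import Cfsg.Agent.Lib.SS.FPF2

/-!
# Multiplicativity of irreducible characters on coprime prime-power elements
-/

set_option linter.unusedSectionVars false
set_option linter.style.haveILetI false
set_option linter.unusedSimpArgs false
set_option linter.unusedVariables false

namespace CfsgLib.Char

open Cfsg
open scoped ComplexConjugate Pointwise commutatorElement

universe u

section

variable {G : Type u} [Group G] [Fintype G]

theorem norm_linear_eq_one {χ : G → ℂ} (hχ : IsIrrCharacter G χ) (h1 : χ 1 = 1) (g : G) : ‖χ g‖ = 1 := by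
  obtain ⟨l, hl⟩ := exists_hom_of_degree_one hχ.isCharacter h1
  rw [hl]
  have h2 : ((l g : ℂˣ) : ℂ) ^ orderOf g = 1 := by
    rw [← Units.val_pow_eq_pow_val, ← map_pow, pow_orderOf_eq_one, map_one, Units.val_one]
  exact Complex.norm_eq_one_of_pow_eq_one h2 (orderOf_pos g).ne'

open scoped Classical in
theorem sum_split (g : G) :
    (Nat.card (Subgroup.centralizer ({g} : Set G)) : ℝ) = ((commutator G).index : ℝ) +
      ∑ ψ ∈ Finset.univ.filter (fun ψ : IrrCharacter G => (ψ : G → ℂ) 1 ≠ 1), ‖(ψ : G → ℂ) g‖ ^ 2 := by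
  have h1 := column_orthogonality (G := G) g g
  rw [if_pos (IsConj.refl g)] at h1
  have h2 : ∑ ψ : IrrCharacter G, ‖(ψ : G → ℂ) g‖ ^ 2 = (Nat.card (Subgroup.centralizer ({g} : Set G)) : ℝ) := by
    have h3 : ((∑ ψ : IrrCharacter G, ‖(ψ : G → ℂ) g‖ ^ 2 : ℝ) : ℂ) =
        ((Nat.card (Subgroup.centralizer ({g} : Set G)) : ℝ) : ℂ) := by
      push_cast
      rw [← h1]
      refine Finset.sum_congr rfl fun ψ _ => ?_
      rw [Complex.mul_conj, Complex.normSq_eq_norm_sq]
      push_cast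
      rfl
    exact_mod_cast h3
  rw [← h2, ← Finset.sum_filter_add_sum_filter_not Finset.univ (fun ψ : IrrCharacter G => (ψ : G → ℂ) 1 = 1)]
  congr 1
  have h4 : ∀ ψ ∈ Finset.univ.filter (fun ψ : IrrCharacter G => (ψ : G → ℂ) 1 = 1), ‖(ψ : G → ℂ) g‖ ^ 2 = 1 := by
    intro ψ hψ
    rw [norm_linear_eq_one ψ.2 (Finset.mem_filter.mp hψ).2]
    simp
  rw [Finset.sum_congr rfl h4, Finset.sum_const, nsmul_eq_mul, mul_one]
  have h5 := card_linear_eq_index (G := G)
  rw [← h5, Nat.card_eq_fintype_card, Fintype.card_subtype]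

theorem nonlinear_vanish_of_card_le (g : G)
    (h : Nat.card (Subgroup.centralizer ({g} : Set G)) ≤ (commutator G).index) {χ : G → ℂ}
    (hχ : IsIrrCharacter G χ) (h1 : χ 1 ≠ 1) : χ g = 0 := by
  classical
  have h2 := sum_split g
  have h3 : (Nat.card (Subgroup.centralizer ({g} : Set G)) : ℝ) ≤ ((commutator G).index : ℝ) := by
    exact_mod_cast h
  have h4 : ∑ ψ ∈ Finset.univ.filter (fun ψ : IrrCharacter G => (ψ : G → ℂ) 1 ≠ 1), ‖(ψ : G → ℂ) g‖ ^ 2 ≤ 0 := by
    linarith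
  have h5 : ‖χ g‖ ^ 2 ≤ 0 := by
    have h6 := Finset.single_le_sum (f := fun ψ : IrrCharacter G => ‖(ψ : G → ℂ) g‖ ^ 2)
      (s := Finset.univ.filter (fun ψ : IrrCharacter G => (ψ : G → ℂ) 1 ≠ 1))
      (fun ψ _ => by positivity) (Finset.mem_filter.mpr ⟨Finset.mem_univ ⟨χ, hχ⟩, h1⟩)
    exact h6.trans h4
  have h7 : ‖χ g‖ = 0 := by
    have := sq_nonneg ‖χ g‖
    nlinarith [norm_nonneg (χ g)]
  simpa using h7

theorem card_centralizer_of_vanish (g : G)
    (h : ∀ χ : IrrCharacter G, (χ : G → ℂ) 1 ≠ 1 → (χ : G → ℂ) g = 0) :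
    Nat.card (Subgroup.centralizer ({g} : Set G)) = (commutator G).index := by
  classical
  have h2 := sum_split g
  have h3 : ∑ ψ ∈ Finset.univ.filter (fun ψ : IrrCharacter G => (ψ : G → ℂ) 1 ≠ 1), ‖(ψ : G → ℂ) g‖ ^ 2 = 0 := by
    refine Finset.sum_eq_zero fun ψ hψ => ?_
    rw [h ψ (Finset.mem_filter.mp hψ).2]
    simp
  rw [h3, add_zero] at h2
  exact_mod_cast h2

/-- If `C_G(g)` has size the index of the derived group, the class of `g` is the coset `g G'`. -/
theorem class_eq_coset (g : G)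
    (h : Nat.card (Subgroup.centralizer ({g} : Set G)) = (commutator G).index) (w : G)
    (hw : w ∈ commutator G) : ∃ c : G, c * g * c⁻¹ = g * w := by
  classical
  have h1 := card_class_mul_card_centralizer g
  have h2 := Subgroup.card_mul_index (commutator G)
  rw [h] at h1
  have hpos : 0 < (commutator G).index := Nat.pos_of_ne_zero Subgroup.index_ne_zero_of_finite
  have h3 : Nat.card {x // IsConj g x} = Nat.card (commutator G) := by
    have h4 : Nat.card {x // IsConj g x} * (commutator G).index = Nat.card (commutator G) * (commutator G).index := by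
      rw [h1, h2]
    exact Nat.eq_of_mul_eq_mul_right hpos h4
  let f : {x // IsConj g x} → commutator G := fun u => ⟨g⁻¹ * u.1, by
    obtain ⟨c, hc⟩ := isConj_iff.mp u.2
    rw [← hc]
    have h5 : g⁻¹ * (c * g * c⁻¹) = ⁅g⁻¹, c⁆ := by
      simp only [commutatorElement_def]
      group
    rw [h5]
    exact Subgroup.commutator_mem_commutator (Subgroup.mem_top _) (Subgroup.mem_top _)⟩
  have hinj : Function.Injective f := by
    intro u v huv
    apply Subtype.ext
    have : g⁻¹ * u.1 = g⁻¹ * v.1 := congrArg Subtype.val huv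
    exact mul_left_cancel this
  have hsurj := (hinj.bijective_of_nat_card_le h3.ge).2
  obtain ⟨u, hu⟩ := hsurj ⟨w, hw⟩
  obtain ⟨c, hc⟩ := isConj_iff.mp u.2
  refine ⟨c, ?_⟩
  rw [hc]
  have : g⁻¹ * u.1 = w := congrArg Subtype.val hu
  rw [← this]
  group

theorem product_vanish {χ : G → ℂ} (hχ : IsIrrCharacter G χ) (h1 : χ 1 ≠ 1) (x y : G)
    (h : ∀ c : G, χ (c * x * c⁻¹ * y) = χ x * χ y) : χ x * χ y = 0 := by
  have h2 := avg_conj hχ x y
  have h3 : ∑ c : G, χ (c * x * c⁻¹ * y) = (Nat.card G : ℂ) * (χ x * χ y) := by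
    rw [Finset.sum_congr rfl fun c _ => h c, Finset.sum_const, Finset.card_univ, nsmul_eq_mul,
      Nat.card_eq_fintype_card]
  rw [h3] at h2
  have h4 : (Nat.card G : ℂ) ≠ 0 := by exact_mod_cast (Nat.card_pos (α := G)).ne'
  have h5 : (Nat.card G : ℂ) * ((χ x * χ y) * (χ 1 - 1)) = 0 := by
    linear_combination h2
  rcases mul_eq_zero.mp h5 with h6 | h6
  · exact absurd h6 h4
  · rcases mul_eq_zero.mp h6 with h7 | h7
    · exact h7
    · exact absurd (sub_eq_zero.mp h7) h1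

end

section Direct

variable {G : Type u} [Group G] [Finite G]

theorem orderOf_conj_eq (c x : G) : orderOf (c * x * c⁻¹) = orderOf x := by
  have := orderOf_injective (MulAut.conj c).toMonoidHom (MulAut.conj c).injective x
  simpa [MulAut.conj_apply] using this

theorem orderOf_eq_of_isConj {x y : G} (h : IsConj x y) : orderOf x = orderOf y := by
  obtain ⟨c, hc⟩ := isConj_iff.mp h
  rw [← hc, orderOf_conj_eq]

/-- Structure from the product condition. -/
theorem structure_of_prod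
    (h : ∀ (x y : G) (χ : IrrCharacter G), x ≠ 1 → y ≠ 1 →
      (∃ p q a b : ℕ, p.Prime ∧ q.Prime ∧ p ≠ q ∧ orderOf x = p ^ a ∧ orderOf y = q ^ b) →
      (χ : G → ℂ) (x * y) = (χ : G → ℂ) x * (χ : G → ℂ) y)
    (hpg : ¬ ∃ p : ℕ, p.Prime ∧ IsPGroup p G) (hab : ¬ IsMulCommutative G) :
    ∃ (p : ℕ) (_ : Fact p.Prime) (P : Sylow p G) (A : Subgroup G), (P : Subgroup G).Normal ∧
      IsCyclic ↥A ∧ A ≠ ⊥ ∧ (Nat.card ↥A).Coprime p ∧ A ⊔ (P : Subgroup G) = ⊤ ∧
      IsMulCommutative ↥((P : Subgroup G) ⊓ Subgroup.centralizer (A : Set G)) ∧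
      (⁅A, (P : Subgroup G)⁆).Normal ∧
      ((P : Subgroup G) ⊓ Subgroup.centralizer (A : Set G)) ⊔ ⁅A, (P : Subgroup G)⁆ = (P : Subgroup G) ∧
      ((P : Subgroup G) ⊓ Subgroup.centralizer (A : Set G)) ⊓ ⁅A, (P : Subgroup G)⁆ = ⊥ ∧
      ∀ a ∈ A, a ≠ 1 → ∀ d ∈ ⁅A, (P : Subgroup G)⁆, a * d = d * a → d = 1 := by
  classical
  cases nonempty_fintype G
  -- Step 1/2: the class of a product is a coset
  have hpair : ∀ (x y : G), x ≠ 1 → y ≠ 1 →
      (∃ p q a b : ℕ, p.Prime ∧ q.Prime ∧ p ≠ q ∧ orderOf x = p ^ a ∧ orderOf y = q ^ b) →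
      ∀ w ∈ commutator G, ∃ c : G, c * (x * y) * c⁻¹ = (x * y) * w := by
    intro x y hx hy hxy w hw
    refine class_eq_coset (x * y) (card_centralizer_of_vanish (x * y) fun χ hχ => ?_) w hw
    rw [h x y χ hx hy hxy]
    refine product_vanish χ.2 hχ x y fun c => ?_
    obtain ⟨p, q, a, b, hp, hq, hpq, ha, hb⟩ := hxy
    have hcx : c * x * c⁻¹ ≠ 1 := by
      intro h0
      apply hx
      have : x = c⁻¹ * (c * x * c⁻¹) * c := by group
      rw [this, h0]
      group
    rw [h _ y χ hcx hy ⟨p, q, a, b, hp, hq, hpq, by rw [orderOf_conj_eq, ha], hb⟩]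
    congr 1
    exact χ.2.isClassFunction x c
  -- derived group is nontrivial
  have hG' : commutator G ≠ ⊥ := by
    intro h0
    apply hab
    refine ⟨⟨fun a b => ?_⟩⟩
    have h1 : ⁅a, b⁆ ∈ commutator G := Subgroup.commutator_mem_commutator (Subgroup.mem_top _) (Subgroup.mem_top _)
    rw [h0, Subgroup.mem_bot, commutatorElement_eq_one_iff_mul_comm] at h1
    exact h1
  obtain ⟨p, hp, hpd⟩ : ∃ p, p.Prime ∧ p ∣ Nat.card (commutator G) := by
    apply Nat.exists_prime_and_dvd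
    intro h1
    exact hG' (Subgroup.card_eq_one.mp h1)
  haveI hpf : Fact p.Prime := ⟨hp⟩
  have hunique : ∀ q : ℕ, q.Prime → q ∣ Nat.card (commutator G) → q = p := by
    intro q hq hqd
    by_contra hne
    haveI : Fact q.Prime := ⟨hq⟩
    obtain ⟨x, hx⟩ := exists_prime_orderOf_dvd_card' p hpd
    obtain ⟨y, hy⟩ := exists_prime_orderOf_dvd_card' q hqd
    have hx1 : (x : G) ≠ 1 := by
      intro h0
      have h1 : x = 1 := Subtype.ext h0
      rw [h1, orderOf_one] at hx
      exact hp.one_lt.ne hx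
    have hy1 : (y : G) ≠ 1 := by
      intro h0
      have h1 : y = 1 := Subtype.ext h0
      rw [h1, orderOf_one] at hy
      exact hq.one_lt.ne hy
    have hox : orderOf (x : G) = p ^ 1 := by rw [pow_one, Subgroup.orderOf_coe, hx]
    have hoy : orderOf (y : G) = q ^ 1 := by rw [pow_one, Subgroup.orderOf_coe, hy]
    obtain ⟨c, hc⟩ := hpair x y hx1 hy1 ⟨p, q, 1, 1, hp, hq, Ne.symm hne, hox, hoy⟩ ((x : G) * y)⁻¹
      ((commutator G).inv_mem ((commutator G).mul_mem x.2 y.2))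
    rw [mul_inv_cancel] at hc
    have h1 : (x : G) * y = 1 := by
      have : (x : G) * y = c⁻¹ * (c * (x * y) * c⁻¹) * c := by group
      rw [this, hc]
      group
    have h2 : (x : G) = (y : G)⁻¹ := eq_inv_of_mul_eq_one_left h1
    rw [h2, orderOf_inv] at hox
    rw [hoy] at hox
    simp only [pow_one] at hox
    exact hne hox
  have hcard : Nat.card (commutator G) ≠ 0 := Nat.card_pos.ne'
  have hG'p : IsPGroup p (commutator G) := by
    refine IsPGroup.of_card (n := (Nat.card (commutator G)).primeFactorsList.length) ?_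
    exact Nat.eq_prime_pow_of_unique_prime_dvd hcard (fun {d} hd hdd => hunique d hd hdd)
  -- elements of order prime to `p` act fixed-point-freely
  obtain ⟨x₀, hx₀⟩ := exists_prime_orderOf_dvd_card' p hpd
  have hx₀1 : (x₀ : G) ≠ 1 := by
    intro h0
    have h1 : x₀ = 1 := Subtype.ext h0
    rw [h1, orderOf_one] at hx₀
    exact hp.one_lt.ne hx₀
  have hox₀ : orderOf (x₀ : G) = p ^ 1 := by rw [pow_one, Subgroup.orderOf_coe, hx₀]
  have hfpf₀ : ∀ (r b : ℕ), r.Prime → r ≠ p → ∀ y : G, y ≠ 1 → orderOf y = r ^ b →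
      ∀ z ∈ commutator G, z * y = y * z → z = 1 := by
    intro r b hr hrp y hy hoy z hz hzy
    have hpr := hpair x₀ y hx₀1 hy ⟨p, r, 1, b, hp, hr, Ne.symm hrp, hox₀, hoy⟩
    have hnorm : (commutator G).Normal := inferInstance
    have hw1 : y⁻¹ * (x₀ : G)⁻¹ * y ∈ commutator G := by
      have := hnorm.conj_mem _ ((commutator G).inv_mem x₀.2) y⁻¹
      simpa using this
    obtain ⟨c₁, hc₁⟩ := hpr _ hw1
    obtain ⟨c₂, hc₂⟩ := hpr _ ((commutator G).mul_mem hw1 hz)
    have e1 : ((x₀ : G) * y) * (y⁻¹ * (x₀ : G)⁻¹ * y) = y := by group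
    have e2 : ((x₀ : G) * y) * (y⁻¹ * (x₀ : G)⁻¹ * y * z) = y * z := by group
    rw [e1] at hc₁
    rw [e2] at hc₂
    have h1 : orderOf (y * z) = orderOf y := by
      have ea := orderOf_conj_eq c₁ ((x₀ : G) * y)
      have eb := orderOf_conj_eq c₂ ((x₀ : G) * y)
      rw [hc₁] at ea
      rw [hc₂] at eb
      rw [eb, ea]
    have hpz : IsPGroup p (Subgroup.zpowers z) := by
      rw [IsPGroup.iff_card, Nat.card_zpowers]
      have h2 := (IsPGroup.iff_orderOf.mp hG'p) ⟨z, hz⟩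
      obtain ⟨k, hk⟩ := h2
      exact ⟨k, by rw [← hk, Subgroup.orderOf_mk]⟩
    obtain ⟨k, hk⟩ := IsPGroup.iff_card.mp hpz
    rw [Nat.card_zpowers] at hk
    have hcop : Nat.Coprime (orderOf y) (orderOf z) := by
      rw [hoy, hk]
      exact Nat.Coprime.pow _ _ ((Nat.coprime_primes hr hp).mpr hrp)
    have hcomm : Commute y z := hzy.symm
    have h3 := hcomm.orderOf_mul_eq_mul_orderOf_of_coprime hcop
    rw [h1] at h3
    have h4 : orderOf z = 1 := by
      have hpos := orderOf_pos y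
      have h5 : orderOf y * 1 = orderOf y * orderOf z := by rw [mul_one]; exact h3
      exact (Nat.eq_of_mul_eq_mul_left hpos h5).symm
    exact orderOf_eq_one_iff.mp h4
  have hfpf : ∀ a : G, a ≠ 1 → Nat.Coprime (orderOf a) p → ∀ z ∈ commutator G, z * a = a * z → z = 1 := by
    intro a ha hcop z hz hza
    have hne : orderOf a ≠ 1 := fun h0 => ha (orderOf_eq_one_iff.mp h0)
    obtain ⟨r, hr, hrd⟩ := Nat.exists_prime_and_dvd hne
    have hrp : r ≠ p := by
      rintro rfl
      exact hr.one_lt.ne' (Nat.eq_one_of_dvd_coprimes hcop hrd (dvd_refl _))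
    have h0 : orderOf a ≠ 0 := (orderOf_pos a).ne'
    have ho := orderOf_pow_orderOf_div h0 hrd
    refine hfpf₀ r 1 hr hrp (a ^ (orderOf a / r)) ?_ (by rw [ho, pow_one]) z hz ?_
    · intro h1
      rw [h1, orderOf_one] at ho
      exact hr.one_lt.ne ho
    · exact (show Commute z a from hza).pow_right _
  -- the Sylow subgroup
  obtain ⟨P⟩ : Nonempty (Sylow p G) := inferInstance
  have hG'P : commutator G ≤ P := hG'p.le_sylow_of_normal P
  have hPn : (P : Subgroup G).Normal := by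
    constructor
    intro n hn g
    have h1 : g * n * g⁻¹ = ⁅g, n⁆ * n := by
      simp only [commutatorElement_def]
      group
    rw [h1]
    exact (P : Subgroup G).mul_mem (hG'P (Subgroup.commutator_mem_commutator (Subgroup.mem_top _) (Subgroup.mem_top _))) hn
  have hcopP : Nat.Coprime (Nat.card (P : Subgroup G)) (P : Subgroup G).index := by
    obtain ⟨k, hk⟩ := IsPGroup.iff_card.mp P.isPGroup'
    rw [hk]
    exact Nat.Coprime.pow_left _ ((Nat.Prime.coprime_iff_not_dvd hp).mpr P.not_dvd_index)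
  obtain ⟨A, hA⟩ := Subgroup.exists_right_complement'_of_coprime hcopP
  have hcardA : Nat.card A = (P : Subgroup G).index := (hA.symm.index_eq_card).symm
  have hAcop : (Nat.card A).Coprime p := by
    rw [hcardA]
    exact ((Nat.Prime.coprime_iff_not_dvd hp).mpr P.not_dvd_index).symm
  have hdisj : (P : Subgroup G) ⊓ A = ⊥ := hA.disjoint.eq_bot
  have hsup : A ⊔ (P : Subgroup G) = ⊤ := hA.symm.sup_eq_top
  have hAne : A ≠ ⊥ := by
    intro h0
    rw [h0, bot_sup_eq] at hsup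
    apply hpg
    refine ⟨p, hp, ?_⟩
    have h1 := P.isPGroup'
    rw [hsup] at h1
    exact (IsPGroup.iff_card.mpr (by
      obtain ⟨k, hk⟩ := IsPGroup.iff_card.mp h1
      exact ⟨k, by rw [← hk, Subgroup.card_top]⟩))
  have hAcomm : ∀ a ∈ A, ∀ b ∈ A, a * b = b * a := by
    intro a ha b hb
    have h1 : ⁅a, b⁆ ∈ (P : Subgroup G) := hG'P (Subgroup.commutator_mem_commutator (Subgroup.mem_top _) (Subgroup.mem_top _))
    have h2 : ⁅a, b⁆ ∈ A := by
      rw [commutatorElement_def]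
      exact A.mul_mem (A.mul_mem (A.mul_mem ha hb) (A.inv_mem ha)) (A.inv_mem hb)
    have h3 : ⁅a, b⁆ ∈ (P : Subgroup G) ⊓ A := ⟨h1, h2⟩
    rw [hdisj, Subgroup.mem_bot, commutatorElement_eq_one_iff_mul_comm] at h3
    exact h3
  have hAc : IsMulCommutative A := ⟨⟨fun a b => Subtype.ext (hAcomm a a.2 b b.2)⟩⟩
  have horderA : ∀ a ∈ A, Nat.Coprime (orderOf a) p := by
    intro a ha
    have h1 : orderOf a ∣ Nat.card A := by
      have := Subgroup.orderOf_dvd_natCard A ha
      exact this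
    exact Nat.Coprime.coprime_dvd_left h1 hAcop
  have hAfpf : ∀ a ∈ A, a ≠ 1 → ∀ z ∈ commutator G, z * a = a * z → z = 1 :=
    fun a ha ha1 => hfpf a ha1 (horderA a ha)
  have hAcopG' : (Nat.card A).Coprime (Nat.card (commutator G)) := by
    obtain ⟨k, hk⟩ := IsPGroup.iff_card.mp hG'p
    rw [hk]
    exact Nat.Coprime.pow_right _ hAcop
  have hAcyc : IsCyclic A := by
    by_contra hnc
    have hnorm : A ≤ Subgroup.normalizer ((commutator G : Subgroup G) : Set G) := by
      rw [Subgroup.normalizer_eq_top_iff.2 inferInstance]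
      exact le_top
    have h1 := CfsgLib.SS.sup_centralizers A (commutator G) hnc hnorm hAcopG'
    apply hG'
    rw [← h1]
    refine iSup₂_eq_bot.mpr ?_
    rintro a ⟨ha, ha1⟩
    rw [eq_bot_iff]
    rintro z ⟨hz, hzc⟩
    rw [Subgroup.mem_bot]
    refine hAfpf a ha ha1 z hz ?_
    have := Subgroup.mem_centralizer_singleton_iff.mp hzc
    exact this
  have hDle : ⁅A, (P : Subgroup G)⁆ ≤ commutator G := Subgroup.commutator_mono le_top le_top
  have hAP : A ≤ Subgroup.normalizer (((P : Subgroup G) : Subgroup G) : Set G) := by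
    rw [Subgroup.normalizer_eq_top_iff.2 hPn]
    exact le_top
  have hcopAP : (Nat.card A).Coprime (Nat.card (P : Subgroup G)) := by
    obtain ⟨k, hk⟩ := IsPGroup.iff_card.mp P.isPGroup'
    rw [hk]
    exact Nat.Coprime.pow_right _ hAcop
  have hsolvP : Group.IsSolvable (P : Subgroup G) := by
    haveI := P.isPGroup'.isNilpotent
    infer_instance
  have hDnorm : (⁅A, (P : Subgroup G)⁆).Normal := by
    rw [Subgroup.commutator_comm]
    rw [← Subgroup.normalizer_eq_top_iff, eq_top_iff, ← hsup]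
    exact sup_le (CfsgLib.Solv.le_normalizer_commutator_right hAP) CfsgLib.Solv.le_normalizer_commutator_left
  obtain ⟨a₀, ha₀, ha₀1⟩ := (Subgroup.bot_or_exists_ne_one A).resolve_left hAne
  have hCD : ((P : Subgroup G) ⊓ Subgroup.centralizer (A : Set G)) ⊔ ⁅A, (P : Subgroup G)⁆ = (P : Subgroup G) := by
    have h1 := CfsgLib.Solv.coprime_commutator_sup_centralizer A (P : Subgroup G) hAP hcopAP (Or.inr hsolvP)
    rw [sup_comm, Subgroup.commutator_comm]
    exact h1
  refine ⟨p, hpf, P, A, hPn, hAcyc, hAne, hAcop, hsup, ?_, hDnorm, hCD, ?_, ?_⟩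
  · refine ⟨⟨fun u v => ?_⟩⟩
    apply Subtype.ext
    have hu := u.2.2
    have hv := v.2.2
    have hcu : (u : G) * a₀ = a₀ * u := (Subgroup.mem_centralizer_iff.mp hu a₀ ha₀).symm
    have hcv : (v : G) * a₀ = a₀ * v := (Subgroup.mem_centralizer_iff.mp hv a₀ ha₀).symm
    have h1 : ⁅(u : G), (v : G)⁆ ∈ commutator G :=
      Subgroup.commutator_mem_commutator (Subgroup.mem_top _) (Subgroup.mem_top _)
    have h2 : ⁅(u : G), (v : G)⁆ * a₀ = a₀ * ⁅(u : G), (v : G)⁆ := by
      have e : Commute (u : G) a₀ := hcu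
      have e' : Commute (v : G) a₀ := hcv
      rw [commutatorElement_def]
      exact ((((e.mul_left e').mul_left e.inv_left).mul_left e'.inv_left))
    have h3 := hAfpf a₀ ha₀ ha₀1 _ h1 h2
    rw [commutatorElement_eq_one_iff_mul_comm] at h3
    exact h3
  · rw [eq_bot_iff]
    rintro x ⟨⟨_, hxc⟩, hxD⟩
    rw [Subgroup.mem_bot]
    exact hAfpf a₀ ha₀ ha₀1 x (hDle hxD) ((Subgroup.mem_centralizer_iff.mp hxc a₀ ha₀).symm)
  · intro a ha ha1 d hd had
    exact hAfpf a ha ha1 d (hDle hd) had.symm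

theorem prime_eq_of_pow_eq_one {x : G} {p₁ a p k : ℕ} (hp₁ : p₁.Prime) (hp : p.Prime) (hx : x ≠ 1)
    (ha : orderOf x = p₁ ^ a) (hk : x ^ p ^ k = 1) : p₁ = p := by
  have h1 : orderOf x ∣ p ^ k := orderOf_dvd_of_pow_eq_one hk
  have ha0 : a ≠ 0 := by
    rintro rfl
    rw [pow_zero] at ha
    exact hx (orderOf_eq_one_iff.mp ha)
  rw [ha] at h1
  exact (Nat.prime_dvd_prime_iff_eq hp₁ hp).mp (hp₁.dvd_of_dvd_pow ((dvd_pow_self p₁ ha0).trans h1))

theorem prod_of_structure (p : ℕ) [hpf : Fact p.Prime] (P : Sylow p G) (A : Subgroup G)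
    (hPn : (P : Subgroup G).Normal) (hAcyc : IsCyclic ↥A) (hAcop : (Nat.card ↥A).Coprime p)
    (hsup : A ⊔ (P : Subgroup G) = ⊤)
    (hC : IsMulCommutative ↥((P : Subgroup G) ⊓ Subgroup.centralizer (A : Set G)))
    (hDn : (⁅A, (P : Subgroup G)⁆).Normal)
    (hCD : ((P : Subgroup G) ⊓ Subgroup.centralizer (A : Set G)) ⊔ ⁅A, (P : Subgroup G)⁆ = (P : Subgroup G))
    (hfpf : ∀ a ∈ A, a ≠ 1 → ∀ d ∈ ⁅A, (P : Subgroup G)⁆, a * d = d * a → d = 1)
    (x y : G) (χ : IrrCharacter G) (hx : x ≠ 1) (hy : y ≠ 1)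
    (hxy : ∃ p q a b : ℕ, p.Prime ∧ q.Prime ∧ p ≠ q ∧ orderOf x = p ^ a ∧ orderOf y = q ^ b) :
    (χ : G → ℂ) (x * y) = (χ : G → ℂ) x * (χ : G → ℂ) y := by
  classical
  cases nonempty_fintype G
  have hp : p.Prime := hpf.out
  set D : Subgroup G := ⁅A, (P : Subgroup G)⁆ with hD
  set C : Subgroup G := (P : Subgroup G) ⊓ Subgroup.centralizer (A : Set G) with hCdef
  haveI : D.Normal := hDn
  haveI : (P : Subgroup G).Normal := hPn
  by_cases hlin : (χ : G → ℂ) 1 = 1
  · obtain ⟨l, hl⟩ := exists_hom_of_degree_one χ.2.isCharacter hlin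
    rw [hl]
    simp
  -- decomposition of elements
  have hdec : ∀ g : G, ∃ a ∈ A, ∃ c ∈ C, ∃ d ∈ D, g = a * c * d := by
    intro g
    have h1 : g ∈ ((A ⊔ (P : Subgroup G) : Subgroup G) : Set G) := by
      rw [hsup]
      exact Subgroup.mem_top _
    rw [Subgroup.mul_normal] at h1
    obtain ⟨a, ha, u, hu, rfl⟩ := Set.mem_mul.mp h1
    have h2 : u ∈ ((C ⊔ D : Subgroup G) : Set G) := by
      rw [hCD]
      exact hu
    rw [Subgroup.mul_normal] at h2
    obtain ⟨c, hc, d, hd, rfl⟩ := Set.mem_mul.mp h2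
    exact ⟨a, ha, c, hc, d, hd, by group⟩
  have hAcomm : ∀ a ∈ A, ∀ b ∈ A, a * b = b * a := by
    intro a ha b hb
    have := hAcyc.commutative.is_comm.comm (⟨a, ha⟩ : A) ⟨b, hb⟩
    exact congrArg Subtype.val this
  have hCcomm : ∀ a ∈ C, ∀ b ∈ C, a * b = b * a := by
    intro a ha b hb
    have := hC.is_comm.comm (⟨a, ha⟩ : C) ⟨b, hb⟩
    exact congrArg Subtype.val this
  have hACcomm : ∀ a ∈ A, ∀ c ∈ C, a * c = c * a := by
    intro a ha c hc
    exact Subgroup.mem_centralizer_iff.mp hc.2 a ha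
  have hG'D : commutator G ≤ D := by
    rw [commutator_def, Subgroup.commutator_le]
    intro g _ g' _
    obtain ⟨a, ha, c, hc, d, hd, rfl⟩ := hdec g
    obtain ⟨a', ha', c', hc', d', hd', rfl⟩ := hdec g'
    rw [← QuotientGroup.eq_one_iff]
    have hd1 : ((d : G) : G ⧸ D) = 1 := (QuotientGroup.eq_one_iff _).mpr hd
    have hd2 : ((d' : G) : G ⧸ D) = 1 := (QuotientGroup.eq_one_iff _).mpr hd'
    simp only [commutatorElement_def, QuotientGroup.mk_mul, QuotientGroup.mk_inv, hd1, hd2, mul_one]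
    have e1 : ((a : G) : G ⧸ D) * ((a' : G) : G ⧸ D) = ((a' : G) : G ⧸ D) * ((a : G) : G ⧸ D) := by
      rw [← QuotientGroup.mk_mul, ← QuotientGroup.mk_mul, hAcomm a ha a' ha']
    have e2 : ((c : G) : G ⧸ D) * ((c' : G) : G ⧸ D) = ((c' : G) : G ⧸ D) * ((c : G) : G ⧸ D) := by
      rw [← QuotientGroup.mk_mul, ← QuotientGroup.mk_mul, hCcomm c hc c' hc']
    have e3 : ((a : G) : G ⧸ D) * ((c' : G) : G ⧸ D) = ((c' : G) : G ⧸ D) * ((a : G) : G ⧸ D) := by
      rw [← QuotientGroup.mk_mul, ← QuotientGroup.mk_mul, hACcomm a ha c' hc']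
    have e4 : ((a' : G) : G ⧸ D) * ((c : G) : G ⧸ D) = ((c : G) : G ⧸ D) * ((a' : G) : G ⧸ D) := by
      rw [← QuotientGroup.mk_mul, ← QuotientGroup.mk_mul, hACcomm a' ha' c hc]
    generalize ((a : G) : G ⧸ D) = α at *
    generalize ((a' : G) : G ⧸ D) = α' at *
    generalize ((c : G) : G ⧸ D) = γ at *
    generalize ((c' : G) : G ⧸ D) = γ' at *
    have key : α * γ * (α' * γ') = α' * γ' * (α * γ) := by
      calc α * γ * (α' * γ') = α * (γ * α') * γ' := by group
        _ = α * (α' * γ) * γ' := by rw [e4]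
        _ = (α * α') * (γ * γ') := by group
        _ = (α' * α) * (γ' * γ) := by rw [e1, e2]
        _ = α' * (α * γ') * γ := by group
        _ = α' * (γ' * α) * γ := by rw [e3]
        _ = _ := by group
    rw [mul_inv_eq_one, mul_inv_eq_iff_eq_mul]
    exact key
  have hdisj : (P : Subgroup G) ⊓ A = ⊥ := by
    apply Subgroup.inf_eq_bot_of_coprime
    obtain ⟨k, hk⟩ := IsPGroup.iff_card.mp P.isPGroup'
    rw [hk]
    exact Nat.Coprime.pow_left _ hAcop.symm
  have hmemP : ∀ (g : G) (k : ℕ), g ^ p ^ k = 1 → g ∈ (P : Subgroup G) := by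
    intro g k hg
    obtain ⟨T, hT⟩ := exists_sylow_mem p g k hg
    have : T = P := by
      letI := Sylow.unique_of_normal P hPn
      exact Subsingleton.elim _ _
    rwa [this] at hT
  -- fixed point freeness for all elements outside `P`
  have hfix : ∀ g : G, g ∉ (P : Subgroup G) → ∀ d ∈ D, d * g = g * d → d = 1 := by
    intro g hg d hd hdg
    obtain ⟨e, n', hn', ho⟩ := Nat.exists_eq_pow_mul_and_not_dvd (orderOf_pos g).ne' p hp.ne_one
    have hg0 : g ^ p ^ e ≠ 1 := fun h0 => hg (hmemP g e h0)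
    have hn'pos : 0 < n' := by
      apply Nat.pos_of_ne_zero
      rintro rfl
      rw [mul_zero] at ho
      exact (orderOf_pos g).ne' ho
    have hord : orderOf (g ^ p ^ e) = n' := by
      have h1 : n' ∣ orderOf g := ⟨p ^ e, by rw [ho]; ring⟩
      have h2 := orderOf_pow_orderOf_div (orderOf_pos g).ne' h1
      have h3 : orderOf g / n' = p ^ e := by
        rw [ho]
        exact Nat.mul_div_cancel _ hn'pos
      rwa [h3] at h2
    set g₀ := g ^ p ^ e with hg₀
    have h1 : g₀ ∈ ((A ⊔ (P : Subgroup G) : Subgroup G) : Set G) := by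
      rw [hsup]
      exact Subgroup.mem_top _
    rw [Subgroup.mul_normal] at h1
    obtain ⟨a, ha, u, hu, hau⟩ := Set.mem_mul.mp h1
    have hcopn : Nat.Coprime n' p := ((Nat.Prime.coprime_iff_not_dvd hp).mpr hn').symm
    have hordP : ∀ w ∈ (P : Subgroup G), ∃ k, orderOf w = p ^ k := by
      intro w hw
      obtain ⟨k, hk⟩ := (IsPGroup.iff_orderOf.mp P.isPGroup') ⟨w, hw⟩
      exact ⟨k, by rw [← hk, Subgroup.orderOf_mk]⟩
    have ha1 : a ≠ 1 := by
      rintro rfl
      rw [one_mul] at hau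
      obtain ⟨k, hk⟩ := hordP u hu
      rw [hau, hord] at hk
      by_cases hk0 : k = 0
      · rw [hk0, pow_zero] at hk
        rw [hk] at hord
        exact hg0 (orderOf_eq_one_iff.mp hord)
      · exact hn' (by
          rw [hk]
          exact dvd_pow_self p hk0)
    have hanorm : a ∈ Subgroup.normalizer (((P : Subgroup G) : Subgroup G) : Set G) := by
      rw [Subgroup.normalizer_eq_top_iff.2 hPn]
      exact Subgroup.mem_top _
    have hacop : Nat.Coprime (orderOf a) (Nat.card (P : Subgroup G)) := by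
      obtain ⟨k, hk⟩ := IsPGroup.iff_card.mp P.isPGroup'
      rw [hk]
      exact Nat.Coprime.pow_right _ (Nat.Coprime.coprime_dvd_left (Subgroup.orderOf_dvd_natCard A ha) hAcop)
    obtain ⟨z, hz, c, hc, hca, hzc⟩ := exists_conj_coset_centralizer (P : Subgroup G) a hanorm hacop
      (a * u * a⁻¹) (hPn.conj_mem u hu a)
    have e1 : a * u * a⁻¹ * a = g₀ := by
      rw [← hau]
      group
    rw [e1] at hzc
    have hc1 : c = 1 := by
      have h2 : (c * a) ^ n' = 1 := by
        rw [← hzc, conj_pow, ← hord, pow_orderOf_eq_one]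
        group
      have hcomm : Commute c a := hca
      rw [hcomm.mul_pow] at h2
      have h3 : c ^ n' ∈ (P : Subgroup G) ⊓ A := by
        refine ⟨(P : Subgroup G).pow_mem hc n', ?_⟩
        rw [eq_inv_of_mul_eq_one_left h2]
        exact A.inv_mem (A.pow_mem ha _)
      rw [hdisj, Subgroup.mem_bot] at h3
      obtain ⟨k, hk⟩ := hordP c hc
      have h5 : orderOf c ∣ n' := orderOf_dvd_of_pow_eq_one h3
      have h6 : Nat.Coprime (orderOf c) n' := by
        rw [hk]
        exact Nat.Coprime.pow_left _ hcopn.symm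
      exact orderOf_eq_one_iff.mp (Nat.Coprime.eq_one_of_dvd h6 h5)
    rw [hc1, one_mul] at hzc
    have hdg₀ : d * g₀ = g₀ * d := (show Commute d g from hdg).pow_right _
    have hd' : z * d * z⁻¹ ∈ D := hDn.conj_mem d hd z
    have hcomm' : a * (z * d * z⁻¹) = (z * d * z⁻¹) * a := by
      rw [← hzc]
      calc z * g₀ * z⁻¹ * (z * d * z⁻¹) = z * (g₀ * d) * z⁻¹ := by group
        _ = z * (d * g₀) * z⁻¹ := by rw [hdg₀]
        _ = _ := by group
    have h9 := hfpf a ha ha1 _ hd' hcomm'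
    have h10 : d = z⁻¹ * (z * d * z⁻¹) * z := by group
    rw [h10, h9]
    group
  have hcard : ∀ g : G, g ∉ (P : Subgroup G) → Nat.card (Subgroup.centralizer ({g} : Set G)) ≤ (commutator G).index := by
    intro g hg
    let f : Subgroup.centralizer ({g} : Set G) → G ⧸ D := fun u => ((u : G) : G ⧸ D)
    have hf : Function.Injective f := by
      intro u v huv
      have h1 : (u : G)⁻¹ * v ∈ D := QuotientGroup.eq.mp huv
      have hu : (u : G) * g = g * u := Subgroup.mem_centralizer_singleton_iff.mp u.2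
      have hv : (v : G) * g = g * v := Subgroup.mem_centralizer_singleton_iff.mp v.2
      have h2 : ((u : G)⁻¹ * v) * g = g * ((u : G)⁻¹ * v) := by
        have e : Commute (u : G) g := hu
        have e' : Commute (v : G) g := hv
        exact e.inv_left.mul_left e'
      have h3 := hfix g hg _ h1 h2
      apply Subtype.ext
      exact (inv_mul_eq_one.mp h3)
    calc Nat.card (Subgroup.centralizer ({g} : Set G)) ≤ Nat.card (G ⧸ D) := Nat.card_le_card_of_injective f hf
      _ = D.index := (Subgroup.index_eq_card _).symm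
      _ ≤ _ := Nat.le_of_dvd (Nat.pos_of_ne_zero Subgroup.index_ne_zero_of_finite) (Subgroup.index_dvd_of_le hG'D)
  have hvan : ∀ g : G, g ∉ (P : Subgroup G) → (χ : G → ℂ) g = 0 := fun g hg =>
    nonlinear_vanish_of_card_le g (hcard g hg) χ.2 hlin
  obtain ⟨p₁, q, a, b, hp₁, hq, hne, ha, hb⟩ := hxy
  have hx' : x ^ p₁ ^ a = 1 := by
    rw [← ha]
    exact pow_orderOf_eq_one x
  have hy' : y ^ q ^ b = 1 := by
    rw [← hb]
    exact pow_orderOf_eq_one y
  have hinP : ∀ w ∈ (P : Subgroup G), ∃ k, w ^ p ^ k = 1 := by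
    intro w hw
    obtain ⟨k, hk⟩ := (IsPGroup.iff_orderOf.mp P.isPGroup') ⟨w, hw⟩
    refine ⟨k, ?_⟩
    have h1 : orderOf w = p ^ k := by rw [← hk, Subgroup.orderOf_mk]
    rw [← h1]
    exact pow_orderOf_eq_one w
  have hnot : x ∉ (P : Subgroup G) ∨ y ∉ (P : Subgroup G) := by
    by_contra hcon
    push Not at hcon
    obtain ⟨h1, h2⟩ := hcon
    obtain ⟨k, hk⟩ := hinP x h1
    obtain ⟨l, hl⟩ := hinP y h2
    exact hne ((prime_eq_of_pow_eq_one hp₁ hp hx ha hk).trans (prime_eq_of_pow_eq_one hq hp hy hb hl).symm)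
  have hxyP : x * y ∉ (P : Subgroup G) := by
    intro hP
    have h1 : ((x : G) : G ⧸ (P : Subgroup G)) * ((y : G) : G ⧸ (P : Subgroup G)) = 1 := by
      rw [← QuotientGroup.mk_mul]
      exact (QuotientGroup.eq_one_iff _).mpr hP
    have h2 : ((x : G) : G ⧸ (P : Subgroup G)) ^ p₁ ^ a = 1 := by
      rw [← QuotientGroup.mk_pow, hx']
      rfl
    have h3 : ((x : G) : G ⧸ (P : Subgroup G)) ^ q ^ b = 1 := by
      rw [eq_inv_of_mul_eq_one_left h1, inv_pow, ← QuotientGroup.mk_pow, hy']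
      simp
    have h4 : Nat.gcd (p₁ ^ a) (q ^ b) = 1 := Nat.Coprime.pow _ _ ((Nat.coprime_primes hp₁ hq).mpr hne)
    have h5 := (pow_gcd_eq_one).mpr ⟨h2, h3⟩
    rw [h4, pow_one] at h5
    have h6 : x ∈ (P : Subgroup G) := (QuotientGroup.eq_one_iff _).mp h5
    have h7 : y ∈ (P : Subgroup G) := by
      have := (P : Subgroup G).mul_mem ((P : Subgroup G).inv_mem h6) hP
      simpa using this
    rcases hnot with h8 | h8
    · exact h8 h6
    · exact h8 h7
  rw [hvan _ hxyP]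
  rcases hnot with h8 | h8
  · rw [hvan _ h8, zero_mul]
  · rw [hvan _ h8, mul_zero]

/-- S4756. -/
theorem prod_iff_structure :
    (∀ (x y : G) (χ : IrrCharacter G), x ≠ 1 → y ≠ 1 →
      (∃ p q a b : ℕ, p.Prime ∧ q.Prime ∧ p ≠ q ∧ orderOf x = p ^ a ∧ orderOf y = q ^ b) →
      (χ : G → ℂ) (x * y) = (χ : G → ℂ) x * (χ : G → ℂ) y) ↔
    ((∃ p : ℕ, p.Prime ∧ IsPGroup p G) ∨ IsMulCommutative G ∨
      ∃ (p : ℕ) (_ : Fact p.Prime) (P : Sylow p G) (A : Subgroup G), (P : Subgroup G).Normal ∧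
      IsCyclic ↥A ∧ A ≠ ⊥ ∧ (Nat.card ↥A).Coprime p ∧ A ⊔ (P : Subgroup G) = ⊤ ∧
      IsMulCommutative ↥((P : Subgroup G) ⊓ Subgroup.centralizer (A : Set G)) ∧
      (⁅A, (P : Subgroup G)⁆).Normal ∧
      ((P : Subgroup G) ⊓ Subgroup.centralizer (A : Set G)) ⊔ ⁅A, (P : Subgroup G)⁆ = (P : Subgroup G) ∧
      ((P : Subgroup G) ⊓ Subgroup.centralizer (A : Set G)) ⊓ ⁅A, (P : Subgroup G)⁆ = ⊥ ∧
      ∀ a ∈ A, a ≠ 1 → ∀ d ∈ ⁅A, (P : Subgroup G)⁆, a * d = d * a → d = 1) := by
  constructor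
  · intro h
    by_cases hpg : ∃ p : ℕ, p.Prime ∧ IsPGroup p G
    · exact Or.inl hpg
    by_cases hab : IsMulCommutative G
    · exact Or.inr (Or.inl hab)
    · exact Or.inr (Or.inr (structure_of_prod h hpg hab))
  · rintro (⟨p, hp, hP⟩ | hab | ⟨p, hf, P, A, hPn, hAcyc, hAne, hAcop, hsup, hC, hDn, hCD, hdisj, hfpf⟩) x y χ hx hy hxy
    · exfalso
      haveI : Fact p.Prime := ⟨hp⟩
      obtain ⟨p₁, q, a, b, hp₁, hq, hne, ha, hb⟩ := hxy
      obtain ⟨k, hk⟩ := IsPGroup.iff_orderOf.mp hP x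
      obtain ⟨l, hl⟩ := IsPGroup.iff_orderOf.mp hP y
      have e1 : x ^ p ^ k = 1 := by
        rw [← hk]
        exact pow_orderOf_eq_one x
      have e2 : y ^ p ^ l = 1 := by
        rw [← hl]
        exact pow_orderOf_eq_one y
      exact hne ((prime_eq_of_pow_eq_one hp₁ hp hx ha e1).trans (prime_eq_of_pow_eq_one hq hp hy hb e2).symm)
    · have hc : ∀ a b : G, a * b = b * a := hab.is_comm.comm
      obtain ⟨l, hl⟩ := exists_hom_of_degree_one χ.2.isCharacter (isIrr_degree_one_of_comm hc χ.2)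
      rw [hl]
      simp
    · exact prod_of_structure p P A hPn hAcyc hAcop hsup hC hDn hCD hfpf x y χ hx hy hxy

end Direct

end CfsgLib.Char
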