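import Cfsg.Agent.Lib.Char.TIP1
import Cfsg.Agent.Lib.Char.Glauberman
import Cfsg.Agent.Lib.Char.AbelianQuot
import Cfsg.Agent.Lib.Solv.CoprimeSylow

/-! # Character values on cosets of a coprime normal subgroup -/

set_option autoImplicit false
set_option linter.unusedSectionVars false
set_option linter.unusedVariables false
set_option linter.style.haveILetI false

namespace CfsgLib.Char

open Cfsg
open scoped ComplexConjugate commutatorElement

universe u v

section Coset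

variable {Γ : Type u} [Group Γ] [Fintype Γ] (K : Subgroup Γ) [hK : K.Normal] [Fintype K]

/-- Each element of a coset `K s` is `K`-conjugate to `s c` with `c` in the centralizer. -/
theorem coset_sum_centralizer {s : Γ} (hcop : Nat.Coprime (orderOf s) (Nat.card K)) (C : Subgroup Γ) [Fintype C]
    (hC : ∀ x, x ∈ C ↔ x ∈ K ∧ x * s = s * x) {f : Γ → ℂ} (hf : IsClassFunction Γ f) :
    (Nat.card K : ℂ)⁻¹ * ∑ k : K, f (k * s) = (Nat.card C : ℂ)⁻¹ * ∑ c : C, f (s * c) := by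
  classical
  have hCK : ∀ x ∈ C, x ∈ K := fun x hx => ((hC x).1 hx).1
  have hCs : ∀ x ∈ C, x * s = s * x := fun x hx => ((hC x).1 hx).2
  have hmem : ∀ q : K × C, (q.1 : Γ) * (s * q.2) * (q.1 : Γ)⁻¹ * s⁻¹ ∈ K := by
    intro q
    have h1 : (q.1 : Γ) * (s * q.2) * (q.1 : Γ)⁻¹ * s⁻¹ = (q.1 : Γ) * (s * ((q.2 : Γ) * (q.1 : Γ)⁻¹) * s⁻¹) := by group
    rw [h1]
    exact K.mul_mem q.1.2 (hK.conj_mem _ (K.mul_mem (hCK _ q.2.2) (K.inv_mem q.1.2)) s)
  let Φ : K × C → K := fun q => ⟨_, hmem q⟩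
  have hΦ : ∀ q : K × C, ((Φ q : K) : Γ) * s = (q.1 : Γ) * (s * q.2) * (q.1 : Γ)⁻¹ := by
    intro q
    show (q.1 : Γ) * (s * q.2) * (q.1 : Γ)⁻¹ * s⁻¹ * s = _
    group
  have hF : ∀ q : K × C, f (((Φ q : K) : Γ) * s) = f (s * q.2) := by
    intro q
    rw [hΦ]
    exact hf _ _
  obtain ⟨e, he1, he0⟩ : ∃ e : ℕ, e ≡ 1 [MOD orderOf s] ∧ e ≡ 0 [MOD Nat.card K] :=
    ⟨_, (Nat.chineseRemainder hcop 1 0).2⟩
  have hse : s ^ e = s := by
    have h1 : s ^ e = s ^ 1 := pow_eq_pow_iff_modEq.2 he1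
    simpa using h1
  have hke : ∀ c ∈ K, c ^ e = 1 := by
    intro c hc
    have h1 : Nat.card K ∣ e := (Nat.modEq_zero_iff_dvd.1 he0)
    obtain ⟨m, rfl⟩ := h1
    have h2 : ((⟨c, hc⟩ : K)) ^ Nat.card K = 1 := pow_card_eq_one'
    have h3 : c ^ Nat.card K = 1 := congrArg Subtype.val h2
    rw [pow_mul, h3, one_pow]
  have hpow : ∀ c ∈ C, (s * c) ^ e = s := by
    intro c hc
    have h1 : Commute s c := (hCs c hc).symm
    rw [h1.mul_pow, hse, hke c (hCK c hc), mul_one]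
  have hkey : ∀ (u : Γ) (c c' : Γ), c ∈ C → c' ∈ C → u * (s * c) * u⁻¹ = s * c' → u * s = s * u := by
    intro u c c' hc hc' h0
    have h1 : (u * (s * c) * u⁻¹) ^ e = u * (s * c) ^ e * u⁻¹ := conj_pow
    rw [h0, hpow c' hc', hpow c hc] at h1
    have h2 : s * u = u * s := by
      calc s * u = (u * s * u⁻¹) * u := by rw [← h1]
        _ = u * s := by group
    exact h2.symm
  have hnorm : s ∈ Subgroup.normalizer (K : Set Γ) := by
    rw [Subgroup.normalizer_eq_top_iff.2 hK]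
    trivial
  have hfiber : ∀ j : K, (Finset.univ.filter (fun q : K × C => Φ q = j)).card = Nat.card C := by
    intro j
    obtain ⟨x, hx, c, hc, hcomm, hconj⟩ := exists_conj_coset_centralizer K s hnorm hcop (j : Γ) j.2
    have hcC : c ∈ C := (hC c).2 ⟨hc, hcomm⟩
    let k₀ : K := ⟨x⁻¹, K.inv_mem hx⟩
    let c₀ : C := ⟨c, hcC⟩
    have hk₀ : (k₀ : Γ) * (s * c) * (k₀ : Γ)⁻¹ = (j : Γ) * s := by
      show x⁻¹ * (s * c) * x⁻¹⁻¹ = _
      rw [← hcomm, ← hconj]
      group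
    let g : C → {q : K × C // Φ q = j} := fun u =>
      ⟨(⟨(k₀ : Γ) * u, K.mul_mem k₀.2 (hCK _ u.2)⟩, u⁻¹ * c₀ * u), by
        apply Subtype.ext
        show (k₀ : Γ) * u * (s * ((u : Γ)⁻¹ * c * u)) * ((k₀ : Γ) * u)⁻¹ * s⁻¹ = j
        have h1 : (u : Γ) * (s * ((u : Γ)⁻¹ * c * u)) * (u : Γ)⁻¹ = s * c := by
          have h2 : (u : Γ) * s = s * u := hCs _ u.2
          calc (u : Γ) * (s * ((u : Γ)⁻¹ * c * u)) * (u : Γ)⁻¹ = ((u : Γ) * s) * (u : Γ)⁻¹ * c := by group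
            _ = s * c := by rw [h2]; group
        have h3 : (k₀ : Γ) * u * (s * ((u : Γ)⁻¹ * c * u)) * ((k₀ : Γ) * u)⁻¹ * s⁻¹ =
            (k₀ : Γ) * ((u : Γ) * (s * ((u : Γ)⁻¹ * c * u)) * (u : Γ)⁻¹) * (k₀ : Γ)⁻¹ * s⁻¹ := by group
        rw [h3, h1, hk₀]
        group⟩
    have hg : Function.Bijective g := by
      constructor
      · intro u v huv
        have h1 := congrArg (fun q : {q : K × C // Φ q = j} => ((q.1.1 : K) : Γ)) huv
        have h2 : (k₀ : Γ) * u = (k₀ : Γ) * v := h1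
        exact Subtype.ext (mul_left_cancel h2)
      · rintro ⟨⟨k, c'⟩, hq⟩
        have h1 : (k : Γ) * (s * c') * (k : Γ)⁻¹ = (j : Γ) * s := by
          rw [← hΦ (k, c'), hq]
        let u : Γ := (k₀ : Γ)⁻¹ * k
        have huK : u ∈ K := K.mul_mem (K.inv_mem k₀.2) k.2
        have h2 : u * (s * c') * u⁻¹ = s * c := by
          have h3 : u * (s * c') * u⁻¹ = (k₀ : Γ)⁻¹ * ((k : Γ) * (s * c') * (k : Γ)⁻¹) * k₀ := by
            simp only [u]
            group
          rw [h3, h1, ← hk₀]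
          group
        have h4 : u * s = s * u := hkey u c' c c'.2 hcC h2
        have huC : u ∈ C := (hC u).2 ⟨huK, h4⟩
        have h5 : (u : Γ)⁻¹ * c * u = c' := by
          have h6 : u * (s * c') * u⁻¹ = s * (u * c' * u⁻¹) := by
            calc u * (s * c') * u⁻¹ = (u * s) * c' * u⁻¹ := by group
              _ = s * (u * c' * u⁻¹) := by rw [h4]; group
          rw [h6] at h2
          have h7 := mul_left_cancel h2
          rw [← h7]
          group
        refine ⟨⟨u, huC⟩, ?_⟩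
        apply Subtype.ext
        apply Prod.ext
        · apply Subtype.ext
          show (k₀ : Γ) * ((k₀ : Γ)⁻¹ * k) = k
          group
        · apply Subtype.ext
          exact h5
    have h1 := Fintype.card_of_bijective hg
    rw [Nat.card_eq_fintype_card, h1, Fintype.card_subtype]
  have h1 : ∑ q : K × C, f (((Φ q : K) : Γ) * s) = (Nat.card C : ℂ) * ∑ k : K, f (k * s) := by
    rw [← Finset.sum_fiberwise Finset.univ Φ, Finset.mul_sum]
    refine Finset.sum_congr rfl fun j _ => ?_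
    have h2 : ∀ q ∈ Finset.univ.filter (fun q : K × C => Φ q = j), f (((Φ q : K) : Γ) * s) = f ((j : Γ) * s) := by
      intro q hq
      rw [(Finset.mem_filter.1 hq).2]
    rw [Finset.sum_congr rfl h2, Finset.sum_const, hfiber j, nsmul_eq_mul]
  have h2 : ∑ q : K × C, f (((Φ q : K) : Γ) * s) = (Nat.card K : ℂ) * ∑ c : C, f (s * c) := by
    simp only [hF]
    rw [Fintype.sum_prod_type]
    simp only [Finset.sum_const, Finset.card_univ, nsmul_eq_mul]
    rw [Nat.card_eq_fintype_card]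
  have hK0 : (Nat.card K : ℂ) ≠ 0 := card_subgroup_ne_zero K
  have hC0 : (Nat.card C : ℂ) ≠ 0 := card_subgroup_ne_zero C
  rw [h1] at h2
  field_simp
  linear_combination h2

end Coset

section Prod

variable {Γ : Type u} [Group Γ] [Fintype Γ] (S C : Subgroup Γ) [Fintype S] [Fintype C]

/-- The multiplication map of two commuting subgroups. -/
def mulHomSC (hcomm : ∀ s ∈ S, ∀ c ∈ C, s * c = c * s) : S × C →* Γ where
  toFun q := q.1 * q.2
  map_one' := by simp
  map_mul' a b := by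
    have h1 : (a.2 : Γ) * b.1 = b.1 * a.2 := (hcomm _ b.1.2 _ a.2.2).symm
    show ((a.1 : Γ) * b.1) * ((a.2 : Γ) * b.2) = (a.1 : Γ) * a.2 * ((b.1 : Γ) * b.2)
    calc ((a.1 : Γ) * b.1) * ((a.2 : Γ) * b.2) = (a.1 : Γ) * (b.1 * (a.2 : Γ)) * b.2 := by group
      _ = (a.1 : Γ) * ((a.2 : Γ) * b.1) * b.2 := by rw [h1]
      _ = _ := by group

/-- A congruence for the norm of the restriction of a character to a subgroup commuting with `S`. -/
theorem norm_restrict_congr (hcomm : ∀ s ∈ S, ∀ c ∈ C, s * c = c * s) {ψ : Γ → ℂ} (hψ : IsCharacter Γ ψ)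
    (hs : ∀ s : S, (s : Γ) ≠ 1 → (Nat.card C : ℂ)⁻¹ * ∑ c : C, ψ (s * c) * conj (ψ (s * c)) = 1) :
    ∃ n t : ℕ, classInner (fun c : C => ψ c) (fun c : C => ψ c) = n ∧ n + Nat.card S = Nat.card S * t + 1 := by
  classical
  obtain ⟨n, hn⟩ := (hψ.restrict C).classInner_nat_of_char (hψ.restrict C)
  let μ := mulHomSC S C hcomm
  have hξ : IsCharacter (S × C) (ψ ∘ μ) := hψ.comp μ
  obtain ⟨t, ht⟩ := hξ.classInner_nat_of_char hξ
  refine ⟨n, t, hn, ?_⟩
  have hS0 : (Nat.card S : ℂ) ≠ 0 := card_subgroup_ne_zero S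
  have hC0 : (Nat.card C : ℂ) ≠ 0 := card_subgroup_ne_zero C
  rw [classInner_def, Nat.card_prod, Fintype.sum_prod_type] at ht
  have h1 : (fun s : S => ∑ c : C, (ψ ∘ μ) (s, c) * conj ((ψ ∘ μ) (s, c))) =
      fun s : S => (Nat.card C : ℂ) * ((Nat.card C : ℂ)⁻¹ * ∑ c : C, ψ (s * c) * conj (ψ (s * c))) := by
    funext s
    rw [← mul_assoc, mul_inv_cancel₀ hC0, one_mul]
    rfl
  have h2 : ∑ s : S, ∑ c : C, (ψ ∘ μ) (s, c) * conj ((ψ ∘ μ) (s, c)) =
      (Nat.card C : ℂ) * ((n : ℂ) + ((Nat.card S : ℂ) - 1)) := by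
    have h3 := congrFun h1
    simp only [h3]
    rw [← Finset.mul_sum]
    congr 1
    rw [← Finset.add_sum_erase Finset.univ _ (Finset.mem_univ (1 : S))]
    congr 1
    · rw [← hn, classInner_def]
      congr 1
      refine Finset.sum_congr rfl fun c _ => ?_
      simp
    · have h4 : ∀ s ∈ Finset.univ.erase (1 : S),
          (Nat.card C : ℂ)⁻¹ * ∑ c : C, ψ (s * c) * conj (ψ (s * c)) = 1 := by
        intro s hs'
        apply hs
        intro h0
        exact (Finset.mem_erase.1 hs').1 (Subtype.ext h0)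
      rw [Finset.sum_congr rfl h4, Finset.sum_const, Finset.card_erase_of_mem (Finset.mem_univ _),
        Finset.card_univ, ← Nat.card_eq_fintype_card]
      have h5 : 1 ≤ Nat.card S := Nat.card_pos
      rw [nsmul_one]
      push_cast [Nat.cast_sub h5]
      rfl
  rw [h2] at ht
  push_cast at ht
  have h6 : (n : ℂ) + ((Nat.card S : ℂ) - 1) = (Nat.card S : ℂ) * t := by
    rw [← ht]
    field_simp
  have h7 : ((n + Nat.card S : ℕ) : ℂ) = ((Nat.card S * t + 1 : ℕ) : ℂ) := by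
    push_cast
    rw [← h6]
    ring
  exact_mod_cast h7

/-- If the restriction of a representation to a subgroup is irreducible, elements centralizing the
subgroup act by scalars. -/
theorem scalar_of_restrict_irr {n : ℕ} (ρ : Representation ℂ Γ (Fin n → ℂ)) (C : Subgroup Γ) [Fintype C]
    (h1 : classInner (fun c : C => ρ.character c) (fun c : C => ρ.character c) = 1) {s : Γ}
    (hs : ∀ c ∈ C, s * c = c * s) : ∃ ω : ℂ, ρ s = ω • (1 : Module.End ℂ (Fin n → ℂ)) := by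
  let σ : Representation ℂ C (Fin n → ℂ) := ρ.comp C.subtype
  have hσ : σ.character = fun c : C => ρ.character c := rfl
  have hchar : IsCharacter C (fun c : C => ρ.character c) := (isCharacter_character ρ).restrict C
  have hirr : IsIrrCharacter C (fun c : C => ρ.character c) := hchar.isIrr_of_norm h1
  rw [← hσ] at hirr
  haveI := isIrreducible_of_isIrrCharacter σ hirr
  obtain ⟨ω, hω⟩ := schur_scalar σ (ρ s) (fun g v => by
    show ρ s (ρ g v) = ρ g (ρ s v)
    rw [← Module.End.mul_apply, ← map_mul, hs g g.2, map_mul, Module.End.mul_apply])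
  exact ⟨ω, hω⟩

/-- `⟨f, f⟩ ≤ f(1)²`. -/
theorem norm_le_degree_sq {A : Type u} [Group A] [Fintype A] {f : A → ℂ} (hf : IsCharacter A f) :
    ∃ n d : ℕ, classInner f f = n ∧ f 1 = d ∧ n ≤ d ^ 2 := by
  classical
  obtain ⟨n, hn⟩ := hf.classInner_nat_of_char hf
  obtain ⟨d, hd⟩ := hf.map_one
  refine ⟨n, d, hn, hd, ?_⟩
  have h1 := classInner_self_eq_real f
  rw [hn] at h1
  have h2 : (n : ℝ) = (Nat.card A : ℝ)⁻¹ * ∑ g, ‖f g‖ ^ 2 := by exact_mod_cast h1
  have h3 : ∑ g, ‖f g‖ ^ 2 ≤ ∑ g : A, (d : ℝ) ^ 2 := by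
    refine Finset.sum_le_sum fun g _ => ?_
    have h4 := hf.norm_le g
    rw [hd, Complex.norm_natCast] at h4
    exact pow_le_pow_left₀ (norm_nonneg _) h4 2
  rw [Finset.sum_const, Finset.card_univ, ← Nat.card_eq_fintype_card, nsmul_eq_mul] at h3
  have h5 : (0 : ℝ) < Nat.card A := by exact_mod_cast Nat.card_pos
  have h6 : (n : ℝ) ≤ (d : ℝ) ^ 2 := by
    rw [h2, inv_mul_le_iff₀ h5]
    exact h3
  exact_mod_cast h6

end Prod

section Key

variable {Γ : Type u} [Group Γ] [Fintype Γ]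

/-- The key computation for a normal subgroup with an invariant irreducible character. -/
theorem coset_key (K : Subgroup Γ) [hK : K.Normal] [Fintype K] (Q C : Subgroup Γ) [Fintype Q] [Fintype C]
    (hcop : ∀ s ∈ Q, Nat.Coprime (orderOf s) (Nat.card K))
    (hCQ : ∀ s ∈ Q, ∀ c ∈ C, s * c = c * s)
    (hC : ∀ s ∈ Q, s ≠ 1 → ∀ x, x ∈ C ↔ x ∈ K ∧ x * s = s * x)
    {ψ : Γ → ℂ} (hψ : IsIrrCharacter Γ ψ) (hψK : IsIrrCharacter K (fun k : K => ψ k)) :
    ∃ n t : ℕ, classInner (fun c : C => ψ c) (fun c : C => ψ c) = n ∧ n + Nat.card Q = Nat.card Q * t + 1 ∧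
      (n = 1 → ∀ s ∈ Q, ∀ g : Γ, ψ (g * s * g⁻¹ * s⁻¹) = ψ 1) := by
  classical
  have hf : IsClassFunction Γ (fun g => ψ g * conj (ψ g)) := by
    intro g h
    simp only [hψ.isClassFunction g h]
  have hcoset : ∀ s : Q, (s : Γ) ≠ 1 → (Nat.card C : ℂ)⁻¹ * ∑ c : C, ψ (s * c) * conj (ψ (s * c)) = 1 := by
    intro s hs
    have h1 := coset_sum_centralizer K (hcop s s.2) C (hC s s.2 hs) hf
    rw [← h1]
    have h2 := (coset_average K hψ hψK hψ (η := fun g => (Nat.card K : ℂ)⁻¹ * ∑ n : K, ψ ((n : Γ) * g) * conj (ψ ((n : Γ) * g))) rfl).2.2 rfl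
    exact congrFun h2 s
  obtain ⟨n, t, h1, h2⟩ := norm_restrict_congr Q C hCQ hψ.isCharacter hcoset
  refine ⟨n, t, h1, h2, ?_⟩
  rintro rfl s hs g
  obtain ⟨m, ρ, hρ, rfl⟩ := hψ
  rw [Nat.cast_one] at h1
  obtain ⟨ω, hω⟩ := scalar_of_restrict_irr ρ C h1 (fun c hc => hCQ s hs c hc)
  have h3 : ρ (g * s * g⁻¹ * s⁻¹) = 1 := by
    have h4 : ρ g * ρ s = ρ s * ρ g := by
      rw [hω, mul_smul_comm, smul_mul_assoc, mul_one, one_mul]
    calc ρ (g * s * g⁻¹ * s⁻¹) = ρ g * ρ s * ρ g⁻¹ * ρ s⁻¹ := by simp only [map_mul]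
      _ = ρ s * (ρ g * ρ g⁻¹) * ρ s⁻¹ := by rw [h4]; simp only [mul_assoc]
      _ = ρ s * ρ s⁻¹ := by rw [← map_mul ρ g, mul_inv_cancel, map_one, mul_one]
      _ = 1 := by rw [← map_mul, mul_inv_cancel, map_one]
  show LinearMap.trace ℂ _ (ρ (g * s * g⁻¹ * s⁻¹)) = LinearMap.trace ℂ _ (ρ 1)
  rw [h3, map_one ρ]

end Key

section Commutators

variable {G : Type u} [Group G] [Finite G]

/-- Commutators with an element commuting with `a` lie in `[K, ⟨a⟩]`. -/
theorem commutator_mem_of_commute (K : Subgroup G) [hK : K.Normal] {a b : G} (hab : a * b = b * a)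
    (hcop : Nat.Coprime (orderOf a) (Nat.card K)) (hcent : ∀ c ∈ K, c * a = a * c → c * b = b * c)
    {k : G} (hk : k ∈ K) : ⁅k, b⁆ ∈ ⁅K, Subgroup.zpowers a⁆ := by
  classical
  have hAK : Subgroup.zpowers a ≤ Subgroup.normalizer (K : Set G) := by
    rw [Subgroup.normalizer_eq_top_iff.2 hK]
    exact le_top
  have hc' : (Nat.card (Subgroup.zpowers a)).Coprime (Nat.card K) := by
    rw [Nat.card_zpowers]
    exact hcop
  have hsolv : Group.IsSolvable (Subgroup.zpowers a) ∨ Group.IsSolvable K := Or.inl inferInstance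
  obtain ⟨c, ⟨hcK, hcA⟩, ht⟩ := CfsgLib.Solv.coprime_decomp (Subgroup.zpowers a) K hAK hc' hsolv hk
  have hca : c * a = a * c := ((Subgroup.mem_centralizer_iff.1 hcA) a (Subgroup.mem_zpowers a)).symm
  have hcb : c * b = b * c := hcent c hcK hca
  set T : Subgroup G := ⁅K, Subgroup.zpowers a⁆ with hT
  have hTb : ∀ x ∈ T, b * x * b⁻¹ ∈ T := by
    intro x hx
    induction hx using Subgroup.closure_induction with
    | mem y hy =>
      obtain ⟨u, hu, w, hw, rfl⟩ := hy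
      obtain ⟨i, rfl⟩ := Subgroup.mem_zpowers_iff.1 hw
      have h1 : Commute b (a ^ i) := (Commute.zpow_left (show Commute a b from hab) i).symm
      have h2 : b * ⁅u, a ^ i⁆ * b⁻¹ = ⁅b * u * b⁻¹, a ^ i⁆ := by
        simp only [commutatorElement_def]
        have h3 : b * a ^ i * b⁻¹ = a ^ i := by rw [h1.eq]; group
        have h4 : b * (a ^ i)⁻¹ * b⁻¹ = (a ^ i)⁻¹ := by rw [(h1.inv_right).eq]; group
        calc b * (u * a ^ i * u⁻¹ * (a ^ i)⁻¹) * b⁻¹ = (b * u * b⁻¹) * (b * a ^ i * b⁻¹) * (b * u⁻¹ * b⁻¹) * (b * (a ^ i)⁻¹ * b⁻¹) := by group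
          _ = (b * u * b⁻¹) * a ^ i * (b * u⁻¹ * b⁻¹) * (a ^ i)⁻¹ := by rw [h3, h4]
          _ = _ := by group
      rw [h2]
      exact Subgroup.commutator_mem_commutator (hK.conj_mem u hu b) hw
    | one => simp
    | mul x y _ _ hx hy =>
      have h1 : b * (x * y) * b⁻¹ = (b * x * b⁻¹) * (b * y * b⁻¹) := by group
      rw [h1]
      exact T.mul_mem hx hy
    | inv x _ hx =>
      have h1 : b * x⁻¹ * b⁻¹ = (b * x * b⁻¹)⁻¹ := by group
      rw [h1]
      exact T.inv_mem hx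
  set t : G := (k⁻¹ * c)⁻¹ with htd
  have htT : t ∈ T := T.inv_mem ht
  have hkt : k = c * t := by
    simp only [htd]
    group
  have h1 : ⁅k, b⁆ = c * (t * (b * t⁻¹ * b⁻¹)) * c⁻¹ := by
    rw [hkt]
    simp only [commutatorElement_def]
    have hcb' : b * c⁻¹ * b⁻¹ = c⁻¹ := by
      have h2 : c⁻¹ * b = b * c⁻¹ := ((show Commute c b from hcb).inv_left).eq
      rw [← h2]
      group
    calc c * t * b * (c * t)⁻¹ * b⁻¹ = c * (t * (b * t⁻¹ * b⁻¹)) * (b * c⁻¹ * b⁻¹) := by group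
      _ = _ := by rw [hcb']
  rw [h1]
  have h2 : t * (b * t⁻¹ * b⁻¹) ∈ T := T.mul_mem htT (hTb _ (T.inv_mem htT))
  exact (Subgroup.mem_normalizer_iff.1 (CfsgLib.Solv.le_normalizer_commutator_left hcK) _).1 h2

/-- The subgroups `[K, ⟨a⟩]` are comparable for commuting `a, b`. -/
theorem commutator_le_of_commute (K : Subgroup G) [hK : K.Normal] {a b : G} (hab : a * b = b * a)
    (hcop : Nat.Coprime (orderOf a) (Nat.card K)) (hcent : ∀ c ∈ K, c * a = a * c → c * b = b * c) :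
    ⁅K, Subgroup.zpowers b⁆ ≤ ⁅K, Subgroup.zpowers a⁆ := by
  rw [Subgroup.commutator_le]
  intro k hk w hw
  obtain ⟨i, rfl⟩ := Subgroup.mem_zpowers_iff.1 hw
  refine commutator_mem_of_commute K ?_ hcop ?_ hk
  · exact (Commute.zpow_right (show Commute a b from hab) i).eq
  · intro c hc hca
    exact (Commute.zpow_right (show Commute c b from hcent c hc hca) i).eq

end Commutators

end CfsgLib.Char
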