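import Cfsg.Agent.Lib.Char.TIP2
import Cfsg.Agent.Lib.Char.StarP4
import Cfsg.Agent.Lib.H3.PSolv
import Cfsg.Agent.Lib.PLocal.Core
import Cfsg.Agent.Lib.Solv.Fit

/-! # `p`-solvable groups with a trivial-intersection Sylow subgroup and a small faithful character -/

set_option autoImplicit false
set_option linter.unusedSectionVars false
set_option linter.unusedVariables false
set_option linter.style.haveILetI false

namespace CfsgLib.Char

open Cfsg
open scoped ComplexConjugate Pointwise commutatorElement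

universe u v

section Stab

variable {G : Type u} [Group G] [Fintype G] (K : Subgroup G) [hK : K.Normal]

/-- The stabilizer in `P` of a function on the normal subgroup `K`. -/
def stabP (P : Subgroup G) (θ : K → ℂ) : Subgroup G where
  carrier := {y | y ∈ P ∧ conjOn K y θ = θ}
  one_mem' := ⟨P.one_mem, conjOn_one K θ⟩
  mul_mem' := by
    rintro a b ⟨ha, ha'⟩ ⟨hb, hb'⟩
    refine ⟨P.mul_mem ha hb, ?_⟩
    rw [conjOn_mul, ha', hb']
  inv_mem' := by
    rintro a ⟨ha, ha'⟩
    refine ⟨P.inv_mem ha, ?_⟩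
    have h1 := conjOn_inv_conjOn K a θ
    rw [ha'] at h1
    exact h1

theorem mem_stabP {P : Subgroup G} {θ : K → ℂ} {y : G} : y ∈ stabP K P θ ↔ y ∈ P ∧ conjOn K y θ = θ := Iff.rfl

/-- The orbit bound: the sum of the degrees of the conjugates of a constituent of `χ|K`. -/
theorem orbit_bound [Fintype K] (P : Subgroup G) {χ : G → ℂ} (hχ : IsCharacter G χ) (θ : IrrCharacter K)
    (hθ : classInner (fun k : K => χ k) (θ : K → ℂ) ≠ 0) (d : ℕ) (hd : χ 1 = d) :
    ∃ O : ℕ, 0 < O ∧ Nat.card P ≤ O * Nat.card (stabP K P (θ : K → ℂ)) ∧ O * charDegree (θ : K → ℂ) ≤ d := by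
  classical
  letI := irrFintype (G := K)
  letI : Fintype P := Fintype.ofFinite _
  letI : Fintype (stabP K P (θ : K → ℂ)) := Fintype.ofFinite _
  let f : P → IrrCharacter K := fun y => ⟨conjOn K (y : G) θ, isIrr_conjOn K _ θ.2⟩
  let O : Finset (IrrCharacter K) := Finset.univ.image f
  refine ⟨O.card, ?_, ?_, ?_⟩
  · exact Finset.card_pos.2 ⟨f 1, Finset.mem_image.2 ⟨1, Finset.mem_univ _, rfl⟩⟩
  · have h1 := Finset.card_le_mul_card_image (f := f) Finset.univ (Nat.card (stabP K P (θ : K → ℂ))) (by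
      intro a ha
      obtain ⟨y₀, -, rfl⟩ := Finset.mem_image.1 ha
      have hcard : Nat.card (stabP K P (θ : K → ℂ)) = (Finset.univ : Finset (stabP K P (θ : K → ℂ))).card := by
        rw [Finset.card_univ, Nat.card_eq_fintype_card]
      rw [hcard]
      have hmem : ∀ y ∈ Finset.univ.filter (fun x : P => f x = f y₀), (y₀ : G) * (y : G)⁻¹ ∈ stabP K P (θ : K → ℂ) := by
        intro y hy
        have h2 : f y = f y₀ := (Finset.mem_filter.1 hy).2
        have h3 : conjOn K (y : G) θ = conjOn K (y₀ : G) θ := congrArg Subtype.val h2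
        refine ⟨P.mul_mem y₀.2 (P.inv_mem y.2), ?_⟩
        rw [conjOn_mul, ← h3, conjOn_inv_conjOn]
      refine Finset.card_le_card_of_injOn (fun y => if h : y ∈ Finset.univ.filter (fun x : P => f x = f y₀) then ⟨_, hmem y h⟩ else 1)
        (fun _ _ => Finset.mem_univ _) ?_
      intro a ha b hb hab
      have ha' : a ∈ Finset.univ.filter (fun x : P => f x = f y₀) := ha
      have hb' : b ∈ Finset.univ.filter (fun x : P => f x = f y₀) := hb
      simp only [dif_pos ha', dif_pos hb'] at hab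
      have h4 : (y₀ : G) * (a : G)⁻¹ = (y₀ : G) * (b : G)⁻¹ := congrArg Subtype.val hab
      exact Subtype.ext (inv_injective (mul_left_cancel h4)))
    rw [Finset.card_univ, ← Nat.card_eq_fintype_card] at h1
    rw [mul_comm]
    exact h1
  · obtain ⟨a, ha⟩ : ∃ a : IrrCharacter K → ℕ, ∀ θ' : IrrCharacter K, classInner (fun k : K => χ k) (θ' : K → ℂ) = a θ' := by
      choose a ha using fun θ' : IrrCharacter K => (hχ.restrict K).classInner_nat θ'.2
      exact ⟨a, ha⟩
    have h1 := classFunction_apply (hχ.restrict K).isClassFunction (1 : K)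
    simp only [ha] at h1
    have h2 : (χ ((1 : K) : G)) = χ 1 := rfl
    rw [h2, hd] at h1
    simp only [irr_one_eq_charDegree] at h1
    have h3 : d = ∑ θ' : IrrCharacter K, a θ' * charDegree (θ' : K → ℂ) := by exact_mod_cast h1
    rw [h3]
    have h4 : O.card * charDegree (θ : K → ℂ) = ∑ θ' ∈ O, charDegree (θ : K → ℂ) := by simp
    rw [h4]
    refine le_trans (Finset.sum_le_sum fun θ' hθ' => ?_) (Finset.sum_le_sum_of_subset (Finset.subset_univ O))
    obtain ⟨y, -, rfl⟩ := Finset.mem_image.1 hθ'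
    have h5 : charDegree ((f y : IrrCharacter K) : K → ℂ) = charDegree (θ : K → ℂ) := by
      show charDegree (conjOn K (y : G) θ) = _
      unfold charDegree
      have h6 : conjOn K (y : G) (θ : K → ℂ) 1 = (θ : K → ℂ) 1 := by
        rw [conjOn_apply]
        exact congrArg (θ : K → ℂ) (Subtype.ext (by simp))
      rw [h6]
    rw [h5]
    have h7 : a (f y) ≠ 0 := by
      intro h0
      have h8 : classInner (fun k : K => χ k) (conjOn K (y : G) (θ : K → ℂ)) = a (f y) := ha (f y)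
      rw [h0, Nat.cast_zero] at h8
      apply hθ
      have h10 := classInner_conjOn K (y : G) (fun k : K => χ k) (θ : K → ℂ)
      have h11 : conjOn K (y : G) (fun k : K => χ k) = fun k : K => χ k := by
        funext k
        rw [conjOn_apply]
        exact hχ.isClassFunction _ _
      rw [h11, h8] at h10
      exact h10.symm
    exact Nat.le_mul_of_pos_left _ (Nat.pos_of_ne_zero h7)

/-- The key dichotomy for the stabilizer. -/
theorem stab_key [Fintype K] {p : ℕ} [hp : Fact p.Prime] (P : Subgroup G) (hPp : IsPGroup p P)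
    (hcopK : Nat.Coprime (Nat.card K) p)
    (hF1 : ∀ y ∈ P, y ≠ 1 → ∀ c ∈ K, c * y = y * c → ∀ z ∈ P, c * z = z * c)
    (θ : K → ℂ) (hθ : IsIrrCharacter K θ) (S : Subgroup G) (hSP : S ≤ P) (hS : ∀ y ∈ S, conjOn K y θ = θ)
    (D : ℕ) (hD : θ 1 = D) :
    Nat.card S < D ^ 2 ∨ ∀ s ∈ S, ∀ k : K, ∀ h : (k : G) * s * (k : G)⁻¹ * s⁻¹ ∈ K, θ ⟨_, h⟩ = θ 1 := by
  classical
  let T : Subgroup G := K ⊔ S
  have hKT : K ≤ T := le_sup_left
  have hST : S ≤ T := le_sup_right
  letI : Fintype T := Fintype.ofFinite _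
  let K' : Subgroup T := K.subgroupOf T
  haveI hK' : K'.Normal := Subgroup.normal_subgroupOf
  letI : Fintype K' := Fintype.ofFinite _
  let e : K' ≃* K := Subgroup.subgroupOfEquivOfLe hKT
  let θ' : K' → ℂ := θ ∘ e
  have hθ'v : ∀ (k : K') , θ' k = θ ⟨((k : T) : G), k.2⟩ := fun _ => rfl
  have hirr : IsIrrCharacter K' θ' := hθ.comp_surjective e.toMonoidHom e.surjective
  have hinv : ∀ (g : T) (n : K'), θ' ⟨g * n * g⁻¹, hK'.conj_mem (n : T) n.2 g⟩ = θ' n := by
    intro g n
    have hgT : (g : G) ∈ ((K ⊔ S : Subgroup G) : Set G) := g.2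
    rw [Subgroup.normal_mul] at hgT
    obtain ⟨a, ha, b, hb, hab⟩ := Set.mem_mul.1 hgT
    rw [hθ'v, hθ'v]
    have h1 := congrFun (hS b hb) ⟨((n : T) : G), n.2⟩
    rw [conjOn_apply] at h1
    have hbn : b * ((n : T) : G) * b⁻¹ ∈ K := hK.conj_mem _ n.2 b
    have h2 := hθ.isClassFunction (⟨b * ((n : T) : G) * b⁻¹, hbn⟩ : K) (⟨a, ha⟩ : K)
    rw [← h1, ← h2]
    congr 1
    apply Subtype.ext
    show ((g : G) * ((n : T) : G) * (g : G)⁻¹) = a * (b * ((n : T) : G) * b⁻¹) * a⁻¹
    rw [← hab]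
    group
  have hcardK' : Nat.card K' = Nat.card K := Nat.card_congr e.toEquiv
  have hSp : IsPGroup p S := hPp.to_le hSP
  obtain ⟨m, hm⟩ := IsPGroup.iff_card.1 hSp
  have hidx : K'.index ∣ p ^ m := by
    have h1 : K'.index = K.relIndex T := rfl
    rw [h1, Subgroup.relIndex_sup_left, ← hm]
    exact Subgroup.relIndex_dvd_card _ _
  have hcop : Nat.Coprime (Nat.card K') K'.index := by
    rw [hcardK']
    exact Nat.Coprime.coprime_dvd_right hidx (Nat.Coprime.pow_right m hcopK)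
  obtain ⟨ψ, hψ, hψK⟩ := extends_of_coprime_card K' θ' hirr hinv hcop
  have hψK' : IsIrrCharacter K' (fun k : K' => ψ k) := by
    have : (fun k : K' => ψ k) = θ' := funext hψK
    rw [this]
    exact hirr
  let Q : Subgroup T := S.subgroupOf T
  let C' : Subgroup T := (K ⊓ Subgroup.centralizer (P : Set G)).subgroupOf T
  letI : Fintype Q := Fintype.ofFinite _
  letI : Fintype C' := Fintype.ofFinite _
  have hQP : ∀ s ∈ Q, ((s : T) : G) ∈ P := fun s hs => hSP hs
  have hcopQ : ∀ s ∈ Q, Nat.Coprime (orderOf s) (Nat.card K') := by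
    intro s hs
    obtain ⟨k, hk⟩ := IsPGroup.iff_orderOf.1 hPp ⟨(s : G), hQP s hs⟩
    have h1 : orderOf s = p ^ k := by
      rw [← Subgroup.orderOf_coe s, ← hk, Subgroup.orderOf_mk]
    rw [h1, hcardK']
    exact Nat.Coprime.pow_left k hcopK.symm
  have hCQ : ∀ s ∈ Q, ∀ c ∈ C', s * c = c * s := by
    intro s hs c hc
    apply Subtype.ext
    have h1 : ((c : T) : G) ∈ Subgroup.centralizer (P : Set G) := hc.2
    exact (Subgroup.mem_centralizer_iff.1 h1) _ (hQP s hs)
  have hC : ∀ s ∈ Q, s ≠ 1 → ∀ x, x ∈ C' ↔ x ∈ K' ∧ x * s = s * x := by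
    intro s hs hs1 x
    constructor
    · intro hx
      exact ⟨hx.1, (hCQ s hs x hx).symm⟩
    · rintro ⟨hx, hxs⟩
      refine ⟨hx, Subgroup.mem_centralizer_iff.2 fun z hz => ?_⟩
      have h1 := hF1 _ (hQP s hs) (fun h0 => hs1 (Subtype.ext h0)) _ hx (congrArg Subtype.val hxs) z hz
      exact h1.symm
  obtain ⟨n, t, hn, hnt, hn1⟩ := coset_key K' Q C' hcopQ hCQ hC hψ hψK'
  obtain ⟨n', d', hn', hd', hle⟩ := norm_le_degree_sq (hψ.isCharacter.restrict C')
  have hnn' : n = n' := by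
    rw [hn] at hn'
    exact_mod_cast hn'
  have hψ1 : ψ 1 = D := by
    have h1 := hψK 1
    have h2 : ((( 1 : K') : T)) = (1 : T) := rfl
    rw [h2] at h1
    rw [h1]
    exact hD
  have hdD : d' = D := by
    have h1 : ψ ((1 : C') : T) = d' := hd'
    have h2 : ((1 : C') : T) = (1 : T) := rfl
    rw [h2, hψ1] at h1
    exact_mod_cast h1.symm
  have hcardQ : Nat.card Q = Nat.card S := Nat.card_congr (Subgroup.subgroupOfEquivOfLe hST).toEquiv
  rw [hcardQ] at hnt
  by_cases hn1' : n = 1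
  · right
    intro s hs k h
    have h1 := hn1 hn1' (⟨s, hST hs⟩ : T) hs (⟨k, hKT k.2⟩ : T)
    have h2 : ((⟨k, hKT k.2⟩ : T) * ⟨s, hST hs⟩ * (⟨k, hKT k.2⟩ : T)⁻¹ * (⟨s, hST hs⟩ : T)⁻¹ : T) ∈ K' := h
    have h3 := hψK ⟨_, h2⟩
    rw [h1, hψ1, hθ'v] at h3
    rw [hD]
    exact h3.symm
  · left
    have hn0 : n ≠ 0 := by
      rintro rfl
      have hne : (fun c : C' => ψ c) (1 : C') ≠ 0 := by
        show ψ 1 ≠ 0
        rw [hψ1]
        obtain ⟨d₀, hd0, hd₀⟩ := hθ.map_one
        rw [hD] at hd₀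
        have : D = d₀ := by exact_mod_cast hd₀
        rw [this]
        exact_mod_cast hd0.ne'
      have h1 := classInner_self_ne_zero (fun c : C' => ψ c) 1 hne
      rw [hn] at h1
      simp at h1
    have hS0 : 0 < Nat.card S := Nat.card_pos
    have h2 : 2 ≤ t := by
      by_contra h3
      have h4 : t = 0 ∨ t = 1 := by omega
      rcases h4 with rfl | rfl
      · rw [mul_zero] at hnt
        omega
      · rw [mul_one] at hnt
        omega
    obtain ⟨t', rfl⟩ : ∃ t', t = t' + 2 := ⟨t - 2, by omega⟩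
    have h5 : Nat.card S * (t' + 2) = Nat.card S * t' + 2 * Nat.card S := by ring
    rw [h5] at hnt
    rw [← hdD]
    have h6 : n ≤ d' ^ 2 := by
      rw [hnn']
      exact hle
    omega

end Stab

section Main

variable {G : Type u} [Group G] [Fintype G] {p : ℕ} [hp : Fact p.Prime]

/-- **Trivial-intersection Sylow subgroups of `p`-solvable groups.** -/
theorem ti_psolvable_normal (hsolv : IsPSolvable p G) (P : Sylow p G)
    (hTI : ∀ g : G, g ∉ Subgroup.normalizer ((P : Subgroup G) : Set G) →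
      (P : Subgroup G) ⊓ (MulAut.conj g • (P : Subgroup G)) = ⊥)
    {χ : G → ℂ} (hχ : IsCharacter G χ) (hfaith : ∀ g : G, χ g = χ 1 → g = 1)
    (hdeg : charDegree χ ^ 2 ≤ Nat.card ↥(P : Subgroup G)) : (P : Subgroup G).Normal := by
  classical
  by_cases hP1 : (P : Subgroup G) = ⊥
  · rw [hP1]
    infer_instance
  set K : Subgroup G := pPrimeCore p G with hKdef
  haveI hKn : K.Normal := inferInstance
  letI : Fintype K := Fintype.ofFinite _
  have hKc : (Nat.card K).Coprime p := CfsgLib.Solv.pPrimeCore_coprime p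
  obtain ⟨m, hm⟩ := IsPGroup.iff_card.1 P.isPGroup'
  have hPK : (P : Subgroup G) ⊓ K = ⊥ := by
    apply Subgroup.inf_eq_bot_of_coprime
    rw [hm]
    exact Nat.Coprime.pow_left m hKc.symm
  have hF1 : ∀ y ∈ (P : Subgroup G), y ≠ 1 → ∀ c ∈ K, c * y = y * c → ∀ z ∈ (P : Subgroup G), c * z = z * c := by
    intro y hy hy1 c hc hcy z hz
    have hcN : c ∈ Subgroup.normalizer ((P : Subgroup G) : Set G) := by
      by_contra hc'
      have h1 := hTI c hc'
      have h2 : y ∈ (P : Subgroup G) ⊓ (MulAut.conj c • (P : Subgroup G)) := by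
        refine ⟨hy, ?_⟩
        show y ∈ MulAut.conj c • (P : Subgroup G)
        rw [CfsgLib.Solv.mem_conj_smul]
        have h3 : c⁻¹ * y * c = y := by
          rw [mul_assoc, ← hcy]
          group
        rw [h3]
        exact hy
      rw [h1] at h2
      exact hy1 ((Subgroup.mem_bot).1 h2)
    have h1 : c * z * c⁻¹ ∈ (P : Subgroup G) := (Subgroup.mem_normalizer_iff.1 hcN z).1 hz
    have h2 : c * z * c⁻¹ * z⁻¹ ∈ (P : Subgroup G) := Subgroup.mul_mem _ h1 (Subgroup.inv_mem _ hz)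
    have h3 : c * z * c⁻¹ * z⁻¹ ∈ K := by
      have h4 : c * z * c⁻¹ * z⁻¹ = c * (z * c⁻¹ * z⁻¹) := by group
      rw [h4]
      exact K.mul_mem hc (hKn.conj_mem _ (K.inv_mem hc) z)
    have h5 : c * z * c⁻¹ * z⁻¹ ∈ (P : Subgroup G) ⊓ K := ⟨h2, h3⟩
    rw [hPK, Subgroup.mem_bot] at h5
    have h6 : c * z * c⁻¹ = z := mul_inv_eq_one.1 h5
    have h7 : c * z = z * c := by
      rw [mul_inv_eq_iff_eq_mul] at h6
      exact h6
    exact h7
  obtain ⟨d, hd⟩ := hχ.map_one
  have hcd : charDegree χ = d := charDegree_eq hd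
  rw [hcd] at hdeg
  have hnt : Nontrivial ↥(P : Subgroup G) := (Subgroup.nontrivial_iff_ne_bot _).2 hP1
  have hP2 : 2 ≤ Nat.card ↥(P : Subgroup G) := Finite.one_lt_card
  obtain ⟨z₀, hz₀⟩ : ∃ z₀ : Subgroup.center ↥(P : Subgroup G), z₀ ≠ 1 := by
    haveI : Nontrivial (Subgroup.center ↥(P : Subgroup G)) := P.isPGroup'.center_nontrivial
    exact exists_ne _
  set z : G := ((z₀ : ↥(P : Subgroup G)) : G) with hzdef
  have hzP : z ∈ (P : Subgroup G) := (z₀ : ↥(P : Subgroup G)).2
  have hz1 : z ≠ 1 := by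
    intro h0
    apply hz₀
    apply Subtype.ext
    apply Subtype.ext
    exact h0
  have hzc : ∀ y ∈ (P : Subgroup G), z * y = y * z := by
    intro y hy
    have h1 := (Subgroup.mem_center_iff.1 z₀.2) ⟨y, hy⟩
    exact (congrArg Subtype.val h1).symm
  have hordP : ∀ y ∈ (P : Subgroup G), Nat.Coprime (orderOf y) (Nat.card K) := by
    intro y hy
    obtain ⟨k, hk⟩ := IsPGroup.iff_orderOf.1 P.isPGroup' ⟨y, hy⟩
    have h1 : orderOf y = p ^ k := by
      rw [← hk, Subgroup.orderOf_mk]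
    rw [h1]
    exact Nat.Coprime.pow_left k hKc.symm
  have hker : ∀ θ : IrrCharacter K, classInner (fun k : K => χ k) (θ : K → ℂ) ≠ 0 →
      ∀ y ∈ (P : Subgroup G), ∀ k : K, ∀ h : (k : G) * y * (k : G)⁻¹ * y⁻¹ ∈ K, (θ : K → ℂ) ⟨_, h⟩ = (θ : K → ℂ) 1 := by
    intro θ hθ y hy k h
    obtain ⟨O, hO0, hOP, hOd⟩ := orbit_bound K (P : Subgroup G) hχ θ hθ d hd
    set S := stabP K (P : Subgroup G) (θ : K → ℂ) with hS
    set D := charDegree (θ : K → ℂ) with hD
    have hD0 : 0 < D := charDegree_pos θ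
    have hdO : O ^ 2 * D ^ 2 ≤ d ^ 2 := by
      rw [← mul_pow]
      exact Nat.pow_le_pow_left hOd 2
    rcases stab_key K (P : Subgroup G) P.isPGroup' hKc hF1 (θ : K → ℂ) θ.2 S (fun y hy => hy.1) (fun y hy => hy.2) D
      (irr_one_eq_charDegree θ) with h1 | h1
    · exfalso
      have h2 : O * Nat.card S < O * D ^ 2 := Nat.mul_lt_mul_of_pos_left h1 hO0
      have h3 : O * D ^ 2 ≤ O ^ 2 * D ^ 2 := Nat.mul_le_mul_right _ (by nlinarith)
      omega
    · by_cases hS1 : S = ⊥
      · exfalso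
        have h2 : Nat.card S = 1 := by
          rw [hS1]
          simp
        rw [h2, mul_one] at hOP
        have h3 : O ≤ d := le_trans (Nat.le_mul_of_pos_right _ hD0) hOd
        have h4 : Nat.card ↥(P : Subgroup G) ≤ d := le_trans hOP h3
        nlinarith
      · obtain ⟨s, hs, hs1⟩ : ∃ s ∈ S, s ≠ 1 := by
          by_contra hcon
          push Not at hcon
          exact hS1 ((Subgroup.eq_bot_iff_forall _).2 hcon)
        have hsP : s ∈ (P : Subgroup G) := hs.1
        obtain ⟨L, hLn, hL⟩ := exists_kerS θ.2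
        let M : Subgroup G := L.map K.subtype
        have hMmem : ∀ x (hx : x ∈ K), x ∈ M ↔ (θ : K → ℂ) ⟨x, hx⟩ = (θ : K → ℂ) 1 := by
          intro x hx
          constructor
          · rintro ⟨l, hl, rfl⟩
            exact (hL l).1 hl
          · intro h2
            exact ⟨⟨x, hx⟩, (hL _).2 h2, rfl⟩
        have hTs : ⁅K, Subgroup.zpowers s⁆ ≤ M := by
          rw [Subgroup.commutator_le]
          intro k₁ hk₁ w hw
          have hwS : w ∈ S := (Subgroup.zpowers_le.2 hs) hw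
          have hmem : k₁ * w * k₁⁻¹ * w⁻¹ ∈ K := by
            have h4 : k₁ * w * k₁⁻¹ * w⁻¹ = k₁ * (w * k₁⁻¹ * w⁻¹) := by group
            rw [h4]
            exact K.mul_mem hk₁ (hKn.conj_mem _ (K.inv_mem hk₁) w)
          rw [commutatorElement_def, hMmem _ hmem]
          exact h1 w hwS ⟨k₁, hk₁⟩ hmem
        have hTz : ⁅K, Subgroup.zpowers z⁆ ≤ ⁅K, Subgroup.zpowers s⁆ :=
          commutator_le_of_commute K (a := s) (b := z) (hzc s hsP).symm (hordP s hsP)
            (fun c hc hcs => hF1 s hsP hs1 c hc hcs z hzP)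
        have hk : ⁅(k : G), y⁆ ∈ ⁅K, Subgroup.zpowers z⁆ :=
          commutator_mem_of_commute K (a := z) (b := y) (hzc y hy) (hordP z hzP)
            (fun c hc hcs => hF1 z hzP hz1 c hc hcs y hy) k.2
        have hM := hTs (hTz hk)
        rw [commutatorElement_def] at hM
        exact (hMmem _ h).1 hM
  have hcomm : ∀ k ∈ K, ∀ y ∈ (P : Subgroup G), k * y * k⁻¹ * y⁻¹ = 1 := by
    intro k hk y hy
    apply hfaith
    letI := irrFintype (G := K)
    have hmem : k * y * k⁻¹ * y⁻¹ ∈ K := by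
      have h4 : k * y * k⁻¹ * y⁻¹ = k * (y * k⁻¹ * y⁻¹) := by group
      rw [h4]
      exact K.mul_mem hk (hKn.conj_mem _ (K.inv_mem hk) y)
    have h1 := classFunction_apply (hχ.restrict K).isClassFunction (⟨_, hmem⟩ : K)
    have h2 := classFunction_apply (hχ.restrict K).isClassFunction (1 : K)
    have h3 : χ ((1 : K) : G) = χ 1 := rfl
    rw [h3] at h2
    have h4 : χ (k * y * k⁻¹ * y⁻¹) = _ := h1
    rw [h4, h2]
    refine Finset.sum_congr rfl fun θ _ => ?_
    by_cases hc : classInner (fun k : K => χ k) (θ : K → ℂ) = 0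
    · rw [hc, zero_mul, zero_mul]
    · rw [hker θ hc y hy ⟨k, hk⟩ hmem]
  -- the Frattini argument
  have hG : ∀ g : G, ∃ k ∈ K, ∃ n ∈ Subgroup.normalizer ((P : Subgroup G) : Set G), g = k * n := by
    let f := QuotientGroup.mk' K
    have hfs : Function.Surjective f := QuotientGroup.mk'_surjective K
    have hfker : ∀ x, f x = 1 ↔ x ∈ K := fun x => QuotientGroup.eq_one_iff x
    obtain ⟨y₀, hy₀⟩ : ∃ y₀ ∈ (P : Subgroup G), y₀ ≠ 1 := by
      by_contra hcon
      push Not at hcon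
      exact hP1 ((Subgroup.eq_bot_iff_forall _).2 hcon)
    haveI hGnt : Nontrivial (G ⧸ K) := by
      rw [QuotientGroup.nontrivial_iff]
      intro h0
      have h1 : y₀ ∈ (P : Subgroup G) ⊓ K := ⟨hy₀.1, by rw [h0]; trivial⟩
      rw [hPK] at h1
      exact hy₀.2 ((Subgroup.mem_bot).1 h1)
    have hsolvq := CfsgLib.PSolv.quotient hp.out hsolv K
    have hX : pCore p (G ⧸ K) ≠ ⊥ :=
      (CfsgLib.PSolv.core_ne_bot hsolvq).resolve_right (by
        intro h0
        exact h0 (CfsgLib.Solv.pPrimeCore_quotient_eq_bot p) |>.elim)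
    have hXP : pCore p (G ⧸ K) ≤ (P : Subgroup G).map f := by
      have h1 := CfsgLib.PLocal.pCore_le_sylow (P.mapSurjective hfs)
      simpa using h1
    let R : Subgroup G := (pCore p (G ⧸ K)).comap f
    haveI hRn : R.Normal := Subgroup.Normal.comap inferInstance f
    let Q : Subgroup G := (P : Subgroup G) ⊓ R
    have hQP : Q ≤ (P : Subgroup G) := inf_le_left
    have hQR : Q ≤ R := inf_le_right
    have hKR : K ≤ R := by
      intro k hk
      show f k ∈ pCore p (G ⧸ K)
      rw [(hfker k).2 hk]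
      exact Subgroup.one_mem _
    have hRsplit : ∀ x ∈ R, ∃ y ∈ Q, x * y⁻¹ ∈ K := by
      intro x hx
      obtain ⟨y, hy, hyx⟩ := hXP hx
      have hyR : y ∈ R := by
        show f y ∈ pCore p (G ⧸ K)
        rw [hyx]
        exact hx
      refine ⟨y, ⟨hy, hyR⟩, (hfker _).1 ?_⟩
      rw [map_mul, map_inv, hyx, mul_inv_cancel]
    have hQ1 : Q ≠ ⊥ := by
      intro h0
      apply hX
      rw [eq_bot_iff]
      intro x hx
      obtain ⟨y, hy, rfl⟩ := hXP hx
      have hyQ : y ∈ Q := ⟨hy, hx⟩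
      rw [h0, Subgroup.mem_bot] at hyQ
      rw [hyQ, map_one]
      exact Subgroup.one_mem _
    have hRsup : R = K ⊔ Q := by
      apply le_antisymm
      · intro x hx
        obtain ⟨y, hy, hxy⟩ := hRsplit x hx
        have h1 : x = (x * y⁻¹) * y := by group
        rw [h1]
        exact Subgroup.mul_mem _ (Subgroup.mem_sup_left hxy) (Subgroup.mem_sup_right hy)
      · exact sup_le hKR hQR
    have hKQ : Disjoint K Q := by
      rw [disjoint_iff, eq_bot_iff]
      rintro x ⟨hx1, hx2⟩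
      have h1 : x ∈ (P : Subgroup G) ⊓ K := ⟨hQP hx2, hx1⟩
      rwa [hPK] at h1
    have hrel : K.relIndex R = Nat.card Q := by
      rw [hRsup, Subgroup.relIndex_sup_left, Subgroup.relIndex, Subgroup.subgroupOf_eq_bot.2 hKQ, Subgroup.index_bot]
    have hQp : IsPGroup p Q := P.isPGroup'.to_le hQP
    obtain ⟨m', hm'⟩ := IsPGroup.iff_card.1 hQp
    have hcopR : (Nat.card K).Coprime (K.relIndex R) := by
      rw [hrel, hm']
      exact Nat.Coprime.pow_right m' hKc
    haveI : Group.IsNilpotent Q := hQp.isNilpotent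
    have hsolvQ : Group.IsSolvable Q := inferInstance
    intro g
    let D : Subgroup G := MulAut.conj g • Q
    have hDR : D ≤ R := by
      intro x hx
      have h1 : g⁻¹ * x * g ∈ Q := (CfsgLib.Solv.mem_conj_smul g x Q).1 hx
      have h2 := hRn.conj_mem _ (hQR h1) g
      have h3 : g * (g⁻¹ * x * g) * g⁻¹ = x := by group
      rwa [h3] at h2
    have hDc : Nat.card D = K.relIndex R := by
      rw [hrel]
      exact CfsgLib.Solv.card_conj_smul g Q
    have hRle : R ≤ Subgroup.normalizer (K : Set G) := by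
      rw [Subgroup.normalizer_eq_top_iff.2 hKn]
      exact le_top
    obtain ⟨n, hnK, hn⟩ := CfsgLib.Solv.sz_conj_in K R Q D hKR hRle hcopR hQR hDR hrel.symm hDc (Or.inr hsolvQ)
    have hh : MulAut.conj (n⁻¹ * g) • Q = Q := by
      have hn' : MulAut.conj n • Q = MulAut.conj g • Q := hn
      rw [CfsgLib.Solv.conj_mul_smul, ← hn', CfsgLib.Solv.conj_inv_smul_smul]
    refine ⟨n, hnK, n⁻¹ * g, ?_, by group⟩
    by_contra hcon
    have h1 := hTI _ hcon
    apply hQ1
    rw [eq_bot_iff, ← h1]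
    intro x hx
    refine ⟨hQP hx, ?_⟩
    show x ∈ MulAut.conj (n⁻¹ * g) • (P : Subgroup G)
    rw [CfsgLib.Solv.mem_conj_smul]
    rw [← hh] at hx
    exact hQP ((CfsgLib.Solv.mem_conj_smul _ _ _).1 hx)
  refine ⟨fun y hy g => ?_⟩
  obtain ⟨k, hk, n, hn, rfl⟩ := hG g
  have h1 : n * y * n⁻¹ ∈ (P : Subgroup G) := (Subgroup.mem_normalizer_iff.1 hn y).1 hy
  have h2 := hcomm k hk _ h1
  have h3 : k * (n * y * n⁻¹) * k⁻¹ = n * y * n⁻¹ := mul_inv_eq_one.1 h2
  have h4 : k * n * y * (k * n)⁻¹ = k * (n * y * n⁻¹) * k⁻¹ := by group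
  rw [h4, h3]
  exact h1

end Main

end CfsgLib.Char
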